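/- S4100: codes of even permutations and packed Gaussian elimination. -/
import Cfsg.Agent.H81.Words

set_option autoImplicit false

open H81 Finset

namespace H12.An

noncomputable section

def dig (c i : ℕ) : ℕ := Nat.mod (Nat.shiftRight c (Nat.mul 4 i)) 16

/-- entry `j` of a packed table with `b` bits per entry. -/
def ent (b T j : ℕ) : ℕ := Nat.mod (Nat.shiftRight T (Nat.mul b j)) (Nat.pow 2 b)

def anyN (f : ℕ → Bool) (n : ℕ) : Bool :=
  Nat.rec (motive := fun _ => Bool) false (fun i ih => Bool.rec ih true (f i)) n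

theorem of_anyN {f : ℕ → Bool} {n : ℕ} (h : anyN f n = true) : ∃ i < n, f i = true := by
  induction n with
  | zero => exact absurd h (by simp [anyN])
  | succ n ih =>
    have h' : Bool.rec (motive := fun _ => Bool) (anyN f n) true (f n) = true := h
    rcases brec_true h' with ⟨-, k⟩ | ⟨k, -⟩
    · obtain ⟨i, hi, k⟩ := ih k
      exact ⟨i, by omega, k⟩
    · exact ⟨n, by omega, k⟩

def comp (n a b : ℕ) : ℕ :=
  Nat.rec (motive := fun _ => ℕ) 0
    (fun i acc => Nat.add acc (Nat.mul (dig a (dig b i)) (Nat.pow 16 i))) n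

theorem dig_eq (c i : ℕ) : dig c i = c / 16 ^ i % 16 := by
  change c >>> (4 * i) % 16 = _
  rw [Nat.shiftRight_eq_div_pow, pow_mul]
  rfl

theorem comp_spec (a b n : ℕ) :
    comp n a b < 16 ^ n ∧ ∀ i < n, dig (comp n a b) i = dig a (dig b i) := by
  induction n with
  | zero => exact ⟨Nat.one_pos, fun i hi => by omega⟩
  | succ n ih =>
    have e : comp (n + 1) a b = comp n a b + dig a (dig b n) * 16 ^ n := rfl
    have hd : dig a (dig b n) < 16 := Nat.mod_lt _ (by norm_num)
    refine ⟨by rw [e, pow_succ]; nlinarith [ih.1], fun i hi => ?_⟩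
    rw [e, dig_eq]
    rcases Nat.lt_succ_iff_lt_or_eq.1 hi with hi | rfl
    · obtain ⟨k, rfl⟩ := Nat.exists_eq_add_of_lt hi
      rw [← ih.2 i hi, dig_eq _ i, show 16 ^ (i + k + 1) = 16 * 16 ^ k * 16 ^ i by ring, ← mul_assoc,
        Nat.add_mul_div_right _ _ (by positivity), mul_left_comm, Nat.add_mul_mod_self_left]
    · rw [Nat.add_mul_div_right _ _ (by positivity), Nat.div_eq_of_lt ih.1, zero_add,
        Nat.mod_eq_of_lt hd]

abbrev A (n : ℕ) := alternatingGroup (Fin n)

def Cd {n : ℕ} (g : A n) (c : ℕ) : Prop := ∀ i : Fin n, ((g : Equiv.Perm (Fin n)) i : ℕ) = dig c i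

theorem Cd.ext {n c : ℕ} {g g' : A n} (h : Cd g c) (h' : Cd g' c) : g = g' :=
  Subtype.ext (Equiv.ext fun i => Fin.ext ((h i).trans (h' i).symm))

theorem Cd.mul {n a b : ℕ} {g g' : A n} (h : Cd g a) (h' : Cd g' b) : Cd (g * g') (comp n a b) :=
  fun i => by rw [(comp_spec a b n).2 i i.2, ← h', ← h]; rfl

open Classical in
/-- The even permutation with code `c`. -/
def P (n c : ℕ) : A n := if h : ∃ g : A n, Cd g c then h.choose else 1

def Vd (n c : ℕ) : Prop := Cd (P n c) c

theorem Cd.vd {n c : ℕ} {g : A n} (h : Cd g c) : Vd n c := by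
  have e : ∃ g : A n, Cd g c := ⟨g, h⟩
  rw [Vd, P, dif_pos e]
  exact e.choose_spec

theorem Cd.eq {n c : ℕ} {g : A n} (h : Cd g c) : P n c = g := Cd.ext h.vd h

theorem Vd.comp {n a b : ℕ} (h : Vd n a) (h' : Vd n b) :
    Vd n (comp n a b) ∧ P n (comp n a b) = P n a * P n b := ⟨(Cd.mul h h').vd, (Cd.mul h h').eq⟩

def sgn (n c : ℕ) : ℤ := ∏ j ∈ range n, ∏ i ∈ range j, if dig c i < dig c j then 1 else -1

def ok (n c : ℕ) : Bool := frc c fun c => band (allN (fun i => Nat.blt (dig c i) n) n)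
  (band (allN (fun j => anyN (fun i => Nat.beq (dig c i) j) n) n) (decide (sgn n c = 1)))

theorem of_ok {n c : ℕ} (h : ok n c = true) : Vd n c := by
  rw [ok, frc_eq, band_iff, band_iff, decide_eq_true_eq] at h
  obtain ⟨h1, h2, h3⟩ := h
  let f : Fin n → Fin n := fun i => ⟨dig c i, Nat.blt_eq.mp (of_allN h1 i i.2)⟩
  have hf : Function.Surjective f := fun j => by
    obtain ⟨i, hi, k⟩ := of_anyN (of_allN h2 j j.2)
    exact ⟨⟨i, hi⟩, Fin.ext (Nat.eq_of_beq_eq_true k)⟩
  let g := Equiv.ofBijective f (Finite.surjective_iff_bijective.1 hf)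
  refine Cd.vd (g := ⟨g, ?_⟩) fun i => rfl
  rw [Equiv.Perm.mem_alternatingGroup, ← Units.val_inj, Equiv.Perm.sign_eq_prod_prod_Iio,
    Units.val_one, ← h3, sgn, Finset.prod_range, Units.coe_prod]
  refine Finset.prod_congr rfl fun j _ => ?_
  rw [Units.coe_prod]
  refine Finset.prod_bij (fun i _ => (i : ℕ)) (fun i hi => by simpa using hi)
    (fun _ _ _ _ h => Fin.ext h) (fun i hi => ⟨⟨i, (mem_range.1 hi).trans j.2⟩, by
      simpa [Fin.lt_def] using hi, rfl⟩) fun i _ => ?_
  change ((if dig c i < dig c j then 1 else -1 : ℤˣ) : ℤ) = _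
  split_ifs <;> rfl

/-- `a b = c d e`. -/
def eq5 (n a b c d e : ℕ) : Bool := frc a fun a => frc b fun b => frc c fun c => frc d fun d =>
  frc e fun e => allN (fun i => Nat.beq (dig a (dig b i)) (dig c (dig d (dig e i)))) n

theorem of_eq5 {n a b c d e : ℕ} (h : eq5 n a b c d e = true) (ha : Vd n a) (hb : Vd n b)
    (hc : Vd n c) (hd : Vd n d) (he : Vd n e) : P n a * P n b = P n c * P n d * P n e :=
  Subtype.ext (Equiv.ext fun i => Fin.ext (by
    have := Nat.eq_of_beq_eq_true (of_allN h i i.2)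
    rw [← hb, ← ha, ← he, ← hd, ← hc] at this
    exact this))

/-- The word `l` in the two codes `x`, `y`, times `z`. -/
def wd (n x y z : ℕ) (l : List Bool) : ℕ :=
  List.rec (motive := fun _ => ℕ) z (fun b _ ih => comp n (Bool.rec x y b) ih) l

theorem wd_spec {n x y z : ℕ} (hx : Vd n x) (hy : Vd n y) (hz : Vd n z) (K : Subgroup (A n))
    (kx : P n x ∈ K) (ky : P n y ∈ K) (kz : P n z ∈ K) (l : List Bool) :
    Vd n (wd n x y z l) ∧ P n (wd n x y z l) ∈ K := by
  induction l with
  | nil => exact ⟨hz, kz⟩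
  | cons b l ih =>
    cases b
    · exact ⟨(hx.comp ih.1).1, (hx.comp ih.1).2 ▸ mul_mem kx ih.2⟩
    · exact ⟨(hy.comp ih.1).1, (hy.comp ih.1).2 ▸ mul_mem ky ih.2⟩

/-! ### Packed rows -/

variable {p : ℕ} (X : ℕ)

def val : List (ZMod p) → ℕ → ZMod p
  | [], _ => 0
  | y :: ys, N => ((N % X : ℕ) : ZMod p) * y + val ys (N / X)

def Bd (m : ℕ) : ℕ → ℕ → Prop
  | 0, _ => True
  | k + 1, N => N % X ≤ m ∧ Bd m k (N / X)

variable {X}

theorem Bd.mono {m m' : ℕ} (h : m ≤ m') : ∀ {k N : ℕ}, Bd X m k N → Bd X m' k N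
  | 0, _, _ => trivial
  | _ + 1, _, hb => ⟨hb.1.trans h, Bd.mono h hb.2⟩

theorem zero_row (m : ℕ) : ∀ ys : List (ZMod p), Bd X m ys.length 0 ∧ val X ys 0 = 0
  | [] => ⟨trivial, rfl⟩
  | y :: ys => by
    have := zero_row m ys
    simp [Bd, val, this.1, this.2]

theorem add_row {m m' c : ℕ} (h : m + c * m' < X) : ∀ (ys : List (ZMod p)) {N M : ℕ},
    Bd X m ys.length N → Bd X m' ys.length M → Bd X (m + c * m') ys.length (N + c * M) ∧
      val X ys (N + c * M) = val X ys N + c * val X ys M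
  | [], _, _, _, _ => ⟨trivial, by simp [val]⟩
  | y :: ys, N, M, hN, hM => by
    have hl : N % X + c * (M % X) ≤ m + c * m' := add_le_add hN.1 (Nat.mul_le_mul_left c hM.1)
    have e : N + c * M = (N % X + c * (M % X)) + X * (N / X + c * (M / X)) := by
      conv_lhs => rw [← Nat.mod_add_div N X, ← Nat.mod_add_div M X]
      ring
    have e1 : (N + c * M) % X = N % X + c * (M % X) := by
      rw [e, Nat.add_mul_mod_self_left, Nat.mod_eq_of_lt (hl.trans_lt h)]
    have e2 : (N + c * M) / X = N / X + c * (M / X) := by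
      rw [e, Nat.add_mul_div_left _ _ (by omega), Nat.div_eq_of_lt (hl.trans_lt h), zero_add]
    have := add_row h ys hN.2 hM.2
    refine ⟨⟨e1 ▸ hl, e2 ▸ this.1⟩, ?_⟩
    simp only [val, e1, e2, this.2]
    push_cast
    ring

theorem unit_row (h : 1 < X) : ∀ (ys : List (ZMod p)) (i : ℕ),
    Bd X 1 ys.length (X ^ i) ∧ val X ys (X ^ i) = ys.getD i 0
  | [], _ => ⟨trivial, rfl⟩
  | y :: ys, 0 => by
    have := zero_row (X := X) 1 ys
    simp [Bd, val, Nat.mod_eq_of_lt h, Nat.div_eq_of_lt h, this.1, this.2]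
  | y :: ys, i + 1 => by
    have := unit_row h ys i
    have e : X ^ (i + 1) / X = X ^ i := by rw [pow_succ, Nat.mul_div_cancel _ (by omega)]
    have e' : X ^ (i + 1) % X = 0 := by simp [pow_succ]
    simpa [Bd, val, e, e'] using this

theorem val_zero : ∀ (ys : List (ZMod p)) (N : ℕ), (∀ y ∈ ys, y = 0) → val X ys N = 0
  | [], _, _ => rfl
  | y :: ys, N, h => by
    rw [val, h y (by simp), val_zero ys _ fun y hy => h y (by simp [hy]), mul_zero, add_zero]

def mapF (f : ℕ → ℕ) (l : List ℕ) : (List ℕ → Bool) → Bool :=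
  List.rec (motive := fun _ => (List ℕ → Bool) → Bool) (fun k => k [])
    (fun a _ ih k => frc (f a) fun b => ih fun l => k (b :: l)) l

theorem mapF_eq (f : ℕ → ℕ) (l : List ℕ) (k : List ℕ → Bool) : mapF f l k = k (l.map f) := by
  induction l generalizing k with
  | nil => rfl
  | cons a l ih => exact ih _

def step (p X R u N : ℕ) : ℕ :=
  Nat.rec (motive := fun _ => ℕ) 0 (fun M _ => Bool.rec 0 (Nat.div M X)
    (Nat.beq (Nat.mod (Nat.mod M X) p) 0))
    (Nat.succ (Nat.add N (Nat.mul (Nat.mod (Nat.mul (Nat.mod N X) u) p) R)))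

def elim (p X k : ℕ) : List ℕ → Bool :=
  Nat.rec (motive := fun _ => List ℕ → Bool) (fun _ => true) (fun _ ih rows =>
    List.rec (motive := fun _ => Bool) false (fun R rest _ =>
      frc (Nat.mod (Nat.mod R X) p) fun r => band (Nat.blt 0 r)
        (frc (Nat.mul (Nat.pow r 3) (Nat.pred p)) fun u => mapF (step p X R u) rest ih)) rows) k

theorem of_elim [Fact p.Prime] : ∀ (ys : List (ZMod p)) (rows : List ℕ) (m : ℕ),
    m * p ^ ys.length < X → (∀ N ∈ rows, Bd X m ys.length N ∧ val X ys N = 0) →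
    elim p X ys.length rows = true → ∀ y ∈ ys, y = 0
  | [], _, _, _, _, _ => by simp
  | _ :: _, [], _, _, _, h => absurd h Bool.false_ne_true
  | y :: ys, R :: rest, m, hm, hr, h => by
    have hp := (Fact.out : p.Prime).pos
    have h' : band (Nat.blt 0 (R % X % p)) (mapF (step p X R ((R % X % p) ^ 3 * p.pred)) rest
      (elim p X ys.length)) = true := h
    rw [band_iff, mapF_eq, Nat.blt_eq] at h'
    have hR := hr R (by simp)
    have lt : m * p * p ^ ys.length < X := by rwa [List.length_cons, pow_succ', ← mul_assoc] at hm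
    have z := of_elim ys _ (m * p) lt (fun N hN => by
      obtain ⟨N, hN', rfl⟩ := List.mem_map.1 hN
      have hN := hr N (List.mem_cons_of_mem _ hN')
      generalize (R % X % p) ^ 3 * p.pred = u
      have hc : m + N % X * u % p * m ≤ m * p := by nlinarith [Nat.mod_lt (N % X * u) hp]
      have := add_row (hc.trans_lt ((Nat.le_mul_of_pos_right _ (by positivity)).trans_lt lt))
        (y :: ys) hN.1 hR.1
      rw [hN.2, hR.2, mul_zero, add_zero] at this
      change (fun N => Bd X (m * p) ys.length N ∧ val X ys N = 0) (Bool.rec (motive := fun _ => ℕ) 0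
        ((N + N % X * u % p * R) / X) (Nat.beq ((N + N % X * u % p * R) % X % p) 0))
      generalize N + N % X * u % p * R = M at this
      cases e : Nat.beq (M % X % p) 0
      · exact zero_row _ ys
      · refine ⟨Bd.mono hc this.1.2, ?_⟩
        have k := this.2
        rwa [val, (ZMod.natCast_eq_zero_iff _ p).2
          (Nat.dvd_of_mod_eq_zero (Nat.eq_of_beq_eq_true e)), zero_mul, zero_add] at k) h'.2
    have k := hR.2
    rw [val, val_zero ys _ z, add_zero, mul_eq_zero, ZMod.natCast_eq_zero_iff] at k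
    intro y' hy'
    rcases List.mem_cons.1 hy' with rfl | hy'
    · exact k.resolve_left fun d => by have := Nat.mod_eq_zero_of_dvd d; omega
    · exact z y' hy'

end

end H12.An
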