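/- S4100: the reduction. -/
import Cfsg.Agent.H12.An2
import Cfsg.Agent.H12.An5
import Cfsg.Agent.H18.Misc2
import Cfsg.Agent.H4.HallBasic

set_option autoImplicit false

open Subgroup

namespace H12.An

universe u

/-- Non-central `p`-elements have solvable centralisers. -/
def Hyp (p : ℕ) (G : Type u) [Group G] : Prop := ∀ x : G, x ∉ center G →
  (∃ k : ℕ, orderOf x = p ^ k) → Group.IsSolvable (centralizer ({x} : Set G))

variable {p : ℕ} [Fact p.Prime] {Q : Type} [Group Q]

theorem solv_le {G : Type u} [Group G] {A B : Subgroup G} (h : A ≤ B) (s : Group.IsSolvable B) :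
    Group.IsSolvable A := Group.isSolvable_of_isSolvable_injective (inclusion_injective h)

theorem solv_map {G : Type u} {H : Type*} [Group G] [Group H] (f : G →* H) {A : Subgroup G}
    (s : Group.IsSolvable A) : Group.IsSolvable (A.map f) :=
  Group.isSolvable_of_surjective (f.subgroupMap_surjective A)

theorem pel {G : Type u} [Group G] {x : G} {k : ℕ} (h : x ^ p ^ k = 1) : ∃ j, orderOf x = p ^ j :=
  ((Nat.dvd_prime_pow Fact.out).1 (orderOf_dvd_of_pow_eq_one h)).imp fun _ h => h.2

theorem pel_ker {G : Type u} {H : Type*} [Group G] [Group H] {π : G →* H} (hk : IsPGroup p π.ker)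
    {x : G} {k : ℕ} (h : π x ^ p ^ k = 1) : ∃ j, orderOf x = p ^ j := by
  obtain ⟨j, e⟩ := hk ⟨x ^ p ^ k, by rwa [MonoidHom.mem_ker, map_pow]⟩
  exact pel (k := k + j) (by rw [pow_add, pow_mul]; exact congrArg Subtype.val e)

omit [Fact p.Prime] in
theorem Hyp.sub {G : Type u} [Group G] (h : Hyp p G) (H : Subgroup G) : Hyp p H := fun x hx k => by
  have := h x (fun c => hx (mem_center_iff.2 fun g => Subtype.ext (mem_center_iff.1 c g)))
    (by simpa using k)
  exact Group.isSolvable_of_isSolvable_injective (G' := centralizer ({(x : G)} : Set G))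
    (f := (H.subtype.comp (Subgroup.subtype _)).codRestrict _ fun g => mem_centralizer_singleton_iff.2
      (congrArg Subtype.val (mem_centralizer_singleton_iff.1 g.2)))
    fun a b e => Subtype.ext (Subtype.ext (Subtype.ext_iff.1 e :))

theorem nc_lift {G : Type u} {H : Type*} [Group G] [Group H] {π : G →* H}
    (hπ : Function.Surjective π) {x : G} (h : π x ∉ center H) : x ∉ center G := fun c =>
  h (mem_center_iff.2 fun g => by
    obtain ⟨g, rfl⟩ := hπ g
    rw [← map_mul, mem_center_iff.1 c g, map_mul])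

theorem Hyp.cop {G : Type u} [Group G] [Finite G] (h : Hyp p G) (R : Subgroup G) [R.Normal]
    (hR : p.Coprime (Nat.card R)) : Hyp p (G ⧸ R) := fun x hx ⟨k, hk⟩ => by
  obtain ⟨b, hb⟩ := exists_pow_eq_self_of_coprime (x := x) (n := Nat.card R)
    (hk ▸ (hR.symm.pow_right k))
  obtain ⟨y, rfl⟩ := QuotientGroup.mk'_surjective R x
  have e : QuotientGroup.mk' R ((y ^ Nat.card R) ^ b) = QuotientGroup.mk' R y := by
    rw [map_pow, map_pow, hb]
  have m : y ^ p ^ k ∈ R := by
    rw [← QuotientGroup.ker_mk' R, MonoidHom.mem_ker, map_pow, ← hk, pow_orderOf_eq_one]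
  obtain ⟨j, hj⟩ := pel (p := p) (x := (y ^ Nat.card R) ^ b) (k := k) (by
    rw [pow_right_comm, pow_right_comm y,
      show (y ^ p ^ k) ^ Nat.card R = 1 from congrArg Subtype.val (pow_card_eq_one' (x := (⟨_, m⟩ : R))),
      one_pow])
  rw [← e] at hx ⊢
  rw [← H18.map_centralizer_singleton_of_coprime _ (QuotientGroup.mk'_surjective R)
    (by rw [hj, QuotientGroup.ker_mk']; exact hR.pow_left j)]
  exact solv_map _ (h _ (nc_lift (QuotientGroup.mk'_surjective R) hx) ⟨j, hj⟩)

theorem Hyp.cen {G : Type u} [Group G] (h : Hyp p G) (hZ : IsPGroup p (center G)) :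
    Hyp p (G ⧸ center G) := fun x hx ⟨k, hk⟩ => by
  obtain ⟨y, rfl⟩ := QuotientGroup.mk'_surjective _ x
  have s := h y (nc_lift (QuotientGroup.mk'_surjective _) hx)
    (pel_ker (π := QuotientGroup.mk' (center G)) (by rwa [QuotientGroup.ker_mk']) (k := k)
      (by rw [← hk, pow_orderOf_eq_one]))
  let D := (centralizer {QuotientGroup.mk' (center G) y}).comap (QuotientGroup.mk' (center G))
  have m : ∀ g : D, (g : G) * y * (g : G)⁻¹ * y⁻¹ ∈ center G := fun g => by
    rw [← QuotientGroup.ker_mk' (center G), MonoidHom.mem_ker]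
    simp only [map_mul, map_inv]
    rw [mem_centralizer_singleton_iff.1 g.2]
    group
  let θ : D →* center G := MonoidHom.mk' (fun g => ⟨_, m g⟩) fun a b => Subtype.ext (by
    have := mem_center_iff.1 (m b) (a : G)⁻¹
    simp only [coe_mul]
    calc (a : G) * b * y * ((a : G) * b)⁻¹ * y⁻¹
        = a * ((b * y * (b : G)⁻¹ * y⁻¹) * (y * (a : G)⁻¹ * y⁻¹)) := by group
      _ = _ := by rw [← mem_center_iff.1 (m b)]; group)
  have le : centralizer {y} ≤ D := fun g hg => mem_centralizer_singleton_iff.2 (by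
    rw [← map_mul, mem_centralizer_singleton_iff.1 hg, map_mul])
  have : Group.IsSolvable (center G) := Group.isSolvable_of_comm fun a b =>
    Subtype.ext (mem_center_iff.1 b.2 a)
  have : Group.IsSolvable D := Group.isSolvable_of_ker_le_range (inclusion le) θ fun g hg =>
    ⟨⟨g, mem_centralizer_singleton_iff.2 (by
      have : (g : G) * y * (g : G)⁻¹ * y⁻¹ = 1 := congrArg Subtype.val hg
      rw [← mul_inv_eq_one, ← this]; group)⟩, rfl⟩
  rw [← map_comap_eq_self_of_surjective (QuotientGroup.mk'_surjective _) (centralizer _)]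
  exact solv_map _ this

theorem core (hQ : center Q = ⊥) (base : ∀ (G : Type u) [Group G] [Finite G], Hyp p G →
    center G = ⊥ → ∀ π : G →* Q, Function.Surjective π → IsPGroup p π.ker → False) (n : ℕ) :
    ∀ (G : Type u) [Group G] [Finite G], Nat.card G = n → Hyp p G → ∀ π : G →* Q,
      Function.Surjective π → False := by
  induction n using Nat.strongRecOn with | ind n ih => ?_
  rintro G _ _ rfl h π hπ
  have quo : ∀ (R : Subgroup G) [R.Normal], R ≠ ⊥ → R ≤ π.ker → Hyp p (G ⧸ R) → False :=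
    fun R _ h0 hR h' => ih _ (by
      rw [← R.index_mul_card]
      exact lt_mul_of_one_lt_right Nat.card_pos (R.one_lt_card_iff_ne_bot.2 h0)) (G ⧸ R) rfl h'
      (QuotientGroup.lift R π hR) fun y => (hπ y).imp' QuotientGroup.mk fun _ e => e
  by_cases hk : IsPGroup p π.ker
  · by_cases hZ : center G = ⊥
    · exact base G h hZ π hπ hk
    · have le : center G ≤ π.ker := fun x hx => by_contra fun k => nc_lift hπ (by rwa [hQ]) hx
      exact quo _ hZ le (h.cen (hk.to_le le))
  obtain ⟨q, hq, hd, ne⟩ : ∃ q, q.Prime ∧ q ∣ Nat.card π.ker ∧ q ≠ p := by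
    by_contra k
    push Not at k
    exact hk (IsPGroup.of_card (Nat.eq_prime_pow_of_unique_prime_dvd Nat.card_pos.ne'
      fun hq hd => k _ hq hd))
  have := Fact.mk hq
  obtain ⟨R⟩ : Nonempty (Sylow q π.ker) := inferInstance
  have fr := R.normalizer_sup_eq_top
  set R' := (R : Subgroup π.ker).map π.ker.subtype
  by_cases hN : normalizer (R' : Set G) = ⊤
  · have := normalizer_eq_top_iff.1 hN
    obtain ⟨j, hj⟩ := (R.isPGroup'.map π.ker.subtype).exists_card_eq
    exact quo R' (fun e => R.ne_bot_of_dvd_card hd ((map_eq_bot_iff_of_injective _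
      π.ker.subtype_injective).1 e)) (map_subtype_le _)
      (h.cop R' (hj ▸ ((Nat.coprime_primes Fact.out hq).2 ne.symm).pow_right j))
  · refine ih _ (lt_of_le_of_ne (card_le_card_group _) fun e => hN (eq_top_of_card_eq _ e)) _ rfl (h.sub _) (π.comp (Subgroup.subtype _))
      fun y => ?_
    obtain ⟨g, rfl⟩ := hπ y
    obtain ⟨a, ha, b, hb, rfl⟩ := mem_sup_of_normal_right.1 (fr ▸ mem_top g)
    exact ⟨⟨a, ha⟩, by rw [map_mul, (MonoidHom.mem_ker.1 hb), mul_one]; rfl⟩

omit [Fact p.Prime] in
theorem MC.mul (mc : MC.{u} p Q) (M : Type u) [CommGroup M] [Finite M] [Nontrivial M]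
    (ex : ∀ x : M, x ^ p = 1) (α : Q →* MulAut M) :
    ∃ x : M, x ≠ 1 ∧ ∃ K : Subgroup Q, ¬ Group.IsSolvable K ∧ ∀ k ∈ K, α k x = x := by
  let _ : Module (ZMod p) (Additive M) := AddCommGroup.zmodModule ex
  exact mc (Additive M)
    { toFun := fun g => (MonoidHom.toAdditive (α g).toMonoidHom).toZModLinearMap p
      map_one' := by rw [map_one]; rfl
      map_mul' := fun a b => by rw [map_mul]; rfl }

section Base

variable {G : Type u} [Group G] [Finite G] (h : Hyp p G) (hZ : center G = ⊥) (π : G →* Q)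
  (hπ : Function.Surjective π) (hk : IsPGroup p π.ker)

include h hZ hπ hk

theorem base_cop {x : Q} (hx : x ≠ 1) (hp : x ^ p = 1) (K : Subgroup Q) (hK : ¬ Group.IsSolvable K)
    (c : x ∈ centralizer (K : Set Q)) (co : (Nat.card π.ker).Coprime (Nat.card K)) : False := by
  let H := K.comap π
  let θ : H →* K := π.subgroupComap K
  have hθ : Function.Surjective θ := π.subgroupComap_surjective_of_surjective K hπ
  have e1 : Nat.card θ.ker ∣ Nat.card π.ker := card_dvd_of_injective
    ((H.subtype.comp θ.ker.subtype).codRestrict _ fun g => congrArg Subtype.val g.2)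
    fun a b e => Subtype.ext (Subtype.ext (Subtype.ext_iff.1 e :))
  have e2 : θ.ker.index = Nat.card K := by
    rw [index_ker, MonoidHom.range_eq_top.2 hθ, card_top]
  obtain ⟨L, hL⟩ := exists_right_complement'_of_coprime (N := θ.ker)
    (e2 ▸ Nat.Coprime.coprime_dvd_left e1 co)
  have m : (L.map H.subtype).map π = K := le_antisymm
    (by rintro _ ⟨_, ⟨g, -, rfl⟩, rfl⟩; exact g.2) fun y hy => by
      obtain ⟨g, e⟩ := hθ ⟨y, hy⟩
      obtain ⟨⟨a, b⟩, rfl⟩ := hL.2 g
      refine ⟨_, ⟨b, b.2, rfl⟩, ?_⟩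
      rw [map_mul, MonoidHom.mem_ker.1 a.2, one_mul] at e
      exact congrArg Subtype.val e
  have := hk.isNilpotent
  have := H18.map_centralizer_of_coprime π hπ (A := L.map H.subtype) (by
    rw [card_map_of_injective H.subtype_injective, ← hL.symm.index_eq_card, e2]
    exact co.symm) (Or.inr inferInstance)
  rw [m] at this
  obtain ⟨y, hy, rfl⟩ := this ▸ c
  exact hK (m ▸ solv_map π (solv_le (fun g hg => mem_centralizer_singleton_iff.2 (hy g hg))
    (h y (by rw [hZ]; exact fun e => hx (by rw [mem_bot.1 e, map_one]))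
      (pel_ker hk (k := 1) (by rwa [pow_one])))))

theorem base_mc (mc : MC.{u} p Q) (h0 : π.ker ≠ ⊥) : False := by
  have : Nontrivial π.ker := (nontrivial_iff_ne_bot _).2 h0
  have := hk.isNilpotent
  have le : π.ker ⊓ centralizer (π.ker : Set G) ≤ π.ker := inf_le_left
  have := solv_le le inferInstance
  obtain ⟨M, q, _, M0, ML, hq, cm, ex, -⟩ := H4.exists_minimal_normal_elemab
    (π.ker ⊓ centralizer (π.ker : Set G)) (by
      obtain ⟨⟨z, hz⟩, z0⟩ := @exists_ne _ hk.center_nontrivial 1
      exact fun e => z0 (Subtype.ext (Subtype.ext (mem_bot.1 (e ▸ (⟨z.2, fun g hg =>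
        congrArg Subtype.val (mem_center_iff.1 hz ⟨g, hg⟩)⟩ : (z : G) ∈ π.ker ⊓ centralizer _))))))
  have pM : ∀ x ∈ M, ∃ j, orderOf x = p ^ j := fun x hx =>
    pel_ker hk (k := 0) (by rw [pow_zero, pow_one]; exact (ML hx).1)
  obtain rfl : q = p := by
    obtain ⟨x, hx, x0⟩ := (bot_or_exists_ne_one M).resolve_left M0
    have := Fact.mk hq
    obtain ⟨j, hj⟩ := pM x hx
    rw [orderOf_eq_prime (ex x hx) x0] at hj
    exact (Nat.prime_dvd_prime_iff_eq hq Fact.out).1 (hq.dvd_of_dvd_pow hj.dvd)
  have : Nontrivial M := (nontrivial_iff_ne_bot _).2 M0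
  have kφ : ∀ g ∈ π.ker, (MulAut.conjNormal g : MulAut M) = 1 := fun g hg => MulEquiv.ext fun x =>
    Subtype.ext (by rw [MulAut.conjNormal_apply, (ML x.2).2 g hg, mul_inv_cancel_right]; rfl)
  let ρ : Q →* MulAut M := (QuotientGroup.lift π.ker MulAut.conjNormal kφ).comp
    (QuotientGroup.quotientKerEquivOfSurjective π hπ).symm.toMonoidHom
  have hρ : ∀ g, ρ (π g) = MulAut.conjNormal g := fun g => by
    have : (QuotientGroup.quotientKerEquivOfSurjective π hπ).symm (π g) = g :=
      (MulEquiv.symm_apply_eq _).2 rfl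
    exact congrArg (QuotientGroup.lift π.ker MulAut.conjNormal kφ) this
  obtain ⟨v, v0, K, hK, fx⟩ := @MC.mul _ _ _ mc M
    { (inferInstance : Group M) with mul_comm := cm.is_comm.comm } _ _
    (fun x => Subtype.ext (ex _ x.2)) ρ
  refine hK (map_comap_eq_self_of_surjective hπ K ▸ solv_map π (solv_le (fun g hg => ?_)
    (h v (by rw [hZ]; exact fun e => v0 (Subtype.ext e)) (pM _ v.2))))
  have := congrArg Subtype.val (fx _ hg)
  rw [hρ, MulAut.conjNormal_apply] at this
  exact mem_centralizer_singleton_iff.2 (mul_inv_eq_iff_eq_mul.1 this)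

end Base

/-- `A a × A b` inside `A (a + b)`. -/
def ι (a b : ℕ) : A a × A b →* A (a + b) :=
  ((finSumFinEquiv.permCongrHom.toMonoidHom.comp (Equiv.Perm.sumCongrHom _ _)).comp
    ((alternatingGroup _).subtype.prodMap (alternatingGroup _).subtype)).codRestrict _ fun g => by
      have h1 := Equiv.Perm.mem_alternatingGroup.1 g.1.2
      have h2 := Equiv.Perm.mem_alternatingGroup.1 g.2.2
      simp [Equiv.Perm.mem_alternatingGroup, h1, h2]

theorem ι_inj (a b : ℕ) : Function.Injective (ι a b) := fun x y e => by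
  have := Equiv.Perm.sumCongrHom_injective
    (finSumFinEquiv.permCongrHom.injective (congrArg Subtype.val e))
  exact Prod.ext (Subtype.ext (congrArg Prod.fst this)) (Subtype.ext (congrArg Prod.snd this))

omit [Fact p.Prime] in
theorem MC.of_inj {Q' : Type} [Group Q'] (f : Q' →* Q) (hf : Function.Injective f)
    (h : MC.{u} p Q') : MC.{u} p Q := fun V _ _ _ _ ρ => by
  obtain ⟨v, v0, K, hK, fx⟩ := h V (ρ.comp f)
  exact ⟨v, v0, K.map f, fun s => hK (Group.isSolvable_of_isSolvable_injective
    (f := (K.equivMapOfInjective f hf).toMonoidHom) (K.equivMapOfInjective f hf).injective), by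
      rintro _ ⟨k, hk, rfl⟩; exact fx k hk⟩

theorem main {G : Type u} [Group G] [Finite G] (h3 : p ≠ 3) (h : Hyp p G) {d : ℕ}
    (hd : p + 4 + (if p = 2 then 2 else 0) < d) (π : G →* A d) (hπ : Function.Surjective π) :
    False := by
  have hp : p.Prime := Fact.out
  have := hp.two_le
  obtain ⟨m, rfl⟩ : ∃ m, d = 5 + m := ⟨d - 5, by omega⟩
  refine core (alternatingGroup.center_eq_bot (by simp; omega)) (fun G _ _ h hZ π hπ hk => ?_) _ G rfl
    h π hπ
  have m2 : 2 ≤ m := by omega
  have : Nontrivial (Fin m) := Fin.nontrivial_iff_two_le.2 m2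
  have c2 := two_mul_nat_card_alternatingGroup (α := Fin m)
  rw [Nat.card_perm, Nat.card_eq_fintype_card (α := Fin m), Fintype.card_fin] at c2
  obtain ⟨x, hx⟩ := exists_prime_orderOf_dvd_card' (G := A m) p (by
    by_cases p2 : p = 2
    · subst p2
      have := Nat.factorial_dvd_factorial (show 4 ≤ m by simp at hd; omega)
      rw [← c2] at this
      exact Nat.dvd_of_mul_dvd_mul_left two_pos (dvd_trans (by decide) this)
    · exact ((Nat.coprime_primes hp Nat.prime_two).2 p2).dvd_of_dvd_mul_left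
        (c2 ▸ Nat.dvd_factorial hp.pos (by omega)))
  let f := (ι 5 m).comp (MonoidHom.inl _ _)
  have hf : Function.Injective f := (ι_inj 5 m).comp (Prod.mk_left_injective 1)
  have cop : (Nat.card π.ker).Coprime 60 → False := fun co => by
    refine base_cop h hZ π hπ hk (x := ι 5 m (1, x)) (fun e => ?_) ?_ f.range (fun s => ?_) ?_ ?_
    · rw [show x = 1 from congrArg Prod.snd (ι_inj 5 m (e.trans (map_one _).symm))] at hx
      exact hp.one_lt.ne (by simpa using hx)
    · rw [← map_pow, ← hx, Prod.pow_mk, one_pow, pow_orderOf_eq_one]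
      exact map_one _
    · have : Group.IsSolvable (A 5) := Group.isSolvable_of_isSolvable_injective
        (f := f.rangeRestrict) fun a b e => hf (congrArg Subtype.val e)
      have c := (IsSimpleGroup.comm_iff_isSolvable (G := A 5)).2 this
      have z := alternatingGroup.center_eq_bot (α := Fin 5) (by simp)
      obtain ⟨a, ha⟩ := exists_ne (1 : A 5)
      exact ha (mem_bot.1 (z ▸ mem_center_iff.2 fun g => c g a))
    · rintro _ ⟨a, rfl⟩
      change ι 5 m (a, 1) * _ = _ * ι 5 m (a, 1)
      rw [← map_mul, ← map_mul]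
      simp
    · rw [← Nat.card_congr (MonoidHom.ofInjective hf).toEquiv]
      have := two_mul_nat_card_alternatingGroup (α := Fin 5)
      rw [Nat.card_perm, Nat.card_eq_fintype_card (α := Fin 5), Fintype.card_fin] at this
      rwa [show Nat.card (A 5) = 60 by simp [Nat.factorial] at this ⊢; omega]
  by_cases h0 : π.ker = ⊥
  · exact cop (by rw [h0]; simp)
  have emb : ∀ n ≤ 5 + m, MC.{u} p (A n) → False := fun n hn mc => by
    obtain ⟨k, e⟩ := Nat.exists_eq_add_of_le hn
    exact base_mc h hZ π hπ hk (e ▸ mc.of_inj ((ι n k).comp (MonoidHom.inl _ _))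
      ((ι_inj n k).comp (Prod.mk_left_injective 1))) h0
  by_cases p2 : p = 2
  · subst p2
    exact emb 9 (by simp at hd; omega) H12.An2.mc
  by_cases p5 : p = 5
  · subst p5
    exact emb 10 (by omega) H12.An5.mc
  obtain ⟨j, hj⟩ := hk.exists_card_eq
  refine cop (hj ▸ Nat.Coprime.pow_left j ?_)
  exact (((Nat.coprime_primes hp Nat.prime_two).2 p2).pow_right 2 |>.mul_right
    ((Nat.coprime_primes hp Nat.prime_three).2 h3)).mul_right ((Nat.coprime_primes hp Nat.prime_five).2 p5)

end H12.An
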