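/- S4100: soundness of the double coset computation. -/
import Cfsg.Agent.H12.AnKit

set_option autoImplicit false

open H81 Finset Module
open scoped commutatorElement

namespace H12.An

universe u

/-- Every non-zero finite module has a non-zero vector with non-solvable stabiliser. -/
def MC (p : ℕ) (Q : Type) [Group Q] : Prop :=
  ∀ (V : Type u) [AddCommGroup V] [Module (ZMod p) V] [Finite V] [Nontrivial V]
    (ρ : Representation (ZMod p) Q V), ∃ v : V, v ≠ 0 ∧ ∃ K : Subgroup Q, ¬ Group.IsSolvable K ∧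
      ∀ k ∈ K, ρ k v = v

section Eig

variable {p : ℕ} [Fact p.Prime] {M : Type u} [AddCommGroup M] [Module (ZMod p) M]

theorem eig (T : End (ZMod p) M) (hT : T ^ p = T) (U : Submodule (ZMod p) M)
    (hU : ∀ v ∈ U, T v ∈ U) {x : M} (hx : x ∈ U) (h0 : x ≠ 0) :
    ∃ v ∈ U, v ≠ 0 ∧ ∃ c : ZMod p, T v = c • v := by
  by_contra k
  push Not at k
  have key : ∀ (s : Multiset (ZMod p)), ∀ v ∈ U, v ≠ 0 →
      Polynomial.aeval T (s.map fun c => Polynomial.X - Polynomial.C c).prod v ≠ 0 := by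
    intro s
    induction s using Multiset.induction_on with
    | empty => intro v _ hv; simpa using hv
    | cons c s ih =>
      intro v hv h
      rw [Multiset.map_cons, Multiset.prod_cons, mul_comm, map_mul, End.mul_apply, map_sub,
        Polynomial.aeval_X, Polynomial.aeval_C, LinearMap.sub_apply, Module.algebraMap_end_apply]
      exact ih _ (sub_mem (hU v hv) (U.smul_mem _ hv)) (sub_ne_zero.2 (k v hv h _))
  have one : 1 < Fintype.card (ZMod p) := Fintype.one_lt_card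
  refine key (Polynomial.X ^ Fintype.card (ZMod p) - Polynomial.X : Polynomial (ZMod p)).roots
    x hx h0 ?_
  rw [Polynomial.prod_multiset_X_sub_C_of_monic_of_roots_card_eq
    (Polynomial.monic_X_pow_sub (by simpa using one)) (by
      rw [FiniteField.roots_X_pow_card_sub_X, FiniteField.X_pow_card_sub_X_natDegree_eq _ one]; rfl)]
  simp [hT]

theorem eigB [Finite M] [Nontrivial M] {Γ : Type} [Group Γ] (ρ : Representation (ZMod p) Γ M)
    (S : Subgroup Γ) (hS : IsPGroup p S) {t t' : Γ} (h : ∀ s ∈ S, ∃ s' ∈ S, s * t = t * s')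
    (h' : ∀ s ∈ S, ∃ s' ∈ S, s * t' = t' * s') (c : t * t' = t' * t) (e : t ^ p = t)
    (e' : t' ^ p = t') : ∃ x : M, x ≠ 0 ∧ (∀ s ∈ S, ρ s x = x) ∧
      ∃ c c' : ZMod p, ρ t x = c • x ∧ ρ t' x = c' • x := by
  let U : Submodule (ZMod p) M :=
    { carrier := {x | ∀ s ∈ S, ρ s x = x}
      add_mem' := fun ha hb s hs => by rw [map_add, ha s hs, hb s hs]
      zero_mem' := fun s _ => map_zero _
      smul_mem' := fun c x hx s hs => by rw [map_smul, hx s hs] }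
  have inv : ∀ {t : Γ}, (∀ s ∈ S, ∃ s' ∈ S, s * t = t * s') → ∀ x ∈ U, ρ t x ∈ U :=
    fun h x hx s hs => by
      obtain ⟨s', hs', e⟩ := h s hs
      rw [← End.mul_apply, ← map_mul, e, map_mul, End.mul_apply, hx s' hs']
  let _ : MulAction S M :=
    { smul := fun s x => ρ s x
      one_smul := fun x => by change ρ 1 x = x; simp
      mul_smul := fun a b x => by change ρ (a * b) x = ρ a (ρ b x); simp }
  obtain ⟨x, hx, h0⟩ := hS.exists_fixed_point_of_prime_dvd_card_of_fixed_point M (a := 0) (by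
    rw [Module.natCard_eq_pow_finrank (K := ZMod p), Nat.card_zmod]
    exact dvd_pow_self p Module.finrank_pos.ne') fun s => map_zero (ρ s)
  obtain ⟨y, hy, y0, a, ha⟩ := eig (ρ t) (by rw [← map_pow, e]) U (inv h) (x := x)
    (fun s hs => hx ⟨s, hs⟩) h0.symm
  obtain ⟨z, hz, z0, b, hb⟩ := eig (ρ t') (by rw [← map_pow, e']) (U ⊓ End.eigenspace (ρ t) a)
    (fun v hv => ⟨inv h' v hv.1, End.mem_eigenspace_iff.2 (by
      rw [← End.mul_apply, ← map_mul, c, map_mul, End.mul_apply, End.mem_eigenspace_iff.1 hv.2,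
        map_smul])⟩) ⟨hy, End.mem_eigenspace_iff.2 ha⟩ y0
  exact ⟨z, z0, hz.1, a, b, End.mem_eigenspace_iff.1 hz.2, hb⟩

end Eig

noncomputable section

structure Par where
  (n p nS nB nR W R t t' id : ℕ)

structure Orb where
  (x y : ℕ)
  (a b c d : List Bool)
  (m X π π' : ℕ)
  eqs : List (ℕ × ℕ)

namespace Par

variable (D : Par)

def w (j : ℕ) : ℕ := ent 40 D.W j
def r (i : ℕ) : ℕ := ent 40 D.R i
def pw (c k : ℕ) : ℕ := wd D.n c c D.id (List.replicate k false)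

def base : Bool :=
  allN (fun j => ok D.n (D.w j)) D.nB && allN (fun i => ok D.n (D.r i)) D.nR && ok D.n D.t &&
  ok D.n D.t' && ok D.n D.id && allN (fun i => Nat.beq (dig D.id i) i) D.n &&
  Nat.beq (D.w 0) D.id && Nat.beq (D.r 0) D.id &&
  allN (fun i => allN (fun j => frc (comp D.n (D.w i) (D.w j)) fun c =>
    anyN (fun k => Nat.beq (D.w k) c) D.nS) D.nS) D.nS &&
  allN (fun j => Nat.beq (D.pw (D.w j) (D.p ^ 2)) D.id) D.nS &&
  allN (fun j => anyN (fun k => eq5 D.n (D.w j) D.t D.id D.t (D.w k)) D.nS) D.nS &&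
  allN (fun j => anyN (fun k => eq5 D.n (D.w j) D.t' D.id D.t' (D.w k)) D.nS) D.nS &&
  eq5 D.n D.t D.t' D.id D.t' D.t && Nat.beq (D.pw D.t D.p) D.t && Nat.beq (D.pw D.t' D.p) D.t' &&
  eq5 D.n D.t' D.t' D.id D.id D.id &&
  allN (fun j => eq5 D.n D.id (D.w j) (D.w (j % D.nS)) (D.pw D.t (j / D.nS % 4))
    (D.pw D.t' (j / D.nS / 4))) D.nB && decide (0 < D.nS ∧ D.nS ≤ D.nB ∧ 0 < D.nR)

def tj (C t : ℕ) : ℕ := ent 8 C (Nat.mul 4 t)
def ti (C t : ℕ) : ℕ := ent 8 C (Nat.add (Nat.mul 4 t) 1)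
def tk (C t : ℕ) : ℕ := ent 8 C (Nat.add (Nat.mul 4 t) 2)
def te (C t : ℕ) : ℕ := ent 8 C (Nat.add (Nat.mul 4 t) 3)

def rng (C t : ℕ) : Bool :=
  band (Nat.blt (tj C t) D.nB) (band (Nat.blt (ti C t) D.nR) (Nat.blt (tk C t) D.nB))

/-- `g` permutes the cosets of the orbit. -/
def prm (O : Orb) (g π : ℕ) : Bool :=
  allN (fun t => band (Nat.blt (tk π t) D.nS)
    (eq5 D.n g (ent 40 O.X t) D.id (ent 40 O.X (ti π t)) (D.w (tk π t)))) O.m &&
  decide (((List.range O.m).map (ti π)).Perm (List.range O.m))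

def orb (O : Orb) : Bool :=
  ok D.n O.x && ok D.n O.y && allN (fun t => ok D.n (ent 40 O.X t)) O.m &&
  !(allN (fun i => Nat.beq (dig O.x i) i) D.n) &&
  eq5 D.n (wd D.n O.x O.y D.id O.a) (wd D.n O.x O.y D.id O.b) O.x (wd D.n O.x O.y D.id O.b)
    (wd D.n O.x O.y D.id O.a) &&
  eq5 D.n (wd D.n O.x O.y D.id O.c) (wd D.n O.x O.y D.id O.d) O.y (wd D.n O.x O.y D.id O.d)
    (wd D.n O.x O.y D.id O.c) &&
  D.prm O O.x O.π && D.prm O O.y O.π' &&
  allM (fun e => band (ok D.n e.1) (allN (fun t => band (D.rng e.2 t) (band (Nat.beq (te e.2 t) 1)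
    (eq5 D.n e.1 (ent 40 O.X t) (D.w (tj e.2 t)) (D.r (ti e.2 t)) (D.w (tk e.2 t))))) O.m)) O.eqs

/-- two terms that are the same element, with opposite coefficients. -/
def stab (C : ℕ) : Bool :=
  D.rng C 0 && D.rng C 1 && Nat.beq (te C 0 + te C 1) D.p && Nat.beq (tj C 1) 0 &&
  Nat.beq (tk C 1) 0 && eq5 D.n D.id (D.r (ti C 1)) (D.w (tj C 0)) (D.r (ti C 0)) (D.w (tk C 0))

def chi (c c' j : ℕ) : ℕ :=
  Nat.mul (Nat.pow c (Nat.mod (Nat.div j D.nS) 4)) (Nat.pow c' (Nat.div (Nat.div j D.nS) 4))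

def row (X d d' c c' C m : ℕ) : ℕ :=
  Nat.rec (motive := fun _ => ℕ) 0 (fun t acc => Nat.add acc (Nat.mul (Nat.mod (Nat.mul (te C t)
    (Nat.mul (D.chi d d' (tj C t)) (D.chi c c' (tk C t)))) D.p) (Nat.pow X (ti C t)))) m

def eqs (Os : List Orb) (St : List ℕ) : List (ℕ × ℕ) :=
  St.map (fun C => (2, C)) ++ Os.flatMap fun O => O.eqs.map fun e => (O.m, e.2)

def lin (E : List (ℕ × ℕ)) (sel : ℕ) (d d' c c' : ℕ) : Bool :=
  frc (Nat.pow 2 170) fun X => frc sel fun sel => mapF (fun q => Prod.rec (motive := fun _ => ℕ)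
    (fun m C => D.row X d d' c c' C m) (nthD E (0, 0) (ent 16 sel q))) (List.range D.nR)
    (elim D.p X D.nR)

variable {D}

/-- the equation with certificate `C`. -/
def Eqn (f : A D.n → ZMod D.p) (m C : ℕ) : Prop := (∀ t < m, D.rng C t = true) ∧
  ∑ t ∈ range m, (te C t : ZMod D.p) * f (P D.n (D.w (tj C t)) * P D.n (D.r (ti C t)) *
    P D.n (D.w (tk C t))) = 0

theorem of_rng {C t : ℕ} (h : D.rng C t = true) : tj C t < D.nB ∧ ti C t < D.nR ∧ tk C t < D.nB := by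
  simpa [rng, band_iff] using h

theorem of_lin [Fact D.p.Prime] {f : A D.n → ZMod D.p} {E : List (ℕ × ℕ)} {sel d d' c c' : ℕ}
    (hE : ∀ e ∈ E, e.1 ≤ 64 ∧ Eqn f e.1 e.2) (hb : 64 * D.p * D.p ^ D.nR < 2 ^ 170)
    (hf : ∀ j < D.nB, ∀ i < D.nR, ∀ k < D.nB, f (P D.n (D.w j) * P D.n (D.r i) * P D.n (D.w k)) =
      D.chi d d' j * D.chi c c' k * f (P D.n (D.r i)))
    (h : D.lin E sel d d' c c' = true) : ∀ i < D.nR, f (P D.n (D.r i)) = 0 := by
  have hp := (Fact.out : D.p.Prime).pos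
  let ys := (List.range D.nR).map fun i => f (P D.n (D.r i))
  have hl : ys.length = D.nR := by simp [ys]
  rw [lin, frc_eq, frc_eq, mapF_eq] at h
  have lt : 64 * D.p < 2 ^ 170 := (Nat.le_mul_of_pos_right _ (by positivity)).trans_lt hb
  have key : ∀ C m, m ≤ 64 → (∀ t < m, D.rng C t = true) →
      Bd (2 ^ 170) (m * D.p) ys.length (D.row (2 ^ 170) d d' c c' C m) ∧
      val (2 ^ 170) ys (D.row (2 ^ 170) d d' c c' C m) = ∑ t ∈ range m, (te C t : ZMod D.p) *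
        f (P D.n (D.w (tj C t)) * P D.n (D.r (ti C t)) * P D.n (D.w (tk C t))) := fun C m => by
    induction m with
    | zero => exact fun _ _ => zero_row _ ys
    | succ m ih =>
      intro hm hr
      have ih := ih (by omega) fun t ht => hr t (by omega)
      obtain ⟨h1, h2, h3⟩ := of_rng (hr m (by omega))
      have u := unit_row (X := 2 ^ 170) (by norm_num) ys (ti C m)
      have hc := Nat.mod_lt (te C m * (D.chi d d' (tj C m) * D.chi c c' (tk C m))) hp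
      have := add_row (c := te C m * (D.chi d d' (tj C m) * D.chi c c' (tk C m)) % D.p)
        (by nlinarith) ys ih.1 u.1
      refine ⟨Bd.mono (by nlinarith) this.1, this.2.trans ?_⟩
      rw [ih.2, u.2, sum_range_succ, hf _ h1 _ h2 _ h3, ZMod.natCast_mod]
      simp [ys, h2, mul_assoc]
  have := of_elim ys _ (64 * D.p) (hl ▸ hb) (fun N hN => by
    obtain ⟨q, -, rfl⟩ := List.mem_map.1 hN
    rw [nthD_eq]
    have : E.getD (ent 16 sel q) (0, 0) = (0, 0) ∨ E.getD (ent 16 sel q) (0, 0) ∈ E := by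
      rw [List.getD_eq_getElem?_getD]
      cases h : E[ent 16 sel q]? with
      | none => exact Or.inl rfl
      | some z => exact Or.inr (List.mem_of_getElem? h)
    rcases this with e | e
    · rw [e]; exact zero_row _ ys
    · have := hE _ e
      generalize E.getD (ent 16 sel q) (0, 0) = z at this
      obtain ⟨m, C⟩ := z
      have k := key C m this.1 this.2.1
      exact ⟨Bd.mono (Nat.mul_le_mul_right _ this.1) k.1, k.2.trans this.2.2⟩) (hl ▸ h)
  exact fun i hi => this _ (List.mem_map.2 ⟨i, List.mem_range.2 hi, rfl⟩)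

theorem pw_spec {c : ℕ} (hc : Vd D.n c) (hi : Vd D.n D.id) (h1 : P D.n D.id = 1) (k : ℕ) :
    Vd D.n (D.pw c k) ∧ P D.n (D.pw c k) = P D.n c ^ k := by
  induction k with
  | zero => exact ⟨hi, h1.trans (pow_zero _).symm⟩
  | succ k ih => exact ⟨(hc.comp ih.1).1, by rw [pow_succ', ← ih.2]; exact (hc.comp ih.1).2⟩

theorem not_solv {Q : Type} [Group Q] {x y a b c d : Q} (hx : x ≠ 1)
    (ha : a ∈ Subgroup.closure {x, y}) (hb : b ∈ Subgroup.closure {x, y})
    (hc : c ∈ Subgroup.closure {x, y}) (hd : d ∈ Subgroup.closure {x, y}) (e : a * b = x * b * a)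
    (e' : c * d = y * d * c) : ¬ Group.IsSolvable (Subgroup.closure ({x, y} : Set Q)) := fun s => by
  set K := Subgroup.closure ({x, y} : Set Q)
  have : Nontrivial K := ⟨⟨x, Subgroup.subset_closure (by simp)⟩, 1, fun k => hx (congrArg Subtype.val k)⟩
  have le : K ≤ ⁅K, K⁆ := (Subgroup.closure_le _).2 (by
    rintro z (rfl | rfl)
    · rw [show z = ⁅a, b⁆ by rw [commutatorElement_def, e]; group]
      exact Subgroup.commutator_mem_commutator ha hb
    · rw [show z = ⁅c, d⁆ by rw [commutatorElement_def, e']; group]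
      exact Subgroup.commutator_mem_commutator hc hd)
  refine (Group.IsSolvable.commutator_lt_top_of_nontrivial K).ne (eq_top_iff.2 fun k _ => ?_)
  have := le k.2
  rw [← Subgroup.map_subtype_commutator] at this
  obtain ⟨k', hk', e⟩ := this
  exact Subtype.ext e ▸ hk'

set_option maxHeartbeats 1000000 in
theorem mc [Fact D.p.Prime] (hb : D.base = true) (Os : List Orb) (St : List ℕ)
    (hO : ∀ O ∈ Os, O.m ≤ 64 ∧ D.orb O = true) (hS : ∀ C ∈ St, D.stab C = true)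
    (bd : 64 * D.p * D.p ^ D.nR < 2 ^ 170)
    (hl : ∀ d, 0 < d → d < D.p → ∀ d', d' = 1 ∨ d' = D.p - 1 → ∀ c, 0 < c → c < D.p →
      ∀ c', c' = 1 ∨ c' = D.p - 1 → ∃ sel, D.lin (eqs Os St) sel d d' c c' = true) :
    MC.{u} D.p (A D.n) := by
  intro V _ _ _ _ ρ
  by_contra no
  push Not at no
  have no : ∀ K : Subgroup (A D.n), ¬ Group.IsSolvable K → ∀ v, (∀ k ∈ K, ρ k v = v) → v = 0 :=
    fun K hK v hv => by_contra fun h => (no v h K hK).elim fun k e => e.2 (hv k e.1)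
  simp only [base, Bool.and_eq_true, decide_eq_true_eq, Nat.beq_eq] at hb
  obtain ⟨⟨⟨⟨⟨⟨⟨⟨⟨⟨⟨⟨⟨⟨⟨⟨⟨vw, vr⟩, vt⟩, vt'⟩, vi⟩, hi⟩, w0⟩, r0⟩, cl⟩, ex⟩, nt⟩, nt'⟩, cm⟩, et⟩, et'⟩,
    e2⟩, tab⟩, n0, nSB, nR0⟩ := hb
  replace vw := fun j hj => of_ok (of_allN vw j hj)
  replace vr := fun j hj => of_ok (of_allN vr j hj)
  replace vt := of_ok vt
  replace vt' := of_ok vt'
  replace vi := of_ok vi
  have vs := fun j (hj : j < D.nS) => vw j (hj.trans_le nSB)
  have h1 : P D.n D.id = 1 :=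
    Cd.eq fun i => (Nat.eq_of_beq_eq_true (of_allN hi i i.2)).symm
  set t := P D.n D.t with ht
  set t' := P D.n D.t' with ht'
  have ord : ∀ j < D.nS, P D.n (D.w j) ^ D.p ^ 2 = 1 := fun j hj => by
    rw [← (pw_spec (vs j hj) vi h1 _).2, Nat.eq_of_beq_eq_true (of_allN ex j hj), h1]
  let S₀ : Submonoid (A D.n) :=
    { carrier := {g | ∃ j < D.nS, g = P D.n (D.w j)}
      one_mem' := ⟨0, n0, by rw [w0, h1]⟩
      mul_mem' := by
        rintro _ _ ⟨i, hi, rfl⟩ ⟨j, hj, rfl⟩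
        obtain ⟨k, hk, e⟩ := of_anyN (of_allN (of_allN cl i hi) j hj)
        exact ⟨k, hk, by rw [Nat.eq_of_beq_eq_true e, ((vs i hi).comp (vs j hj)).2]⟩ }
  let S : Subgroup (A D.n) :=
    { S₀ with
      inv_mem' := fun {g} hg => by
        have := pow_card_eq_one' (x := g)
        rw [← Nat.sub_add_cancel (Nat.card_pos (α := A D.n)), pow_succ] at this
        rw [← eq_inv_of_mul_eq_one_left this]
        exact S₀.pow_mem hg _ }
  let B : Subgroup (A D.n) := Subgroup.closure {g | ∃ j < D.nB, g = P D.n (D.w j)} ⊔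
    Subgroup.closure {t, t'}
  have wB : ∀ j < D.nB, P D.n (D.w j) ∈ B := fun j hj =>
    Subgroup.mem_sup_left (Subgroup.subset_closure ⟨j, hj, rfl⟩)
  have tB : t ∈ B := Subgroup.mem_sup_right (Subgroup.subset_closure (by simp))
  have tB' : t' ∈ B := Subgroup.mem_sup_right (Subgroup.subset_closure (by simp))
  have e2 : t' * t' = 1 := by simpa [h1] using of_eq5 e2 vt' vt' vi vi vi
  have eb : ∀ (M : Type u) [AddCommGroup M] [Module (ZMod D.p) M] [Finite M] [Nontrivial M]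
      (θ : Representation (ZMod D.p) B M), ∃ x : M, x ≠ 0 ∧ (∀ s ∈ S.subgroupOf B, θ s x = x) ∧
      ∃ c c' : ZMod D.p, θ ⟨t, tB⟩ x = c • x ∧ θ ⟨t', tB'⟩ x = c' • x := fun M _ _ _ _ θ => by
    refine eigB θ _ ?_ ?_ ?_ (Subtype.ext ?_) (Subtype.ext ?_) (Subtype.ext ?_)
    · rintro ⟨⟨g, _⟩, j, hj, e⟩
      exact ⟨2, Subtype.ext (Subtype.ext ((congrArg (· ^ D.p ^ 2) e).trans (ord j hj)))⟩
    · rintro ⟨g, _⟩ ⟨j, hj, e⟩
      obtain ⟨k, hk, e'⟩ := of_anyN (of_allN nt j hj)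
      exact ⟨⟨_, wB k (hk.trans_le nSB)⟩, ⟨k, hk, rfl⟩, Subtype.ext ((congrArg (· * t) e).trans (by
        simpa [h1] using of_eq5 e' (vs j hj) vt vi vt (vs k hk)))⟩
    · rintro ⟨g, _⟩ ⟨j, hj, e⟩
      obtain ⟨k, hk, e'⟩ := of_anyN (of_allN nt' j hj)
      exact ⟨⟨_, wB k (hk.trans_le nSB)⟩, ⟨k, hk, rfl⟩, Subtype.ext ((congrArg (· * t') e).trans (by
        simpa [h1] using of_eq5 e' (vs j hj) vt' vi vt' (vs k hk)))⟩
    · simpa [h1] using of_eq5 cm vt vt' vi vt' vt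
    · exact (pw_spec vt vi h1 _).2.symm.trans (by rw [et])
    · exact (pw_spec vt' vi h1 _).2.symm.trans (by rw [et'])
  have tab : ∀ j < D.nB, ∃ s ∈ S, P D.n (D.w j) = s * t ^ (j / D.nS % 4) * t' ^ (j / D.nS / 4) :=
    fun j hj => ⟨_, ⟨j % D.nS, Nat.mod_lt _ n0, rfl⟩, by
      simpa [h1, (pw_spec vt vi h1 _).2, (pw_spec vt' vi h1 _).2] using of_eq5 (of_allN tab j hj) vi
        (vw j hj) (vs _ (Nat.mod_lt _ n0)) (pw_spec vt vi h1 _).1 (pw_spec vt' vi h1 _).1⟩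
  have SB : S ≤ B := by
    rintro _ ⟨j, hj, rfl⟩
    exact wB j (hj.trans_le nSB)
  have nat : ∀ c c' : ZMod D.p, c ≠ 0 → c' * c' = 1 → ∃ a : ℕ, 0 < a ∧ a < D.p ∧ ∃ a' : ℕ,
      (a' = 1 ∨ a' = D.p - 1) ∧ c = a ∧ c' = a' := fun c c' h h' =>
    ⟨c.val, (ZMod.val_pos).2 h, c.val_lt, by
      rcases mul_self_eq_one_iff.1 h' with e | e
      · exact ⟨1, Or.inl rfl, by simp, by simp [e]⟩
      · exact ⟨_, Or.inr rfl, by simp, by simp [e, Nat.cast_pred (Fact.out : D.p.Prime).pos]⟩⟩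
  obtain ⟨v, v0, vS, c, c', vc, vc'⟩ := eb V (ρ.comp B.subtype)
  replace vc : ρ t v = c • v := vc
  replace vc' : ρ t' v = c' • v := vc'
  obtain ⟨c, c1, c2, c', c3, rfl, rfl⟩ := nat c c' (fun z => v0 (by
    rw [← ρ.inv_self_apply t v, vc, z, zero_smul, map_zero])) (smul_left_injective _ v0 (by
      simp only [mul_smul, ← map_smul, ← vc', one_smul]
      rw [← End.mul_apply, ← map_mul, e2, map_one, End.one_apply]))
  let V₀ := Submodule.span (ZMod D.p) {x | ∃ b ∈ B, ∃ i < D.nR, x = ρ (b * P D.n (D.r i)) v}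
  have iv : ∀ b ∈ B, ∀ x ∈ V₀, ρ b x ∈ V₀ := fun b hb =>
    (Submodule.span_le (p := V₀.comap (ρ b))).2 (by
      rintro _ ⟨b', hb', i, hi, rfl⟩
      exact Submodule.subset_span ⟨b * b', mul_mem hb hb', i, hi, by simp [mul_assoc]⟩)
  have rV : ∀ i < D.nR, ρ (P D.n (D.r i)) v ∈ V₀ := fun i hi =>
    Submodule.subset_span ⟨1, one_mem _, i, hi, by rw [one_mul]⟩
  have : Nontrivial V₀ := ⟨⟨v, by simpa [r0, h1] using rV 0 nR0⟩, 0, fun k => v0 (congrArg Subtype.val k)⟩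
  have : Finite (Dual (ZMod D.p) V₀) := Finite.of_injective _ DFunLike.coe_injective
  obtain ⟨φ, φ0, φS, d, d', φd, φd'⟩ := eb (Dual (ZMod D.p) V₀)
    (Representation.subrepresentation (ρ.comp B.subtype) V₀ fun b => iv b b.2).dual
  obtain ⟨ψ, hψ⟩ := LinearMap.exists_extend φ
  obtain ⟨x₀, hx₀⟩ : ∃ x : V₀, ψ x ≠ 0 := by
    by_contra k
    push Not at k
    exact φ0 (hψ ▸ LinearMap.ext k)
  have tr : ∀ (b : B) (e : ZMod D.p), (Representation.subrepresentation (ρ.comp B.subtype) V₀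
      fun b => iv b b.2).dual b φ = e • φ → e ≠ 0 ∧ ∀ x ∈ V₀, ψ (ρ b x) = e⁻¹ * ψ x := fun b e h => by
    have k : ∀ x ∈ V₀, ψ x = e * ψ (ρ b x) := fun x hx => by
      have := congrArg (· ⟨_, iv b b.2 x hx⟩) h
      rw [← hψ] at this
      change ψ (ρ (b : A D.n)⁻¹ (ρ b x)) = e * ψ (ρ b x) at this
      rwa [ρ.inv_self_apply] at this
    have e0 : e ≠ 0 := fun z => hx₀ (by rw [k _ x₀.2, z, zero_mul])
    exact ⟨e0, fun x hx => by rw [k x hx, inv_mul_cancel_left₀ e0]⟩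
  have ψS : ∀ s ∈ S, ∀ x ∈ V₀, ψ (ρ s x) = ψ x := fun s hs x hx => by
    simpa using (tr ⟨s, SB hs⟩ 1 (by rw [one_smul]; exact φS _ hs)).2 x hx
  obtain ⟨d0, ψd⟩ := tr _ _ φd
  obtain ⟨-, ψd'⟩ := tr _ _ φd'
  replace ψd : ∀ x ∈ V₀, ψ (ρ t x) = d⁻¹ * ψ x := ψd
  replace ψd' : ∀ x ∈ V₀, ψ (ρ t' x) = d'⁻¹ * ψ x := ψd'
  obtain ⟨a, a1, a2, a', a3, ea, ea'⟩ := nat d⁻¹ d'⁻¹ (inv_ne_zero d0) (mul_right_cancel₀ hx₀ (by
    rw [mul_assoc, ← ψd' _ x₀.2, ← ψd' _ (iv _ tB' _ x₀.2), ← End.mul_apply, ← map_mul, e2]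
    simp))
  rw [ea] at ψd
  rw [ea'] at ψd'
  have pψ : ∀ b ∈ B, ∀ e : ZMod D.p, (∀ x ∈ V₀, ψ (ρ b x) = e * ψ x) → ∀ k : ℕ, ∀ x ∈ V₀,
      ψ (ρ (b ^ k) x) = e ^ k * ψ x := fun b hb e h k => by
    induction k with
    | zero => simp
    | succ k ih =>
      intro x hx
      rw [pow_succ, map_mul, End.mul_apply, ih _ (iv b hb x hx), h x hx, pow_succ, mul_assoc]
  have pv : ∀ (b : A D.n) (e : ZMod D.p), ρ b v = e • v → ∀ k : ℕ, ρ (b ^ k) v = e ^ k • v :=
    fun b e h k => by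
      induction k with
      | zero => simp
      | succ k ih => rw [pow_succ, map_mul, End.mul_apply, h, map_smul, ih, pow_succ', mul_smul]
  have wψ : ∀ j < D.nB, ∀ x ∈ V₀, ψ (ρ (P D.n (D.w j)) x) = D.chi a a' j * ψ x := fun j hj x hx => by
    obtain ⟨s, hs, e⟩ := tab j hj
    have k := iv _ (pow_mem tB' (j / D.nS / 4)) x hx
    rw [e, map_mul, map_mul, End.mul_apply, End.mul_apply, ψS s hs _ (iv _ (pow_mem tB _) _ k),
      pψ t tB _ ψd _ _ k, pψ t' tB' _ ψd' _ _ hx, ← mul_assoc, ← Nat.cast_pow, ← Nat.cast_pow,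
      ← Nat.cast_mul]
    rfl
  have wv : ∀ j < D.nB, ρ (P D.n (D.w j)) v = (D.chi c c' j : ZMod D.p) • v := fun j hj => by
    obtain ⟨s, hs, e⟩ := tab j hj
    rw [e, map_mul, map_mul, End.mul_apply, End.mul_apply, pv _ _ vc', map_smul, pv _ _ vc, map_smul,
      map_smul, show ρ s v = v from vS ⟨s, SB hs⟩ hs, smul_smul, mul_comm, ← Nat.cast_pow,
      ← Nat.cast_pow, ← Nat.cast_mul]
    rfl
  obtain ⟨sel, hsel⟩ := hl a a1 a2 a' a3 c c1 c2 c' c3
  have z := of_lin (f := fun g => ψ (ρ g v)) (fun e he => ?_) bd (fun j hj i hi k hk => by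
    simp only [map_mul, End.mul_apply]
    rw [wv k hk, map_smul, map_smul, map_smul, wψ j hj _ (rV i hi), smul_eq_mul]
    ring) hsel
  · have key : ∀ b ∈ B, ∃ e : ZMod D.p, e ≠ 0 ∧ ∀ x ∈ V₀, ψ (ρ b x) = e * ψ x := fun b hb => by
      have ne : ∀ b ∈ B, ∀ e : ZMod D.p, (∀ x ∈ V₀, ψ (ρ b x) = e * ψ x) → e ≠ 0 := fun b hb e h z =>
        hx₀ (by rw [← ρ.self_inv_apply b x₀, h _ (iv _ (inv_mem hb) _ x₀.2), z, zero_mul])
      have hb' := hb
      simp only [B, ← Subgroup.closure_union] at hb'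
      have BB : B = Subgroup.closure ({g | ∃ j < D.nB, g = P D.n (D.w j)} ∪ {t, t'}) := by
        rw [Subgroup.closure_union]
      induction hb' using Subgroup.closure_induction with
      | mem g hg =>
        rcases hg with ⟨j, hj, rfl⟩ | rfl | rfl
        · exact ⟨_, ne _ hb _ (wψ j hj), wψ j hj⟩
        · exact ⟨_, ne _ hb _ ψd, ψd⟩
        · exact ⟨_, ne _ hb _ ψd', ψd'⟩
      | one => exact ⟨1, one_ne_zero, by simp⟩
      | mul g g' hg hg' ih ih' =>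
        obtain ⟨e, e0, k⟩ := ih (BB ▸ hg)
        obtain ⟨e', e0', k'⟩ := ih' (BB ▸ hg')
        exact ⟨e * e', mul_ne_zero e0 e0', fun x hx => by
          rw [map_mul, End.mul_apply, k _ (iv _ (BB ▸ hg') x hx), k' x hx, mul_assoc]⟩
      | inv g hg ih =>
        obtain ⟨e, e0, k⟩ := ih (BB ▸ hg)
        exact ⟨e⁻¹, inv_ne_zero e0, fun x hx => by
          rw [eq_inv_mul_iff_mul_eq₀ e0, ← k _ (iv _ hb x hx), ρ.self_inv_apply]⟩
    refine hx₀ ((Submodule.span_le (p := LinearMap.ker ψ)).2 ?_ x₀.2)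
    rintro _ ⟨b, hb, i, hi, rfl⟩
    obtain ⟨e, -, k⟩ := key b hb
    change ψ _ = 0
    rw [map_mul, End.mul_apply, k _ (rV i hi), z i hi, mul_zero]
  rcases List.mem_append.1 he with he | he
  · obtain ⟨C, hC, rfl⟩ := List.mem_map.1 he
    have := hS C hC
    simp only [stab, Bool.and_eq_true, Nat.beq_eq] at this
    obtain ⟨⟨⟨⟨⟨g0, g1⟩, e⟩, j1⟩, k1⟩, q⟩ := this
    refine ⟨by norm_num, fun t ht => by interval_cases t <;> assumption, ?_⟩
    obtain ⟨h2, h3, h4⟩ := of_rng g0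
    rw [sum_range_succ, sum_range_one, ← of_eq5 q vi (vr _ (of_rng g1).2.1) (vw _ h2) (vr _ h3)
      (vw _ h4), j1, k1, w0, h1, mul_one, ← add_mul, ← Nat.cast_add, e, ZMod.natCast_self, zero_mul]
  obtain ⟨O, hO', he⟩ := List.mem_flatMap.1 he
  obtain ⟨e, he', rfl⟩ := List.mem_map.1 he
  obtain ⟨hm, ho⟩ := hO O hO'
  simp only [orb, Bool.and_eq_true, Bool.not_eq_true'] at ho
  obtain ⟨⟨⟨⟨⟨⟨⟨⟨vx, vy⟩, vX⟩, x1⟩, q1⟩, q2⟩, p1⟩, p2⟩, qe⟩ := ho
  replace vx := of_ok vx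
  replace vy := of_ok vy
  replace vX := fun j hj => of_ok (of_allN vX j hj)
  have ws := wd_spec vx vy vi (Subgroup.closure {P D.n O.x, P D.n O.y})
    (Subgroup.subset_closure (by simp)) (Subgroup.subset_closure (by simp)) (h1 ▸ one_mem _)
  have fx : ∀ g π, Vd D.n g → D.prm O g π = true → ρ (P D.n g) (∑ t ∈ range O.m,
      ρ (P D.n (ent 40 O.X t)) v) = ∑ t ∈ range O.m, ρ (P D.n (ent 40 O.X t)) v := fun g π vg h => by
    simp only [prm, Bool.and_eq_true, decide_eq_true_eq] at h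
    have pm := h.2
    have lt : ∀ t < O.m, ti π t < O.m := fun t ht => List.mem_range.1
      (pm.subset (List.mem_map.2 ⟨t, List.mem_range.2 ht, rfl⟩))
    have := (pm.map fun t => ρ (P D.n (ent 40 O.X t)) v).sum_eq
    have sl : ∀ F : ℕ → V, ∑ t ∈ range O.m, F t = ((List.range O.m).map F).sum :=
      fun F => Multiset.sum_coe _
    rw [List.map_map, ← sl, ← sl] at this
    rw [map_sum, ← this]
    refine sum_congr rfl fun t ht => ?_
    obtain ⟨g1, g2⟩ := band_iff.1 (of_allN h.1 t (mem_range.1 ht))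
    rw [Nat.blt_eq] at g1
    rw [← End.mul_apply, ← map_mul, of_eq5 g2 vg (vX t (mem_range.1 ht)) vi
      (vX _ (lt t (mem_range.1 ht))) (vs _ g1), h1, one_mul, map_mul, End.mul_apply,
      show ρ (P D.n (D.w (tk π t))) v = v from vS ⟨_, SB ⟨_, g1, rfl⟩⟩ ⟨_, g1, rfl⟩]
    rfl
  have w0 := no _ (not_solv (fun k => ?_) (ws O.a).2 (ws O.b).2 (ws O.c).2 (ws O.d).2
    (of_eq5 q1 (ws _).1 (ws _).1 vx (ws _).1 (ws _).1) (of_eq5 q2 (ws _).1 (ws _).1 vy (ws _).1 (ws _).1))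
    (∑ t ∈ range O.m, ρ (P D.n (ent 40 O.X t)) v) (fun k hk => by
      induction hk using Subgroup.closure_induction with
      | mem g hg =>
        rcases hg with rfl | rfl
        exacts [fx _ _ vx p1, fx _ _ vy p2]
      | one => simp
      | mul g g' _ _ ih ih' => rw [map_mul, End.mul_apply, ih', ih]
      | inv g _ ih => conv_lhs => rw [← ih, ρ.inv_self_apply])
  · have q := band_iff.1 (of_allM qe e he')
    have q' := fun t ht => band_iff.1 (of_allN q.2 t ht)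
    refine ⟨hm, fun t ht => (q' t ht).1, ?_⟩
    have := congrArg (fun x => ψ (ρ (P D.n e.1) x)) w0
    simp only [map_sum, map_zero] at this
    rw [← this]
    refine sum_congr rfl fun t ht => ?_
    obtain ⟨g, k⟩ := q' t (mem_range.1 ht)
    obtain ⟨h2, h3, h4⟩ := of_rng g
    rw [band_iff] at k
    rw [← of_eq5 k.2 (of_ok q.1) (vX t (mem_range.1 ht)) (vw _ h2) (vr _ h3) (vw _ h4),
      Nat.eq_of_beq_eq_true k.1]
    simp
  · have : ∀ n ≤ D.n, allN (fun i => Nat.beq (dig O.x i) i) n = true := fun n hn => by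
      induction n with
      | zero => rfl
      | succ n ih =>
        refine band_iff.2 ⟨?_, ih (by omega)⟩
        have := vx ⟨n, hn⟩
        rw [k] at this
        exact Nat.beq_eq.mpr this.symm
    exact absurd (this _ le_rfl) (by simp [x1])

end Par

end

end H12.An
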