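/- BN tower (blueprints/BN.md): finite Moufang buildings with bonds of order at most four. -/
import Cfsg.Agent.H12.BNExt
import Cfsg.Agent.H12.BNMp
import Cfsg.Agent.H19.BNDynB
import Cfsg.Agent.H19.BNPD
import Cfsg.Agent.H55.BNU
import Cfsg.Agent.H21.BNQD
import Cfsg.Agent.H21.BNA2
import Cfsg.Agent.H27.BNQC
import Cfsg.Agent.H54.BNModAll
import Cfsg.Agent.H2.BNMod

set_option autoImplicit false

namespace H12.BN

open H67 H64 H54

theorem q4d : JobQ4D := H21.BN.jobQ4D (H21.BN.jobQC H27.BN.jobQ4C)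

theorem uniq (hR : JobRGS) : JobUniq :=
  H55.BNU.jobUniq jobGRD jobMP jobRt hR H21.BN.jobA2 jobExt

section
variable {W ι : Type} [Group W] [Finite W] {s : ι → W} {P : ι → Set W} {C C' : Type} [Finite C]
  [Finite C'] {Δ : Bld s P C} {Δ' : Bld s P C'} {a : W → C} {a' : W → C'}

/-- the root group of the node `i` is abelian -/
def Ab (Δ : Bld s P C) (a : W → C) (i : ι) : Prop :=
  ∀ x ∈ Δ.RG a (P i), ∀ y ∈ Δ.RG a (P i), x * y = y * x

theorem IsMP.one {i j : ι} (h : i ≠ j) {m : ℕ} {x : MP m (Equiv.Perm C)} (hx : IsMP Δ a i j x) :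
    x.U 1 = Δ.RG a (P i) := by
  rw [hx, (jobRt W ι s P Δ.E Δ.inj i j h).one]

theorem IsMP.last {i j : ι} (h : i ≠ j) {m : ℕ} (hm : mm s i j = m) {x : MP m (Equiv.Perm C)}
    (hx : IsMP Δ a i j x) : x.U m = Δ.RG a (P j) := by
  subst hm
  rw [hx, (jobRt W ι s P Δ.E Δ.inj i j h).last]

theorem IsMP.cm13 {i j : ι} (h : i ≠ j) (hm : mm s i j = 4) {x : MP 4 (Equiv.Perm C)}
    (hx : IsMP Δ a i j x) : x.Cm 1 3 ↔ Δ.Cm a i j := by
  have R := jobRt W ι s P Δ.E Δ.inj i j h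
  have p := R.pen
  rw [hm] at p
  norm_num at p
  rw [MP.Cm, hx.one h, hx 3, p]; rfl

theorem IsMP.cm24 {i j : ι} (h : i ≠ j) (hm : mm s i j = 4) {x : MP 4 (Equiv.Perm C)}
    (hx : IsMP Δ a i j x) : x.Cm 2 4 ↔ Δ.Cm a j i := by
  have R := jobRt W ι s P Δ.E Δ.inj i j h
  have l : x.U 4 = Δ.RG a (P j) := hx.last h hm
  rw [MP.Cm, l, hx 2, R.two]
  exact ⟨fun H u hu v hv => (H v hv u hu).symm, fun H u hu v hv => (H v hv u hu).symm⟩

theorem bond3 (ha : Δ.Apt a) (D : GD Δ a) {i j : ι} (h : i ≠ j) (hm : mm s i j = 3) :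
    Δ.q i = Δ.q j ∧ Ab Δ a i ∧ IsPrimePow (Δ.q i) := by
  obtain ⟨x, hx⟩ := jobMP W ι s P C Δ a ha D i j h 3 hm
  have K := H59.BN.jobMK 3 _ x le_rfl
  have l : x.U 3 = Δ.RG a (P j) := hx.last h hm
  have c1 := K.card 0 1
  have c2 := K.card 1 2
  rw [show (2 * 0 + (3 : ℕ) - 1 : ℤ) = 2 by norm_num] at c1
  rw [show (2 * 1 + (3 : ℕ) - 2 : ℤ) = 3 by norm_num] at c2
  obtain ⟨ab, pp⟩ := H21.BN.jobA2.1 _ x
  refine ⟨?_, ?_, ?_⟩
  · rw [← D.card, ← D.card, ← l, ← hx.one h, c2, c1]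
  · have := ab 1
    rwa [MP.Cm, hx.one h] at this
  · rwa [hx.one h, D.card] at pp

theorem bond4 (ha : Δ.Apt a) (D : GD Δ a) {i j : ι} (h : i ≠ j) (hm : mm s i j = 4) :
    ∃ q, IsPrimePow q ∧ ((Δ.q i = q ∧ Δ.q j = q ∧ (Δ.Cm a i j ∨ Δ.Cm a j i) ∧
        (Even q → Δ.Cm a i j ∧ Δ.Cm a j i)) ∨ (Δ.q i = q ∧ Δ.q j = q ^ 2) ∨
      (Δ.q i = q ^ 2 ∧ Δ.q j = q) ∨ (Δ.q i = q ^ 3 ∧ Δ.q j = q ^ 2 ∧ ¬ Ab Δ a i) ∨
      (Δ.q i = q ^ 2 ∧ Δ.q j = q ^ 3 ∧ ¬ Ab Δ a j)) := by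
  obtain ⟨x, hx⟩ := jobMP W ι s P C Δ a ha D i j h 4 hm
  have l : x.U 4 = Δ.RG a (P j) := hx.last h hm
  obtain ⟨q, hq, H⟩ := q4d.1 _ x
  refine ⟨q, hq, ?_⟩
  rwa [Sz4, hx.cm13 h hm, hx.cm24 h hm, MP.Cm, MP.Cm, hx.one h, l, D.card, D.card] at H

theorem root3 (T : Two Δ Δ' a a') (D : GD Δ a) (D' : GD Δ' a') {i j : ι} (h : i ≠ j)
    (x : MP 3 (Equiv.Perm C)) (y : MP 3 (Equiv.Perm C')) (hx : IsMP Δ a i j x)
    (hy : IsMP Δ' a' i j y) : ∃ Y, x.Iso y Y :=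
  (H21.BN.jobA2.2 _ _ x y).1 (by rw [hx.one h, hy.one h, D.card, D'.card, T.q_eq])

theorem root4 (T : Two Δ Δ' a a') (D : GD Δ a) (D' : GD Δ' a') {i j : ι} (h : i ≠ j)
    (hm : mm s i j = 4)
    (hc : Δ.q i = Δ.q j → (Δ.Cm a i j ∧ Δ'.Cm a' i j) ∨ (Δ.Cm a j i ∧ Δ'.Cm a' j i))
    (x : MP 4 (Equiv.Perm C)) (y : MP 4 (Equiv.Perm C')) (hx : IsMP Δ a i j x)
    (hy : IsMP Δ' a' i j y) : ∃ Y, x.Iso y Y := by
  have l : x.U 4 = Δ.RG a (P j) := hx.last h hm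
  have l' : y.U 4 = Δ'.RG a' (P j) := hy.last h hm
  refine q4d.2 _ _ x y (by rw [hx.one h, hy.one h, D.card, D'.card, T.q_eq])
    (by rw [l, l', D.card, D'.card, T.q_eq]) ?_
  rwa [hx.one h, l, D.card, D.card, hx.cm13 h hm, hy.cm13 h hm, hx.cm24 h hm, hy.cm24 h hm]

omit [Finite C'] in
/-- comparison with a model -/
theorem close (hR : JobRGS) (hB : JobModB) (ha : Δ.Apt a) (hM : Δ.Mou a) (hirr : Irr s)
    (h3 : Sph3 s) {n : ℕ} {M : ℕ → ℕ → ℕ} {e : Fin n ≃ ι} (hT : Typ s n M e) {qq : ℕ → ℕ}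
    {cm : ℕ → ℕ → Prop} (hmod : HasMod n M qq cm) (hq : ∀ i : Fin n, Δ.q (e i) = qq i)
    {r r1 : Fin n} (ht : Tree s (e r) (e r1))
    (hm : M r r1 = 3 ∨ (M r r1 = 4 ∧ (qq r = qq r1 →
      (Δ.Cm a (e r) (e r1) ∧ cm r r1) ∨ (Δ.Cm a (e r1) (e r) ∧ cm r1 r)))) : IsLie Δ a := by
  have hne : e r ≠ e r1 := ht.1.symm
  have : Nontrivial ι := ⟨_, _, hne⟩
  obtain ⟨C', _, Δ', a', ha', hM', hL, hq', hc'⟩ :=
    hB W ι s P Δ.E Δ.inj hirr this n M qq cm e hT hmod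
  have T : Two Δ Δ' a a' := ⟨fun i => by
    obtain ⟨i, rfl⟩ := e.surjective i
    rw [hq, hq'], ha, ha'⟩
  have D := jobGRD W ι s P C Δ a ha hirr this hM
  have D' := jobGRD W ι s P C' Δ' a' ha' hirr this hM'
  rw [← hT] at hm
  rcases hm with hm | ⟨hm, hc⟩
  · exact (uniq hR W ι s P C C' Δ Δ' a a' T hM hM' hirr h3 _ _ ht 3 hm le_rfl
      (root3 T D D' hne)).2 hL
  · refine (uniq hR W ι s P C C' Δ Δ' a a' T hM hM' hirr h3 _ _ ht 4 hm (by norm_num)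
      (root4 T D D' hne hm fun h => ?_)).2 hL
    rw [hq, hq] at h
    exact (hc h).imp (fun h => ⟨h.1, hc' _ _ h.2⟩) fun h => ⟨h.1, hc' _ _ h.2⟩

omit [Finite C'] in
/-- the parameters are constant along a chain of simple bonds -/
theorem chain (ha : Δ.Apt a) (D : GD Δ a) {n : ℕ} {M : ℕ → ℕ → ℕ} {e : Fin n ≃ ι}
    (hT : Typ s n M e) (l : ℕ) (hl : ∀ k, k + 1 < l → M k (k + 1) = 3) (z : Fin n)
    (hz : (z : ℕ) = 0) : ∀ (k : ℕ) (i : Fin n), (i : ℕ) = k → k < l → Δ.q (e i) = Δ.q (e z) := by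
  intro k
  induction k with
  | zero => intro i hi _; rw [show i = z from Fin.ext (by omega)]
  | succ k ih =>
    intro i hi hk
    have hk' : k < n := by have := i.2; omega
    rw [← ih ⟨k, hk'⟩ rfl (by omega)]
    refine (bond3 ha D (fun h => ?_) ?_).1.symm
    · have := congrArg Fin.val (e.injective h)
      simp at this; omega
    · rw [hT, hi]; exact hl k hk

end

theorem pp_two_le {q : ℕ} (h : IsPrimePow q) : 2 ≤ q := h.two_le

theorem ne_sq {q : ℕ} (h : IsPrimePow q) : q ≠ q ^ 2 ∧ q ^ 2 ≠ q ^ 3 := by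
  have := h.two_le
  constructor
  · nlinarith
  · nlinarith [Nat.pos_of_ne_zero (pow_ne_zero 2 (by omega : q ≠ 0))]

section
variable {W ι : Type} [Group W] [Finite W] {s : ι → W} {P : ι → Set W} {C : Type} [Finite C]
  {Δ : Bld s P C} {a : W → C}

theorem bond3' (ha : Δ.Apt a) (D : GD Δ a) {n : ℕ} {M : ℕ → ℕ → ℕ} {e : Fin n ≃ ι}
    (hT : Typ s n M e) (i j : Fin n) (h : (i : ℕ) ≠ j) (hm : M i j = 3) :
    Δ.q (e i) = Δ.q (e j) ∧ Ab Δ a (e i) ∧ IsPrimePow (Δ.q (e i)) :=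
  bond3 ha D (fun h' => h (congrArg Fin.val (e.injective h'))) (by rw [hT, hm])

theorem caseF (hR : JobRGS) (hB : JobModB) (hTree : JobTree) (ha : Δ.Apt a) (hM : Δ.Mou a)
    (hirr : Irr s) (D : GD Δ a) {e : Fin 4 ≃ ι} (hT : Typ s 4 mF e) {q : ℕ} (hq : IsPrimePow q)
    (h1 : Δ.q (e 1) = q) (h2 : (Δ.q (e 2) = q ∧ Δ.Cm a (e 1) (e 2)) ∨ Δ.q (e 2) = q ^ 2) :
    IsLie Δ a := by
  obtain ⟨h3, ht⟩ := hTree W ι s 4 mF e hT (by norm_num) 1 2 (by simp)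
  have c0 := (bond3' ha D hT 0 1 (by simp) (by simp [mF, mA])).1
  have c3 := (bond3' ha D hT 3 2 (by simp) (by simp [mF, mA])).1
  rcases h2 with ⟨h2, hc⟩ | h2
  · refine close hR hB ha hM hirr h3 hT (H2.BNM.modF q hq) (fun i => ?_) ht
      (Or.inr ⟨by simp [mF], fun _ => Or.inl ⟨hc, by simp⟩⟩)
    fin_cases i <;> simp_all
  · refine close hR hB ha hM hirr h3 hT (H2.BNM.mod2E q hq) (fun i => ?_) ht
      (Or.inr ⟨by simp [mF], fun h => absurd (by simpa [qs] using h) (ne_sq hq).1⟩)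
    fin_cases i <;> simp_all [qs]

theorem caseB (hR : JobRGS) (hB : JobModB) (ha : Δ.Apt a) (hM : Δ.Mou a)
    (hirr : Irr s) (D : GD Δ a) (h3 : Sph3 s) {n : ℕ} {e : Fin n ≃ ι} (hT : Typ s n (mB n) e)
    {r r1 : Fin n} (hr : (r : ℕ) + 2 = n) (hr1 : (r1 : ℕ) + 1 = n) (ht : Tree s (e r) (e r1))
    {x y : ℕ} (hx : Δ.q (e r) = x) (hy : Δ.q (e r1) = y) {cm : ℕ → ℕ → Prop}
    (hmod : HasMod n (mB n) (qs (n - 1) x y) cm)
    (hc : x = y → (Δ.Cm a (e r) (e r1) ∧ cm r r1) ∨ (Δ.Cm a (e r1) (e r) ∧ cm r1 r)) :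
    IsLie Δ a := by
  have ch := chain ha D hT (n - 1) (fun k hk => by
    rw [mB, if_neg (by omega)]; simp [mA]) ⟨0, by omega⟩ rfl
  refine close hR hB ha hM hirr h3 hT hmod (fun i => ?_) ht (Or.inr ⟨?_, fun h => hc ?_⟩)
  · rw [qs]
    split_ifs with h
    · rw [ch _ i rfl h, ← hx, ch _ r rfl (by omega)]
    · rw [show i = r1 from Fin.ext (by have := i.2; omega), hy]
  · simp only [mB]; rw [if_pos (by omega)]
  · simp only [qs] at h
    rwa [if_pos (by omega), if_neg (by omega)] at h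

theorem qs_self (k q : ℕ) : qs k q q = fun _ => q := funext fun i => by simp [qs]

end

theorem jobClass (hTree : JobTree) (hD : JobDeep) (hC : JobCX) (hR : JobRGS) (hB : JobModB) :
    JobClass := by
  intro W ι _ _ s P C _ Δ a ha hirr h3 hm
  have E := Δ.E
  have : Finite ι := Finite.of_injective s Δ.inj
  have := Fintype.ofFinite ι
  obtain ⟨n, M, e, ⟨hn, hM⟩, hT⟩ := H19.Dyn.jobDyn ι (mm s) (fun i => by simp [mm, E.sq])
    (mm_comm E) hm (fun J h1 h2 => by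
      obtain ⟨i, hi, j, hj, h⟩ := hirr J h1 h2
      exact ⟨i, hi, j, hj, fun h' => h ((comm_iff_mm E Δ.inj (fun e : i = j => hj (e ▸ hi))).2 h')⟩)
    (by rwa [← Nat.card_eq_fintype_card]) (H19.BNPD.jobPD W ι s P E Δ.inj hirr)
  have hT : Typ s n M e := hT
  let f : ∀ k, k < n → Fin n := fun k h => ⟨k, h⟩
  have mou : Sph3 s → Δ.Mou a := fun h => jobMou hD hC W ι s P C Δ a ha h hirr
    ⟨e (f 0 (by omega)), e (f 1 (by omega)), e (f 2 (by omega)), by simp [f], by simp [f],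
      by simp [f]⟩
  have nt : Nontrivial ι := ⟨e (f 0 (by omega)), e (f 1 (by omega)), by simp [f]⟩
  have simply : ∀ l : ℕ, (∀ k, k + 1 < l → M k (k + 1) = 3) → 2 ≤ l →
      (∀ i : Fin n, l ≤ i → ∃ j : Fin n, (j : ℕ) < l ∧ M i j = 3) →
      (∀ q, IsPrimePow q → HasMod n M (fun _ => q) fun _ _ => False) →
      Sph3 s ∧ Tree s (e (f 0 (by omega))) (e (f 1 (by omega))) → Δ.Mou a ∧ IsLie Δ a := by
    rintro l hl h2 hb hmod ⟨h3, ht⟩
    have hM := mou h3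
    have D := jobGRD W ι s P C Δ a ha hirr nt hM
    have ch := chain ha D hT l hl (f 0 (by omega)) rfl
    have m01 : M (f 0 (by omega)) (f 1 (by omega)) = 3 := hl 0 (by omega)
    refine ⟨hM, close hR hB ha hM hirr h3 hT
      (hmod _ (bond3' ha D hT _ _ (by simp [f]) m01).2.2) (fun i => ?_) ht (Or.inl m01)⟩
    by_cases h : (i : ℕ) < l
    · exact ch _ i rfl h
    · obtain ⟨j, hj, h'⟩ := hb i (by omega)
      rw [(bond3' ha D hT i j (by omega) h').1]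
      exact ch _ j rfl hj
  rcases hM with rfl | rfl | ⟨h4, rfl⟩ | ⟨h6, h8, rfl⟩ | ⟨rfl, rfl⟩
  · exact simply n (fun k _ => by simp [mA]) (by omega) (fun i h => absurd i.2 (by omega))
      (fun q hq => H54.BNM.modA n q (by omega) hq) (hTree W ι s n _ e hT hn _ _ (by simp [f]))
  · have hr : (f (n - 2) (by omega) : ℕ) + 2 = n := by simp only [f]; omega
    have hr1 : (f (n - 1) (by omega) : ℕ) + 1 = n := by simp only [f]; omega
    obtain ⟨h3, ht⟩ := hTree W ι s n _ e hT hn _ _ (Or.inr (Or.inl ⟨rfl, hr, hr1⟩))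
    have hM := mou h3
    have D := jobGRD W ι s P C Δ a ha hirr nt hM
    refine ⟨hM, ?_⟩
    have cB := @caseB W ι _ _ s P C _ Δ a hR hB ha hM hirr D h3 n e hT _ _ hr hr1 ht
    obtain ⟨q, hq, H⟩ := bond4 ha D ht.1.symm (by rw [hT, mB, if_pos (by omega)])
    rcases H with ⟨hx, hy, hc, he⟩ | ⟨hx, hy⟩ | ⟨hx, hy⟩ | ⟨-, -, h⟩ | ⟨hx, hy, -⟩
    · by_cases hc' : Δ.Cm a (e (f (n - 1) (by omega))) (e (f (n - 2) (by omega)))
      · exact cB hx hy (by rw [qs_self]; exact H54.BNM.modC n q (by omega) hq (by omega))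
          (cm := fun i j => i + 1 = n ∧ j + 2 = n) fun _ => Or.inr ⟨hc', hr1, hr⟩
      · exact cB hx hy (by
          rw [qs_self]
          exact H54.BNM.modB n q hn hq (Nat.not_even_iff_odd.1 fun h => hc' (he h).2))
          (cm := fun i j => i + 2 = n ∧ j + 1 = n) fun _ => Or.inl ⟨hc.resolve_right hc', hr, hr1⟩
    · exact cB hx hy (H54.BNM.mod2D n q hn hq) fun h => absurd h (ne_sq hq).1
    · exact cB hx hy (H54.BNM.mod2Ae n q (by omega) hq) fun h => absurd h.symm (ne_sq hq).1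
    · refine absurd (bond3' ha D hT _ (f (n - 3) (by omega)) (by simp only [f]; omega) ?_).2.1 h
      simp only [f, mB, mA]; split_ifs <;> omega
    · exact cB hx hy (H54.BNM.mod2Ao n q (by omega) hq) fun h => absurd h (ne_sq hq).2
  · refine simply (n - 1) (fun k hk => ?_) (by omega) (fun i h => ⟨f (n - 3) (by omega), ?_, ?_⟩)
      (fun q hq => H54.BNM.modD n q h4 hq) (hTree W ι s n _ e hT hn _ _ (by simp [f, h4]))
    · rw [mD, if_neg (by omega), if_neg (by omega)]; simp [mA]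
    · simp only [f]; omega
    · have := i.2
      simp only [f, mD, mA]; split_ifs <;> omega
  · refine simply (n - 1) (fun k hk => ?_) (by omega) (fun i h => ⟨f 2 (by omega), ?_, ?_⟩)
      (fun q hq => H2.BNM.modE n q h6 h8 hq) (hTree W ι s n _ e hT hn _ _ (by simp [f, h6]))
    · rw [mE, if_neg (by omega), if_neg (by omega)]; simp [mA]
    · simp only [f]; omega
    · have := i.2
      simp only [f]
      rw [mE, if_neg (by omega), if_pos (by omega), if_pos (by omega)]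
  · obtain ⟨h3, ht⟩ := hTree W ι s 4 mF e hT hn 1 2 (by simp)
    have hM := mou h3
    have D := jobGRD W ι s P C Δ a ha hirr nt hM
    refine ⟨hM, ?_⟩
    have hT' : Typ s 4 mF (Fin.revPerm.trans e) := fun i j => by
      rw [Equiv.trans_apply, Equiv.trans_apply, hT]
      revert i j; decide
    obtain ⟨q, hq, H⟩ := bond4 ha D ht.1.symm (by rw [hT]; rfl)
    rcases H with ⟨hx, hy, hc | hc, -⟩ | ⟨hx, hy⟩ | ⟨hx, hy⟩ | ⟨-, -, h⟩ | ⟨-, -, h⟩
    · exact caseF hR hB hTree ha hM hirr D hT hq hx (Or.inl ⟨hy, hc⟩)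
    · exact caseF hR hB hTree ha hM hirr D hT' hq hy (Or.inl ⟨hx, hc⟩)
    · exact caseF hR hB hTree ha hM hirr D hT hq hx (Or.inr hy)
    · exact caseF hR hB hTree ha hM hirr D hT' hq hy (Or.inr hx)
    · exact absurd (bond3' ha D hT 1 0 (by simp) rfl).2.1 h
    · exact absurd (bond3' ha D hT 2 3 (by simp) rfl).2.1 h

end H12.BN
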