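/- BN tower (blueprints/BN.md): from buildings to groups with a (B,N)-pair. -/
import Cfsg.Agent.H12.BNClass
import Cfsg.Agent.H19.BNCox
import Cfsg.Agent.H38.BNFin
import Cfsg.Agent.H38.BNModB
import Cfsg.Agent.H67.SBNMap
import Cfsg.Prelude.Def_Classification2
import Cfsg.Prelude.Def_LieRecognition

set_option autoImplicit false

namespace H12.BN

open H67 H64 H54 Cfsg

/-- the conclusion of the recognition theorems -/
def LieT (G : Type*) [Group G] : Prop :=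
  IsPSL G ∨ IsPSp G ∨ IsPSU G ∨ IsPOmegaOdd G ∨ IsPOmegaPlus G ∨ IsPOmegaMinus G ∨
    IsExceptionalLieType G

theorem lieT_of_char {p : ℕ} {G : Type*} [Group G] (h : IsLieTypeChar p G) : LieT G := by
  unfold LieT IsExceptionalLieType
  rcases h with ⟨F, i, j, _, h⟩ | ⟨F, i, j, _, h⟩ | ⟨F, i, j, _, h⟩ | ⟨F, i, j, _, h⟩ |
    ⟨F, i, j, _, h⟩ | ⟨F, i, j, _, h⟩ | ⟨F, i, j, _, h | h | h | h | h⟩ |
    ⟨F, i, j, _, q, hq, h | h⟩ | ⟨-, h⟩ | ⟨-, h⟩ | ⟨-, h⟩
  · exact .inl ⟨F, i, j, h⟩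
  · exact .inr (.inl ⟨F, i, j, h⟩)
  · exact .inr (.inr (.inl ⟨F, i, j, h⟩))
  · exact .inr (.inr (.inr (.inl ⟨F, i, j, h⟩)))
  · exact .inr (.inr (.inr (.inr (.inl ⟨F, i, j, h⟩))))
  · exact .inr (.inr (.inr (.inr (.inr (.inl ⟨F, i, j, h⟩)))))
  all_goals iterate 6 right
  · exact .inl ⟨F, i, j, h⟩
  · exact .inr (.inl ⟨F, i, j, h⟩)
  · exact .inr (.inr (.inl ⟨F, i, j, h⟩))
  · exact .inr (.inr (.inr (.inl ⟨F, i, j, h⟩)))
  · exact .inr (.inr (.inr (.inr (.inl ⟨F, i, j, h⟩))))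
  · exact .inr (.inr (.inr (.inr (.inr (.inl ⟨F, i, j, q, hq, h⟩)))))
  · exact .inr (.inr (.inr (.inr (.inr (.inr (.inl ⟨F, i, j, q, hq, h⟩))))))
  · simp [h]
  · simp [h]
  · simp [h]

theorem irr_sim {G : Type} [Group G] {P : BNPair G} (h : P.Irreducible) : Irr (sim P) :=
  fun J h1 ⟨j, hj⟩ => by
    obtain ⟨i, hi, k, hk, e⟩ := exists_not_commute_of_irreducible h h1
      (fun e => hj (e ▸ Set.mem_univ j))
    exact ⟨i, hi, k, hk, e.symm⟩

/-- a copy of a finite group with a (B,N)-pair in `Type` -/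
theorem exists_small {G : Type*} [Group G] [Finite G] (P : BNPair G) :
    ∃ (G' : Type) (_ : Group G') (_ : Finite G') (e : G ≃* G') (P' : BNPair G'),
      P'.B = P.B.map e.toMonoidHom ∧ P'.N = P.N.map e.toMonoidHom ∧ P'.rank = P.rank ∧
      (P.Irreducible → P'.Irreducible) := by
  obtain ⟨G', _, _, ⟨e⟩⟩ := Finite.exists_type_univ_nonempty_mulEquiv.{_, 0} G
  have hk : e.toMonoidHom.ker ≤ P.B := by
    rw [(MonoidHom.ker_eq_bot_iff _).2 e.injective]; exact bot_le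
  exact ⟨G', inferInstance, inferInstance, e, bnMap P e.toMonoidHom e.surjective hk, rfl, rfl,
    Nat.card_image_of_injective e.injective _, fun h => bnMap_irreducible h _ _ _⟩

theorem modB : JobModB := H38.BNF.jobModB jobBld jobGRD

theorem fin : JobFin := H38.BNF.jobFin jobGRD

theorem mou : JobMou := jobMou H19.BNCox.jobDeep H19.BNCox.jobCX

theorem cls (hR : JobRGS) : JobClass :=
  jobClass H19.BNCox.jobTree H19.BNCox.jobDeep H19.BNCox.jobCX hR modB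

theorem tits (hR : JobRGS) {G : Type*} [Group G] [Finite G] [IsSimpleGroup G]
    (P : BNPair G) (h3 : 3 ≤ P.rank) (hirr : P.Irreducible) :
    ∃ p : ℕ, p.Prime ∧ IsLieTypeChar p G := by
  obtain ⟨G', _, _, e, P', -, -, hr, hi⟩ := exists_small P
  have : IsSimpleGroup G' := e.symm.isSimpleGroup
  rw [← hr] at h3
  obtain ⟨Δ, a, hδ, ha, hn⟩ := jobBld G' P'
  have hi := irr_sim (hi hirr)
  obtain ⟨hM, hL⟩ := cls hR _ _ _ _ _ Δ a ha hi h3 fun i j => feit_higman i j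
  obtain ⟨p, hp, h⟩ := fin G' P' Δ a hδ ha hn hi
    (Finite.one_lt_card_iff_nontrivial.1 (lt_of_lt_of_le (by norm_num) h3)) hM hL
  exact ⟨p, hp, H55.BNU.lieType_congr e h⟩

end H12.BN
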