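/- Polygons with a strongly transitive group, in the coordinates of an apartment. -/
import Cfsg.Agent.H98.Core
import Cfsg.Agent.H14.Local

set_option autoImplicit false

namespace H12.BP

open Subgroup MulAction

universe u

/-- An apartment `x` of a thick generalized `n`-gon (graph `E`) with a strongly transitive faithful group. -/
structure Pol (n : ℕ) (G : Type u) {V : Type u} [Group G] [MulAction G V] (E : V → V → Prop) where
  x : ℤ → V
  three : 3 ≤ n
  adj : ∀ u v, E u v ↔ ∃ (g : G) (i : ℤ), g • x i = u ∧ g • x (i + 1) = v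
  per : ∀ i, x (i + 2 * n) = x i
  refl : ∀ i, ∃ g : G, ∀ j, g • x j = x (2 * i - j)
  typ : ∀ (g : G) i j, g • x i = x j → Even (i - j)
  ne : ∀ i, x (i - 1) ≠ x (i + 1)
  geo : ∀ (g : G) (i j k : ℤ), i ≤ k → k ≤ j → j < i + n → g • x i = x i → g • x j = x j → g • x k = x k
  tr : ∀ (g : G) (i : ℤ), g • x i = x i → g • x (i - 1) ≠ x (i + 1) →
    ∃ t : G, (∀ j, i ≤ j → j ≤ i + n → t • x j = x j) ∧ t • x (i - 1) = g • x (i - 1)
  thick : ∀ i, ∃ g : G, g • x i = x i ∧ g • x (i - 1) ≠ x (i - 1) ∧ g • x (i - 1) ≠ x (i + 1)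
  rig : ∀ (g : G) i, (∀ j, g • x j = x j) → (∀ w, E (x i) w → g • w = w) →
    (∀ w, E (x (i + 1)) w → g • w = w) → g = 1

variable {n : ℕ} {G V : Type u} [Group G] [MulAction G V] {E : V → V → Prop}

variable (G E) in
/-- Pointwise stabiliser of the ball of radius `k`. -/
def Bl : ℕ → V → Subgroup G
  | 0, y => stabilizer G y
  | k + 1, y => stabilizer G y ⊓ ⨅ w, ⨅ _ : E y w, Bl k w

theorem mem_Bl0 {y : V} {g : G} : g ∈ Bl G E 0 y ↔ g • y = y := Iff.rfl

theorem mem_BlS {k : ℕ} {y : V} {g : G} :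
    g ∈ Bl G E (k + 1) y ↔ g • y = y ∧ ∀ w, E y w → g ∈ Bl G E k w := by
  simp [Bl, mem_iInf]

theorem mem_Bl1 {y : V} {g : G} : g ∈ Bl G E 1 y ↔ g • y = y ∧ ∀ w, E y w → g • w = w :=
  mem_BlS

theorem Bl.fix {k : ℕ} {y : V} {g : G} (h : g ∈ Bl G E k y) : g • y = y := by
  cases k with
  | zero => exact h
  | succ k => exact (mem_BlS.1 h).1

theorem Bl.nb {k : ℕ} {y w : V} {g : G} (h : g ∈ Bl G E (k + 1) y) (e : E y w) : g ∈ Bl G E k w :=
  (mem_BlS.1 h).2 w e

theorem Bl.pred {k : ℕ} : ∀ {y : V} {g : G}, g ∈ Bl G E (k + 1) y → g ∈ Bl G E k y := by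
  induction k with
  | zero => intro y g h; exact Bl.fix h
  | succ k ih => intro y g h; exact mem_BlS.2 ⟨Bl.fix h, fun w e => ih (Bl.nb h e)⟩

theorem Bl.mono {k l : ℕ} {y : V} {g : G} (h : g ∈ Bl G E l y) (hkl : k ≤ l) : g ∈ Bl G E k y := by
  induction hkl with
  | refl => exact h
  | step _ ih => exact ih (Bl.pred h)

theorem cj_fix {g a : G} {y : V} (h : a • y = y) : (g * a * g⁻¹) • g • y = g • y := by
  rw [mul_smul, mul_smul, inv_smul_smul, h]

theorem inv_fix {g : G} {y : V} (h : g • y = y) : g⁻¹ • y = y := by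
  rw [inv_smul_eq_iff, h]

theorem mul_fix {g a : G} {y : V} (h : g • y = y) (h' : a • y = y) : (g * a) • y = y := by
  rw [mul_smul, h', h]

namespace Pol

variable (P : Pol n G E)

theorem xe {i j : ℤ} (h : i = j) : P.x i = P.x j := h ▸ rfl

include P in
theorem einv {u v : V} (g : G) (h : E u v) : E (g • u) (g • v) := by
  obtain ⟨a, i, rfl, rfl⟩ := (P.adj _ _).1 h
  exact (P.adj _ _).2 ⟨g * a, i, mul_smul _ _ _, mul_smul _ _ _⟩

include P in
theorem esym {u v : V} (h : E u v) : E v u := by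
  obtain ⟨a, i, rfl, rfl⟩ := (P.adj _ _).1 h
  obtain ⟨r, hr⟩ := P.refl i
  refine (P.adj _ _).2 ⟨a * r, i - 1, ?_, ?_⟩ <;> rw [mul_smul, hr] <;> congr 2 <;> ring

theorem ex {i j : ℤ} (h : j = i + 1 ∨ i = j + 1) : E (P.x i) (P.x j) := by
  rcases h with rfl | rfl
  · exact (P.adj _ _).2 ⟨1, i, one_smul _ _, one_smul _ _⟩
  · exact P.esym ((P.adj _ _).2 ⟨1, j, one_smul _ _, one_smul _ _⟩)

theorem nx {i j : ℤ} (h : j = i + 2 ∨ i = j + 2) : P.x i ≠ P.x j := by
  rcases h with rfl | rfl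
  · have := P.ne (i + 1)
    rwa [P.xe (by ring : i + 1 - 1 = i), P.xe (by ring : i + 1 + 1 = i + 2)] at this
  · have := P.ne (j + 1)
    rw [P.xe (by ring : j + 1 - 1 = j), P.xe (by ring : j + 1 + 1 = j + 2)] at this
    exact this.symm

include P in
theorem einv' {u v : V} {g : G} (hg : g • u = u) (h : E u v) : E u (g • v) := by
  simpa [hg] using P.einv g h

theorem rot (k : ℤ) : ∃ g : G, ∀ j, g • P.x j = P.x (j + 2 * k) := by
  obtain ⟨r, hr⟩ := P.refl 0
  obtain ⟨s, hs⟩ := P.refl k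
  exact ⟨s * r, fun j => by rw [mul_smul, hr, hs]; exact P.xe (by ring)⟩

theorem nb {i : ℤ} {w : V} (h : E (P.x i) w) : ∃ g : G, g • P.x i = P.x i ∧ g • P.x (i - 1) = w := by
  obtain ⟨a, j, h1, h2⟩ := (P.adj _ _).1 (P.esym h)
  obtain ⟨k, hk⟩ := P.typ a _ _ h2
  obtain ⟨r, hr⟩ := P.rot k
  refine ⟨a * r, ?_, ?_⟩
  · rw [mul_smul, hr, ← h2]; congr 2; omega
  · rw [mul_smul, hr, ← h1]; congr 2; omega

/-- Translate of the apartment. -/
def sm (t : G) : Pol n G E where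
  x j := t • P.x j
  three := P.three
  adj u v := (P.adj u v).trans ⟨fun ⟨g, i, h1, h2⟩ => ⟨g * t⁻¹, i, by simpa [mul_smul] using h1,
    by simpa [mul_smul] using h2⟩, fun ⟨g, i, h1, h2⟩ => ⟨g * t, i, by rwa [mul_smul], by rwa [mul_smul]⟩⟩
  per i := by rw [P.per]
  refl i := by
    obtain ⟨g, hg⟩ := P.refl i
    exact ⟨t * g * t⁻¹, fun j => by rw [mul_smul, mul_smul, inv_smul_smul, hg]⟩
  typ g i j h := P.typ (t⁻¹ * g * t) i j (by rw [mul_smul, mul_smul, h, inv_smul_smul])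
  ne i h := P.ne i (MulAction.injective t h)
  geo g i j k h1 h2 h3 hi hj := by
    have := P.geo (t⁻¹ * g * t) i j k h1 h2 h3 (by rw [mul_smul, mul_smul, hi, inv_smul_smul])
      (by rw [mul_smul, mul_smul, hj, inv_smul_smul])
    rwa [mul_smul, mul_smul, inv_smul_eq_iff] at this
  tr g i hi hn := by
    obtain ⟨s, h1, h2⟩ := P.tr (t⁻¹ * g * t) i (by rw [mul_smul, mul_smul, hi, inv_smul_smul])
      (by rwa [mul_smul, mul_smul, Ne, inv_smul_eq_iff])
    refine ⟨t * s * t⁻¹, fun j a b => cj_fix (h1 j a b), ?_⟩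
    rw [mul_smul, mul_smul, inv_smul_smul, h2, mul_smul, mul_smul, smul_inv_smul]
  thick i := by
    obtain ⟨g, h1, h2, h3⟩ := P.thick i
    refine ⟨t * g * t⁻¹, cj_fix h1, ?_, ?_⟩ <;>
      rw [mul_smul, mul_smul, inv_smul_smul, Ne, smul_left_cancel_iff] <;> assumption
  rig g i h0 h1 h2 := by
    have k : ∀ j, (∀ w, E (t • P.x j) w → g • w = w) → ∀ w, E (P.x j) w → (t⁻¹ * g * t) • w = w :=
      fun j h w e => by rw [mul_smul, mul_smul, h _ (P.einv t e), inv_smul_smul]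
    have := P.rig (t⁻¹ * g * t) i (fun j => by rw [mul_smul, mul_smul, h0, inv_smul_smul]) (k _ h1) (k _ h2)
    calc g = t * (t⁻¹ * g * t) * t⁻¹ := by group
      _ = 1 := by rw [this]; group

/-- Shift of the numbering. -/
def sh (c : ℤ) : Pol n G E where
  x j := P.x (j + c)
  three := P.three
  adj u v := (P.adj u v).trans ⟨fun ⟨g, i, h1, h2⟩ => ⟨g, i - c, by rwa [sub_add_cancel],
    by rwa [P.xe (by ring : i - c + 1 + c = i + 1)]⟩, fun ⟨g, i, h1, h2⟩ => ⟨g, i + c, h1,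
    by rwa [P.xe (by ring : i + c + 1 = i + 1 + c)]⟩⟩
  per i := by rw [← P.per (i + c)]; exact P.xe (by ring)
  refl i := by
    obtain ⟨g, hg⟩ := P.refl (i + c)
    exact ⟨g, fun j => by rw [hg]; exact P.xe (by ring)⟩
  typ g i j h := by simpa using P.typ g _ _ h
  ne i := P.nx (by omega)
  geo g i j k h1 h2 h3 hi hj := P.geo g (i + c) (j + c) (k + c) (by omega) (by omega) (by omega) hi hj
  tr g i hi hn := by
    rw [P.xe (by ring : i - 1 + c = i + c - 1), P.xe (by ring : i + 1 + c = i + c + 1)] at *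
    obtain ⟨s, h1, h2⟩ := P.tr g (i + c) hi hn
    exact ⟨s, fun j a b => h1 _ (by omega) (by omega), h2⟩
  thick i := by
    rw [P.xe (by ring : i - 1 + c = i + c - 1), P.xe (by ring : i + 1 + c = i + c + 1)]
    exact P.thick (i + c)
  rig g i h0 h1 h2 := P.rig g (i + c) (fun j => by simpa using h0 (j - c)) h1
    (by rwa [P.xe (by ring : i + c + 1 = i + 1 + c)])

/-- Reversal of the numbering. -/
noncomputable def re (c : ℤ) : Pol n G E := (P.sm (P.refl 0).choose).sh (-c)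

@[simp] theorem sm_x (t : G) (j : ℤ) : (P.sm t).x j = t • P.x j := rfl
@[simp] theorem sh_x (c j : ℤ) : (P.sh c).x j = P.x (j + c) := rfl
@[simp] theorem re_x (c j : ℤ) : (P.re c).x j = P.x (c - j) := by
  show (P.refl 0).choose • P.x (j + -c) = _
  rw [(P.refl 0).choose_spec]; exact P.xe (by ring)

theorem tr' {i : ℤ} {w : V} (h : E (P.x i) w) (hw : w ≠ P.x (i + 1)) :
    ∃ t : G, (∀ j, i ≤ j → j ≤ i + n → t • P.x j = P.x j) ∧ t • P.x (i - 1) = w := by
  obtain ⟨g, h1, rfl⟩ := P.nb h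
  exact P.tr g i h1 hw

theorem tr'' {i : ℤ} {w : V} (h : E (P.x i) w) (hw : w ≠ P.x (i - 1)) :
    ∃ t : G, (∀ j, i - n ≤ j → j ≤ i → t • P.x j = P.x j) ∧ t • P.x (i + 1) = w := by
  obtain ⟨t, h1, h2⟩ := (P.re i).tr' (i := 0) (w := w) (by simpa using h) (by simpa using hw)
  refine ⟨t, fun j a b => ?_, by simpa using h2⟩
  simpa using h1 (i - j) (by omega) (by omega)

theorem perk (i : ℤ) (k : ℤ) : P.x (i + k * (2 * n)) = P.x i := by
  induction k using Int.induction_on with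
  | zero => simp
  | succ k ih => rw [← ih, ← P.per (i + k * (2 * n))]; exact P.xe (by ring)
  | pred k ih => rw [← ih, ← P.per]; exact P.xe (by ring)

theorem all {g : G} (i : ℤ) (h : ∀ j, i ≤ j → j ≤ i + n + 1 → g • P.x j = P.x j) (j : ℤ) :
    g • P.x j = P.x j := by
  have h3 := P.three
  have hn : (0 : ℤ) < 2 * n := by omega
  have e : j = i + (j - i) % (2 * n) + (j - i) / (2 * n) * (2 * n) := by
    have := Int.emod_add_mul_ediv (j - i) (2 * n)
    linear_combination -this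
  have h0 := Int.emod_nonneg (j - i) hn.ne'
  have h1 := Int.emod_lt_of_pos (j - i) hn
  rw [e, P.perk]
  by_cases c : (j - i) % (2 * n) ≤ n + 1
  · exact h _ (by omega) (by omega)
  · exact P.geo g (i + n + 1) (i + 2 * n) _ (by omega) (by omega) (by omega) (h _ (by omega) le_rfl)
      (by rw [P.per]; exact h _ le_rfl (by omega))

theorem triv {g : G} (i j : ℤ) (h : ∀ k, i ≤ k → k ≤ i + n + 1 → g • P.x k = P.x k)
    (h1 : g ∈ Bl G E 1 (P.x j)) (h2 : g ∈ Bl G E 1 (P.x (j + 1))) : g = 1 :=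
  P.rig g j (P.all i h) (mem_Bl1.1 h1).2 (mem_Bl1.1 h2).2

include P in
theorem Bl_cj {k : ℕ} (g : G) : ∀ {y : V} {a : G}, a ∈ Bl G E k y → g * a * g⁻¹ ∈ Bl G E k (g • y) := by
  induction k with
  | zero => intro y a h; exact cj_fix h
  | succ k ih =>
    intro y a h
    refine mem_BlS.2 ⟨cj_fix (Bl.fix h), fun w e => ?_⟩
    have := ih (Bl.nb h (w := g⁻¹ • w) (by simpa using P.einv g⁻¹ e))
    rwa [smul_inv_smul] at this

include P in
theorem Bl_cj' {k : ℕ} {g a : G} {y : V} (hg : g • y = y) (h : a ∈ Bl G E k y) :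
    g * a * g⁻¹ ∈ Bl G E k y := by simpa [hg] using P.Bl_cj g h

theorem Bl_x {k : ℕ} {g : G} {i : ℤ} (h : g ∈ Bl G E k (P.x i)) (l : ℕ) (j : ℤ)
    (hj : (j - i).natAbs + l ≤ k) : g ∈ Bl G E l (P.x j) := by
  induction k generalizing i with
  | zero => rw [P.xe (by omega : j = i), (by omega : l = 0)]; exact h
  | succ k ih =>
    rcases lt_trichotomy j i with c | c | c
    · exact ih (i := i - 1) (Bl.nb h (P.ex (by omega))) (by omega)
    · rw [c]; exact Bl.mono h (by omega)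
    · exact ih (i := i + 1) (Bl.nb h (P.ex (by omega))) (by omega)

theorem Bl_fx {k : ℕ} {g : G} {i : ℤ} (h : g ∈ Bl G E k (P.x i)) (j : ℤ) (hj : (j - i).natAbs ≤ k) :
    g • P.x j = P.x j := P.Bl_x h 0 j hj

/-- Two balls whose union contains a long path. -/
theorem Bl_triv {k l : ℕ} {g : G} {i j : ℤ} (h : g ∈ Bl G E k (P.x i)) (h' : g ∈ Bl G E l (P.x j))
    (hk : 2 ≤ k) (h1 : j - l ≤ i + k + 1) (h2 : i - k + n + 1 ≤ j + l) : g = 1 := by
  refine P.triv (i - k) i (fun m a b => ?_) (P.Bl_x h 1 _ (by omega)) (P.Bl_x h 1 _ (by omega))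
  by_cases c : m ≤ i + k
  · exact P.Bl_fx h m (by omega)
  · exact P.Bl_fx h' m (by omega)

include P in
theorem exP {u v : V} (h : E u v) (i : ℤ) : ∃ Q : Pol n G E, Q.x i = u ∧ Q.x (i + 1) = v := by
  obtain ⟨g, j, h1, h2⟩ := (P.adj _ _).1 h
  exact ⟨(P.sm g).sh (j - i), by simpa using h1, by
    rw [sh_x, sm_x, P.xe (by ring : i + 1 + (j - i) = j + 1), h2]⟩

include P in
theorem tr2 {u v w : V} (h : E v u) (h' : E v w) : ∃ g : G, g • v = v ∧ g • u = w := by
  obtain ⟨Q, rfl, rfl⟩ := P.exP h 0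
  obtain ⟨a, a1, a2⟩ := Q.nb h
  obtain ⟨b, b1, b2⟩ := Q.nb h'
  exact ⟨b * a⁻¹, mul_fix b1 (inv_fix a1), by rw [mul_smul, ← a2, inv_smul_smul, b2]⟩

include P in
theorem third {u v y : V} (h : E v u) (hy : E v y) : ∃ w, E v w ∧ w ≠ u ∧ w ≠ y := by
  obtain ⟨Q, rfl, rfl⟩ := P.exP h 0
  obtain ⟨g, h1, h2, h3⟩ := Q.thick 0
  have e0 : E (Q.x 0) (Q.x (0 - 1)) := Q.ex (by omega)
  by_cases c : y = Q.x (0 - 1)
  · exact ⟨_, Q.einv' h1 e0, h3, c ▸ h2⟩
  · exact ⟨_, e0, Q.ne 0, Ne.symm c⟩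

/-- Opposite vertices have equivalent stars. -/
theorem opp {i : ℤ} {K : Subgroup G} (hK : ∀ g ∈ K, ∀ j, i ≤ j → j ≤ i + n → g • P.x j = P.x j)
    (h : ∀ w, E (P.x (i + n)) w → w ≠ P.x (i + n - 1) → ∃ g ∈ K, g • P.x (i + n + 1) = w)
    {y : V} (hy : E (P.x i) y) (hy' : y ≠ P.x (i + 1)) : ∃ g ∈ K, g • P.x (i - 1) = y := by
  have h3 := P.three
  obtain ⟨t, t1, rfl⟩ := P.tr' hy hy'
  obtain ⟨g, hg, e⟩ := h (t • P.x (i + n + 1)) (P.einv' (t1 _ (by omega) le_rfl) (P.ex (by omega))) (by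
    rw [← t1 (i + n - 1) (by omega) (by omega), Ne, smul_left_cancel_iff]; exact P.nx (by omega))
  refine ⟨g, hg, ?_⟩
  rw [← inv_smul_eq_iff, ← mul_smul]
  refine P.all i (fun j a b => ?_) _
  rw [mul_smul, inv_smul_eq_iff]
  by_cases c : j ≤ i + n
  · rw [hK g hg j a c, t1 j a c]
  · rw [P.xe (by omega : j = i + n + 1), e]

theorem tripod (z : G) (b : ℤ) (hb : z • P.x b = P.x b) (hm : z • P.x (b - 1) ≠ P.x (b - 1)) (j : ℕ)
    (hj : j ≤ n + 1) : ∃ t : G, (∀ i, b + j - (n + 1) ≤ i → i ≤ b → t • P.x i = P.x i) ∧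
      ∀ i : ℤ, 0 ≤ i → i ≤ j → t • P.x (b + i) = z • P.x (b - i) := by
  induction j with
  | zero =>
    exact ⟨1, fun _ _ _ => one_smul _ _, fun i a c => by
      rw [one_smul, P.xe (by omega : b + i = b), P.xe (by omega : b - i = b), hb]⟩
  | succ j ih =>
    obtain ⟨t, t1, t2⟩ := ih (by omega)
    obtain ⟨s, s1, s2⟩ := (P.sm t).tr'' (i := b + j) (w := z • P.x (b - (j + 1))) (by
      rw [sm_x, t2 j (by omega) le_rfl]; exact P.einv z (P.ex (by omega))) (by
      rw [sm_x]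
      rcases Nat.eq_zero_or_pos j with rfl | c
      · rw [t1 _ (by omega) (by omega)]; simpa using hm
      · rw [P.xe (by ring : b + j - 1 = b + (j - 1 : ℤ)), t2 _ (by omega) (by omega), Ne,
          smul_left_cancel_iff]
        exact P.nx (by omega))
    simp only [sm_x] at s1 s2
    refine ⟨s * t, fun i a c => ?_, fun i a c => ?_⟩
    · rw [mul_smul, s1 i (by push_cast at a; omega) (by omega), t1 i (by push_cast at a; omega) c]
    · by_cases d : i ≤ j
      · rw [mul_smul, s1 _ (by omega) (by omega), t2 i a d]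
      · rw [mul_smul, P.xe (by push_cast at c; omega : b + i = b + j + 1), s2]
        congr 2; push_cast at c; omega

/-- Elements commuting with `z` that fix a long leg fix a second neighbour of its end. -/
theorem tri (z : G) {c b : ℤ} (hb : z • P.x b = P.x b) (hm : z • P.x (b - 1) ≠ P.x (b - 1))
    (h1 : n + 1 ≤ 2 * (b - c)) (h2 : b - c ≤ n + 1) : ∃ y, E (P.x c) y ∧ y ≠ P.x (c + 1) ∧
      ∀ g : G, g * z = z * g → (∀ i, c ≤ i → i ≤ b → g • P.x i = P.x i) → g • y = y := by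
  have h3 := P.three
  obtain ⟨t, t1, t2⟩ := P.tripod z b hb hm (n + 1 - (b - c)).toNat (by omega)
  refine ⟨t • P.x (c - 1), P.einv' (t1 _ (by omega) (by omega)) (P.ex (by omega)), ?_, fun g hg h => ?_⟩
  · rw [← t1 (c + 1) (by omega) (by omega), Ne, smul_left_cancel_iff]; exact P.nx (by omega)
  · refine (P.sm t).all c (fun j a d => ?_) (c - 1)
    rw [sm_x]
    by_cases e : j ≤ b
    · rw [t1 j (by omega) e, h j a e]
    · rw [P.xe (by ring : j = b + (j - b)), t2 _ (by omega) (by omega), ← mul_smul, hg, mul_smul,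
        h _ (by omega) (by omega)]

end Pol

end H12.BP
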