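/- Split polygons: the groups `U`, `Q`, `Z`, `M` and their transitivity properties. -/
import Cfsg.Agent.H12.BPKit1

set_option autoImplicit false

namespace H12.BP

open Subgroup MulAction Cfsg

universe u

variable {n : ℕ} {G V : Type u} [Group G] [MulAction G V] {E : V → V → Prop} {p : ℕ}

theorem nor_of {H : Subgroup G} {g : G} (h : ∀ a ∈ H, g * a * g⁻¹ ∈ H) (h' : ∀ a ∈ H, g⁻¹ * a * g ∈ H) :
    g ∈ normalizer (H : Set G) :=
  mem_normalizer_iff.2 fun a => ⟨h a, fun k => by simpa [mul_assoc] using h' _ k⟩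

theorem le_nor {H K : Subgroup G} (h : ∀ g ∈ K, ∀ a ∈ H, g * a * g⁻¹ ∈ H) : K ≤ normalizer (H : Set G) :=
  fun g hg => nor_of (h g hg) fun a ha => by simpa using h g⁻¹ (inv_mem hg) a ha

theorem op_cj {H K : Subgroup G} {g a : G} (h : ∀ b, b ∈ K ↔ g⁻¹ * b * g ∈ H) (ha : a ∈ pCoreOf p H) :
    g * a * g⁻¹ ∈ pCoreOf p K := by
  have : K = H98.cj g H := by ext b; rw [H98.mem_cj, h]
  rw [this, ← H98.cj_pCoreOf, H98.mem_cj]
  simpa [mul_assoc] using ha

variable (G p) in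
/-- `O_p` of an edge stabiliser. -/
def U (u v : V) : Subgroup G := pCoreOf p (stabilizer G u ⊓ stabilizer G v)

variable (G E p) in
/-- `O_p` of the kernel on a star. -/
def Q (y : V) : Subgroup G := pCoreOf p (Bl G E 1 y)

variable (G p) in
/-- Centre of `U`. -/
def Z (u v : V) : Subgroup G := U G p u v ⊓ centralizer (U G p u v : Set G)

variable (G E p) in
/-- The join of the centres at a vertex. -/
def M (y : V) : Subgroup G := closure {z | ∃ w, E y w ∧ z ∈ Z G p w y}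

theorem U_comm (u v : V) : U G p u v = U G p v u := by rw [U, inf_comm]; rfl
theorem Z_comm (u v : V) : Z G p u v = Z G p v u := by rw [Z, U_comm]; rfl
theorem U_p (u v : V) : IsPGroup p (U G p u v) := H98.isPGroup_pCoreOf _
theorem Q_p (y : V) : IsPGroup p (Q G E p y) := H98.isPGroup_pCoreOf _
theorem U.l {u v : V} {g : G} (h : g ∈ U G p u v) : g • u = u := (H98.pCoreOf_le _ h).1
theorem U.r {u v : V} {g : G} (h : g ∈ U G p u v) : g • v = v := (H98.pCoreOf_le _ h).2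
theorem U.sy {u v : V} {g : G} (h : g ∈ U G p u v) : g ∈ U G p v u := by rwa [U_comm]
theorem Z.sy {u v : V} {g : G} (h : g ∈ Z G p u v) : g ∈ Z G p v u := by rwa [Z_comm]
theorem Q.bl {y : V} {g : G} (h : g ∈ Q G E p y) : g ∈ Bl G E 1 y := H98.pCoreOf_le _ h
theorem Q.fix {y : V} {g : G} (h : g ∈ Q G E p y) : g • y = y := Bl.fix (Q.bl h)
theorem Q.nb {y w : V} {g : G} (h : g ∈ Q G E p y) (e : E y w) : g • w = w := Bl.nb (Q.bl h) e
theorem Z.com {u v : V} {z g : G} (h : z ∈ Z G p u v) (hg : g ∈ U G p u v) : g * z = z * g := h.2 g hg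

theorem U_cj {u v : V} (g : G) {a : G} (h : a ∈ U G p u v) : g * a * g⁻¹ ∈ U G p (g • u) (g • v) :=
  op_cj (fun b => by simp [mul_smul, inv_smul_eq_iff]) h

theorem U_cj' {u v : V} {g a : G} (hu : g • u = u) (hv : g • v = v) (h : a ∈ U G p u v) :
    g * a * g⁻¹ ∈ U G p u v := by simpa [hu, hv] using U_cj g h

theorem Z_cj {u v : V} (g : G) {a : G} (h : a ∈ Z G p u v) : g * a * g⁻¹ ∈ Z G p (g • u) (g • v) := by
  refine ⟨U_cj g h.1, fun b hb => ?_⟩
  have := h.2 _ (by simpa using U_cj g⁻¹ hb : g⁻¹ * b * g ∈ U G p u v)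
  calc b * (g * a * g⁻¹) = g * (g⁻¹ * b * g * a) * g⁻¹ := by group
    _ = _ := by rw [this]; group

theorem le_U {u v : V} {A : Subgroup G} (hA : IsPGroup p A) (h1 : ∀ a ∈ A, a • u = u ∧ a • v = v)
    (h2 : ∀ g : G, g • u = u → g • v = v → ∀ a ∈ A, g * a * g⁻¹ ∈ A) : A ≤ U G p u v :=
  H98.le_pCoreOf hA h1 (le_nor fun g hg => h2 g hg.1 hg.2)

/-- Regularity of the panel action at `v`. -/
def Reg (G : Type u) [Group G] [MulAction G V] (E : V → V → Prop) (p : ℕ) (v : V) : Prop :=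
  ∀ u w, E v u → E v w → u ≠ w → ∀ g ∈ U G p u v, g • w = w → g ∈ Bl G E 1 v

namespace Pol

variable (P : Pol n G E)
include P

theorem Q_cj {y : V} (g : G) {a : G} (h : a ∈ Q G E p y) : g * a * g⁻¹ ∈ Q G E p (g • y) :=
  op_cj (fun b => ⟨fun k => by simpa using P.Bl_cj g⁻¹ k, fun k => by simpa [mul_assoc] using P.Bl_cj g k⟩) h

theorem Q_cj' {y : V} {g a : G} (hg : g • y = y) (h : a ∈ Q G E p y) : g * a * g⁻¹ ∈ Q G E p y := by
  simpa [hg] using P.Q_cj g h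

theorem M_cj {y : V} (g : G) {a : G} (h : a ∈ M G E p y) : g * a * g⁻¹ ∈ M G E p (g • y) := by
  induction h using closure_induction with
  | mem z hz => obtain ⟨w, e, hz⟩ := hz; exact subset_closure ⟨_, P.einv g e, Z_cj g hz⟩
  | one => simp
  | mul a b _ _ ha hb => simpa [mul_assoc] using mul_mem ha hb
  | inv a _ ha => simpa [mul_assoc] using inv_mem ha

theorem M_cj' {y : V} {g a : G} (hg : g • y = y) (h : a ∈ M G E p y) : g * a * g⁻¹ ∈ M G E p y := by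
  simpa [hg] using P.M_cj g h

theorem QU {y w : V} {g : G} (h : g ∈ Q G E p y) (e : E y w) : g ∈ U G p y w :=
  le_U (Q_p y) (fun _ k => ⟨Q.fix k, Q.nb k e⟩) (fun _ a _ _ k => P.Q_cj' a k) h

theorem UQ {y w : V} {g : G} (e : E y w) (h : g ∈ U G p y w) (h' : g ∈ Bl G E 1 y) : g ∈ Q G E p y :=
  H98.pCoreOf_inf_le_of_le (K := Bl G E 1 y) (H := stabilizer G y ⊓ stabilizer G w)
    (fun _ k => ⟨Bl.fix k, Bl.nb k e⟩) ⟨h, h'⟩

theorem QQ {y w : V} {g : G} (e : E y w) (h : g ∈ Q G E p y) (h' : g ∈ Bl G E 1 w) : g ∈ Q G E p w :=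
  P.UQ (P.esym e) (U.sy (P.QU h e)) h'

theorem MC {y : V} {m g : G} (h : m ∈ M G E p y) (hg : g ∈ Q G E p y) : g * m = m * g := by
  have : M G E p y ≤ centralizer {g} := (closure_le _).2 fun z ⟨w, e, hz⟩ =>
    mem_centralizer_singleton_iff.2 (Z.com hz (U.sy (P.QU hg e))).symm
  exact (mem_centralizer_singleton_iff.1 (this h)).symm

theorem reg_cj {v : V} (g : G) (h : Reg G E p v) : Reg G E p (g • v) := by
  intro u w e e' hne a ha hw
  have := h (g⁻¹ • u) (g⁻¹ • w) (by simpa using P.einv g⁻¹ e) (by simpa using P.einv g⁻¹ e')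
    (by simpa using hne) (g⁻¹ * a * g) (by simpa using U_cj g⁻¹ ha) (by simp [mul_smul, hw])
  simpa [mul_assoc] using P.Bl_cj g this

theorem reg2 {u v w : V} (h : Reg G E p u) (e : E v u) (e' : E v w) : Reg G E p w := by
  obtain ⟨g, -, rfl⟩ := P.tr2 e e'
  exact P.reg_cj g h

theorem regk {i : ℤ} (h : Reg G E p (P.x i)) (j : ℤ) (hj : (j - i) % 2 = 0) : Reg G E p (P.x j) := by
  obtain ⟨g, hg⟩ := P.rot ((j - i) / 2)
  have := P.reg_cj g h
  rwa [hg, P.xe (by omega : i + 2 * ((j - i) / 2) = j)] at this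

theorem reg_of {i : ℤ} (h : ∀ g ∈ U G p (P.x (i + 1)) (P.x i), g • P.x (i - 1) = P.x (i - 1) →
    g ∈ Bl G E 1 (P.x i)) : Reg G E p (P.x i) := by
  intro u w e e' hne a ha hw
  obtain ⟨g, g1, rfl⟩ := P.tr2 (P.ex (i := i) (j := i + 1) (by omega)) e
  obtain ⟨t, t1, t2⟩ := P.tr' (i := i) (w := g⁻¹ • w) (P.einv' (inv_fix g1) e') (by
    rw [Ne, inv_smul_eq_iff]; exact hne.symm)
  have h3 := P.three
  have k1 : (g * t) • P.x i = P.x i := mul_fix g1 (t1 _ le_rfl (by omega))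
  have k2 : (g * t) • P.x (i + 1) = g • P.x (i + 1) := by rw [mul_smul, t1 _ (by omega) (by omega)]
  have k3 : (g * t) • P.x (i - 1) = w := by rw [mul_smul, t2, smul_inv_smul]
  have := h ((g * t)⁻¹ * a * (g * t)⁻¹⁻¹) (by
    have := U_cj (g * t)⁻¹ ha
    rwa [← k2, inv_smul_smul, inv_fix k1] at this) (by
    rw [inv_inv, mul_smul, mul_smul, k3, hw, inv_smul_eq_iff, k3])
  have := P.Bl_cj' k1 this
  simpa [mul_assoc] using this

/-- A group centralising `m` and transitive on a punctured star spreads a ball condition. -/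
theorem spread {u v w : V} {m : G} {j : ℕ} (hv : m • v = v) (hu : m ∈ Bl G E j u) (hw : m ∈ Bl G E j w)
    (h : ∀ y, E v y → y ≠ u → ∃ g : G, g * m = m * g ∧ g • w = y) : m ∈ Bl G E (j + 1) v := by
  refine mem_BlS.2 ⟨hv, fun y e => ?_⟩
  by_cases c : y = u
  · rwa [c]
  · obtain ⟨g, h1, rfl⟩ := h y e c
    simpa [h1] using P.Bl_cj g hw

end Pol

variable (G E) in
/-- A split polygon. -/
structure SP (p n : ℕ) extends Pol n G E where
  spl : ∀ (i : ℤ) (b : G), b • x i = x i → b • x (i + 1) = x (i + 1) →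
    ∃ u ∈ U G p (x i) (x (i + 1)), ∀ j, b • x j = u • x j

namespace SP

variable (P : SP G E p n)

/-- Translate. -/
def sm (t : G) : SP G E p n where
  toPol := P.toPol.sm t
  spl i b h1 h2 := by
    simp only [Pol.sm_x] at *
    obtain ⟨u, hu, h⟩ := P.spl i (t⁻¹ * b * t) (by rw [mul_smul, mul_smul, h1, inv_smul_smul])
      (by rw [mul_smul, mul_smul, h2, inv_smul_smul])
    exact ⟨_, U_cj t hu, fun j => by rw [mul_smul, mul_smul, inv_smul_smul, ← h]; simp [mul_smul]⟩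

/-- Shift. -/
def sh (c : ℤ) : SP G E p n where
  toPol := P.toPol.sh c
  spl i b h1 h2 := by
    simp only [Pol.sh_x] at *
    rw [P.xe (by ring : i + 1 + c = i + c + 1)] at *
    obtain ⟨u, hu, h⟩ := P.spl _ b h1 h2
    exact ⟨u, hu, fun j => h _⟩

/-- Reversal. -/
noncomputable def re (c : ℤ) : SP G E p n := (P.sm (P.refl 0).choose).sh (-c)

@[simp] theorem sm_x (t : G) (j : ℤ) : (P.sm t).x j = t • P.x j := rfl
@[simp] theorem sh_x (c j : ℤ) : (P.sh c).x j = P.x (j + c) := rfl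
@[simp] theorem re_x (c j : ℤ) : (P.re c).x j = P.x (c - j) := P.toPol.re_x c j

include P in
theorem exP {u v : V} (h : E u v) (i : ℤ) : ∃ Q : SP G E p n, Q.x i = u ∧ Q.x (i + 1) = v := by
  obtain ⟨g, j, h1, h2⟩ := (P.adj _ _).1 h
  exact ⟨(P.sm g).sh (j - i), by simpa using h1, by
    rw [sh_x, sm_x, P.xe (by ring : i + 1 + (j - i) = j + 1), h2]⟩

theorem ext {i : ℤ} {w : V} (h : E (P.x i) w) (hw : w ≠ P.x (i + 1)) :
    ∃ Q : SP G E p n, Q.x (i - 1) = w ∧ ∀ j, i ≤ j → j ≤ i + n → Q.x j = P.x j := by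
  obtain ⟨t, t1, t2⟩ := P.tr' h hw
  exact ⟨P.sm t, t2, t1⟩

theorem ext' {i : ℤ} {w : V} (h : E (P.x i) w) (hw : w ≠ P.x (i - 1)) :
    ∃ Q : SP G E p n, Q.x (i + 1) = w ∧ ∀ j, i - n ≤ j → j ≤ i → Q.x j = P.x j := by
  obtain ⟨t, t1, t2⟩ := P.tr'' h hw
  exact ⟨P.sm t, t2, t1⟩

include P in
theorem ex3 {u v w : V} (h : E v u) (h' : E v w) (hn : u ≠ w) (i : ℤ) :
    ∃ Q : SP G E p n, Q.x (i - 1) = u ∧ Q.x i = v ∧ Q.x (i + 1) = w := by
  obtain ⟨Q, rfl, rfl⟩ := P.exP h' i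
  obtain ⟨R, r1, r2⟩ := Q.ext h hn
  have h3 := P.three
  exact ⟨R, r1, r2 _ le_rfl (by omega), r2 _ (by omega) (by omega)⟩

include P in
/-- The chain rule. -/
theorem chain {u v w : V} {g : G} (h : E v u) (h' : E v w) (hn : u ≠ w) (hg : g ∈ U G p u v)
    (hw : g • w = w) : g ∈ U G p v w := by
  obtain ⟨Q, rfl, rfl, rfl⟩ := P.ex3 h h' hn 0
  set A := U G p (Q.x (0 - 1)) (Q.x 0) ⊓ stabilizer G (Q.x (0 + 1))
  set B := U G p (Q.x 0) (Q.x (0 + 1))
  have hAB : A ≤ normalizer (B : Set G) := le_nor fun a ha b hb => U_cj' (U.r ha.1) ha.2 hb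
  have : A ⊔ B ≤ B := by
    refine le_U (IsPGroup.to_sup_of_normal_right' ((U_p _ _).to_le inf_le_left) (U_p _ _) hAB)
      (fun a ha => (sup_le (a := A) (b := B) (c := stabilizer G (Q.x 0) ⊓ stabilizer G (Q.x (0 + 1)))
        (fun a ha => ⟨U.r ha.1, ha.2⟩) (fun a ha => ⟨U.l ha, U.r ha⟩)) ha) fun b b1 b2 a ha => ?_
    obtain ⟨c, hc, k⟩ := Q.spl 0 b b1 b2
    have f : ∀ j, (c⁻¹ * b) • Q.x j = Q.x j := fun j => by rw [mul_smul, k, inv_smul_smul]
    have : A ⊔ B ≤ H98.cj (c⁻¹ * b)⁻¹ (A ⊔ B) := sup_le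
      (fun a ha => H98.mem_cj.2 (mem_sup_left (by
        rw [inv_inv]; exact ⟨U_cj' (f _) (f _) ha.1, by simpa [f] using cj_fix (g := c⁻¹ * b) ha.2⟩)))
      (fun a ha => H98.mem_cj.2 (mem_sup_right (by rw [inv_inv]; exact U_cj' (f _) (f _) ha)))
    have h1 := H98.mem_cj.1 (this ha)
    have h2 : c ∈ A ⊔ B := mem_sup_right hc
    simpa [mul_assoc] using mul_mem (mul_mem h2 h1) (inv_mem h2)
  exact this (mem_sup_left ⟨hg, hw⟩)

/-- `O_p` of the stabiliser of a path. -/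
def Pp (i k : ℤ) : Subgroup G where
  carrier := {g | g ∈ U G p (P.x i) (P.x (i + 1)) ∧ ∀ j, i ≤ j → j ≤ k → g • P.x j = P.x j}
  mul_mem' a b := ⟨mul_mem a.1 b.1, fun j c d => mul_fix (a.2 j c d) (b.2 j c d)⟩
  one_mem' := ⟨one_mem _, fun _ _ _ => one_smul _ _⟩
  inv_mem' a := ⟨inv_mem a.1, fun j c d => inv_fix (a.2 j c d)⟩

variable {P}

theorem Pp.fix {i k : ℤ} {g : G} (h : g ∈ P.Pp i k) (j : ℤ) (a : i ≤ j) (b : j ≤ k) :
    g • P.x j = P.x j := h.2 j a b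

theorem Pp.U {i k : ℤ} {g : G} (h : g ∈ P.Pp i k) (e f : ℤ) (hf : f = e + 1) (a : i ≤ e) (b : f ≤ k) :
    g ∈ U G p (P.x e) (P.x f) := by
  subst hf
  induction e, a using Int.leInduction with
  | base => exact h.1
  | succ e a ih =>
    exact P.chain (P.ex (by omega)) (P.ex (by omega)) (P.nx (by omega)) (ih (by omega))
      (h.2 _ (by omega) b)

theorem Pp.of {i k : ℤ} {g : G} (e f : ℤ) (hf : f = e + 1) (a : i ≤ e) (b : f ≤ k)
    (h : g ∈ BP.U G p (P.x e) (P.x f)) (h' : ∀ j, i ≤ j → j ≤ k → g • P.x j = P.x j) : g ∈ P.Pp i k := by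
  subst hf
  refine ⟨?_, h'⟩
  induction e, a using Int.leInduction with
  | base => exact h
  | succ e a ih =>
    exact ih (by omega) (U.sy (P.chain (P.ex (by omega)) (P.ex (by omega)) (P.nx (by omega)) (U.sy h)
      (h' _ a (by omega))))

theorem Pp_p (i k : ℤ) : IsPGroup p (P.Pp i k) := (U_p _ _).to_le fun _ h => h.1

variable (P)

theorem K2 {i k : ℤ} (hk : k ≤ i + n) {y : V} (e : E (P.x i) y) (hy : y ≠ P.x (i + 1)) :
    ∃ g ∈ P.Pp i k, g • P.x (i - 1) = y := by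
  have h3 := P.three
  obtain ⟨t, t1, rfl⟩ := P.tr' e hy
  obtain ⟨u, hu, h⟩ := P.spl i t (t1 _ le_rfl (by omega)) (t1 _ (by omega) (by omega))
  exact ⟨u, ⟨hu, fun j a b => by rw [← h, t1 j a (by omega)]⟩, (h _).symm⟩

theorem K2' {i k : ℤ} (hi : i < k) (hk : k ≤ i + n) {y : V} (e : E (P.x k) y) (hy : y ≠ P.x (k - 1)) :
    ∃ g ∈ P.Pp i k, g • P.x (k + 1) = y := by
  obtain ⟨g, hg, h⟩ := (P.re k).K2 (i := 0) (k := k - i) (y := y) (by omega) (by simpa using e)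
    (by simpa using hy)
  refine ⟨g, Pp.of (k - 1) k (by ring) (by omega) le_rfl (U.sy (by simpa using hg.1)) fun j a b => ?_,
    by simpa using h⟩
  simpa using hg.2 (k - j) (by omega) (by omega)

include P in
theorem Utr {u v w y : V} (h : E v u) (e : E v w) (e' : E v y) (hw : w ≠ u) (hy : y ≠ u) :
    ∃ g ∈ U G p u v, g • w = y := by
  obtain ⟨Q, rfl, rfl, rfl⟩ := P.ex3 e h hw 0
  obtain ⟨g, hg, k⟩ := Q.K2 (i := 0) (k := 1) (by have := P.three; omega) e' hy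
  exact ⟨g, U.sy hg.1, k⟩

end SP

end H12.BP
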