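/- Split polygons: transitivity of the `Q` groups and the centres. -/
import Cfsg.Agent.H12.BPKit2

set_option autoImplicit false

namespace H12.BP

open Subgroup MulAction Cfsg

universe u

variable {n : ℕ} {G V : Type u} [Group G] [MulAction G V] {E : V → V → Prop} {p : ℕ}
  [Finite G] [Fact p.Prime]

theorem T0 {A R W : Subgroup G} (hA : IsPGroup p A) (hR : IsPGroup p R)
    (h : ∀ r ∈ R, ∀ a ∈ A, r * a * r⁻¹ ∈ A) (hW : ¬ A ≤ W) :
    ∃ z ∈ A, z ∉ W ∧ ∀ r ∈ R, z⁻¹ * r * z * r⁻¹ ∈ A ∧ z⁻¹ * r * z * r⁻¹ ∈ W := by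
  obtain ⟨u, h1, h2, h3⟩ := H14.exists_commutator_mem hA hR (le_nor h) hW
  exact ⟨u⁻¹, inv_mem h1, fun k => h2 (by simpa using inv_mem k), fun r hr => by
    simpa [commutatorElement_def] using h3 r hr⟩

omit [Finite G] [Fact p.Prime] in
theorem tr_of {K : Subgroup G} {S : V → Prop} {a : V} (h : ∀ y, S y → ∃ g ∈ K, g • a = y) {y z : V}
    (hy : S y) (hz : S z) : ∃ g ∈ K, g • y = z := by
  obtain ⟨g, hg, rfl⟩ := h y hy
  obtain ⟨k, hk, rfl⟩ := h z hz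
  exact ⟨k * g⁻¹, mul_mem hk (inv_mem hg), by rw [mul_smul, inv_smul_smul]⟩

theorem exZ {u v : V} {N : Subgroup G} (h1 : N ≤ U G p u v)
    (h2 : ∀ r ∈ U G p u v, ∀ a ∈ N, r * a * r⁻¹ ∈ N) {a : G} (ha : a ∈ N) (h : a ≠ 1) :
    ∃ z ∈ N, z ≠ 1 ∧ z ∈ Z G p u v := by
  obtain ⟨z, k1, k2, k3⟩ := T0 (W := ⊥) ((U_p u v).to_le h1) (U_p u v) h2 fun k => h (k ha)
  refine ⟨z, k1, k2, h1 k1, fun r hr => ?_⟩
  have : z⁻¹ * r * z * r⁻¹ = 1 := (k3 r hr).2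
  calc r * z = z * (z⁻¹ * r * z * r⁻¹) * r := by group
    _ = _ := by rw [this, mul_one]

namespace SP

variable (P : SP G E p n)

omit [Finite G] [Fact p.Prime] in
theorem TR {z : G} (h2 : z • P.x 2 = P.x 2) (h3 : z • P.x 3 ≠ P.x 3)
    (hK : ∀ g ∈ P.Pp 1 (n + 1), g • z • P.x 3 = z • P.x 3) {y : V} (e : E (P.x 3) y) (hy : y ≠ P.x 2) :
    ∃ g ∈ P.Pp 1 (n + 1), (z⁻¹ * g * z * g⁻¹) • P.x 4 = y := by
  have hn := P.three
  obtain ⟨R, r1, r2⟩ := P.ext (i := 2) (P.einv' h2 (P.ex (j := 3) (by omega))) h3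
  have r1' : R.x 1 = z • P.x 3 := r1
  have k := fun y (h : E (R.x 1) y ∧ y ≠ R.x (1 + 1)) => R.opp (i := 1) (K := P.Pp 1 (n + 1))
    (fun g hg j a b => by
      rcases a.eq_or_lt with rfl | a
      · rw [r1', hK g hg]
      · rw [r2 j (by omega) (by omega), Pp.fix hg j (by omega) (by omega)])
    (fun w e hw => by
      rw [r2 _ (by omega) (by omega)] at e hw ⊢
      rw [P.xe (by ring : 1 + (n : ℤ) + 1 = n + 1 + 1)]
      exact P.K2' (by omega) (by omega) (by rwa [add_comm]) (by rwa [add_comm (n : ℤ)])) h.1 h.2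
  have k2 : R.x (1 + 1) = z • P.x 2 := by rw [h2]; exact r2 2 le_rfl (by omega)
  obtain ⟨g, hg, h⟩ := tr_of k (y := z • P.x 4) (z := z • y)
    ⟨r1' ▸ P.einv z (P.ex (by omega)), by rw [k2, Ne, smul_left_cancel_iff]; exact P.nx (by omega)⟩
    ⟨r1' ▸ P.einv z e, by rwa [k2, Ne, smul_left_cancel_iff]⟩
  exact ⟨g, hg, by
    rw [mul_smul, mul_smul, mul_smul, inv_fix (Pp.fix hg 4 (by omega) (by omega)), h, inv_smul_smul]⟩

include P

theorem TA {a b c : V} (e1 : E b a) (e2 : E b c) (hn : a ≠ c) {A : Subgroup G} (h1 : A ≤ U G p a b)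
    (h2 : ∀ r ∈ U G p a b, ∀ t ∈ A, r * t * r⁻¹ ∈ A) (h3 : ¬ A ≤ Bl G E 1 b) {y y' : V} (e : E c y)
    (e' : E c y') (hy : y ≠ b) (hy' : y' ≠ b) : ∃ g ∈ A ⊓ Bl G E 1 b, g • y = y' := by
  have h := P.three
  obtain ⟨R, rfl, rfl, rfl⟩ := P.ex3 e1 e2 hn 2
  obtain ⟨z, z1, z2, z3⟩ := T0 ((U_p _ _).to_le h1) (U_p _ _) h2 h3
  refine tr_of (S := fun y => E (R.x 3) y ∧ y ≠ R.x 2) (a := R.x 4) (fun y hy => ?_) ⟨e, hy⟩ ⟨e', hy'⟩
  obtain ⟨g, hg, k⟩ := R.TR (z := z) (U.r (h1 z1)) (fun c => z2 (mem_Bl1.2 ⟨U.r (h1 z1), fun w ew => by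
      by_cases d : w = R.x (2 - 1)
      · rw [d]; exact U.l (h1 z1)
      · obtain ⟨r, hr, rfl⟩ := P.Utr e1 e2 ew hn.symm d
        have := Bl.nb (z3 r hr).2 ew
        rw [mem_Bl0, mul_smul, mul_smul, mul_smul, inv_smul_smul, inv_smul_eq_iff] at this
        rw [← this]
        exact congrArg _ c⟩)) (fun g hg => by
      have := Bl.nb (z3 g (Pp.U hg 1 2 rfl le_rfl (by omega))).2 e2
      rwa [mem_Bl0, mul_smul, mul_smul, mul_smul, inv_fix (Pp.fix hg _ (by omega) (by omega)),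
        inv_smul_eq_iff] at this) hy.1 hy.2
  exact ⟨_, z3 g (Pp.U hg 1 2 rfl le_rfl (by omega)), k⟩

omit [Finite G] [Fact p.Prime] in
theorem notBl {u v : V} (h : E v u) {A : Subgroup G}
    (k : ∀ y y', E v y → E v y' → y ≠ u → y' ≠ u → ∃ g ∈ A, g • y = y') : ¬ A ≤ Bl G E 1 v := by
  intro c
  obtain ⟨y, e, a, -⟩ := P.third h h
  obtain ⟨y', e', a', b⟩ := P.third h e
  obtain ⟨g, hg, rfl⟩ := k y y' e e' a a'
  exact b (Bl.nb (c hg) e)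

theorem T1 {b c y y' : V} (h : E b c) (e : E c y) (e' : E c y') (hy : y ≠ b) (hy' : y' ≠ b) :
    ∃ g ∈ Q G E p b, g • y = y' := by
  obtain ⟨a, e1, hn, -⟩ := P.third h h
  obtain ⟨g, hg, k⟩ := P.TA e1 h hn le_rfl (fun r hr t ht => U_cj' (U.l hr) (U.r hr) ht)
    (P.notBl e1 fun _ _ => P.Utr e1) e e' hy hy'
  exact ⟨g, P.UQ e1 (U.sy hg.1) hg.2, k⟩

theorem T2 {a b c y y' : V} (e1 : E b a) (e2 : E b c) (hn : a ≠ c) (e : E c y) (e' : E c y') (hy : y ≠ b)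
    (hy' : y' ≠ b) : ∃ g, g ∈ Q G E p a ∧ g ∈ Q G E p b ∧ g • y = y' := by
  obtain ⟨g, hg, k⟩ := P.TA e1 e2 hn (fun _ k => P.QU k (P.esym e1)) (fun r hr t ht => P.Q_cj' (U.l hr) ht)
    (P.notBl e1 fun _ _ => P.T1 (P.esym e1)) e e' hy hy'
  exact ⟨g, hg.1, P.QQ (P.esym e1) hg.1 hg.2, k⟩

omit [Finite G] [Fact p.Prime] in
theorem ZB0 {z : G} {k : ℕ} (hk : k + 2 ≤ n) (hz : z ∈ Z G p (P.x 0) (P.x 1)) (h0 : z ∈ Bl G E k (P.x 0))
    (h1 : z ∈ Bl G E k (P.x 1)) (h : z • P.x (-k - 1) = P.x (-k - 1)) : z ∈ Bl G E (k + 1) (P.x 0) := by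
  have : ∀ j : ℕ, j ≤ k + 1 → z ∈ Bl G E j (P.x (-k - 1 + j)) := by
    intro j
    induction j with
    | zero => intro _; simpa [mem_Bl0] using h
    | succ j ih =>
      intro hj
      refine P.spread (u := P.x (-k - 1 + j + 2)) (P.Bl_fx h0 _ (by omega)) ?_ (ih (by omega)) fun y e hy => ?_
      · by_cases c : j = k
        · exact P.Bl_x h1 _ _ (by omega)
        · exact P.Bl_x h0 _ _ (by omega)
      · obtain ⟨g, hg, k1⟩ := P.K2 (i := -k - 1 + (j + 1 : ℕ)) (k := 1) (by omega) e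
          (by rwa [P.xe (by push_cast; ring : -k - 1 + (j + 1 : ℕ) + 1 = -k - 1 + (j : ℤ) + 2)])
        exact ⟨g, Z.com hz (Pp.U hg 0 1 rfl (by omega) le_rfl), by rw [← k1]; congr 2; push_cast; ring⟩
  simpa using this (k + 1) le_rfl

omit [Finite G] [Fact p.Prime] in
/-- Central elements of `U` fix large balls. -/
theorem lemA {k : ℕ} (hk : 2 * k < n) : ∀ {u v : V} {z : G}, E u v → z ∈ Z G p u v → z ∈ Bl G E k u := by
  induction k with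
  | zero => intro u v z _ hz; exact U.l hz.1
  | succ k ih =>
    intro u v z e hz
    obtain ⟨R, rfl, rfl⟩ := P.exP e 0
    have h0 := ih (by omega) e hz
    refine R.ZB0 (by omega) hz h0 (ih (by omega) (P.esym e) (Z.sy hz)) ?_
    by_contra c
    obtain ⟨y, e1, hy, k1⟩ := R.tri z (c := 1 - n) (b := -k) (R.Bl_fx h0 _ (by omega)) c (by omega) (by omega)
    obtain ⟨y', e2, hy', k2⟩ := P.third (R.ex (i := 1 - n) (j := 1 - n + 1) (by omega)) e1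
    obtain ⟨g, hg, k3⟩ := tr_of (K := R.Pp (1 - n) 1) (S := fun y => E (R.x (1 - n)) y ∧ y ≠ R.x (1 - n + 1))
      (fun y h => R.K2 (by omega) h.1 h.2) ⟨e1, hy⟩ ⟨e2, hy'⟩
    exact k2 (k3 ▸ k1 g (Z.com hz (Pp.U hg 0 1 rfl (by omega) le_rfl)) fun i a b => Pp.fix hg i a (by omega))

omit [Finite G] [Fact p.Prime] in
theorem ZB {z : G} {k : ℕ} (hk : 2 * k < n) (hz : z ∈ Z G p (P.x 0) (P.x 1))
    (h : z • P.x (-k - 1) = P.x (-k - 1)) : z ∈ Bl G E (k + 1) (P.x 0) :=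
  P.ZB0 (by have := P.three; omega) hz (P.lemA hk (P.ex (by omega)) hz)
    (P.lemA hk (P.ex (by omega)) (Z.sy hz)) h

omit [Finite G] [Fact p.Prime] in
theorem MB {k : ℕ} (hk : 2 * k < n) {y : V} {m : G} (h : m ∈ M G E p y) : m ∈ Bl G E k y :=
  (show M G E p y ≤ Bl G E k y from (closure_le _).2 fun _ ⟨_, e, hz⟩ => P.lemA hk e (Z.sy hz)) h

omit [Finite G] [Fact p.Prime] in
theorem MQ {y : V} {m : G} (h : m ∈ M G E p y) : m ∈ Q G E p y :=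
  (show M G E p y ≤ Q G E p y from (closure_le _).2 fun _ ⟨_, e, hz⟩ => P.UQ e (U.sy hz.1)
    (P.lemA (k := 1) (by have := P.three; omega) e (Z.sy hz))) h

omit [Finite G] [Fact p.Prime] in
theorem Mcom {y : V} {a b : G} (h : a ∈ M G E p y) (h' : b ∈ M G E p y) : a * b = b * a :=
  P.MC h' (P.MQ h)

omit P [Finite G] [Fact p.Prime] in
theorem ZM {y w : V} {z : G} (e : E y w) (h : z ∈ Z G p w y) : z ∈ M G E p y := subset_closure ⟨w, e, h⟩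

theorem Zne {u v : V} (e : E u v) : ∃ z ∈ Z G p u v, z ≠ 1 := by
  obtain ⟨a, ha, h⟩ := SetLike.not_le_iff_exists.1 (P.notBl (P.esym e) fun _ _ => P.Utr (P.esym e))
  obtain ⟨z, -, h1, h2⟩ := exZ le_rfl (fun r hr t ht => U_cj' (U.l hr) (U.r hr) ht) ha
    (by rintro rfl; exact h (one_mem _))
  exact ⟨z, h2, h1⟩

omit [Finite G] [Fact p.Prime] in
theorem Mdec {u v w : V} (e : E v u) {W : Subgroup G} (h1 : Z G p w v ≤ W)
    (h2 : ∀ y, E v y → y ≠ w → ∃ q : G, q • v = v ∧ q • u = y ∧ ∀ z ∈ Z G p u v, z⁻¹ * q * z * q⁻¹ ∈ W)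
    {m : G} (h : m ∈ M G E p v) : ∃ z ∈ Z G p u v, z⁻¹ * m ∈ W := by
  induction h using closure_induction with
  | mem z hz =>
    obtain ⟨y, ey, hz⟩ := hz
    by_cases c : y = w
    · exact ⟨1, one_mem _, by simpa using h1 (c ▸ hz)⟩
    · obtain ⟨q, q1, rfl, q3⟩ := h2 y ey c
      have : q⁻¹ * z * q⁻¹⁻¹ ∈ Z G p u v := by simpa [inv_fix q1] using Z_cj q⁻¹ hz
      exact ⟨_, this, by simpa [mul_assoc] using q3 _ this⟩
  | one => exact ⟨1, one_mem _, by simp⟩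
  | mul a b ha hb ia ib =>
    obtain ⟨y, y1, y2⟩ := ia
    obtain ⟨z, z1, z2⟩ := ib
    refine ⟨z * y, mul_mem z1 y1, ?_⟩
    have := mul_mem y2 z2
    rwa [mul_assoc, ← mul_assoc a, P.Mcom ha (inv_mem (ZM e z1)), mul_assoc, ← mul_assoc, ← mul_inv_rev] at this
  | inv a ha ia =>
    obtain ⟨y, y1, y2⟩ := ia
    refine ⟨y⁻¹, inv_mem y1, ?_⟩
    have := inv_mem y2
    rwa [mul_inv_rev, P.Mcom (inv_mem ha) (inv_mem (inv_mem (ZM e y1)))] at this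

end SP

end H12.BP
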