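/- The reflection arguments: a `p`-group fixing two points of a panel and centralising two ends of a
filtered section fixes the panel. -/
import Cfsg.Agent.H12.BPKit3

set_option autoImplicit false

namespace H12.BP

open Subgroup MulAction

universe u

variable {G V : Type u} [Group G] [MulAction G V]

/-- `s` fixes `t` modulo `C`. -/
def Fx (C : Subgroup G) (s t : G) : Prop := s * t * s⁻¹ * t⁻¹ ∈ C

/-- Common hypotheses of the two reflection lemmas. -/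
structure RF (X : V → Prop) (L C S A B : Subgroup G) (W D : V → Subgroup G) (x y : V) : Prop where
  hx : X x
  hy : X y
  xy : x ≠ y
  LX : ∀ g ∈ L, ∀ z, X z → X (g • z)
  LC : ∀ g ∈ L, ∀ c ∈ C, g * c * g⁻¹ ∈ C
  WL : ∀ z, X z → W z ≤ L
  CW : ∀ z, X z → C ≤ W z
  Wc : ∀ g ∈ L, ∀ z, X z → ∀ t ∈ W z, g * t * g⁻¹ ∈ W (g • z)
  DW : ∀ z, X z → D z ≤ W z
  DC : ∀ z z', X z → X z' → z ≠ z' → ∀ t ∈ D z, t ∈ W z' → t ∈ C
  SL : S ≤ L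
  AL : A ≤ L
  BL : B ≤ L
  Sx : ∀ s ∈ S, s • x = x
  Sy : ∀ s ∈ S, s • y = y
  Ax : ∀ a ∈ A, a • x = x
  By : ∀ b ∈ B, b • y = y
  Atr : ∀ z, X z → z ≠ x → ∃ a ∈ A, a • y = z
  Btr : ∀ z, X z → z ≠ y → ∃ b ∈ B, b • x = z
  sw : ∀ m ∈ L, m • x = y → m • y = x → ∀ s ∈ S, m⁻¹ * s * m ∈ S

namespace RF

variable {X : V → Prop} {L C S A B : Subgroup G} {W D : V → Subgroup G} {x y : V}
  (h : RF X L C S A B W D x y)
include h

theorem fmul {s t r : G} (ht : t ∈ L) (a : Fx C s t) (b : Fx C s r) : Fx C s (t * r) := by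
  have := mul_mem a (h.LC t ht _ b)
  simpa [Fx, mul_assoc] using this

theorem finv {s t : G} (ht : t ∈ L) (a : Fx C s t) : Fx C s t⁻¹ := by
  have := h.LC t⁻¹ (inv_mem ht) _ (inv_mem a)
  simpa [Fx, mul_assoc] using this

theorem fcj {s t a : G} (ha : a ∈ L) (b : Fx C (a⁻¹ * s * a) t) : Fx C s (a * t * a⁻¹) := by
  have := h.LC a ha _ b
  simpa [Fx, mul_assoc] using this

theorem fcj' {s t a : G} (ha : a ∈ L) (b : Fx C s (a * t * a⁻¹)) : Fx C (a⁻¹ * s * a) t := by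
  have := h.LC a⁻¹ (inv_mem ha) _ b
  simpa [Fx, mul_assoc] using this

theorem mu {a : G} (ha : a ∈ A) (hn : a • y ≠ y) :
    ∃ k ∈ B, ∃ l ∈ B, (l * a * k) • x = y ∧ (l * a * k) • y = x := by
  obtain ⟨k, hk, k1⟩ := h.Btr (a⁻¹ • y) (h.LX _ (inv_mem (h.AL ha)) _ h.hy) (by
    rw [Ne, inv_smul_eq_iff]; exact hn.symm)
  obtain ⟨l, hl, l1⟩ := h.Btr (a • y) (h.LX _ (h.AL ha) _ h.hy) hn
  exact ⟨k, hk, l⁻¹, inv_mem hl, by rw [mul_smul, mul_smul, k1, smul_inv_smul, inv_fix (h.By l hl)],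
    by rw [mul_smul, mul_smul, h.By k hk, inv_smul_eq_iff, l1]⟩

theorem core (sx : ∀ s ∈ S, ∀ d ∈ D x, Fx C s d) (sy : ∀ s ∈ S, ∀ d ∈ D y, Fx C s d) {v a k l s : G}
    (hv : v ∈ W x) (hf : ∀ s ∈ S, Fx C s v) (ha : a ∈ A) (hk : k ∈ B) (hl : l ∈ B)
    (m1 : (l * a * k) • x = y) (m2 : (l * a * k) • y = x) (hs : s ∈ S) (h1 : v⁻¹ * a * v * a⁻¹ ∈ D x)
    (h2 : ((l * a * k) * v * (l * a * k)⁻¹)⁻¹ * l⁻¹ * ((l * a * k) * v * (l * a * k)⁻¹) * l⁻¹⁻¹ ∈ D y) :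
    Fx C (a⁻¹ * s * a) (v⁻¹ * k * v * k⁻¹) := by
  have hm : l * a * k ∈ L := mul_mem (mul_mem (h.BL hl) (h.AL ha)) (h.BL hk)
  have vL := h.WL _ h.hx hv
  have f1 := h.fmul vL (hf s hs) (sx s hs _ h1)
  have f2 := h.fmul (mul_mem (mul_mem hm vL) (inv_mem hm)) (h.fcj hm (hf _ (h.sw _ hm m1 m2 s hs)))
    (sy s hs _ h2)
  have dL : v * (v⁻¹ * a * v * a⁻¹) ∈ L := mul_mem vL (h.WL _ h.hx (h.DW _ h.hx h1))
  refine h.fcj' (h.AL ha) ?_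
  have := h.fmul (inv_mem dL) (h.finv dL f1) f2
  convert this using 1
  group

theorem fin (k : ∀ a ∈ A, a • y ≠ y → ∀ s ∈ S, (a⁻¹ * s * a) • y = y) {s : G} (hs : s ∈ S) {z : V}
    (hz : X z) : s • z = z := by
  by_cases c : z = x
  · rw [c, h.Sx s hs]
  obtain ⟨a, ha, rfl⟩ := h.Atr z hz c
  by_cases d : a • y = y
  · rw [d, h.Sy s hs]
  · have := k a ha d s hs
    rwa [mul_smul, mul_smul, inv_smul_eq_iff] at this

variable [Finite G] {p : ℕ} [Fact p.Prime]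

/-- Four step filtration. -/
theorem refl4 (hS : IsPGroup p S) {F : V → Subgroup G} (FW : ∀ z, X z → F z ≤ W z)
    (CF : ∀ z, X z → C ≤ F z) (Fc : ∀ g ∈ L, ∀ z, X z → ∀ t ∈ F z, g * t * g⁻¹ ∈ F (g • z))
    (FF : ∀ z z', X z → X z' → z ≠ z' → ∀ t ∈ F z, t ∈ F z' → t ∈ C)
    (sx : ∀ s ∈ S, ∀ d ∈ D x, Fx C s d) (sy : ∀ s ∈ S, ∀ d ∈ D y, Fx C s d)
    (AF : ∀ a ∈ A, ∀ t ∈ F x, t⁻¹ * a * t * a⁻¹ ∈ D x) (BF : ∀ a ∈ B, ∀ t ∈ F y, t⁻¹ * a * t * a⁻¹ ∈ D y)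
    (BW : ∀ a ∈ B, ∀ t ∈ W y, t⁻¹ * a * t * a⁻¹ ∈ F y) (hp : IsPGroup p (F x ⊓ W y : Subgroup G))
    (hn : ¬ F x ⊓ W y ≤ C) {s : G} (hs : s ∈ S) {z : V} (hz : X z) : s • z = z := by
  obtain ⟨v, hv, vC, hf⟩ := T0 hp hS (fun r hr t ht => ⟨by
    simpa [h.Sx r hr] using Fc r (h.SL hr) _ h.hx t ht.1, by
    simpa [h.Sy r hr] using h.Wc r (h.SL hr) _ h.hy t ht.2⟩) hn
  have vx := FW _ h.hx hv.1
  have vL := h.WL _ h.hx vx
  replace hf : ∀ s ∈ S, Fx C s v := fun s hs => by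
    simpa [Fx, mul_assoc] using h.LC v vL _ (hf s hs).2
  refine h.fin (fun a ha hn s hs => ?_) hs hz
  by_contra c
  obtain ⟨k, hk, l, hl, m1, m2⟩ := h.mu ha hn
  have hm : l * a * k ∈ L := mul_mem (mul_mem (h.BL hl) (h.AL ha)) (h.BL hk)
  have uy := m1 ▸ Fc _ hm _ h.hx _ hv.1
  have ux := m2 ▸ h.Wc _ hm _ h.hy _ hv.2
  have d1 := AF a ha v hv.1
  have d2 := BF l⁻¹ (inv_mem hl) _ uy
  have e1 := BW k hk v hv.2
  have f := h.core sx sy vx hf ha hk hl m1 m2 hs d1 d2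
  have sL : a⁻¹ * s * a ∈ L := mul_mem (mul_mem (inv_mem (h.AL ha)) (h.SL hs)) (h.AL ha)
  have hy' := h.LX _ sL _ h.hy
  have eC : v⁻¹ * k * v * k⁻¹ ∈ C := FF _ _ h.hy hy' (Ne.symm c) _ e1 (by
    simpa [mul_assoc] using mul_mem (inv_mem (CF _ hy' f)) (Fc _ sL _ h.hy _ e1))
  have eC' := h.LC a (h.AL ha) _ eC
  have aC : v⁻¹ * a * v * a⁻¹ ∈ C := h.DC _ _ h.hx h.hy h.xy _ d1 (by
    have := mul_mem (mul_mem (mul_mem (inv_mem (mem_inf.1 hv).2) (FW _ h.hy uy)) (h.DW _ h.hy d2))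
      (inv_mem (h.CW _ h.hy eC'))
    convert this using 1; group)
  have dC := h.DC _ _ h.hy h.hx h.xy.symm _ d2 (by
    have := mul_mem (mul_mem (mul_mem (inv_mem ux) vx) (h.CW _ h.hx aC)) (h.CW _ h.hx eC')
    convert this using 1; group)
  refine vC (FF _ _ h.hx h.hy h.xy _ hv.1 ?_)
  have := mul_mem (mul_mem (mul_mem uy (CF _ h.hy dC)) (inv_mem (CF _ h.hy eC'))) (inv_mem (CF _ h.hy aC))
  convert this using 1; group

/-- Three step filtration. -/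
theorem refl (hS : IsPGroup p S) (AS : ∀ a ∈ A, ∀ s ∈ S, (a⁻¹ * s * a) • y = y → a⁻¹ * s * a ∈ S)
    (Dc : ∀ g ∈ L, ∀ z, X z → ∀ t ∈ D z, g * t * g⁻¹ ∈ D (g • z))
    (hC : ∀ t, (∀ z, X z → t ∈ W z) → t ∈ C) {Z : V → Subgroup G} (ZW : ∀ z, X z → Z z ≤ W z)
    (Zc : ∀ g ∈ L, ∀ z, X z → ∀ t ∈ Z z, g * t * g⁻¹ ∈ Z (g • z))
    (ZC : ∀ z z', X z → X z' → z ≠ z' → ∀ t ∈ Z z, t ∈ W z' → t ∈ C) (Zn : ¬ Z y ≤ C)
    (sx : ∀ s ∈ S, ∀ d ∈ Z x, Fx C s d) (sy : ∀ s ∈ S, ∀ d ∈ Z y, Fx C s d)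
    (hT : ∀ z, X z → ∀ t ∈ Z z, ∃ d ∈ Z y, d⁻¹ * t ∈ W x)
    (Wx : ∀ t ∈ W x, ∃ d ∈ Z x, d⁻¹ * t ∈ W y) (Wy : ∀ t ∈ W y, ∃ d ∈ Z y, d⁻¹ * t ∈ W x)
    (AW : ∀ a ∈ A, ∀ t ∈ W x, t⁻¹ * a * t * a⁻¹ ∈ D x) (BW : ∀ a ∈ B, ∀ t ∈ W y, t⁻¹ * a * t * a⁻¹ ∈ D y)
    (hp : IsPGroup p (W x ⊓ W y : Subgroup G)) {s : G} (hs : s ∈ S) {z : V} (hz : X z) : s • z = z := by
  by_cases hn : W x ⊓ W y ≤ C
  · have c0 : ∀ s ∈ S, ∀ c ∈ C, Fx C s c := fun s hs c hc => mul_mem (h.LC s (h.SL hs) c hc) (inv_mem hc)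
    have c1 : ∀ s ∈ S, ∀ t ∈ W x, Fx C s t := fun s hs t ht => by
      obtain ⟨d, hd, k⟩ := Wx t ht
      have dx := ZW _ h.hx hd
      simpa using h.fmul (h.WL _ h.hx dx) (sx s hs d hd) (c0 s hs _ (hn (mem_inf.2 ⟨mul_mem (inv_mem dx) ht, k⟩)))
    refine h.fin (fun a ha _ s hs => ?_) hs hz
    by_contra c
    obtain ⟨d, hd, dC⟩ := SetLike.not_le_iff_exists.1 Zn
    have hy' := h.LX _ (h.AL ha) _ h.hy
    have d1 := Zc a (h.AL ha) _ h.hy d hd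
    obtain ⟨e, he, k⟩ := hT _ hy' _ d1
    have f : Fx C s (a * d * a⁻¹) := by
      simpa using h.fmul (h.WL _ h.hy (ZW _ h.hy he)) (sy s hs e he) (c1 s hs _ k)
    have hy'' := h.LX _ (h.SL hs) _ hy'
    have := ZC _ _ hy' hy'' (fun k => c (by rw [mul_smul, mul_smul, ← k, inv_smul_smul])) _ d1 (by
      simpa [mul_assoc] using mul_mem (inv_mem (h.CW _ hy'' f)) (ZW _ hy'' (Zc s (h.SL hs) _ hy' _ d1)))
    exact dC (by simpa [mul_assoc] using h.LC a⁻¹ (inv_mem (h.AL ha)) _ this)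
  have key : ∀ {a b : V}, X a → X b → a ≠ b → (∀ s ∈ S, s • a = a) → (∀ s ∈ S, s • b = b) →
      (∀ s ∈ S, ∀ d ∈ Z a, Fx C s d) → (∀ t ∈ W a, ∃ d ∈ Z a, d⁻¹ * t ∈ W b) →
      ∀ s ∈ S, ∀ d ∈ D a, Fx C s d := fun {a b} ha hb ab sa sb sz wz s hs d hd => by
    obtain ⟨e, he, k⟩ := wz d (h.DW _ ha hd)
    have d1 : s * d * s⁻¹ ∈ D a := by simpa [sa s hs] using Dc s (h.SL hs) _ ha d hd
    have k1 : s * (e⁻¹ * d) * s⁻¹ ∈ W b := by simpa [sb s hs] using h.Wc s (h.SL hs) _ hb _ k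
    have eL := h.WL _ ha (ZW _ ha he)
    have := h.DC _ _ ha hb ab _ (mul_mem (inv_mem hd) d1) (by
      have := mul_mem (mul_mem (inv_mem k) (h.CW _ hb (h.LC _ (inv_mem eL) _ (sz s hs e he)))) k1
      convert this using 1; group)
    simpa [Fx, mul_assoc] using h.LC d (h.WL _ ha (h.DW _ ha hd)) _ this
  obtain ⟨v, hv, vC, hf⟩ := T0 hp hS (fun r hr t ht => ⟨by
    simpa [h.Sx r hr] using h.Wc r (h.SL hr) _ h.hx t ht.1, by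
    simpa [h.Sy r hr] using h.Wc r (h.SL hr) _ h.hy t ht.2⟩) hn
  have vL := h.WL _ h.hx hv.1
  replace hf : ∀ s ∈ S, Fx C s v := fun s hs => by
    simpa [Fx, mul_assoc] using h.LC v vL _ (hf s hs).2
  have main : ∀ a ∈ A, a ∈ normalizer (S : Set G) ∨ v⁻¹ * a * v * a⁻¹ ∈ C := fun a ha => by
    by_cases c : ∀ s ∈ S, (a⁻¹ * s * a) • y = y
    · left
      rw [← inv_mem_iff]
      exact mem_normalizer_fintype fun s hs => by simpa using AS a ha s hs (c s hs)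
    right
    push Not at c
    obtain ⟨s, hs, c⟩ := c
    obtain ⟨k, hk, l, hl, m1, m2⟩ := h.mu ha fun k => c (by
      rw [mul_smul, mul_smul, k, h.Sy s hs, inv_fix k])
    have hm : l * a * k ∈ L := mul_mem (mul_mem (h.BL hl) (h.AL ha)) (h.BL hk)
    have uy := m1 ▸ h.Wc _ hm _ h.hx _ hv.1
    have d1 := AW a ha v hv.1
    have d2 := BW l⁻¹ (inv_mem hl) _ uy
    have e1 := BW k hk v hv.2
    have f := h.core (key h.hx h.hy h.xy h.Sx h.Sy sx Wx) (key h.hy h.hx h.xy.symm h.Sy h.Sx sy Wy)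
      hv.1 hf ha hk hl m1 m2 hs d1 d2
    have sL : a⁻¹ * s * a ∈ L := mul_mem (mul_mem (inv_mem (h.AL ha)) (h.SL hs)) (h.AL ha)
    have hy' := h.LX _ sL _ h.hy
    have eC : v⁻¹ * k * v * k⁻¹ ∈ C := h.DC _ _ h.hy hy' (Ne.symm c) _ e1 (by
      simpa [mul_assoc] using mul_mem (inv_mem (h.CW _ hy' f)) (h.DW _ hy' (Dc _ sL _ h.hy _ e1)))
    refine h.DC _ _ h.hx h.hy h.xy _ d1 ?_
    have := mul_mem (mul_mem (mul_mem (inv_mem (mem_inf.1 hv).2) uy) (h.DW _ h.hy d2))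
      (inv_mem (h.CW _ h.hy (h.LC a (h.AL ha) _ eC)))
    convert this using 1; group
  by_cases c : A ≤ normalizer (S : Set G)
  · exact h.fin (fun a ha _ s hs => h.Sy _ (by
      simpa using (mem_normalizer_iff.1 (inv_mem (c ha)) s).1 hs)) hs hz
  obtain ⟨a, ha, c⟩ := SetLike.not_le_iff_exists.1 c
  have ca := (main a ha).resolve_left c
  have all : ∀ b ∈ A, v⁻¹ * b * v * b⁻¹ ∈ C := fun b hb => (main b hb).elim (fun k => by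
    have := (main (a * b) (mul_mem ha hb)).resolve_left fun k' => c (by
      simpa using mul_mem k' (inv_mem k))
    have := h.LC _ (inv_mem (h.AL ha)) _ (mul_mem (inv_mem ca) this)
    convert this using 1; group) id
  refine absurd (hC v fun z hz => ?_) vC
  by_cases d : z = x
  · exact d ▸ hv.1
  obtain ⟨b, hb, rfl⟩ := h.Atr z hz d
  have := mul_mem (h.Wc b (h.AL hb) _ h.hy v hv.2) (inv_mem (h.CW _ hz (all b hb)))
  convert this using 1; group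

end RF

end H12.BP
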