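/- Split triangles and quadrangles have regular panel actions. -/
import Cfsg.Agent.H12.BPRefl

set_option autoImplicit false

namespace H12.BP

open Subgroup MulAction Cfsg

universe u

variable {n : ℕ} {G V : Type u} [Group G] [MulAction G V] {E : V → V → Prop} {p : ℕ}

variable (G E p) in
/-- A vertex is active if the centre of `U` at an incident edge moves its `(k+1)`-ball. -/
def Act (k : ℕ) (v : V) : Prop := ∀ w, E v w → ∃ z ∈ Z G p w v, z ∉ Bl G E (k + 1) v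

theorem cjc {H : Subgroup G} {t a : G} (h : t⁻¹ * a * t⁻¹⁻¹ ∈ H) (h' : a ∈ H) : t⁻¹ * a * t * a⁻¹ ∈ H := by
  rw [inv_inv] at h; exact mul_mem h (inv_mem h')

theorem cjc' {H : Subgroup G} {t a : G} (h : a * t * a⁻¹ ∈ H) (h' : t ∈ H) : t⁻¹ * a * t * a⁻¹ ∈ H := by
  simpa [mul_assoc] using mul_mem (inv_mem h') h

namespace SP

variable (P : SP G E p n)
include P

theorem act_of {k : ℕ} {v w : V} {z : G} (e : E v w) (hz : z ∈ Z G p w v) (h : z ∉ Bl G E (k + 1) v) :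
    Act G E p k v := fun y ey => by
  obtain ⟨g, g1, rfl⟩ := P.tr2 e ey
  exact ⟨_, by simpa [g1] using Z_cj g hz, fun c => h (by
    simpa [mul_assoc] using P.Bl_cj' (inv_fix g1) c)⟩

theorem act2 {k : ℕ} {u v w : V} (h : Act G E p k u) (e : E v u) (e' : E v w) : Act G E p k w := by
  obtain ⟨g, g1, rfl⟩ := P.tr2 e e'
  obtain ⟨z, hz, c⟩ := h v (P.esym e)
  exact P.act_of (P.einv g (P.esym e)) (Z_cj g hz) fun k => c (by
    simpa [mul_assoc] using P.Bl_cj g⁻¹ k)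

theorem ZBv {k : ℕ} (hk : 2 * k < n) {u v w : V} {z : G} (e : E v u) (e' : E v w) (hn : w ≠ u)
    (hz : z ∈ Z G p u v) (h : z ∈ Bl G E k w) : z ∈ Bl G E (k + 1) v := by
  obtain ⟨R, rfl, rfl, rfl⟩ := P.ex3 e' e hn 0
  exact R.ZB hk (Z.sy hz) (R.Bl_fx h _ (by omega))

theorem triv2 {k l : ℕ} {u v w : V} {g : G} (e : E v u) (e' : E v w) (hn : u ≠ w) (h : g ∈ Bl G E k u)
    (h' : g ∈ Bl G E l w) (hk : 2 ≤ k) (h2 : n ≤ k + l + 1) : g = 1 := by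
  obtain ⟨R, rfl, rfl, rfl⟩ := P.ex3 e e' hn 0
  exact R.Bl_triv h h' hk (by omega) (by omega)

theorem triv1 {k l : ℕ} {u v : V} {g : G} (e : E u v) (h : g ∈ Bl G E k u)
    (h' : g ∈ Bl G E l v) (hk : 2 ≤ k) (h2 : n ≤ k + l) : g = 1 := by
  obtain ⟨R, rfl, rfl⟩ := P.exP e 0
  exact R.Bl_triv h h' hk (by omega) (by omega)

theorem reg_of' {v x y : V} (ex : E v x) (ey : E v y) (hn : x ≠ y)
    (h : ∀ s ∈ U G p y v ⊓ stabilizer G x, ∀ z, E v z → s • z = z) : Reg G E p v := by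
  obtain ⟨R, rfl, rfl, rfl⟩ := P.ex3 ex ey hn 0
  exact R.reg_of fun g hg k => mem_Bl1.2 ⟨U.r hg, h g ⟨hg, k⟩⟩

theorem Ssy {v x y : V} (ex : E v x) (ey : E v y) (hn : x ≠ y) {s : G}
    (h : s ∈ U G p y v ⊓ stabilizer G x) : s ∈ U G p x v := U.sy (P.chain ey ex hn.symm h.1 h.2)

theorem mkRF {v x y : V} (ex : E v x) (ey : E v y) (hn : x ≠ y) {C A B : Subgroup G} {W D : V → Subgroup G}
    (LC : ∀ g : G, g • v = v → ∀ c ∈ C, g * c * g⁻¹ ∈ C) (WL : ∀ z, E v z → W z ≤ stabilizer G v)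
    (CW : ∀ z, E v z → C ≤ W z)
    (Wc : ∀ g : G, g • v = v → ∀ z, E v z → ∀ t ∈ W z, g * t * g⁻¹ ∈ W (g • z))
    (DW : ∀ z, E v z → D z ≤ W z)
    (DC : ∀ z z', E v z → E v z' → z ≠ z' → ∀ t ∈ D z, t ∈ W z' → t ∈ C)
    (AU : A ≤ U G p x v) (BU : B ≤ U G p y v) (Atr : ∀ z, E v z → z ≠ x → ∃ a ∈ A, a • y = z)
    (Btr : ∀ z, E v z → z ≠ y → ∃ b ∈ B, b • x = z) :
    RF (E v) (stabilizer G v) C (U G p y v ⊓ stabilizer G x) A B W D x y :=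
  ⟨ex, ey, hn, fun _ hg _ e => P.einv' hg e, LC, WL, CW, Wc, DW, DC, fun _ h => U.r h.1,
    fun _ h => U.r (AU h), fun _ h => U.r (BU h), fun _ h => h.2, fun _ h => U.l h.1,
    fun _ h => U.l (AU h), fun _ h => U.l (BU h), Atr, Btr, fun m hm m1 m2 s hs => ⟨by
      have := U_cj m⁻¹ (P.Ssy ex ey hn hs)
      rwa [← m2, inv_smul_smul, inv_fix hm, inv_inv] at this, mem_stabilizer_iff.2 <| by
      rw [mul_smul, mul_smul, m1, U.l hs.1, inv_smul_eq_iff, m1]⟩⟩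

theorem AS {v x y : V} (ex : E v x) (ey : E v y) (hn : x ≠ y) {a s : G} (ha : a ∈ U G p x v)
    (hs : s ∈ U G p y v ⊓ stabilizer G x) (h : (a⁻¹ * s * a) • y = y) :
    a⁻¹ * s * a ∈ U G p y v ⊓ stabilizer G x :=
  have := mul_mem (mul_mem (inv_mem ha) (P.Ssy ex ey hn hs)) ha
  ⟨U.sy (P.chain ex ey hn this h), U.l this⟩

variable [Finite G] [Fact p.Prime]

theorem act_or {k : ℕ} (h1 : 1 ≤ k) (hk : n ≤ 2 * k + 2) {u v : V} (e : E u v) :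
    Act G E p k u ∨ Act G E p k v := by
  obtain ⟨z, hz, h⟩ := P.Zne e
  by_cases c : z ∈ Bl G E (k + 1) u
  · exact Or.inr (P.act_of (P.esym e) hz fun d => h (P.triv1 e c d (by omega) (by omega)))
  · exact Or.inl (P.act_of e (Z.sy hz) c)

theorem Mz {u v w : V} (e : E v u) (e' : E v w) (hn : u ≠ w) {m : G} (h : m ∈ M G E p v) :
    ∃ z ∈ Z G p u v, z⁻¹ * m ∈ Bl G E 1 w := by
  have h3 := P.three
  refine P.Mdec e (fun z hz => P.lemA (by omega) (P.esym e') hz) (fun y ey hy => ?_) h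
  obtain ⟨q, hq, k⟩ := P.T1 (P.esym e') e ey hn hy
  exact ⟨q, Q.nb hq (P.esym e'), k, fun z hz => cjc (P.Bl_cj' (inv_fix (Bl.nb
    (P.lemA (k := 1) (by omega) e (Z.sy hz)) e')) (Q.bl hq)) (Q.bl hq)⟩

theorem MM {k : ℕ} {b v c : V} (e : E b v) (e' : E b c) (hn : c ≠ v) {m : G} (h : m ∈ M G E p v)
    (h1 : m ∈ Bl G E k v) (h2 : m ∈ Bl G E k c) : m ∈ Bl G E (k + 1) b :=
  P.spread (Q.nb (P.MQ h) (P.esym e)) h1 h2 fun y ey hy => by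
    obtain ⟨q, hq, k⟩ := P.T1 (P.esym e) e' ey hn hy
    exact ⟨q, P.MC h hq, k⟩

theorem MT {a b c : V} (e1 : E b a) (e2 : E b c) (hn : a ≠ c) (h : ¬ M G E p a ≤ Bl G E 1 b) {y y' : V}
    (e : E c y) (e' : E c y') (hy : y ≠ b) (hy' : y' ≠ b) : ∃ g ∈ M G E p a ⊓ Bl G E 1 b, g • y = y' :=
  P.TA e1 e2 hn (fun _ k => P.QU (P.MQ k) (P.esym e1)) (fun _ hr _ ht => P.M_cj' (U.l hr) ht) h e e' hy hy'

theorem Mact {k : ℕ} (hk : 2 * k < n) {a b : V} (e : E a b) (h : Act G E p k a) :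
    ¬ M G E p a ≤ Bl G E k b := fun c => by
  obtain ⟨w, ew, hw, -⟩ := P.third e e
  obtain ⟨z, hz, k⟩ := h w ew
  exact k (P.ZBv hk ew e hw.symm hz (c (ZM ew hz)))

end SP

variable [Finite G] [Fact p.Prime]

theorem reg3 (P : SP G E p 3) : Reg G E p (P.x 2) := by
  have hM : ¬ M G E p (P.x 1) ≤ Bl G E 1 (P.x 0) := fun c => by
    obtain ⟨z, hz, h⟩ := P.Zne (P.ex (i := 2) (j := 1) (by omega))
    have h0 := c (SP.ZM (P.ex (by omega)) hz)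
    have h2 := P.lemA (k := 1) (by omega) (P.ex (by omega)) hz
    refine h (P.triv (-1) 0 (fun k a b => ?_) h0 (P.lemA (by omega) (P.ex (by omega)) (Z.sy hz)))
    by_cases d : k ≤ 1
    · exact P.Bl_fx h0 _ (by omega)
    · exact P.Bl_fx h2 _ (by omega)
  refine P.reg_of fun g hg g1 => ?_
  obtain ⟨q, hq, k⟩ := P.T1 (b := P.x 2) (c := P.x 1) (y := P.x 0) (y' := g • P.x 0) (P.ex (by omega))
    (P.ex (by omega)) (P.einv' g1 (P.ex (by omega))) (P.nx (by omega)) (by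
      rw [← U.r hg, Ne, smul_left_cancel_iff]; exact P.nx (by omega))
  have s1 : q⁻¹ * g ∈ U G p (P.x 3) (P.x 2) := mul_mem (inv_mem (U.sy (P.QU hq (P.ex (by omega))))) hg
  have s2 : (q⁻¹ * g) • P.x 1 = P.x 1 := mul_fix (inv_fix (Q.nb hq (P.ex (by omega)))) g1
  have s3 := P.chain (w := P.x 0) (P.ex (by omega)) (P.ex (by omega)) (P.nx (by omega))
    (P.chain (P.ex (by omega)) (P.ex (by omega)) (P.nx (by omega)) s1 s2)
    (by rw [mul_smul, ← k, inv_smul_smul])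
  have : q⁻¹ * g ∈ Bl G E 1 (P.x 2) := P.spread (j := 0) (U.r s1) s2 (U.l s1) fun y e hy => by
    obtain ⟨a, a0, a1, a2⟩ := P.T2 (a := P.x 0) (b := P.x 1) (y := P.x 3) (P.ex (by omega)) (P.ex (by omega))
      (P.nx (by omega)) (P.ex (by omega)) e (P.nx (by omega)) hy
    obtain ⟨m, hm, m1⟩ := P.MT (c := P.x (-1)) (y := P.x (-2)) (y' := a • P.x (-2)) (P.ex (by omega))
      (P.ex (by omega)) (P.nx (by omega)) hM (P.ex (by omega))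
      (P.einv' (Q.nb a0 (P.ex (by omega))) (P.ex (by omega))) (P.nx (by omega)) (by
        rw [← Q.fix a0, Ne, smul_left_cancel_iff]; exact P.nx (by omega))
    have b0 := mul_mem (inv_mem (mem_inf.1 hm).2) (Q.bl a0)
    have b1 := mul_mem (inv_mem (Q.bl (P.MQ hm.1))) (Q.bl a1)
    have : m⁻¹ * a = 1 := P.triv (-2) 0 (fun k c d => by
      rcases c.eq_or_lt with rfl | c
      · rw [mul_smul, ← m1, inv_smul_smul]
      · by_cases f : k ≤ 1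
        · exact P.Bl_fx b0 _ (by omega)
        · exact P.Bl_fx b1 _ (by omega)) b0 b1
    obtain rfl := inv_mul_eq_one.1 this
    obtain ⟨z, hz, z1⟩ := P.Mz (u := P.x 0) (w := P.x 2) (P.ex (by omega)) (P.ex (by omega))
      (P.nx (by omega)) hm.1
    refine ⟨z, (Z.com hz (U.sy s3)).symm, ?_⟩
    have := Bl.nb z1 (P.ex (j := 3) (by omega))
    rwa [mem_Bl0, mul_smul, inv_smul_eq_iff, a2, eq_comm] at this
  simpa using mul_mem (Q.bl hq) this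

theorem reg4a (P : SP G E p 4) {v : V} (i : ℤ) (hv : P.x i = v) (h : Act G E p 1 v) : Reg G E p v := by
  have ex : E v (P.x (i + 1)) := hv ▸ P.ex (by omega)
  obtain ⟨y, ey, hn, -⟩ := P.third ex ex
  generalize P.x (i + 1) = x at *
  obtain ⟨c, ec, hc, -⟩ := P.third (P.esym ex) (P.esym ex)
  obtain ⟨d, ed, hd, -⟩ := P.third (P.esym ey) (P.esym ey)
  have tr : ∀ {x y c : V}, E v x → E v y → y ≠ x → E x c → c ≠ v → ∀ z, E v z → z ≠ x →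
      ∃ a ∈ M G E p c ⊓ Bl G E 1 x, a • y = z := fun ex ey hn ec hc z ez hz =>
    P.MT ec (P.esym ex) hc (P.Mact (by omega) (P.esym ec) (P.act2 h (P.esym ex) ec)) ey ez hn hz
  have AU : ∀ {x c : V}, E v x → E x c → M G E p c ⊓ Bl G E 1 x ≤ U G p x v := fun ex ec _ ha =>
    P.QU (P.QQ (P.esym ec) (P.MQ ha.1) ha.2) (P.esym ex)
  have AW : ∀ {x c : V}, E v x → E x c → c ≠ v → ∀ a ∈ M G E p c ⊓ Bl G E 1 x,
      ∀ t ∈ M G E p v ⊓ Bl G E 1 x, t⁻¹ * a * t * a⁻¹ ∈ M G E p v ⊓ Bl G E 2 x :=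
    fun ex ec hc a ha t ht =>
      have k := cjc' (P.M_cj' (Bl.nb ha.2 (P.esym ex)) ht.1) ht.1
      ⟨k, P.MM (P.esym ex) ec hc k (Q.bl (P.MQ k))
        (Q.bl (P.MQ (cjc (P.M_cj' (inv_fix (Bl.nb ht.2 ec)) ha.1) ha.1)))⟩
  have dec : ∀ {x y : V}, E v x → E v y → y ≠ x → ∀ t ∈ M G E p v, ∃ d ∈ Z G p y v,
      d⁻¹ * t ∈ M G E p v ⊓ Bl G E 1 x := fun ex ey hn t ht => by
    obtain ⟨z, hz, k⟩ := P.Mz ey ex hn ht
    exact ⟨z, hz, mem_inf.2 ⟨mul_mem (inv_mem (SP.ZM ey hz)) ht, k⟩⟩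
  have R := P.mkRF ex ey hn.symm (C := M G E p v ⊓ Bl G E 2 v) (W := fun w => M G E p v ⊓ Bl G E 1 w)
    (D := fun w => M G E p v ⊓ Bl G E 2 w) (fun g hg c k => ⟨P.M_cj' hg k.1, P.Bl_cj' hg k.2⟩)
    (fun z _ t ht => Q.fix (P.MQ ht.1)) (fun z e t ht => ⟨ht.1, Bl.nb ht.2 e⟩)
    (fun g hg z _ t ht => ⟨P.M_cj' hg ht.1, P.Bl_cj g ht.2⟩) (fun z _ t ht => ⟨ht.1, Bl.pred ht.2⟩)
    (fun z z' e e' hn t ht ht' => by
      rw [P.triv2 e e' hn ht.2 ht'.2 le_rfl le_rfl]; exact one_mem _)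
    (AU ex ec) (AU ey ed) (tr ex ey hn ec hc) (tr ey ex hn.symm ed hd)
  refine P.reg_of' ex ey hn.symm fun s hs z ez => R.refl ((U_p _ _).to_le inf_le_left)
    (fun a ha s hs => P.AS ex ey hn.symm (AU ex ec ha) hs)
    (fun g hg z _ t ht => ⟨P.M_cj' hg ht.1, P.Bl_cj g ht.2⟩)
    (fun t ht => ⟨(ht x ex).1, mem_BlS.2 ⟨Q.fix (P.MQ (ht x ex).1), fun w e => (ht w e).2⟩⟩)
    (Z := fun w => Z G p w v) (fun z e t ht => ⟨SP.ZM e ht, P.lemA (by omega) (P.esym e) ht⟩)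
    (fun g hg z _ t ht => by simpa [mem_stabilizer_iff.1 hg] using Z_cj g ht)
    (fun z z' e e' hn t ht ht' => ⟨ht'.1, P.ZBv (by omega) e e' hn.symm ht ht'.2⟩)
    (fun k => (h y ey).elim fun z hz => hz.2 (k hz.1).2)
    (fun s hs d hd => by rw [Fx, Z.com hd (P.Ssy ex ey hn.symm hs)]; simp)
    (fun s hs d hd => by rw [Fx, Z.com hd hs.1]; simp)
    (fun z e t ht => dec ex ey hn t (SP.ZM e ht)) (fun t ht => dec ey ex hn.symm t ht.1)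
    (fun t ht => dec ex ey hn t ht.1) (AW ex ec hc) (AW ey ed hd)
    ((Q_p v).to_le fun t ht => P.MQ ht.1.1) hs ez

theorem reg4b (P : SP G E p 4) {v : V} (i : ℤ) (hv : P.x i = v) (h : ¬ Act G E p 1 v)
    (ha : ∀ z, E v z → Act G E p 1 z) (hr : ∀ z, E v z → Reg G E p z) : Reg G E p v := by
  have ex : E v (P.x (i + 1)) := hv ▸ P.ex (by omega)
  obtain ⟨y, ey, hn, -⟩ := P.third ex ex
  generalize P.x (i + 1) = x at *
  obtain ⟨c, ec, hc, -⟩ := P.third (P.esym ex) (P.esym ex)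
  obtain ⟨d, ed, hd, -⟩ := P.third (P.esym ey) (P.esym ey)
  have DQ : ∀ {z : V} {t : G}, E v z → t ∈ M G E p z ⊓ Bl G E 1 v → t ∈ Q G E p v := fun e ht =>
    P.QQ (P.esym e) (P.MQ ht.1) ht.2
  have tr : ∀ {x y : V}, E v x → E v y → x ≠ y → ∀ a b, E y a → E y b → a ≠ v → b ≠ v →
      ∃ g ∈ M G E p x ⊓ Bl G E 1 v, g • a = b := fun ex ey hn a b =>
    P.MT ex ey hn (P.Mact (by omega) (P.esym ex) (ha _ ex))
  have dec : ∀ {x y : V}, E v x → E v y → x ≠ y → ∀ t ∈ U G p v y, ∃ d ∈ M G E p x ⊓ Bl G E 1 v,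
      d⁻¹ * t ∈ Bl G E 1 y := fun {x y} ex ey hn t ht => by
    obtain ⟨a, ea, h1, -⟩ := P.third (P.esym ey) (P.esym ey)
    obtain ⟨g, hg, k⟩ := tr ex ey hn a (t • a) ea (P.einv' (U.r ht) ea) h1 (by
      rw [← U.l ht, Ne, smul_left_cancel_iff]; exact h1)
    exact ⟨g, hg, hr y ey v a (P.esym ey) ea h1.symm _ (mul_mem (inv_mem (P.QU (DQ ex hg) ey)) ht)
      (by rw [mul_smul, ← k, inv_smul_smul])⟩
  have dec' : ∀ {x y : V}, E v x → E v y → x ≠ y → ∀ t ∈ Q G E p v, ∃ d ∈ M G E p x ⊓ Bl G E 1 v,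
      d⁻¹ * t ∈ Q G E p v ⊓ Q G E p y := fun ex ey hn t ht => by
    obtain ⟨g, hg, k⟩ := dec ex ey hn t (P.QU ht ey)
    have := mul_mem (inv_mem (DQ ex hg)) ht
    exact ⟨g, hg, this, P.QQ ey this k⟩
  have DC : ∀ z z', E v z → E v z' → z ≠ z' → ∀ t ∈ M G E p z ⊓ Bl G E 1 v, t ∈ Q G E p v ⊓ Q G E p z' →
      t ∈ Q G E p v ⊓ Bl G E 2 v := fun z z' e e' hn t ht ht' =>
    ⟨ht'.1, P.MM e e' hn.symm ht.1 (Q.bl (P.MQ ht.1)) (Q.bl ht'.2)⟩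
  have sx : ∀ {x y : V}, E v x → E v y → x ≠ y → ∀ s ∈ U G p y v, s • x = x →
      ∀ d ∈ M G E p x ⊓ Bl G E 1 v, Fx (Q G E p v ⊓ Bl G E 2 v) s d := fun {x y} ex ey hn s hs sx d hd => by
    have k : s * d * s⁻¹ * d⁻¹ ∈ M G E p x ⊓ Bl G E 1 v :=
      mul_mem (mem_inf.2 ⟨P.M_cj' sx hd.1, P.Bl_cj' (U.r hs) hd.2⟩) (inv_mem hd)
    obtain ⟨g, hg, k1⟩ := dec ex ey hn s (U.sy hs)
    refine DC _ _ ex ey hn _ k ⟨DQ ex k, P.QQ ey (DQ ex k) ?_⟩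
    have := P.Bl_cj' (Bl.nb hg.2 ey) (mul_mem k1 (P.Bl_cj' (Bl.nb hd.2 ey) (inv_mem k1)))
    convert this using 1
    have e := P.Mcom hd.1 hg.1
    calc s * d * s⁻¹ * d⁻¹ = s * d * s⁻¹ * (g * d⁻¹ * g⁻¹) := by
          rw [mul_assoc g, ← mul_inv_rev, ← e]; group
      _ = _ := by group
  have AW : ∀ {x c : V}, E v x → E x c → c ≠ v → ∀ a ∈ Q G E p c ⊓ Q G E p x,
      ∀ t ∈ Q G E p v ⊓ Q G E p x, t⁻¹ * a * t * a⁻¹ ∈ M G E p x ⊓ Bl G E 1 v := by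
    intro x c ex ec hc a ha' t ht
    have r0 := cjc (P.Q_cj' (inv_fix (Q.nb ht.2 ec)) ha'.1) ha'.1
    have r1 := cjc (P.Q_cj' (inv_fix (Q.fix ht.2)) ha'.2) ha'.2
    have r2 := cjc' (P.Q_cj' (Q.nb ha'.2 (P.esym ex)) ht.1) ht.1
    generalize t⁻¹ * a * t * a⁻¹ = r at *
    obtain ⟨R, rfl, rfl, rfl⟩ := P.ex3 ec (P.esym ex) hc 1
    obtain ⟨m, hm, m1⟩ := P.MT (a := R.x 1) (b := R.x 0) (c := R.x (-1)) (y := R.x (-2))
      (y' := r • R.x (-2)) (R.ex (by omega)) (R.ex (by omega)) (R.nx (by omega))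
      (P.Mact (by omega) ec (ha _ ex)) (R.ex (by omega))
      (P.einv' (Q.nb r0 (R.ex (by omega))) (R.ex (by omega))) (R.nx (by omega)) (by
        rw [← Q.nb r1 (R.ex (j := 0) (by omega)), Ne, smul_left_cancel_iff]; exact R.nx (by omega))
    obtain ⟨z, hz, z1⟩ := P.Mz ec (P.esym ex) hc hm.1
    have z2 : z ∈ Bl G E 2 (R.x 0) := by
      by_contra k
      exact h (P.act2 (P.act_of (P.esym ec) (Z.sy hz) k) ec (P.esym ex))
    have hm' := mul_mem (inv_mem (SP.ZM ec hz)) (mem_inf.1 hm).1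
    have b0 := mul_mem (inv_mem (mul_mem (inv_mem (Bl.pred z2)) (mem_inf.1 hm).2)) (Q.bl r0)
    have b1 := mul_mem (inv_mem (Q.bl (P.MQ hm'))) (Q.bl r1)
    have b2 := mul_mem (inv_mem z1) (Q.bl r2)
    have : (z⁻¹ * m)⁻¹ * r = 1 := R.triv (-2) 0 (fun k c d => by
      rcases c.eq_or_lt with rfl | c
      · rw [mul_smul, inv_smul_eq_iff, mul_smul, m1, eq_inv_smul_iff]
        exact Bl.nb (R.Bl_x z2 1 (-1) (by omega))
          (P.einv' (Q.nb r0 (R.ex (by omega))) (R.ex (by omega)))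
      · by_cases f : k ≤ 1
        · exact R.Bl_fx b0 _ (by omega)
        · exact R.Bl_fx b2 _ (by omega)) b0 b1
    exact ⟨inv_mul_eq_one.1 this ▸ hm', Q.bl r2⟩
  have tr' : ∀ {x y c : V}, E v x → E v y → y ≠ x → E x c → c ≠ v → ∀ z, E v z → z ≠ x →
      ∃ a ∈ Q G E p c ⊓ Q G E p x, a • y = z := fun ex ey hn ec hc z ez hz => by
    obtain ⟨g, g1, g2, g3⟩ := P.T2 ec (P.esym ex) hc ey ez hn hz
    exact ⟨g, ⟨g1, g2⟩, g3⟩
  have Dc : ∀ g ∈ stabilizer G v, ∀ z, E v z → ∀ t ∈ M G E p z ⊓ Bl G E 1 v,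
      g * t * g⁻¹ ∈ M G E p (g • z) ⊓ Bl G E 1 v := fun g hg z _ t ht => ⟨P.M_cj g ht.1, P.Bl_cj' hg ht.2⟩
  have DW : ∀ z, E v z → M G E p z ⊓ Bl G E 1 v ≤ Q G E p v ⊓ Q G E p z :=
    fun z e t ht => ⟨DQ e ht, P.MQ ht.1⟩
  have R := P.mkRF ex ey hn.symm (C := Q G E p v ⊓ Bl G E 2 v) (W := fun w => Q G E p v ⊓ Q G E p w)
    (D := fun w => M G E p w ⊓ Bl G E 1 v) (fun g hg c k => ⟨P.Q_cj' hg k.1, P.Bl_cj' hg k.2⟩)
    (fun z _ t ht => Q.fix ht.1) (fun z e t ht => ⟨ht.1, P.QQ e ht.1 (Bl.nb ht.2 e)⟩)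
    (fun g hg z _ t ht => ⟨P.Q_cj' hg ht.1, P.Q_cj g ht.2⟩) DW DC
    (A := Q G E p c ⊓ Q G E p x) (B := Q G E p d ⊓ Q G E p y)
    (fun a k => P.QU k.2 (P.esym ex)) (fun a k => P.QU k.2 (P.esym ey))
    (tr' ex ey hn ec hc) (tr' ey ex hn.symm ed hd)
  exact P.reg_of' ex ey hn.symm fun s hs z ez => R.refl ((U_p _ _).to_le inf_le_left)
    (fun a k s hs => P.AS ex ey hn.symm (P.QU k.2 (P.esym ex)) hs) Dc
    (fun t ht => ⟨(ht x ex).1, mem_BlS.2 ⟨Q.fix (ht x ex).1, fun w e => Q.bl (ht w e).2⟩⟩) DW Dc DC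
    (fun k => P.notBl (P.esym ex) (tr ey ex hn) fun t ht => Bl.nb (k ht).2 ex)
    (fun s hs => sx ex ey hn.symm s hs.1 hs.2) (fun s hs => sx ey ex hn s (P.Ssy ex ey hn.symm hs) (U.l hs.1))
    (fun z e t ht => dec' ey ex hn t (DQ e ht)) (fun t ht => dec' ex ey hn.symm t ht.1)
    (fun t ht => dec' ey ex hn t ht.1) (AW ex ec hc) (AW ey ed hd)
    ((Q_p v).to_le fun t ht => ht.1.1) hs ez

theorem reg4 (P : SP G E p 4) (i : ℤ) : Reg G E p (P.x i) := by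
  by_cases h : Act G E p 1 (P.x i)
  · exact reg4a P i rfl h
  · have k : ∀ z, E (P.x i) z → Act G E p 1 z := fun z e => (P.act_or le_rfl le_rfl e).resolve_left h
    refine reg4b P i rfl h k fun z e => ?_
    obtain ⟨R, -, r⟩ := P.exP e 0
    exact reg4a R _ r (k z e)

end H12.BP
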