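/- Split hexagons have regular panel actions. -/
import Cfsg.Agent.H12.BP34

set_option autoImplicit false

namespace H12.BP

open Subgroup MulAction Cfsg

universe u

variable {n : ℕ} {G V : Type u} [Group G] [MulAction G V] {E : V → V → Prop} {p : ℕ}

theorem SP.ex4 (P : SP G E p n) {a b c d : V} (e1 : E a b) (e2 : E b c) (e3 : E c d) (h1 : a ≠ c)
    (h2 : b ≠ d) (i : ℤ) : ∃ Q : SP G E p n, Q.x (i - 1) = a ∧ Q.x i = b ∧ Q.x (i + 1) = c ∧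
      Q.x (i + 2) = d := by
  obtain ⟨Q, rfl, rfl, rfl⟩ := P.ex3 (P.esym e1) e2 h1 i
  obtain ⟨R, r1, r2⟩ := Q.ext' e3 (by rw [add_sub_cancel_right]; exact h2.symm)
  have h3 := P.three
  exact ⟨R, r2 _ (by omega) (by omega), r2 _ (by omega) (by omega), r2 _ (by omega) le_rfl,
    by rw [← r1]; exact R.xe (by ring)⟩

theorem card_nb (P : Pol n G E) (g : G) (u v : V) :
    Nat.card {w // E u w ∧ w ≠ v} = Nat.card {w // E (g • u) w ∧ w ≠ g • v} :=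
  Nat.card_congr ((MulAction.toPerm g).subtypeEquiv fun w => by
    refine and_congr ⟨P.einv g, fun h => by simpa using P.einv g⁻¹ h⟩ (by simp))

variable (G E) in
/-- The group generated by the central elations with centre next to `z`. -/
def D6 (z : V) : Subgroup G := closure {c | ∃ w, E z w ∧ c ∈ Bl G E 3 w}

variable (G E) in
/-- The group generated by the central elations with centre collinear to `v`. -/
def T6 (v : V) : Subgroup G := closure {c | ∃ l w, E v l ∧ E l w ∧ c ∈ Bl G E 3 w}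

theorem DT {v l : V} (e : E v l) : D6 G E l ≤ T6 G E v :=
  closure_mono fun _ ⟨w, h1, h2⟩ => ⟨l, w, e, h1, h2⟩

theorem CD {z w : V} {c : G} (e : E z w) (h : c ∈ Bl G E 3 w) : c ∈ D6 G E z := subset_closure ⟨w, e, h⟩

theorem clo_cj {S T : Set G} {g a : G} (h : ∀ s ∈ S, g * s * g⁻¹ ∈ T) (ha : a ∈ closure S) :
    g * a * g⁻¹ ∈ closure T := by
  induction ha using closure_induction with
  | mem z hz => exact subset_closure (h z hz)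
  | one => simp
  | mul a b _ _ ha hb => simpa [mul_assoc] using mul_mem ha hb
  | inv a _ ha => simpa [mul_assoc] using inv_mem ha

theorem Pol.D6_cj (P : Pol n G E) {z : V} (g : G) {a : G} (h : a ∈ D6 G E z) : g * a * g⁻¹ ∈ D6 G E (g • z) :=
  by
  refine clo_cj ?_ h
  rintro _ ⟨_, h1, h2⟩
  exact ⟨_, P.einv g h1, P.Bl_cj g h2⟩

theorem Pol.T6_cj (P : Pol n G E) {z : V} {g : G} (hg : g • z = z) {a : G} (h : a ∈ T6 G E z) :
    g * a * g⁻¹ ∈ T6 G E z :=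
  by
  refine clo_cj ?_ h
  rintro _ ⟨_, _, h0, h1, h2⟩
  exact ⟨_, _, P.einv' hg h0, P.einv g h1, P.Bl_cj g h2⟩

variable [Finite G] [Fact p.Prime] [Finite V]

namespace SP

variable (P : SP G E p 6)
include P

omit [Finite G] [Fact p.Prime] [Finite V] in
theorem s6 {g : G} {i : ℤ} (j : ℤ) (hj : j = i + 4 ∨ j = i - 4) (h : g ∈ Bl G E 3 (P.x i))
    (h' : g • P.x j = P.x j) : g = 1 := by
  rcases hj with rfl | rfl
  · exact P.Bl_triv h (l := 0) h' (by omega) (by omega) (by omega)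
  · exact (P.re 0).Bl_triv (i := -i) (j := 4 - i) (l := 0) (k := 3) (by simpa using h)
      (by simpa [mem_Bl0] using h') (by omega) (by omega) (by omega)

omit [Finite V] in
theorem cm6 {b v c : V} (e : E b v) (e' : E b c) (hn : c ≠ v) {m a : G} (h : m ∈ M G E p v)
    (h' : a ∈ M G E p c) : m⁻¹ * a * m * a⁻¹ ∈ M G E p v ⊓ Bl G E 3 b :=
  have k := cjc' (P.M_cj' (Bl.nb (Bl.nb (P.MB (k := 2) (by omega) h') (P.esym e')) e) h) h
  ⟨k, P.MM e e' hn k (P.MB (by omega) k) (P.MB (by omega) (cjc (P.M_cj'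
    (inv_fix (Bl.nb (Bl.nb (P.MB (k := 2) (by omega) h) (P.esym e)) e')) h') h'))⟩

omit [Finite V] in
theorem Dne {v w : V} (h : Act G E p 2 v) (e : E v w) : ∃ d ∈ M G E p v ⊓ Bl G E 3 w, d ≠ 1 := by
  obtain ⟨R, rfl, rfl⟩ := P.exP e 1
  obtain ⟨z, hz, z1⟩ := h (R.x 0) (R.ex (by omega))
  obtain ⟨b, hb, b1⟩ := P.act2 h (P.esym e) (R.ex (j := 3) (by omega)) (R.x 4) (R.ex (by omega))
  have bM := ZM (E := E) (R.ex (by omega)) hb
  refine ⟨_, P.cm6 (P.esym e) (R.ex (by omega)) (R.nx (by omega)) (ZM (R.ex (by omega)) hz) bM, fun c => ?_⟩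
  have b2 : b • R.x 0 ≠ R.x 0 := fun k => b1 ((R.sh 3).ZB (k := 2) (by omega) (Z.sy hb) k)
  refine z1 (P.ZBv (by omega) (R.ex (by omega)) (P.einv' (R.Bl_fx (P.MB (k := 2) (by omega) bM) 1 (by omega))
    (R.ex (by omega))) b2 hz ?_)
  have := P.Bl_cj b (P.lemA (k := 2) (by omega) (R.ex (by omega)) hz)
  rwa [show b * z * b⁻¹ = z * (z⁻¹ * b * z * b⁻¹) by group, c, mul_one] at this

omit [Finite V] in
theorem lin6 {v w w' : V} (e : E v w) (e' : E v w') (hn : w ≠ w') {d d' : G}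
    (hd : d ∈ M G E p v ⊓ Bl G E 3 w) (d1 : d ≠ 1) (hd' : d' ∈ M G E p v ⊓ Bl G E 3 w') :
    ∃ y, E v y ∧ d * d' ∈ Bl G E 3 y := by
  obtain ⟨R, rfl, rfl, rfl⟩ := P.ex3 e e' hn 1
  have fx : ∀ b ∈ M G E p (R.x 3) ⊓ Bl G E 3 (R.x 4), b • R.x 1 = R.x 1 := fun b hb =>
    R.Bl_fx hb.2 _ (by omega)
  let f : (M G E p (R.x 3) ⊓ Bl G E 3 (R.x 4) : Subgroup G) →
      (M G E p (R.x 1) ⊓ Bl G E 3 (R.x (1 + 1)) : Subgroup G) :=
    fun b => ⟨_, P.cm6 (P.esym e') (R.ex (by omega)) (R.nx (by omega)) hd.1 b.2.1⟩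
  have inj : Function.Injective f := fun b b' k => by
    have k1 : (b : G) * d * (b : G)⁻¹ = b' * d * (b' : G)⁻¹ := by
      simpa [f, mul_assoc] using congrArg Subtype.val k
    have k2 : (b : G) • R.x (1 - 1) = (b' : G) • R.x (1 - 1) := by
      by_contra c
      have := P.triv2 (P.einv' (fx _ b.2) e) (P.einv' (fx _ b'.2) e) c (P.Bl_cj _ hd.2)
        (l := 3) (k1 ▸ P.Bl_cj _ hd.2) (by omega) (by omega)
      exact d1 (by simpa using this)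
    exact Subtype.ext (inv_mul_eq_one.1 (R.s6 (1 - 1) (by omega)
      (mul_mem (inv_mem (mem_inf.1 b.2).2) b'.2.2) (by rw [mul_smul, ← k2, inv_smul_smul])))
  obtain ⟨r, hr⟩ := R.rot 1
  have card : Nat.card (M G E p (R.x 1) ⊓ Bl G E 3 (R.x (1 + 1)) : Subgroup G) ≤
      Nat.card (M G E p (R.x 3) ⊓ Bl G E 3 (R.x 4) : Subgroup G) :=
    Nat.card_le_card_of_injective (fun a => ⟨r * a * r⁻¹, by
      simpa [hr] using P.M_cj r a.2.1, by simpa [hr] using P.Bl_cj r a.2.2⟩)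
      fun a b k => Subtype.ext (by simpa using congrArg Subtype.val k)
  obtain ⟨b, hb⟩ := (inj.bijective_of_nat_card_le card).2 ⟨d', hd'⟩
  refine ⟨_, P.einv' (fx _ b.2) e, ?_⟩
  have := P.Bl_cj (b : G) hd.2
  rwa [show (b : G) * d * (b : G)⁻¹ = d * (d⁻¹ * b * d * (b : G)⁻¹) by group,
    show d⁻¹ * b * d * (b : G)⁻¹ = d' from congrArg Subtype.val hb] at this

theorem Ctr0 (h : Act G E p 2 (P.x 1)) {y : V} (e : E (P.x 5) y) (hy : y ≠ P.x 4) :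
    ∃ g ∈ M G E p (P.x 1) ⊓ Bl G E 3 (P.x 2), g • P.x 6 = y := by
  have e0 : E (P.x 1) (P.x 0) := P.ex (by omega)
  obtain ⟨d, hd, d1⟩ := P.Dne h e0
  have k : ∀ w : {w // E (P.x 1) w ∧ w ≠ P.x 2}, ∃ q : G, q • P.x 1 = P.x 1 ∧ q • P.x 0 = w ∧
      d⁻¹ * q * d * q⁻¹ ∈ M G E p (P.x 1) ⊓ Bl G E 3 (P.x 2) := fun ⟨w, ew, hw⟩ => by
    obtain ⟨q, q3, q2, q0⟩ := P.T2 (a := P.x 3) (b := P.x 2) (P.ex (by omega)) (P.ex (by omega))
      (P.nx (by omega)) e0 ew (P.nx (by omega)) hw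
    have q1 := Q.nb q2 (P.ex (j := 1) (by omega))
    have m1 := P.M_cj' q1 hd.1
    have m2 := cjc' m1 hd.1
    have b3 := cjc (P.Bl_cj' (inv_fix (P.Bl_fx hd.2 3 (by omega))) (Q.bl q3)) (Q.bl q3)
    refine ⟨q, q1, q0, m2, ?_⟩
    obtain ⟨y, ey, hy⟩ : ∃ y, E (P.x 1) y ∧ d⁻¹ * q * d * q⁻¹ ∈ Bl G E 3 y := by
      by_cases c : w = P.x 0
      · exact ⟨_, e0, cjc' (P.Bl_cj' (q0.trans c) hd.2) hd.2⟩
      · simpa [mul_assoc] using P.lin6 e0 ew (Ne.symm c) (inv_mem hd) (inv_ne_one.2 d1)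
          (mem_inf.2 ⟨m1, q0 ▸ P.Bl_cj q hd.2⟩)
    by_cases c : y = P.x 2
    · exact c ▸ hy
    · obtain ⟨R, r1, r2⟩ := P.ext (i := 1) ey c
      rw [R.s6 (g := d⁻¹ * q * d * q⁻¹) (i := 1 - 1) 4 (by omega) (r1 ▸ hy) (by
        rw [r2 _ (by omega) (by omega)]; exact P.Bl_fx b3 _ (by omega))]
      exact one_mem _
  choose q q1 q0 q2 using k
  have c1 := Nat.card_le_card_of_injective (fun w => (⟨_, q2 w⟩ :
      (M G E p (P.x 1) ⊓ Bl G E 3 (P.x 2) : Subgroup G))) fun w w' k => by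
    have k1 : q w * d * (q w)⁻¹ = q w' * d * (q w')⁻¹ := by simpa [mul_assoc] using congrArg Subtype.val k
    by_contra c
    have := P.triv2 w.2.1 w'.2.1 (fun k => c (Subtype.ext k)) (q0 w ▸ P.Bl_cj _ hd.2)
      (k1 ▸ q0 w' ▸ P.Bl_cj _ hd.2) (by omega) (by omega)
    exact d1 (by simpa using this)
  obtain ⟨r, hr⟩ := P.refl 3
  have c2 := card_nb P.toPol r (P.x 1) (P.x 2)
  rw [hr, hr] at c2
  let f : (M G E p (P.x 1) ⊓ Bl G E 3 (P.x 2) : Subgroup G) → {w // E (P.x 5) w ∧ w ≠ P.x 4} :=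
    fun g => ⟨(g : G) • P.x 6, P.einv' (P.Bl_fx g.2.2 _ (by omega)) (P.ex (by omega)), by
      rw [← P.Bl_fx g.2.2 4 (by omega), Ne, smul_left_cancel_iff]; exact P.nx (by omega)⟩
  have inj : Function.Injective f := fun a b k => Subtype.ext (inv_mul_eq_one.1 (P.s6 6 (by omega)
    (mul_mem (inv_mem (mem_inf.1 a.2).2) b.2.2) (by
      rw [mul_smul, inv_smul_eq_iff]; exact (congrArg Subtype.val k).symm)))
  obtain ⟨g, hg⟩ := (inj.bijective_of_nat_card_le (c2 ▸ c1)).2 ⟨y, e, hy⟩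
  exact ⟨g, g.2, congrArg Subtype.val hg⟩

theorem CM {v w : V} (h : Act G E p 2 v) (e : E v w) {g : G} (hg : g ∈ Bl G E 3 w) : g ∈ M G E p v := by
  obtain ⟨R, rfl, rfl⟩ := P.exP e 1
  obtain ⟨d, hd, k⟩ := R.Ctr0 h (y := g • R.x 6) (P.einv' (R.Bl_fx hg _ (by omega)) (R.ex (by omega))) (by
    rw [← R.Bl_fx hg 4 (by omega), Ne, smul_left_cancel_iff]; exact R.nx (by omega))
  exact inv_mul_eq_one.1 (R.s6 6 (by omega) (mul_mem (inv_mem (mem_inf.1 hd).2) hg)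
    (by rw [mul_smul, ← k, inv_smul_smul])) ▸ hd.1

theorem Ctr {w a b c y y' : V} (h : Act G E p 2 a) (e1 : E w a) (e2 : E a b) (e3 : E b c) (h1 : w ≠ b)
    (h2 : a ≠ c) (e : E c y) (e' : E c y') (hy : y ≠ b) (hy' : y' ≠ b) : ∃ g ∈ Bl G E 3 w, g • y = y' := by
  obtain ⟨R, rfl, rfl, rfl, rfl⟩ := P.ex4 e1 e2 e3 h1 h2 3
  refine tr_of (S := fun y => E (R.x 5) y ∧ y ≠ R.x 4) (a := R.x 6) (fun y k => ?_) ⟨e, hy⟩ ⟨e', hy'⟩
  obtain ⟨g, hg, k⟩ := R.Ctr0 (P.act2 h e1 (R.ex (by omega))) k.1 k.2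
  exact ⟨g, hg.2, k⟩

theorem reg6a {u v : V} (e : E v u) (h : Act G E p 2 v) : Reg G E p v := by
  obtain ⟨R, rfl, rfl⟩ := P.exP e (-1)
  have h1 : Act G E p 2 (R.x 1) := P.act2 h (P.esym e) (R.ex (by omega))
  refine R.reg_of fun g hg g1 => ?_
  obtain ⟨q, hq, k⟩ := P.T1 (y := R.x 1) (y' := g • R.x 1) e (R.ex (by omega))
    (P.einv' (U.l hg) (R.ex (by omega))) (R.nx (by omega)) (by
      rw [← U.r hg, Ne, smul_left_cancel_iff]; exact R.nx (by omega))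
  have s0 := mul_mem (inv_mem (U.sy (P.QU hq e))) hg
  have s1 : (q⁻¹ * g) • R.x 1 = R.x 1 := by rw [mul_smul, ← k, inv_smul_smul]
  obtain ⟨r, r1, r2, k'⟩ := P.T2 (c := R.x 1) (y := R.x 2) (y' := (q⁻¹ * g) • R.x 2) (P.esym e)
    (R.ex (by omega)) (R.nx (by omega)) (R.ex (by omega)) (P.einv' s1 (R.ex (by omega))) (R.nx (by omega)) (by
      rw [← U.l s0, Ne, smul_left_cancel_iff]; exact R.nx (by omega))
  have t0 := mul_mem (inv_mem (U.sy (P.QU r1 e))) s0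
  have t2 := P.chain (w := R.x 2) (R.ex (by omega)) (R.ex (by omega)) (R.nx (by omega))
    (P.chain (P.esym e) (R.ex (by omega)) (R.nx (by omega)) (U.sy t0)
      (mul_fix (inv_fix (Q.nb r2 (R.ex (by omega)))) s1)) (by rw [mul_smul, ← k', inv_smul_smul])
  have : r⁻¹ * (q⁻¹ * g) ∈ Bl G E 1 (R.x (-1)) := P.spread (j := 0) (w := R.x (-1 - 1)) (U.r t0) (U.l t0)
    (mul_fix (inv_fix (Q.nb r1 (R.ex (by omega)))) (mul_fix (inv_fix (Q.nb hq (R.ex (by omega)))) g1))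
    fun y ey hy => by
      obtain ⟨c, hc, c1⟩ := P.Ctr (w := R.x 2) (y := R.x (-1 - 1)) h1 (R.ex (by omega)) (R.ex (by omega))
        (P.esym e) (R.nx (by omega)) (R.nx (by omega)) (R.ex (by omega)) ey (R.nx (by omega)) hy
      obtain ⟨z, hz, z1⟩ := P.Mdec (u := R.x 2) (w := R.x 0) (W := Bl G E 1 (R.x (-1))) (R.ex (by omega))
        (fun z hz => R.Bl_x (P.lemA (k := 2) (by omega) (R.ex (by omega)) hz) _ _ (by omega))
        (fun w ew hw => by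
          obtain ⟨a, a1, a2, a3⟩ := P.T2 (y := R.x 2) (P.esym e) (R.ex (j := 1) (by omega)) (R.nx (by omega))
            (R.ex (by omega)) ew (R.nx (by omega)) hw
          exact ⟨a, Q.nb a2 (R.ex (by omega)), a3, fun z hz => cjc (P.Bl_cj' (inv_fix (R.Bl_fx
            (P.lemA (k := 2) (by omega) (R.ex (by omega)) (Z.sy hz)) _ (by omega))) (Q.bl a1)) (Q.bl a1)⟩)
        (P.CM h1 (R.ex (by omega)) hc)
      refine ⟨z, (Z.com hz (U.sy t2)).symm, ?_⟩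
      have := Bl.nb z1 (R.ex (j := -1 - 1) (by omega))
      rwa [mem_Bl0, mul_smul, inv_smul_eq_iff, c1, eq_comm] at this
  simpa using mul_mem (Q.bl hq) (mul_mem (Q.bl r1) this)

theorem CQ {v l w : V} (h : Act G E p 2 l) (e : E v l) (e' : E l w) {c : G} (hc : c ∈ Bl G E 3 w) :
    c ∈ Q G E p v :=
  P.QQ (P.esym e) (P.MQ (P.CM h e' hc)) (Bl.nb (Bl.nb hc (P.esym e')) (P.esym e))

/-- `U = C Q` at an active vertex. -/
theorem Udec {v x y w : V} (h : Act G E p 2 x) (ex : E v x) (ey : E v y) (hn : y ≠ x) (ew : E y w)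
    (hw : w ≠ v) {g : G} (hg : g ∈ U G p v x) : ∃ c ∈ Bl G E 3 w, c⁻¹ * g ∈ Q G E p x := by
  obtain ⟨a, ea, ha, -⟩ := P.third (P.esym ex) (P.esym ex)
  have hy := P.act2 h ex ey
  obtain ⟨c, hc, k⟩ := P.Ctr hy (P.esym ew) (P.esym ey) ex hw hn ea (P.einv' (U.r hg) ea) ha (by
    rw [← U.l hg, Ne, smul_left_cancel_iff]; exact ha)
  have := mul_mem (inv_mem (P.QU (P.CQ hy ey ew hc) ex)) hg
  exact ⟨c, hc, P.UQ (P.esym ex) (U.sy this) (P.reg6a (P.esym ex) h v a (P.esym ex) ea ha.symm _ this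
    (by rw [mul_smul, ← k, inv_smul_smul]))⟩

theorem UD {v x : V} (h : Act G E p 2 x) (ex : E v x) {g d : G} (hg : g ∈ U G p v x)
    (hd : d ∈ M G E p x) : Fx (Bl G E 3 v) g d := by
  obtain ⟨y, ey, hn, -⟩ := P.third ex ex
  obtain ⟨w, ew, hw, -⟩ := P.third (P.esym ey) (P.esym ey)
  obtain ⟨c, hc, k⟩ := P.Udec h ex ey hn ew hw hg
  have k1 := (P.cm6 ex ey hn hd (P.CM (P.act2 h ex ey) ew hc)).2
  have := P.Bl_cj' (Q.nb (P.MQ hd) (P.esym ex)) k1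
  rw [Fx]
  convert this using 1
  calc g * d * g⁻¹ * d⁻¹ = c * ((c⁻¹ * g) * d) * g⁻¹ * d⁻¹ := by group
    _ = _ := by rw [P.MC hd k]; group

theorem DM {z : V} (h : Act G E p 2 z) : D6 G E z ≤ M G E p z :=
  (closure_le _).2 fun _ ⟨_, e, hc⟩ => P.CM h e hc

theorem TQ {v : V} (h : ∀ z, E v z → Act G E p 2 z) : T6 G E v ≤ Q G E p v :=
  (closure_le _).2 fun _ ⟨_, _, e, e', hc⟩ => P.CQ (h _ e) e e' hc

theorem TC {v : V} (h : ∀ z, E v z → Act G E p 2 z) {g t : G} (hg : g ∈ Q G E p v) (ht : t ∈ T6 G E v) :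
    Fx (Bl G E 3 v) g t := by
  induction ht using closure_induction with
  | mem c hc => obtain ⟨l, w, e, e', hc⟩ := hc; exact P.UD (h l e) e (P.QU hg e) (P.CM (h l e) e' hc)
  | one => simp [Fx]
  | mul a b ha _ ia ib => simpa [Fx, mul_assoc] using mul_mem ia (P.Bl_cj' (Q.fix (P.TQ h ha)) ib)
  | inv a ha ia => simpa [Fx, mul_assoc] using P.Bl_cj' (inv_fix (Q.fix (P.TQ h ha))) (inv_mem ia)

theorem Ddec {z v w : V} (h : Act G E p 2 z) (e : E z v) (e' : E z w) (hn : w ≠ v) {d : G}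
    (hd : d ∈ D6 G E z) : ∃ c ∈ Bl G E 3 w, c⁻¹ * d ∈ Bl G E 3 v := by
  induction hd using closure_induction with
  | mem d hd =>
    obtain ⟨y, ey, hd⟩ := hd
    by_cases c : y = v
    · exact ⟨1, one_mem _, by simpa using c ▸ hd⟩
    · obtain ⟨g, hg, rfl⟩ := P.Utr e e' ey hn c
      have k : g⁻¹ * d * g⁻¹⁻¹ ∈ Bl G E 3 w := by simpa using P.Bl_cj g⁻¹ hd
      have m := P.CM h e' k
      have := P.Bl_cj' (inv_fix (Q.nb (P.MQ m) e)) (P.UD h (P.esym e) hg m)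
      exact ⟨_, k, by simpa [mul_assoc] using this⟩
  | one => exact ⟨1, one_mem _, by simp⟩
  | mul a b ha hb ia ib =>
    obtain ⟨y, y1, y2⟩ := ia
    obtain ⟨c, c1, c2⟩ := ib
    refine ⟨c * y, mul_mem c1 y1, ?_⟩
    have := mul_mem y2 c2
    rwa [mul_assoc, ← mul_assoc a, P.Mcom (P.DM h ha) (inv_mem (P.CM h e' c1)), mul_assoc, ← mul_assoc,
      ← mul_inv_rev] at this
  | inv a ha ia =>
    obtain ⟨y, y1, y2⟩ := ia
    refine ⟨y⁻¹, inv_mem y1, ?_⟩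
    have := inv_mem y2
    rwa [mul_inv_rev, P.Mcom (inv_mem (P.DM h ha)) (inv_mem (inv_mem (P.CM h e' y1)))] at this

theorem Wtr {v x w y y' : V} (h : Act G E p 2 x) (e1 : E x v) (e2 : E x w) (hn : v ≠ w) (e : E w y)
    (e' : E w y') (hy : y ≠ x) (hy' : y' ≠ x) : ∃ g ∈ T6 G E v ⊓ Q G E p x, g • y = y' := by
  obtain ⟨R, rfl, rfl, rfl⟩ := P.ex3 e1 e2 hn 2
  obtain ⟨a, ea, a1, a2⟩ := P.third e1 e2
  obtain ⟨z, hz, z1⟩ := P.Ctr (w := R.x (-1)) (a := R.x 0) (P.act2 h (P.esym e1) (R.ex (by omega)))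
    (R.ex (by omega)) (R.ex (by omega)) (P.esym e1) (R.nx (by omega)) (R.nx (by omega)) e2 ea hn.symm a1
  have zT : z ∈ T6 G E (R.x 1) := subset_closure ⟨_, _, R.ex (j := 0) (by omega), R.ex (by omega), hz⟩
  have z2 := R.Bl_fx hz 2 (by omega)
  have gQ : ∀ g ∈ R.Pp 1 ((6 : ℕ) + 1), g ∈ Q G E p (R.x 2) := fun g hg =>
    have k := Pp.U hg 1 2 rfl le_rfl (by omega)
    P.UQ e1 (U.sy k) (P.reg6a e1 h _ _ e1 e2 hn g k (Pp.fix hg _ (by omega) (by omega)))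
  refine tr_of (S := fun y => E (R.x 3) y ∧ y ≠ R.x 2) (a := R.x 4) (fun y k => ?_) ⟨e, hy⟩ ⟨e', hy'⟩
  obtain ⟨g, hg, k⟩ := R.TR z2 (fun c => a2 (z1 ▸ c)) (fun g hg => Q.nb (gQ g hg) (P.einv' z2 e2)) k.1 k.2
  exact ⟨_, ⟨cjc' (P.T6_cj (Pp.fix hg 1 le_rfl (by omega)) zT) zT,
    cjc (P.Q_cj' (inv_fix z2) (gQ g hg)) (gQ g hg)⟩, k⟩

theorem reg6b {u v : V} (e : E v u) (h : ∀ z, E v z → Act G E p 2 z) : Reg G E p v := by
  have nb : ∀ {x c : V}, E v x → E x c → ∀ z, E c z → Act G E p 2 z := fun ex ec z ez =>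
    P.act2 (h _ ex) (P.esym ec) ez
  have CT : Bl G E 3 v ≤ T6 G E v := fun c hc => DT e (CD (P.esym e) hc)
  have DW : ∀ z, E v z → D6 G E z ≤ T6 G E v ⊓ Q G E p z := fun z ez d hd =>
    ⟨DT ez hd, P.MQ (P.DM (h z ez) hd)⟩
  have DC : ∀ z z', E v z → E v z' → z ≠ z' → ∀ t ∈ D6 G E z, t ∈ T6 G E v ⊓ Q G E p z' →
      t ∈ Bl G E 3 v := fun z z' ez ez' hn t ht ht' => by
    obtain ⟨w, ew, hw, -⟩ := P.third (P.esym ez) (P.esym ez)
    obtain ⟨c, hc, k⟩ := P.Ddec (h z ez) (P.esym ez) ew hw ht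
    have c1 : c ∈ Bl G E 1 z' := by
      simpa using mul_mem (Q.bl ht'.2) (inv_mem (Bl.pred (Bl.nb k ez')))
    obtain ⟨R, rfl, rfl, rfl, rfl⟩ := P.ex4 (P.esym ew) (P.esym ez) ez' hw hn 1
    simpa [R.s6 4 (by omega) hc (R.Bl_fx c1 _ (by omega))] using k
  have tr : ∀ {x y c : V}, E v x → E v y → y ≠ x → E x c → c ≠ v → ∀ z, E v z → z ≠ x →
      ∃ a ∈ T6 G E c ⊓ Q G E p x, a • y = z := fun ex ey hn ec hc z ez hz =>
    P.Wtr (h _ ex) ec (P.esym ex) hc ey ez hn hz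
  have sx : ∀ {x : V}, E v x → ∀ s ∈ U G p x v, ∀ d ∈ D6 G E x, Fx (Bl G E 3 v) s d :=
    fun ex s hs d hd => P.UD (h _ ex) ex (U.sy hs) (P.DM (h _ ex) hd)
  have AF : ∀ {x c : V}, E v x → E x c → ∀ a ∈ T6 G E c ⊓ Q G E p x, ∀ t ∈ T6 G E v ⊓ Bl G E 2 x,
      t⁻¹ * a * t * a⁻¹ ∈ D6 G E x := fun ex ec a ha t ht => CD ec (by
    simpa [Fx] using P.TC (nb ex ec) (inv_mem (P.QQ ec (P.QQ ex (P.TQ h ht.1) (Bl.pred ht.2))
      (Bl.nb ht.2 ec))) ha.1)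
  have AW : ∀ {x c : V}, E v x → E x c → c ≠ v → ∀ a ∈ T6 G E c ⊓ Q G E p x, ∀ t ∈ T6 G E v ⊓ Q G E p x,
      t⁻¹ * a * t * a⁻¹ ∈ T6 G E v ⊓ Bl G E 2 x := by
    intro x c ex ec hc a ha t ht
    have r0 := cjc (P.Q_cj' (inv_fix (Q.nb ht.2 ec)) (P.TQ (nb ex ec) ha.1)) (P.TQ (nb ex ec) ha.1)
    have r2 := cjc' (P.T6_cj (Q.nb ha.2 (P.esym ex)) ht.1) ht.1
    generalize t⁻¹ * a * t * a⁻¹ = r at *
    refine ⟨r2, mem_BlS.2 ⟨Q.nb r0 (P.esym ec), fun w ew => ?_⟩⟩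
    by_cases d : w = v
    · exact d ▸ Q.bl (P.TQ h r2)
    obtain ⟨y, ey, hn, -⟩ := P.third ex ex
    obtain ⟨b, eb, hb, -⟩ := P.third (P.esym ey) (P.esym ey)
    obtain ⟨g, hg, rfl⟩ := P.Ctr (h y ey) (P.esym eb) (P.esym ey) ex hb hn ec ew hc d
    simpa [Fx, mul_assoc] using mul_mem (inv_mem (Bl.nb (Bl.nb
      (P.TC h (P.CQ (h y ey) ey eb hg) r2) ex) ew)) (P.Bl_cj g (Q.bl r0))
  have dec : ∀ {x y : V}, E v x → E v y → y ≠ x → ∀ t ∈ T6 G E v, ∃ d ∈ D6 G E y, d ∈ Bl G E 2 y ∧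
      d⁻¹ * t ∈ T6 G E v ⊓ Q G E p x := fun ex ey hn t ht => by
    obtain ⟨w, ew, hw, -⟩ := P.third (P.esym ey) (P.esym ey)
    obtain ⟨c, hc, k⟩ := P.Udec (h _ ex) ex ey hn ew hw (P.QU (P.TQ h ht) ex)
    exact ⟨c, CD ew hc, Bl.nb hc (P.esym ew), mem_inf.2 ⟨mul_mem (inv_mem (DT ey (CD ew hc))) ht, k⟩⟩
  have Wc : ∀ g : G, g • v = v → ∀ z, E v z → ∀ t ∈ T6 G E v ⊓ Q G E p z,
      g * t * g⁻¹ ∈ T6 G E v ⊓ Q G E p (g • z) := fun g hg z _ t ht => ⟨P.T6_cj hg ht.1, P.Q_cj g ht.2⟩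
  have hp : ∀ {A : Subgroup G} {y : V}, IsPGroup p (A ⊓ (T6 G E v ⊓ Q G E p y) : Subgroup G) :=
    (Q_p _).to_le fun t ht => ht.2.2
  by_cases c0 : ∃ x y, E v x ∧ E v y ∧ y ≠ x ∧
      ¬ T6 G E v ⊓ Bl G E 2 x ⊓ (T6 G E v ⊓ Q G E p y) ≤ Bl G E 3 v
  · obtain ⟨x, y, ex, ey, hn, c0⟩ := c0
    obtain ⟨c, ec, hc, -⟩ := P.third (P.esym ex) (P.esym ex)
    obtain ⟨d, ed, hd, -⟩ := P.third (P.esym ey) (P.esym ey)
    have R := P.mkRF ex ey hn.symm (C := Bl G E 3 v) (W := fun w => T6 G E v ⊓ Q G E p w) (D := D6 G E)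
      (fun g hg c k => P.Bl_cj' hg k) (fun z _ t ht => Q.fix (P.TQ h ht.1))
      (fun z e t ht => ⟨CT ht, P.QQ e (P.TQ h (CT ht)) (Bl.pred (Bl.nb ht e))⟩) Wc DW DC
      (A := T6 G E c ⊓ Q G E p x) (B := T6 G E d ⊓ Q G E p y)
      (fun a k => P.QU k.2 (P.esym ex)) (fun a k => P.QU k.2 (P.esym ey))
      (tr ex ey hn ec hc) (tr ey ex hn.symm ed hd)
    refine P.reg_of' ex ey hn.symm fun s hs z ez => R.refl4 ((U_p _ _).to_le inf_le_left)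
      (F := fun w => T6 G E v ⊓ Bl G E 2 w)
      (fun z e t ht => ⟨ht.1, P.QQ e (P.TQ h ht.1) (Bl.pred ht.2)⟩) (fun z e t ht => ⟨CT ht, Bl.nb ht e⟩)
      (fun g hg z _ t ht => ⟨P.T6_cj hg ht.1, P.Bl_cj g ht.2⟩) (fun z z' e e' hn t ht ht' => ?_)
      (fun s hs => sx ex s (P.Ssy ex ey hn.symm hs)) (fun s hs => sx ey s hs.1)
      (AF ex ec) (AF ey ed) (AW ey ed hd) hp c0 hs ez
    clear R
    obtain ⟨R, rfl, rfl, rfl⟩ := P.ex3 e e' hn 2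
    obtain ⟨g, hg, k⟩ := R.Ctr0 (h _ e) (y := t • R.x 6)
      (P.einv' (R.Bl_fx ht'.2 _ (by omega)) (R.ex (by omega))) (by
        rw [← R.Bl_fx ht'.2 4 (by omega), Ne, smul_left_cancel_iff]; exact R.nx (by omega))
    have b1 := mul_mem (inv_mem (Bl.nb (mem_inf.1 hg).2 e)) ht.2
    have b3 := mul_mem (inv_mem (Bl.nb (mem_inf.1 hg).2 e')) ht'.2
    have : g⁻¹ * t = 1 := R.triv (-1) 0 (fun j a b => by
      by_cases f : j ≤ 3
      · exact R.Bl_fx b1 _ (by omega)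
      · by_cases f : j ≤ 5
        · exact R.Bl_fx b3 _ (by omega)
        · rw [R.xe (by omega : j = 6), mul_smul, ← k, inv_smul_smul])
      (R.Bl_x b1 _ _ (by omega)) (R.Bl_x b1 _ _ (by omega))
    exact inv_mul_eq_one.1 this ▸ hg.2
  push Not at c0
  obtain ⟨y, ey, hn, -⟩ := P.third e e
  obtain ⟨c, ec, hc, -⟩ := P.third (P.esym e) (P.esym e)
  obtain ⟨d, ed, hd, -⟩ := P.third (P.esym ey) (P.esym ey)
  have CC : Bl G E 3 v ≤ T6 G E v ⊓ Bl G E 2 v := fun t ht => ⟨CT ht, Bl.pred ht⟩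
  have FD : ∀ {x y : V}, E v x → E v y → y ≠ x → T6 G E v ⊓ Bl G E 2 x ≤ D6 G E x :=
    fun ex ey hn t ht => by
    obtain ⟨a, ha, a1, a2⟩ := dec ey ex hn.symm t ht.1
    simpa using mul_mem ha (CD (P.esym ex) (c0 _ _ ex ey hn
      (mem_inf.2 ⟨mem_inf.2 ⟨a2.1, mul_mem (inv_mem a1) ht.2⟩, a2⟩)))
  have dec' : ∀ {x y : V}, E v x → E v y → y ≠ x → ∀ t ∈ T6 G E v, ∃ d ∈ D6 G E y,
      d⁻¹ * t ∈ T6 G E v ⊓ Q G E p x := fun ex ey hn t ht =>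
    (dec ex ey hn t ht).imp fun _ k => ⟨k.1, k.2.2⟩
  have DC' := fun z z' e e' hn t ht ht' => CC (DC z z' e e' hn t ht ht')
  have Dc : ∀ g ∈ stabilizer G v, ∀ z, E v z → ∀ t ∈ D6 G E z, g * t * g⁻¹ ∈ D6 G E (g • z) :=
    fun g _ z _ t ht => P.D6_cj g ht
  have R := P.mkRF e ey hn.symm (C := T6 G E v ⊓ Bl G E 2 v) (W := fun w => T6 G E v ⊓ Q G E p w)
    (D := D6 G E) (fun g hg c k => ⟨P.T6_cj hg k.1, P.Bl_cj' hg k.2⟩) (fun z _ t ht => Q.fix (P.TQ h ht.1))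
    (fun z e t ht => ⟨ht.1, P.QQ e (P.TQ h ht.1) (Bl.nb ht.2 e)⟩) Wc DW DC'
    (A := T6 G E c ⊓ Q G E p u) (B := T6 G E d ⊓ Q G E p y)
    (fun a k => P.QU k.2 (P.esym e)) (fun a k => P.QU k.2 (P.esym ey))
    (tr e ey hn ec hc) (tr ey e hn.symm ed hd)
  exact P.reg_of' e ey hn.symm fun s hs z ez => R.refl ((U_p _ _).to_le inf_le_left)
    (fun a k s hs => P.AS e ey hn.symm (P.QU k.2 (P.esym e)) hs) Dc
    (fun t ht => ⟨(ht u e).1, mem_BlS.2 ⟨Q.fix (P.TQ h (ht u e).1), fun w e => Q.bl (ht w e).2⟩⟩)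
    DW Dc DC' (fun k => P.notBl (P.esym e) (fun _ _ => P.Ctr (h y ey) (P.esym ed) (P.esym ey) e hd hn)
      fun t ht => Bl.nb (k (CD ed ht)).2 e)
    (fun s hs t ht => CC (sx e s (P.Ssy e ey hn.symm hs) t ht)) (fun s hs t ht => CC (sx ey s hs.1 t ht))
    (fun z ez t ht => dec' e ey hn t (DT ez ht)) (fun t ht => dec' ey e hn.symm t ht.1)
    (fun t ht => dec' e ey hn t ht.1) (fun a ha t ht => FD e ey hn (AW e ec hc a ha t ht))
    (fun a ha t ht => FD ey e hn.symm (AW ey ed hd a ha t ht)) hp hs ez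

theorem reg6 (i : ℤ) : Reg G E p (P.x i) := by
  have e : E (P.x i) (P.x (i + 1)) := P.ex (by omega)
  by_cases h : Act G E p 2 (P.x i)
  · exact P.reg6a e h
  · exact P.reg6b e fun z e => (P.act_or (by omega) le_rfl e).resolve_left h

end SP

end H12.BP
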