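/- CL3 tower (S3621), chapter 3: assembly from the jobs. -/
import Cfsg.Agent.H12.CLKit

set_option autoImplicit false
set_option linter.unusedSectionVars false

open Module H91.CL
open scoped commutatorElement

namespace H12.CL

/-- The endgame for `r = 2`. -/
def JobF2E : Prop := AllX fun r _ V W _ _ _ _ _ S => r = 2 → Ty S.B S.Gd →
  ∀ X Y : Subgroup (W ≃ₗ[ZMod r] W), Y ≤ X → Group.IsSolvable Y →
    (∀ T : Submodule (ZMod r) W, (∀ y ∈ Y, ∀ a ∈ T, y a ∈ T) → T = ⊥ ∨ T = ⊤) →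
    (∀ φ ∈ X, ∀ a b, S.B (φ a) (φ b) = S.B a b) → (∀ φ ∈ X, ∀ a, S.Gd (φ a) ↔ S.Gd a) →
    (∀ u v : V, Fac X Y (S.Fx u v)) → (TyO S.B S.Gd ∨ Nat.card W ≠ 64) → Group.IsSolvable X

section

variable {r : ℕ} [Fact r.Prime] {K V W : Type} [Field K] [Finite K] [AddCommGroup V] [Module K V]
  [Finite V] [Nontrivial V] [AddCommGroup W] [Module (ZMod r) W] [Finite W] [Nontrivial W]
  (S : Ex r K V W)

theorem n1 (hHB : JobHB) (hEIG : JobEIG) (hN : JobN1a) (hC : JobCEN) (ty : Ty S.B S.Gd)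
    (sp : Submodule.span (ZMod r) {a | S.Gd a} = ⊤) (y : End K V) (loc : S.Loc y)
    (hy : ∃ c : K, c ≠ 0 ∧ y ^ r = c • 1) : ∃ b, ∃ c : K, y = c • S.t b := by
  let R : W → ZMod r → Prop := fun w j => ∀ v, y (S.t w v) = S.χ j • S.t w (y v)
  have add : ∀ w w' j j', R w j → R w' j' → R (w + w') (j + j') := fun w w' j j' h h' v => by
    obtain ⟨c, -, k⟩ := S.t_add_apply w w'
    rw [k, k, map_smul, h, h', map_smul, S.χ_add, smul_smul, smul_smul, smul_smul]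
    congr 1
    ring
  have r0 : R 0 0 := fun v => by simp [S.t_zero, S.χ_zero]
  have ex : ∀ w, ∃ j, R w j := fun w => by
    have : w ∈ Submodule.span (ZMod r) {a | S.Gd a} := sp ▸ Submodule.mem_top
    induction this using Submodule.span_induction with
    | mem a ha =>
      obtain ⟨M, N, D, fr, hm⟩ := hHB r W S.B S.Gd S.sp ty a ha
      obtain ⟨v₀, P, pt⟩ := hEIG r K V W S ty M N D fr
      exact (hN r K V W S ty M N D v₀ P fr pt y loc hy a hm).imp fun j h v => congrArg (· v) h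
    | zero => exact ⟨0, r0⟩
    | add a b _ _ ha hb => exact ⟨_, add _ _ _ _ ha.choose_spec hb.choose_spec⟩
    | smul i a _ ha =>
      obtain ⟨n, rfl⟩ := ZMod.natCast_zmod_surjective i
      rw [Nat.cast_smul_eq_nsmul]
      induction n with
      | zero => exact ⟨0, by simpa using r0⟩
      | succ n ih => exact ⟨_, succ_nsmul a n ▸ add _ _ _ _ ih.choose_spec ha.choose_spec⟩
  obtain ⟨v, hv⟩ : ∃ v, y v ≠ 0 := by
    by_contra k
    push Not at k
    obtain ⟨c, hc, h⟩ := hy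
    obtain ⟨v, hv⟩ := exists_ne (0 : V)
    have := congrArg (· v) h
    rw [← Nat.sub_add_cancel (Fact.out : r.Prime).pos, add_comm, pow_add, pow_one] at this
    exact smul_ne_zero hc hv (this.symm.trans (k _))
  choose l hl using ex
  let l' : W →+ ZMod r := AddMonoidHom.mk' l fun a b => S.χ_inj (smul_left_injective K
    (S.t_ne (a + b) hv) ((hl _ v).symm.trans (add _ _ _ _ (hl a) (hl b) v)))
  obtain ⟨b, hb⟩ : ∃ b, S.B b = l'.toZModLinearMap r :=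
    (LinearMap.injective_iff_surjective_of_finrank_eq_finrank Subspace.dual_finrank_eq.symm).1
      ((injective_iff_map_eq_zero S.B).2 fun a h => S.sp.nd a fun b => congrArg (· b) h) _
  have hb' : ∀ w, S.B b w = l w := fun w => congrArg (· w) hb
  obtain ⟨M, N, D, fr, -⟩ := hHB r W S.B S.Gd S.sp ty 0 Ex.gd_zero
  obtain ⟨v₀, P, pt⟩ := hEIG r K V W S ty M N D fr
  obtain ⟨c, hc⟩ := hC r K V W S ty M N D v₀ P fr pt (S.t (-b) * y) (fun v => by
    obtain ⟨a, c, h⟩ := loc v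
    obtain ⟨e, -, k⟩ := S.t_mul_apply (-b) a
    exact ⟨-b + a, c * e, by rw [End.mul_apply, h, map_smul, k, mul_smul]⟩) fun a => by
      ext v
      simp only [End.mul_apply]
      rw [hl, map_smul, S.comm_apply, map_neg, LinearMap.neg_apply, hb', smul_smul, mul_comm,
        S.χ_neg_mul, one_smul]
  obtain ⟨e, he, k⟩ := S.t_neg_apply b
  refine ⟨b, e⁻¹ * c, LinearMap.ext fun v => ?_⟩
  have := congrArg (fun T => S.t b (T v)) hc
  simp only [End.mul_apply, k, LinearMap.smul_apply, End.one_apply, map_smul] at this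
  rw [LinearMap.smul_apply, mul_smul, ← this, inv_smul_smul₀ he]

theorem t_uniq {a b : W} {c e : K} (hc : c ≠ 0) (h : ∀ v, c • S.t a v = e • S.t b v) : a = b := by
  refine sub_eq_zero.1 (S.sp.nd _ fun w => ?_)
  obtain ⟨v, hv⟩ := exists_ne (0 : V)
  have := h (S.t w v)
  rw [S.comm_apply, S.comm_apply b, smul_comm c, smul_comm e, ← map_smul _ c, ← map_smul _ e,
    ← h] at this
  rw [map_sub, LinearMap.sub_apply,
    S.χ_inj (smul_left_injective K (S.t_ne _ (smul_ne_zero hc (S.t_ne _ hv))) this), sub_self]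

variable {Γ : Type} [Group Γ] [DistribMulAction Γ V]

/-- `h` maps `t a` to a multiple of `t b`. -/
def Nr (h : Γ) (a b : W) : Prop := ∃ c : K, c ≠ 0 ∧ ∀ v : V, h • S.t a v = c • S.t b (h • v)

variable {S}

theorem Nr.uniq {h : Γ} {a b b' : W} (k : Nr S h a b) (k' : Nr S h a b') : b = b' := by
  obtain ⟨c, hc, k⟩ := k
  obtain ⟨c', -, k'⟩ := k'
  refine t_uniq S hc (e := c') fun v => ?_
  obtain ⟨v, rfl⟩ := MulAction.surjective h v
  rw [← k, k']

theorem Nr.mul {h h' : Γ} (s : Semi K V h) {a b d : W} (k : Nr S h b d) (k' : Nr S h' a b) :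
    Nr S (h * h') a d := by
  obtain ⟨σ, s⟩ := s
  obtain ⟨c, hc, k⟩ := k
  obtain ⟨c', hc', k'⟩ := k'
  exact ⟨σ c' * c, mul_ne_zero ((map_ne_zero σ).2 hc') hc, fun v => by
    rw [mul_smul, k', s, k, mul_smul, mul_smul]⟩

theorem Nr.add {h : Γ} (s : Semi K V h) {a b a' b' : W} (k : Nr S h a b) (k' : Nr S h a' b') :
    Nr S h (a + a') (b + b') := by
  obtain ⟨σ, s⟩ := s
  obtain ⟨c, hc, k⟩ := k
  obtain ⟨c', hc', k'⟩ := k'
  obtain ⟨e, he, q⟩ := S.t_add_apply a a'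
  obtain ⟨e', he', q'⟩ := S.t_mul_apply b b'
  exact ⟨σ e * (c * (c' * e')), mul_ne_zero ((map_ne_zero σ).2 he)
    (mul_ne_zero hc (mul_ne_zero hc' he')), fun v => by
      rw [q, s, k, k', map_smul, q', mul_smul, mul_smul, mul_smul]⟩

theorem Nr.one (a : W) : Nr S (1 : Γ) a a := ⟨1, one_ne_zero, fun v => by simp⟩

theorem exists_hom (L : Subgroup Γ) (s : ∀ h ∈ L, Semi K V h) (nr : ∀ h ∈ L, ∀ a, ∃ b, Nr S h a b) :
    ∃ Φ : L →* (W ≃ₗ[ZMod r] W), ∀ (h : L) a, Nr S (h : Γ) a (Φ h a) := by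
  choose f hf using nr
  let F : L → W →ₗ[ZMod r] W := fun h => (AddMonoidHom.mk' (f h h.2) fun a b =>
    (hf h h.2 _).uniq ((hf h h.2 a).add (s h h.2) (hf h h.2 b))).toZModLinearMap r
  have hF : ∀ (h : L) a, Nr S (h : Γ) a (F h a) := fun h a => hf h h.2 a
  let Ψ : L →* End (ZMod r) W :=
    { toFun := F
      map_one' := LinearMap.ext fun a => (hF 1 a).uniq (Nr.one a)
      map_mul' := fun h h' => LinearMap.ext fun a =>
        (hF (h * h') a).uniq ((hF h _).mul (s h h.2) (hF h' a)) }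
  exact ⟨(LinearMap.GeneralLinearGroup.generalLinearEquiv (ZMod r) W).toMonoidHom.comp
    Ψ.toHomUnits, hF⟩

theorem Nr.ind {h : Γ} (s : Semi K V h) {φ : W ≃ₗ[ZMod r] W} (k : ∀ a, Nr S h a (φ a)) :
    S.Ind (DistribMulAction.toAddEquiv V h) φ := ⟨s, k⟩

/-- The linear map of a linear element. -/
def linE (γ : Γ) (h : Lin K V γ) : End K V where
  toFun v := γ • v
  map_add' := smul_add γ
  map_smul' := h

theorem linE_pow (γ : Γ) (h : Lin K V γ) (n : ℕ) (v : V) : (linE γ h ^ n) v = γ ^ n • v := by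
  induction n with
  | zero => simp
  | succ n ih => rw [pow_succ', End.mul_apply, ih, pow_succ', mul_smul]; rfl

theorem nr_of {h x : Γ} (s : Semi K V h) {a b : W} {c e : K} (hc : c ≠ 0)
    (k : ∀ v : V, x • v = c • S.t a v) (k' : ∀ v : V, (h * x * h⁻¹) • v = e • S.t b v) :
    Nr S h a b := by
  obtain ⟨σ, s⟩ := s
  obtain ⟨v, hv⟩ := exists_ne (0 : V)
  refine ⟨σ c⁻¹ * e, mul_ne_zero ((map_ne_zero σ).2 (inv_ne_zero hc)) fun z => hv ?_, fun v => ?_⟩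
  · exact (smul_eq_zero_iff_eq _).1 ((k' v).trans (by rw [z, zero_smul]))
  · rw [mul_smul, ← k', mul_smul, mul_smul, inv_smul_smul, ← s, k, inv_smul_smul₀ hc]

end

theorem jobPiece_of (hTY : JobTY) (hHB : JobHB) (hEIG : JobEIG) (hN : JobN1a) (hC : JobCEN)
    (hN0 : JobN0) (hR : JobREG) (hCa : JobCARD) (hMK : JobMK) (hGL : JobGL) (hF : JobF2E) :
    JobPiece := by
  intro K V Γ _ _ _ _ _ _ _ _ _ _ sc G H ks ll E pe
  obtain ⟨r, _, W, _, _, _, _, S, p, padd, psur, pz, pr, pt⟩ := hMK K V Γ sc G H ks E pe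
  have cj : ∀ g ∈ G, ∀ x ∈ E, g * x * g⁻¹ ∈ E := fun g hg x hx =>
    (Subgroup.mem_normalizer_iff.1 (pe.nor hg) x).1 hx
  have nrG : ∀ g ∈ G, ∀ x ∈ E, Nr S g (p x) (p (g * x * g⁻¹)) := fun g hg x hx => by
    obtain ⟨c, hc, k⟩ := pt x hx
    obtain ⟨e, -, k'⟩ := pt _ (cj g hg x hx)
    exact nr_of (ks.semi g (ks.le hg)) hc k k'
  have irr : ∀ T : Submodule (ZMod r) W, (∀ g ∈ G, ∀ a b, Nr S g a b → a ∈ T → b ∈ T) →
      T = ⊥ ∨ T = ⊤ := fun T hT => by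
    have p1 : p 1 = 0 := (pz 1 (one_mem _)).2 (one_mem _)
    let T' : Subgroup Γ :=
      { carrier := {x | x ∈ E ∧ p x ∈ T}
        one_mem' := ⟨one_mem _, p1 ▸ zero_mem _⟩
        mul_mem' := fun {x y} hx hy => ⟨mul_mem hx.1 hy.1, padd x hx.1 y hy.1 ▸ add_mem hx.2 hy.2⟩
        inv_mem' := fun {x} hx => ⟨inv_mem hx.1, by
          have := padd _ (inv_mem hx.1) x hx.1
          rw [inv_mul_cancel, p1] at this
          rw [eq_neg_of_add_eq_zero_left this.symm]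
          exact neg_mem hx.2⟩ }
    have c : ∀ g ∈ G, ∀ x ∈ T', g * x * g⁻¹ ∈ T' := fun g hg x hx =>
      ⟨cj g hg x hx.1, hT g hg _ _ (nrG g hg x hx.1) hx.2⟩
    refine (pe.irr T' (fun x hx => ⟨pe.sc_le hx, (pz x (pe.sc_le hx)).2 hx ▸ zero_mem _⟩)
      (fun x hx => hx.1) fun g hg => Subgroup.mem_normalizer_iff.2 fun x => ⟨c g hg x, fun k => by
        simpa [mul_assoc] using c _ (inv_mem hg) _ k⟩).imp (fun e => eq_bot_iff.2 fun a ha => ?_)
      fun e => eq_top_iff.2 fun a _ => ?_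
    · obtain ⟨x, hx, rfl⟩ := psur a
      exact (pz x hx).2 (e ▸ (⟨hx, ha⟩ : x ∈ T'))
    · obtain ⟨x, hx, rfl⟩ := psur a
      exact (e.symm ▸ hx : x ∈ T').2
  obtain ⟨ΦG, hG⟩ := exists_hom (S := S) G (fun g hg => ks.semi g (ks.le hg)) fun g hg a => by
    obtain ⟨x, hx, rfl⟩ := psur a
    exact ⟨_, nrG g hg x hx⟩
  have gdG : ∀ g ∈ G, ∀ a b, Nr S g a b → ∃ φ : W ≃ₗ[ZMod r] W, b = φ a ∧
      ∀ a, S.Gd (φ a) ↔ S.Gd a := fun g hg a b k =>
    ⟨ΦG ⟨g, hg⟩, k.uniq (hG ⟨g, hg⟩ a), (Nr.ind (ks.semi g (ks.le hg)) (hG ⟨g, hg⟩)).gd⟩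
  have ty : Ty S.B S.Gd := hTY r K V W S fun T hT => irr T fun g hg a b k ha => by
    obtain ⟨φ, rfl, e⟩ := gdG g hg a b k
    exact (hT _).2 ((e a).2 ((hT a).1 ha))
  by_cases h3 : Nat.card K = 3 ∧ finrank K V = 2
  · exact SolMod.of_solvable (hGL K V Γ sc G H ks h3.1 h3.2) fun x _ => by simp
  have loc : ∀ h ∈ H, ∀ x ∈ E, ∀ v : V, ∃ g ∈ G, ∃ c : K,
      (h * x * h⁻¹) • v = c • S.t (p (g * x * g⁻¹)) v := fun h hh x hx v => by
    rcases eq_or_ne v 0 with rfl | hv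
    · exact ⟨1, one_mem _, 0, by simp⟩
    obtain ⟨g, hg, a, b, k, k'⟩ := ks.pc h hh (h⁻¹ • v) (x • h⁻¹ • v)
    obtain ⟨c, -, e⟩ := pt _ (cj g hg x hx)
    rw [smul_inv_smul] at k
    have ha : a ≠ 0 := fun z => hv (by rw [k, z, zero_smul])
    refine ⟨g, hg, b * (c * a⁻¹), ?_⟩
    have := e (g • h⁻¹ • v)
    rw [mul_smul, mul_smul, inv_smul_smul] at this
    rw [mul_smul, mul_smul, k', this, mul_smul, mul_smul, ← map_smul _ a⁻¹]
    congr 3
    rw [eq_inv_smul_iff₀ ha, ← k]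
  have nrH : ∀ h ∈ H, ∀ a, ∃ b, Nr S h a b := fun h hh a => by
    obtain ⟨x, hx, rfl⟩ := psur a
    have li := (pe.lin x hx).conj (ks.semi h hh)
    obtain ⟨c, hc, k⟩ := pt x hx
    suffices ∃ b, ∃ c : K, linE _ li = c • S.t b from
      this.imp fun b ⟨e, k'⟩ => nr_of (ks.semi h hh) hc k fun v => congrArg (· v) k'
    rcases irr (Submodule.span (ZMod r) {a | S.Gd a}) (fun g hg a b k ha => by
      obtain ⟨φ, rfl, e⟩ := gdG g hg a b k
      exact (Submodule.span_le (p := Submodule.comap φ.toLinearMap (Submodule.span _ _))).2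
        (fun a ha => Submodule.subset_span ((e a).2 ha)) ha) with h0 | h1
    · by_cases hz : x ∈ sc.range
      · obtain ⟨e, he⟩ := ks.conj_mem (ks.semi h hh) hz
        exact ⟨0, e, LinearMap.ext fun v => by
          change (h * x * h⁻¹) • v = _
          rw [← he, ks.hsc, S.t_zero]; rfl⟩
      refine (hN0 r K V W S ty (fun a ha => ?_) _ (MulAction.injective _) fun v => ?_).resolve_right h3
      · exact (Submodule.span_eq_bot.1 h0) a ha
      · obtain ⟨g, hg, c, e⟩ := loc h hh x hx v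
        refine ⟨_, fun z => hz ?_, c, e⟩
        simpa [mul_assoc] using
          ks.conj_mem (ks.semi g (ks.le hg)).inv ((pz _ (cj g hg x hx)).1 z)
    · refine n1 S hHB hEIG hN hC ty h1 _ (fun v => ?_) ?_
      · obtain ⟨g, -, c, e⟩ := loc h hh x hx v
        exact ⟨_, c, e⟩
      · obtain ⟨e, he⟩ := ks.conj_mem (ks.semi h hh) (pr x hx)
        exact ⟨e, e.ne_zero, LinearMap.ext fun v => by rw [linE_pow, conj_pow, ← he, ks.hsc]; rfl⟩
  obtain ⟨Φ, hΦ⟩ := exists_hom (S := S) H ks.semi nrH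
  have ind : ∀ h : H, S.Ind (DistribMulAction.toAddEquiv V (h : Γ)) (Φ h) := fun h =>
    Nr.ind (ks.semi h h.2) (hΦ h)
  refine (SolMod.of_range Φ ?_).mono fun h e x hx => ?_
  swap
  · obtain ⟨c, hc, k⟩ := pt x hx
    obtain ⟨d, hd, k'⟩ := hΦ h (p x)
    obtain ⟨σ, s⟩ := ks.semi h h.2
    refine ⟨Units.mk0 (σ c * (d * c⁻¹)) (mul_ne_zero ((map_ne_zero σ).2 hc)
      (mul_ne_zero hd (inv_ne_zero hc))), eq_of_smul_eq_smul (α := V) fun v => ?_⟩
    obtain ⟨v, rfl⟩ : ∃ w, x • w = v := MulAction.surjective x v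
    rw [ks.hsc, commutatorElement_def, mul_smul, inv_smul_smul, mul_smul, mul_smul, k, k, s, k', e,
      smul_inv_smul, Units.val_mk0, mul_smul, mul_smul, inv_smul_smul₀ hc]
    rfl
  let Y : Subgroup (W ≃ₗ[ZMod r] W) := (Φ.comp (Subgroup.inclusion ks.le)).range
  have sY : Group.IsSolvable Y := by
    have := ks.sol
    exact Group.isSolvable_of_surjective (MonoidHom.rangeRestrict_surjective _)
  have pair : ∀ u v : V, ∀ φ ∈ Φ.range, ∃ y ∈ Y, S.Fx u v (y⁻¹ * φ) := by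
    rintro u v _ ⟨h, rfl⟩
    obtain ⟨g, hg, a, b, k, k'⟩ := ks.pc h h.2 u v
    obtain ⟨σ, s⟩ := (ks.semi g (ks.le hg)).inv
    refine ⟨Φ ⟨g, ks.le hg⟩, ⟨⟨g, hg⟩, rfl⟩, ?_⟩
    rw [← map_inv, ← map_mul]
    refine ⟨_, ind _, ⟨σ a, ?_⟩, σ b, ?_⟩
    · change (g⁻¹ * h) • u = _
      rw [mul_smul, k, s, inv_smul_smul]
    · change (g⁻¹ * h) • v = _
      rw [mul_smul, k', s, inv_smul_smul]
  have le : Y ≤ Φ.range := by
    rintro _ ⟨g, rfl⟩
    exact ⟨_, rfl⟩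
  by_cases h2 : r = 2 ∧ (TyO S.B S.Gd ∨ Nat.card W ≠ 64)
  · refine hF r K V W S h2.1 ty Φ.range Y le sY (fun T hT => irr T fun g hg a b k ha => ?_) ?_ ?_
      (fun u v => ⟨Φ.range ⊓ S.fxG u v, inf_le_left, fun φ hφ => ?_, fun φ hφ => hφ.2⟩) h2.2
    · rw [k.uniq (hΦ ⟨g, ks.le hg⟩ a)]
      exact hT _ ⟨⟨g, hg⟩, rfl⟩ a ha
    · rintro _ ⟨h, rfl⟩
      exact (ind h).pB h2.1
    · rintro _ ⟨h, rfl⟩
      exact (ind h).gd
    · obtain ⟨y, hy, k⟩ := pair u v φ hφ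
      exact ⟨y, hy, Φ.range.mul_mem (Φ.range.inv_mem (le hy)) hφ, k⟩
  have all : ∀ a, S.Gd a := ty.resolve_right fun o => h2 ⟨o.1, Or.inl o⟩
  have reg : ∀ x : W, ∃ u : V, ∀ φ : W ≃ₗ[ZMod r] W, (∀ a, S.St u a → S.St u (φ a)) →
      ∃ j : ℤ, φ x = j • x := fun x => by
    rcases eq_or_ne x 0 with rfl | hx
    · exact ⟨0, fun φ _ => ⟨0, by simp⟩⟩
    obtain ⟨M, N, D, fr, hm⟩ := hHB r W S.B S.Gd S.sp ty x (all x)
    obtain ⟨v₀, P, pt⟩ := hEIG r K V W S ty M N D fr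
    obtain ⟨u, hu⟩ := hR r K V W S ty M N D v₀ P fr pt (by
      by_contra k
      push Not at k
      refine h2 ⟨k.1, Or.inr ?_⟩
      rw [fr.card S.sp, ← fr.card_eq S.sp, fr.D_bot all, card_sub M]
      obtain ⟨rfl, k⟩ := k
      generalize finrank (ZMod 2) M = n at k
      interval_cases n <;> simp) x hm hx
    refine ⟨u, fun φ k => ?_⟩
    obtain ⟨j, e⟩ := Submodule.mem_span_singleton.1
      ((hu _).1 (k x ((hu x).2 (Submodule.mem_span_singleton_self x))))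
    obtain ⟨j, rfl⟩ := ZMod.intCast_surjective j
    exact ⟨j, by rw [← e, Int.cast_smul_eq_zsmul]⟩
  have : Finite (W ≃ₗ[ZMod r] W) := Finite.of_injective _ DFunLike.coe_injective
  obtain ⟨M, N, D, fr, -⟩ := hHB r W S.B S.Gd S.sp ty 0 (all 0)
  obtain ⟨v₀, P, pt⟩ := hEIG r K V W S ty M N D fr
  refine (ll W Y Φ.range (hCa r K V W S ty M N D v₀ P fr pt (fr.D_bot all)) sY
    fun φ x x' => ?_).solvable
  obtain ⟨u, hu⟩ := reg x
  obtain ⟨u', hu'⟩ := reg x'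
  obtain ⟨y, hy, f⟩ := pair u u' φ φ.2
  obtain ⟨j, e⟩ := hu _ fun a => f.st_left
  obtain ⟨j', e'⟩ := hu' _ fun a => f.st_right
  refine ⟨⟨y, hy⟩, j, j', ?_, ?_⟩
  · change φ.1 x = j • y x
    rw [← map_zsmul, ← e, ← LinearEquiv.mul_apply, mul_inv_cancel_left]
  · change φ.1 x' = j' • y x'
    rw [← map_zsmul, ← e', ← LinearEquiv.mul_apply, mul_inv_cancel_left]

end H12.CL
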