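/- CL3 tower (S3621), chapter 3 modulo the endgame for `r = 2`. -/
import Cfsg.Agent.H12.CLAsm
import Cfsg.Agent.H61.CLN0
import Cfsg.Agent.H66.CLMK
import Cfsg.Agent.H91.CL3Ty
import Cfsg.Agent.H4.CLHB
import Cfsg.Agent.H18.CLEig
import Cfsg.Agent.H85.CLN1a
import Cfsg.Agent.H10.CLCEN
import Cfsg.Agent.H42.CLReg
import Cfsg.Agent.H70.CL3B

namespace H12.CL

theorem jobPiece_of_F2 (h : JobF2E) : H91.CL.JobPiece :=
  jobPiece_of H91.CLT.jobTY H4.CLHB.jobHB H18.CLE.jobEIG H85.CLN.jobN1a H10.CLCEN.jobCEN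
    H61.CL.jobN0 H42.CL.jobREG H70.CL.jobCARD H66.CLb.jobMK H70.CL.jobGL h

end H12.CL
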