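/- CKS (S2193), exceptional groups: subgroups of `U` given by lists of roots, from decidable
certificates (any datum, any characteristic). -/
import Cfsg.Agent.H63.Ov4
import Cfsg.Agent.H63.Filt
import Cfsg.Agent.H63.Cent
import Cfsg.Agent.H63.CUJ
import Cfsg.Agent.H98.Basic

set_option autoImplicit false
set_option linter.unusedSectionVars false

namespace H12.CX

open Cfsg.Lie H63 H64 Subgroup
open scoped commutatorElement

theorem mem_of_prod {X α : Type*} [Group X] {K : Subgroup X} {l : List α} (hn : l.Nodup) {f : α → X}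
    {a : α} (ha : a ∈ l) (h : ∀ b ∈ l, b ≠ a → f b ∈ K) (hp : (l.map f).prod ∈ K) : f a ∈ K := by
  obtain ⟨s, t, rfl⟩ := List.append_of_mem ha
  rw [List.nodup_middle, List.nodup_cons, List.mem_append, not_or] at hn
  rw [List.map_append, List.map_cons, List.prod_append, List.prod_cons] at hp
  have k : ∀ m : List α, a ∉ m → (∀ b ∈ m, b ∈ s ++ a :: t) → (m.map f).prod ∈ K := fun m h1 h2 =>
    list_prod_mem fun g hg => by
      obtain ⟨b, hb, rfl⟩ := List.mem_map.1 hg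
      exact h b (h2 b hb) fun e => h1 (e ▸ hb)
  rwa [mul_mem_cancel_left (k s hn.1.1 fun b hb => by simp [hb]),
    mul_mem_cancel_right (k t hn.1.2 fun b hb => by simp [hb])] at hp

section Defs

variable (D : ChevalleyDatum) (m : ℤ) (L : List ℤ)

/-- The roots that occur in `[x_a, x_b]` when `m = 0` in the field. -/
def OT (a b : ℕ) : List ℕ := ((D.commTerms b a).filter fun c => c.2.1 % m ≠ 0).map (·.1)

/-- The root subgroups with index in `T` generate a normal subgroup of `U`. -/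
def Nm (T : List ℕ) : Prop :=
  ∀ r ∈ T, r ∈ D.posRoots ∧ ∀ s ∈ D.posRoots, ∀ c ∈ OT D m s r, c ∈ T

instance (T : List ℕ) : Decidable (Nm D m T) := by unfold Nm; infer_instance

/-- `[U_S, U_S'] ≤ U_T` -/
def Cm (S S' T : List ℕ) : Prop :=
  ∀ r ∈ S, r ∈ D.posRoots ∧ ∀ s ∈ S', s ∈ D.posRoots ∧ ∀ c ∈ OT D m r s, c ∈ T

instance (S S' T : List ℕ) : Decidable (Cm D m S S' T) := by unfold Cm; infer_instance

/-- The coordinate at `r` of an element of `U_S` with leading root `r` is detected by `s` modulo `T`. -/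
def Det (S : List ℕ) (s : ℕ) (T : List ℕ) (r : ℕ) : Prop := s ∈ D.posRoots ∧ s ≠ r ∧
  (D.commTerms s r).Nodup ∧ ∃ k ∈ D.commTerms s r, k.2.1 ∈ L ∧ k.1 ∉ T ∧
    (∀ k' ∈ D.commTerms s r, k' ≠ k → k'.2.1 % m = 0 ∨ k'.1 ∈ T ∨ k.1 < k'.1) ∧
    ∀ r' ∈ S, r < r' → ∀ c ∈ OT D m r' s, c ∈ T ∨ k.1 < c

instance (S : List ℕ) (s : ℕ) (T : List ℕ) (r : ℕ) : Decidable (Det D m L S s T r) := by
  unfold Det; infer_instance

/-- Every element of `U_S` outside `U_V` is detected modulo `T` by a root in `S'`. -/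
def Cert (S S' T V : List ℕ) : Prop := ∀ r ∈ S, r ∉ V → ∃ s ∈ S', Det D m L S s T r

instance (S S' T V : List ℕ) : Decidable (Cert D m L S S' T V) := by unfold Cert; infer_instance

end Defs

/-- `m` vanishes in `F`, the members of `L` do not. -/
structure Ch (F : Type*) [Field F] (m : ℤ) (L : List ℤ) : Prop where
  zero : (m : F) = 0
  nz : ∀ c ∈ L, (c : F) ≠ 0

variable {D : ChevalleyDatum} [RS D] {m : ℤ} {L : List ℤ}

theorem lt_nr {r : ℕ} (h : r ∈ D.posRoots) : r < D.nroots := (mem_posRoots.1 h).1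

theorem pos_mk {r : ℕ} (h : r ∈ D.posRoots) : Pos (⟨r, lt_nr h⟩ : Rt D) := (mem_posRoots.1 h).2

theorem pos_iff (r : Rt D) : Pos r ↔ (r : ℕ) ∈ D.posRoots :=
  ⟨fun h => mem_posRoots.2 ⟨r.2, h⟩, pos_mk⟩

theorem terms_lt {a b : ℕ} (ha : a ∈ D.posRoots) (hb : b ∈ D.posRoots) {k : ℕ × ℤ × ℕ × ℕ}
    (hk : k ∈ D.commTerms b a) : a < k.1 ∧ b < k.1 ∧ k.1 ∈ D.posRoots := by
  obtain ⟨h3, h4, h5, h6⟩ := commTerms_spec (r := ⟨b, lt_nr hb⟩) (s := ⟨a, lt_nr ha⟩) hk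
  have h4' : (1 : ℤ) ≤ k.2.2.1 := by exact_mod_cast h4
  have h5' : (1 : ℤ) ≤ k.2.2.2 := by exact_mod_cast h5
  exact ⟨lt_of_comb (pos_mk ha) (pos_mk hb) h5' h4' (h6.trans (add_comm _ _)),
    lt_of_comb (pos_mk hb) (pos_mk ha) h4' h5' h6,
    (pos_iff _).1 (pos_of_comb (pos_mk hb) (pos_mk ha) h4' h5' h6)⟩

theorem OT_lt {a b c : ℕ} (ha : a ∈ D.posRoots) (hb : b ∈ D.posRoots) (hc : c ∈ OT D m a b) :
    a < c ∧ b < c ∧ c ∈ D.posRoots := by
  obtain ⟨k, hk, rfl⟩ := List.mem_map.1 hc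
  exact terms_lt ha hb (List.mem_filter.1 hk).1

theorem ne_neg {a b : ℕ} (ha : a ∈ D.posRoots) (hb : b ∈ D.posRoots) :
    (⟨a, lt_nr ha⟩ : Rt D) ≠ negR ⟨b, lt_nr hb⟩ := fun e =>
  pos_negR.1 (e ▸ pos_mk ha) (pos_mk hb)

theorem nm_PP : Nm D m D.posRoots := fun _ hr => ⟨hr, fun _ hs _ hc => (OT_lt hs hr hc).2.2⟩

theorem nm_nil : Nm D m [] := fun _ hr => absurd hr List.not_mem_nil

theorem Nm.app {T : List ℕ} (h : Nm D m T) (k : ℕ) : Nm D m (T ++ D.posRoots.filter (k < ·)) :=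
  fun r hr => by
    rcases List.mem_append.1 hr with hr | hr
    · exact ⟨(h r hr).1, fun s hs c hc => List.mem_append_left _ ((h r hr).2 s hs c hc)⟩
    · rw [List.mem_filter, decide_eq_true_eq] at hr
      refine ⟨hr.1, fun s hs c hc => List.mem_append_right _ ?_⟩
      have := OT_lt hs hr.1 hc
      rw [List.mem_filter, decide_eq_true_eq]
      exact ⟨this.2.2, by omega⟩

theorem Nm.filter {T : List ℕ} (h : Nm D m T) (k : ℕ) : Nm D m (T.filter (k ≤ ·)) := fun r hr => by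
  rw [List.mem_filter, decide_eq_true_eq] at hr
  refine ⟨(h r hr.1).1, fun s hs c hc => ?_⟩
  have := OT_lt hs (h r hr.1).1 hc
  rw [List.mem_filter, decide_eq_true_eq]
  exact ⟨(h r hr.1).2 s hs c hc, by omega⟩

variable {F : Type*} [Field F] {G : Type*} [Group G]

variable (D) in
/-- The subgroup generated by the root subgroups with index in `l`. -/
noncomputable def GS (x : ℕ → F → G) (l : List ℕ) : Subgroup G := gen (XR D x) {r | (r : ℕ) ∈ l}

variable {x : ℕ → F → G} {S S' T V : List ℕ}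

theorem GS_PP : GS D x D.posRoots = gen (XR D x) {r | Pos r} := by
  rw [GS, show {r : Rt D | (r : ℕ) ∈ D.posRoots} = {r | Pos r} from
    Set.ext fun r => (pos_iff r).symm]

theorem GS_nil : GS D x [] = ⊥ := by simp [GS, gen_empty]

theorem x_mem {r : ℕ} (hr : r ∈ S) (h : r < D.nroots) (a : F) : x r a ∈ GS D x S :=
  le_gen (XR D x) (c := ⟨r, h⟩) hr (x_mem_XR D x ⟨r, h⟩ a)

theorem GS_le {K : Subgroup G} (h : ∀ r ∈ S, ∀ a, x r a ∈ K) : GS D x S ≤ K :=
  gen_le fun r hr => (closure_le _).2 (by rintro _ ⟨a, rfl⟩; exact h r hr a)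

theorem GS_mono (h : ∀ r ∈ S, r ∈ T) : GS D x S ≤ GS D x T := gen_mono _ fun r hr => h r hr

theorem Nm.le (h : Nm D m S) : GS D x S ≤ GS D x D.posRoots := GS_mono fun r hr => (h r hr).1

theorem Nm.x_mem (h : Nm D m S) {r : ℕ} (hr : r ∈ S) (a : F) : x r a ∈ GS D x S :=
  CX.x_mem hr (lt_nr (h r hr).1) a

theorem Ch.cast (c : Ch F m L) {k : ℤ} (h : k % m = 0) : (k : F) = 0 := by
  obtain ⟨j, rfl⟩ := Int.dvd_of_emod_eq_zero h
  rw [Int.cast_mul, c.zero, zero_mul]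

section St

variable (c : Ch F m L) (h : St D x)
include c h

theorem comm_mem {a b : ℕ} (ha : a ∈ D.posRoots) (hb : b ∈ D.posRoots) {K : Subgroup G}
    (hK : ∀ c ∈ OT D m a b, ∀ t, x c t ∈ K) (t u : F) : ⁅x a t, x b u⁆ ∈ K := by
  by_cases e : a = b
  · subst e
    rw [commutatorElement_eq_one_iff_mul_comm.2 (h.x_comm ⟨a, lt_nr ha⟩ t u)]
    exact one_mem _
  rw [← neg_neg u, ← neg_neg t, h.commutator_eq (r := ⟨b, lt_nr hb⟩) (s := ⟨a, lt_nr ha⟩)
    (fun e' => e (congrArg Fin.val e')) (ne_neg ha hb)]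
  refine list_prod_mem fun g hg => ?_
  simp only [ChevalleyDatum.commWord, List.map_map, List.mem_map, Function.comp] at hg
  obtain ⟨k, hk, rfl⟩ := hg
  by_cases e : k.2.1 % m = 0
  · rw [c.cast e, zero_mul, zero_mul, h.x_zero ⟨_, lt_nr (terms_lt ha hb hk).2.2⟩]
    exact one_mem _
  · exact hK _ (List.mem_map.2 ⟨k, List.mem_filter.2 ⟨hk, by simpa using e⟩, rfl⟩) _

theorem Nm.conj (hT : Nm D m T) {u v : G} (hu : u ∈ GS D x D.posRoots) (hv : v ∈ GS D x T) :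
    u * v * u⁻¹ ∈ GS D x T := by
  refine gen_induction_left (p := fun u => ∀ v ∈ GS D x T, u * v * u⁻¹ ∈ GS D x T) (by simp)
    (fun s hs y hy g _ ih v hv => ?_) hu v hv
  obtain ⟨t, rfl⟩ := h.mem_XR.1 hy
  rw [show x s t * g * v * (x s t * g)⁻¹ = x s t * (g * v * g⁻¹) * (x s t)⁻¹ by group]
  refine conj_mem_of_gen (fun r hr z hz => ?_) (ih v hv)
  obtain ⟨a, rfl⟩ := h.mem_XR.1 hz
  rw [show x s t * x r a * (x s t)⁻¹ = ⁅x s t, x r a⁆ * x r a by simp [commutatorElement_def]]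
  exact mul_mem (comm_mem c h hs (hT r hr).1 (fun k hk t =>
    hT.x_mem ((hT r hr).2 s hs k hk) t) _ _) (hT.x_mem hr a)

theorem Nm.le_N [Finite G] (hT : Nm D m T) :
    GS D x D.posRoots ≤ normalizer (GS D x T : Set G) := fun _ hu =>
  mem_normalizer_fintype fun _ hv => hT.conj c h hu hv

theorem Nm.commUp (hT : Nm D m T) : CommUp (XR D x) {r | (r : ℕ) ∈ T} Fin.val :=
  fun a ha b hb _ y hy z hz => by
    obtain ⟨t, rfl⟩ := h.mem_XR.1 hy
    obtain ⟨u, rfl⟩ := h.mem_XR.1 hz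
    refine comm_mem c h (hT a ha).1 (hT b hb).1 (fun k hk t => ?_) t u
    have := OT_lt (hT a ha).1 (hT b hb).1 hk
    exact le_gen (XR D x) (c := ⟨k, lt_nr this.2.2⟩)
      (by exact ⟨(hT b hb).2 a (hT a ha).1 k hk, this.1, this.2.1⟩)
      (x_mem_XR D x ⟨k, lt_nr this.2.2⟩ t)

theorem Cm.comm (hc : Cm D m S S' T) (hT : Nm D m T) {u v : G} (hu : u ∈ GS D x S)
    (hv : v ∈ GS D x S') : ⁅u, v⁆ ∈ GS D x T := by
  by_cases h0 : S = []
  · subst h0; rw [GS_nil] at hu; simp [mem_bot.1 hu]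
  obtain ⟨r₀, h0⟩ := List.exists_mem_of_ne_nil S h0
  refine comm_mem_of_gen (U := GS D x D.posRoots) (fun u hu k hk => hT.conj c h hu hk)
    (GS_mono fun r hr => (hc r hr).1) (GS_mono fun s hs => ((hc r₀ h0).2 s hs).1)
    (fun a ha b hb y hy z hz => ?_) hu hv
  obtain ⟨t, rfl⟩ := h.mem_XR.1 hy
  obtain ⟨u, rfl⟩ := h.mem_XR.1 hz
  exact comm_mem c h (hc a ha).1 ((hc a ha).2 b hb).1
    (fun k h1 t => hT.x_mem (((hc a ha).2 b hb).2 k h1) t) t u

/-- Splitting off one root. -/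
theorem split {r : ℕ} (hS : Nm D m S) (hT : Nm D m T) (hr : r ∈ D.posRoots)
    (e : ∀ s ∈ S, s = r ∨ s ∈ T) {g : G} (hg : g ∈ GS D x S) :
    ∃ t, ∃ v ∈ GS D x T, g = x r t * v := by
  refine gen_induction_left (p := fun g => ∃ t, ∃ v ∈ GS D x T, g = x r t * v)
    ⟨0, 1, one_mem _, by rw [h.x_zero ⟨r, lt_nr hr⟩, mul_one]⟩ ?_ hg
  rintro s hs y hy _ - ⟨t, v, hv, rfl⟩
  obtain ⟨u, rfl⟩ := h.mem_XR.1 hy
  rcases e s hs with e | e
  · exact ⟨u + t, v, hv, by rw [← mul_assoc, e, h.add r (lt_nr hr)]⟩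
  · refine ⟨t, (x r t)⁻¹ * x s u * (x r t)⁻¹⁻¹ * v, mul_mem (hT.conj c h (inv_mem (x_mem hr
      (lt_nr hr) t)) (hT.x_mem e u)) hv, by group⟩

end St

section StB

variable (c : Ch F m L) (h : StB D x)
include c h

theorem Nm.eq_zero (hT : Nm D m T) {k : ℕ} (h1 : k ∈ D.posRoots) (h2 : k ∉ T) {a : F}
    (ha : x k a ∈ GS D x T) : a = 0 := by
  classical
  have := eq_one_of_prod_mem h.rgd (hT.commUp c h.toSt) (fun r hr => (pos_iff r).2 (hT r hr).1)
    (L := [⟨k, lt_nr h1⟩]) (by simp) (by simpa using pos_mk h1)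
    (y := fun s => if s = ⟨k, lt_nr h1⟩ then x k a else 1)
    (fun s => by split_ifs with e; exacts [e ▸ x_mem_XR D x ⟨k, lt_nr h1⟩ a, one_mem _]) (by simpa)
    (List.mem_singleton_self _) h2
  exact h.eq_zero_of_x_eq_one ⟨k, lt_nr h1⟩ (by simpa using this)

theorem Det.eq_zero (hS : Nm D m S) (hT : Nm D m T) {r s : ℕ} (h1 : r ∈ D.posRoots)
    (hd : Det D m L S s T r) {a u : F} (hu : u ≠ 0) {v : G} (hv : v ∈ GS D x (S.filter (r + 1 ≤ ·)))
    (ha : ⁅x r a * v, x s u⁆ ∈ GS D x T) : a = 0 := by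
  obtain ⟨s2, e, nd, k, k1, k2, k3, k5, k6⟩ := hd
  have hW := hT.app k.1
  have k4 := (terms_lt h1 s2 k1).2.2
  have up : ∀ {j}, j ∈ D.posRoots → k.1 < j → j ∈ T ++ D.posRoots.filter (k.1 < ·) := fun h1 h2 =>
    List.mem_append_right _ (List.mem_filter.2 ⟨h1, decide_eq_true h2⟩)
  have h2 : ⁅v, x s u⁆ ∈ GS D x (T ++ D.posRoots.filter (k.1 < ·)) :=
    Cm.comm c h.toSt (S := S.filter (r + 1 ≤ ·)) (S' := [s]) (fun r' hr' => by
      rw [List.mem_filter, decide_eq_true_eq] at hr'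
      refine ⟨(hS r' hr'.1).1, fun s' hs' => ?_⟩
      obtain rfl := List.mem_singleton.1 hs'
      refine ⟨s2, fun j hj => (k6 r' hr'.1 hr'.2 j hj).elim (List.mem_append_left _) (up ?_)⟩
      exact (OT_lt (hS r' hr'.1).1 s2 hj).2.2) hW hv (x_mem (by simp) (lt_nr s2) u)
  have h3 := GS_mono (x := x) (T := T ++ D.posRoots.filter (k.1 < ·))
    (fun _ => List.mem_append_left _) ha
  rw [show ⁅x r a * v, x s u⁆ = x r a * ⁅v, x s u⁆ * (x r a)⁻¹ * ⁅x r a, x s u⁆ by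
    simp only [commutatorElement_def]; group,
    mul_mem_cancel_left (hW.conj c h.toSt (x_mem h1 (lt_nr h1) a) h2)] at h3
  have h4 := h.toSt.commutator_eq (r := ⟨s, lt_nr s2⟩) (s := ⟨r, lt_nr h1⟩)
    (fun e' => e (congrArg Fin.val e').symm) (ne_neg h1 s2) (-u) (-a)
  rw [neg_neg, neg_neg] at h4
  rw [h4, wd, ChevalleyDatum.commWord, List.map_map] at h3
  have h5 := hW.eq_zero c h k4 (by simp [k3]) (mem_of_prod nd k1 (fun b b1 b2 => by
    have h6 := (terms_lt h1 s2 b1).2.2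
    rcases k5 b b1 b2 with h7 | h7 | h7
    · simp only [Function.comp, c.cast h7, zero_mul, h.toSt.x_zero ⟨_, lt_nr h6⟩, one_mem]
    · exact x_mem (List.mem_append_left _ h7) (lt_nr h6) _
    · exact x_mem (up h6 h7) (lt_nr h6) _) h3)
  simp only [neg_neg, mul_eq_zero, c.nz _ k2, false_or, pow_eq_zero_iff', hu, false_and] at h5
  exact neg_eq_zero.1 h5.1

/-- An element of `U_S` outside `U_V` is `v * x_r(a) * w` with leading root `r ∉ V`. -/
theorem lead (hS : Nm D m S) (hV : Nm D m V) {g : G} (hg : g ∈ GS D x S) (hn : g ∉ GS D x V) :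
    ∃ r ∈ S, r ∉ V ∧ ∃ a, a ≠ 0 ∧ ∃ w ∈ GS D x (S.filter (r + 1 ≤ ·)), ∃ v ∈ GS D x V,
      g = v * (x r a * w) := by
  by_contra hc
  have key : ∀ k, ∃ w ∈ GS D x (S.filter (k ≤ ·)), ∃ v ∈ GS D x V, g = v * w := fun k => by
    induction k with
    | zero => exact ⟨g, GS_mono (by simp) hg, 1, one_mem _, (one_mul g).symm⟩
    | succ k ih =>
      obtain ⟨w, hw, v, hv, rfl⟩ := ih
      by_cases hk : k ∈ S
      · obtain ⟨t, w', hw', rfl⟩ := split c h.toSt (hS.filter k) (hS.filter (k + 1)) (hS k hk).1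
          (fun s hs => by
            simp only [List.mem_filter, decide_eq_true_eq] at hs ⊢
            exact (eq_or_lt_of_le hs.2).elim (fun e => Or.inl e.symm) fun e => Or.inr ⟨hs.1, e⟩) hw
        by_cases hkV : k ∈ V
        · exact ⟨w', hw', v * x k t, mul_mem hv (hV.x_mem hkV t), (mul_assoc _ _ _).symm⟩
        · by_cases ht : t = 0
          · exact ⟨w', hw', v, hv, by rw [ht, h.toSt.x_zero ⟨k, lt_nr (hS k hk).1⟩, one_mul]⟩
          · exact absurd ⟨k, hk, hkV, t, ht, w', hw', v, hv, rfl⟩ hc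
      · refine ⟨w, GS_mono (fun s hs => ?_) hw, v, hv, rfl⟩
        simp only [List.mem_filter, decide_eq_true_eq] at hs ⊢
        exact ⟨hs.1, lt_of_le_of_ne hs.2 fun e => hk (e ▸ hs.1)⟩
  obtain ⟨w, hw, v, hv, rfl⟩ := key D.nroots
  refine hn (mul_mem hv (GS_mono (fun s hs => ?_) hw))
  simp only [List.mem_filter, decide_eq_true_eq] at hs
  exact absurd (lt_nr (hS s hs.1).1) (by omega)

/-- Elements outside `U_V` are detected. -/
theorem Cert.ex (hc : Cert D m L S S' T V) (hS : Nm D m S) (hV : Nm D m V) (hT : Nm D m T)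
    (hm : Cm D m V S' T) {g : G} (hg : g ∈ GS D x S) (hn : g ∉ GS D x V) :
    ∃ s ∈ S', s ∈ D.posRoots ∧ ∀ u, u ≠ 0 → ⁅g, x s u⁆ ∉ GS D x T := by
  obtain ⟨r, hr, hrV, a, ha, w, hw, v, hv, rfl⟩ := lead c h hS hV hg hn
  obtain ⟨s, hs, hd⟩ := hc r hr hrV
  refine ⟨s, hs, hd.1, fun u hu e => ha (hd.eq_zero c h hS hT (hS r hr).1 hu hw ?_)⟩
  rw [show ⁅v * (x r a * w), x s u⁆ = v * ⁅x r a * w, x s u⁆ * v⁻¹ * ⁅v, x s u⁆ by
    simp only [commutatorElement_def]; group,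
    mul_mem_cancel_right (hm.comm c h.toSt hT hv (x_mem hs (lt_nr hd.1) u))] at e
  have := hT.conj c h.toSt (inv_mem (hV.le hv)) e
  simpa [mul_assoc] using this

theorem card_cons [Finite G] {r : ℕ} (hS : Nm D m (r :: T)) (hT : Nm D m T) (hr : r ∉ T) :
    Nat.card (GS D x (r :: T)) = Nat.card F * Nat.card (GS D x T) := by
  have h1 := (hS r (by simp)).1
  rw [← Nat.card_prod]
  refine (Nat.card_congr (Equiv.ofBijective (fun y : F × GS D x T => (⟨x r y.1 * y.2,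
    mul_mem (hS.x_mem (by simp) _) (GS_mono (fun _ => List.mem_cons_of_mem _) y.2.2)⟩ :
      GS D x (r :: T))) ⟨fun y z e => ?_, fun g => ?_⟩)).symm
  · have e1 : x r y.1 * y.2 = x r z.1 * z.2 := congrArg Subtype.val e
    have e2 : x r (-z.1 + y.1) = z.2 * (y.2 : G)⁻¹ := by
      rw [← h.add r (lt_nr h1), ← h.toSt.x_inv ⟨r, lt_nr h1⟩, inv_mul_eq_iff_eq_mul, ← mul_assoc,
        ← e1, mul_inv_cancel_right]
    have e3 := neg_add_eq_zero.1 (hT.eq_zero c h h1 hr (e2 ▸ mul_mem z.2.2 (inv_mem y.2.2)))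
    rw [← e3] at e1
    exact Prod.ext e3.symm (Subtype.ext (mul_left_cancel e1))
  · obtain ⟨t, v, hv, e⟩ := split c h.toSt hS hT h1 (fun s hs => List.mem_cons.1 hs) g.2
    exact ⟨(t, ⟨v, hv⟩), Subtype.ext e.symm⟩

theorem Nm.card [Finite G] (hT : Nm D m T) (hn : T.Pairwise (· < ·)) :
    Nat.card (GS D x T) = Nat.card F ^ T.length := by
  induction T with
  | nil => simp [GS_nil]
  | cons r T ih =>
    rw [List.pairwise_cons] at hn
    have h1 : Nm D m T := fun s hs => ⟨(hT s (by simp [hs])).1, fun u hu k hk => by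
      have h2 := (hT s (by simp [hs])).2 u hu k hk
      have h3 := (OT_lt hu (hT s (by simp [hs])).1 hk).2.1
      have h4 := hn.1 s hs
      exact (List.mem_cons.1 h2).resolve_left (by omega)⟩
    rw [card_cons c h hT h1 fun e => lt_irrefl _ (hn.1 r e), ih h1 hn.2, List.length_cons, pow_succ']

omit c in
theorem n_mem_N [Finite G] (i : Fin D.rank) (hS : ∀ r ∈ S, D.reflectRoot i r ∈ S) :
    nn D x (D.simple i) 1 ∈ normalizer (GS D x S : Set G) :=
  mem_normalizer_fintype fun _ hv => (h.rgd.act_n i).conj_gen (fun r hr => hS r hr) hv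

omit c in
theorem H_le_N (S : List ℕ) : HH D x ≤ normalizer (GS D x S : Set G) :=
  h.rgd.H_le_normalizer_gen _

omit c in
theorem n_conj (i : Fin D.rank) {r : ℕ} (hr : r < D.nroots) : ∃ η : F, η ≠ 0 ∧ ∀ t,
    nn D x (D.simple i) 1 * x r t * (nn D x (D.simple i) 1)⁻¹ = x (D.reflectRoot i r) (η * t) := by
  obtain ⟨η, h1, h2⟩ := h.n1conj i r i.2 hr
  exact ⟨η, left_ne_zero_of_mul_eq_one h1, fun t => by rw [(h2 t).1, mul_inv_cancel_right]⟩

end StB

end H12.CX
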