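/- CKS (S2193), exceptional groups: orbit lengths of groups of class two modulo a normal subgroup,
and the kernel of the action on the orbits of a subgroup. -/
import Cfsg.Agent.H32.CKKit2

set_option autoImplicit false
set_option linter.unusedSectionVars false

namespace H12.CX

open Subgroup MulAction H32.CK
open scoped commutatorElement

/-- A subgroup that is abelian modulo `R` is small. -/
theorem iso_rel {G F : Type*} [Group G] [Finite G] [Fintype F] {S R V W : Subgroup G}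
    (hR : ∀ s ∈ S, ∀ r ∈ R, s * r * s⁻¹ ∈ R) (hW : W ≤ S) (hab : ∀ a ∈ W, ∀ b ∈ W, ⁅a, b⁆ ∈ R)
    (z : F → G) (hk : ∀ a ∈ S, ∀ b ∈ S, ∃ t, (z t)⁻¹ * ⁅a, b⁆ ∈ R)
    (hs : ∀ w ∈ W, w ∉ V → ∃ X : F → G, (∀ t, X t ∈ S) ∧ ∀ t u, ⁅w, (X t)⁻¹ * X u⁆ ∈ R → t = u)
    (h1 : 1 < Fintype.card F) : Nat.card W ^ 2 ≤ Nat.card V * Nat.card S := by
  classical
  have := Fintype.ofFinite G
  obtain ⟨k, hk1⟩ := Nat.exists_eq_add_of_lt h1
  have cd : ∀ K : Subgroup G, Nat.card K = (Finset.univ.filter (· ∈ K)).card := fun K => by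
    rw [Nat.card_eq_fintype_card, Fintype.card_subtype]
  set SW := Finset.univ.filter (· ∈ W) with hSW
  set SS := Finset.univ.filter (· ∈ S) with hSS
  have mW : ∀ {g}, g ∈ SW ↔ g ∈ W := by simp [hSW]
  have mS : ∀ {g}, g ∈ SS ↔ g ∈ S := by simp [hSS]
  have a : ∀ w ∈ SW, (SS.filter fun g => ⁅w, g⁆ ∈ R).card * Fintype.card F ≤
      SS.card + if w ∈ V then SS.card * (k + 1) else 0 := fun w hw => by
    split_ifs with c
    · have := Finset.card_filter_le SS fun g => ⁅w, g⁆ ∈ R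
      rw [hk1]; nlinarith
    · obtain ⟨X, hX, hX'⟩ := hs w (mW.1 hw) c
      rw [add_zero, ← Finset.card_univ, ← Finset.card_product]
      refine Finset.card_le_card_of_injOn (fun y => X y.2 * y.1) (fun y hy => ?_)
        fun y hy y' hy' e => ?_
      · simp only [Finset.coe_product, Set.mem_prod, Finset.mem_coe, Finset.mem_filter] at hy
        exact mS.2 (mul_mem (hX _) (mS.1 hy.1.1))
      · simp only [Finset.coe_product, Set.mem_prod, Finset.mem_coe, Finset.mem_filter] at hy hy'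
        have e1 : (X y.2)⁻¹ * X y'.2 = y.1 * y'.1⁻¹ := by
          have e : X y.2 * y.1 = X y'.2 * y'.1 := e
          rw [inv_mul_eq_iff_eq_mul, ← mul_assoc, e, mul_inv_cancel_right]
        have e2 := hX' y.2 y'.2 (by
          rw [e1, show ⁅w, y.1 * y'.1⁻¹⁆ = ⁅w, y.1⁆ * (y.1 * y'.1⁻¹ * ⁅w, y'.1⁆⁻¹ *
            (y.1 * y'.1⁻¹)⁻¹) by simp only [commutatorElement_def]; group]
          exact mul_mem hy.1.2 (hR _ (mul_mem (mS.1 hy.1.1) (inv_mem (mS.1 hy'.1.1))) _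
            (inv_mem hy'.1.2)))
        rw [e2, inv_mul_cancel, eq_comm, mul_inv_eq_one] at e1
        exact Prod.ext e1 e2
  have b : ∀ g ∈ SS, (SW.card + if g ∈ W then SW.card * (k + 1) else 0) ≤
      (SW.filter fun w => ⁅w, g⁆ ∈ R).card * Fintype.card F := fun g hg => by
    split_ifs with c
    · rw [Finset.filter_true_of_mem fun w hw => hab w (mW.1 hw) g c, hk1]
      exact le_of_eq (by ring)
    · have hg := mS.1 hg
      have : ∀ w, ∃ t, w ∈ W → (z t)⁻¹ * ⁅w, g⁆ ∈ R := fun w => by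
        by_cases hw : w ∈ W
        · exact (hk w (hW hw) g hg).imp fun _ e _ => e
        · exact ⟨(Fintype.card_pos_iff.1 (by omega)).some, fun e => absurd e hw⟩
      choose f hf using this
      rw [add_zero, ← Finset.card_univ]
      refine Finset.card_le_mul_card_image_of_maps_to (f := f) (fun _ _ => Finset.mem_univ _) _
        fun t _ => ?_
      rcases (SW.filter fun a => f a = t).eq_empty_or_nonempty with e | ⟨w₀, e⟩
      · simp [e]
      rw [Finset.mem_filter] at e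
      refine Finset.card_le_card_of_injOn (fun w => w₀⁻¹ * w) (fun w hw => ?_)
        fun _ _ _ _ e => mul_left_cancel e
      rw [Finset.mem_coe, Finset.mem_filter] at hw ⊢
      refine ⟨mW.2 (mul_mem (inv_mem (mW.1 e.1)) (mW.1 hw.1)), ?_⟩
      have e1 := mul_mem (inv_mem (hf w₀ (mW.1 e.1))) (hf w (mW.1 hw.1))
      have e2 : w₀⁻¹ * ⁅w₀, g⁆ ∈ S := by
        rw [show w₀⁻¹ * ⁅w₀, g⁆ = g * w₀⁻¹ * g⁻¹ by simp only [commutatorElement_def]; group]
        exact mul_mem (mul_mem hg (inv_mem (hW (mW.1 e.1)))) (inv_mem hg)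
      convert hR _ e2 _ e1 using 1
      rw [e.2, hw.2]
      simp only [commutatorElement_def]; group
  have s1 := Finset.sum_le_sum a
  have s2 := Finset.sum_le_sum b
  have e : ∑ g ∈ SS, (SW.filter fun w => ⁅w, g⁆ ∈ R).card =
      ∑ w ∈ SW, (SS.filter fun g => ⁅w, g⁆ ∈ R).card := by
    simp only [Finset.card_filter]
    exact Finset.sum_comm
  rw [← Finset.sum_mul, e] at s2
  rw [← Finset.sum_mul] at s1
  have s := s2.trans s1
  simp only [Finset.sum_add_distrib, ← Finset.sum_filter, Finset.sum_const, smul_eq_mul] at s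
  have w1 : SS.filter (· ∈ W) = SW := by
    ext g; simp only [Finset.mem_filter, mS, mW, and_iff_right_iff_imp]; exact @hW g
  have w2 : (SW.filter (· ∈ V)).card ≤ Nat.card V := by
    rw [cd]; exact Finset.card_le_card fun g hg => by simp [(Finset.mem_filter.1 hg).2]
  rw [w1] at s
  rw [cd W, cd S]
  have := Nat.mul_le_mul_right (SS.card * (k + 1)) w2
  exact Nat.le_of_mul_le_mul_right (c := k + 1) (by nlinarith) k.succ_pos

variable {G Ω : Type} [Group G] [Finite G] [MulAction G Ω] [Finite Ω]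

/-- The length of the orbit of `a` under `T`. -/
noncomputable abbrev ol (T : Subgroup G) (a : Ω) : ℕ := (stabilizer G a).relIndex T

theorem card_ol (T : Subgroup G) (a : Ω) : Nat.card ↥(stabilizer G a ⊓ T) * ol T a = Nat.card T := by
  have e := ((stabilizer G a ⊓ T).subgroupOf T).card_mul_index
  rwa [Nat.card_congr (subgroupOfEquivOfLe inf_le_right).toEquiv, inf_subgroupOf_right] at e

theorem ol_le (T : Subgroup G) (a : Ω) : ol T a ≤ Nat.card Ω :=
  (card_orbit T a).symm.trans_le (Nat.card_le_card_of_injective _ Subtype.val_injective)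

theorem ol_pos (T : Subgroup G) (a : Ω) : 0 < ol T a :=
  Nat.pos_of_ne_zero fun e => by
    have := card_ol T a
    rw [e, mul_zero] at this
    exact Nat.card_pos.ne this

theorem ol_bot (a : Ω) : ol (⊥ : Subgroup G) a = 1 := relIndex_bot_right _

/-- `V` is semiregular modulo `R`. -/
theorem ol_semi {R V : Subgroup G} {a : Ω} (hRV : R ≤ V) (h : stabilizer G a ⊓ V ≤ R) {k : ℕ}
    (hc : Nat.card V = k * Nat.card R) : ol V a = k * ol R a := by
  have e : stabilizer G a ⊓ V = stabilizer G a ⊓ R :=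
    le_antisymm (le_inf inf_le_left h) (inf_le_inf_left _ hRV)
  have h1 := card_ol V a
  rw [e, hc, ← card_ol R a] at h1
  exact Nat.eq_of_mul_eq_mul_left (Nat.card_pos (α := ↥(stabilizer G a ⊓ R))) (by rw [h1]; ring)

theorem ol_mono {R V : Subgroup G} (h : R ≤ V) (a : Ω) : ol R a ≤ ol V a :=
  relIndex_le_of_le_right h (ol_pos V a).ne'

theorem dvd_ol {p N k : ℕ} (hp : p.Prime) {T : Subgroup G} (hT : Nat.card T = p ^ N) {a : Ω}
    (h : p ^ k ≤ ol T a) : p ^ k ∣ ol T a := by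
  obtain ⟨j, -, hj⟩ := (Nat.dvd_prime_pow hp).1 (hT ▸ Dvd.intro_left _ (card_ol T a))
  rw [hj] at h ⊢
  exact pow_dvd_pow p ((Nat.pow_le_pow_iff_right hp.one_lt).1 h)

theorem commutatorElement_mem {K : Subgroup G} {x y : G} (hx : x ∈ K) (hy : y ∈ K) : ⁅x, y⁆ ∈ K :=
  mul_mem (mul_mem (mul_mem hx hy) (inv_mem hx)) (inv_mem hy)

/-- `V ⊔ S_a` is abelian modulo `R`. -/
theorem sup_comm_mem {S R V Z : Subgroup G} {a : Ω} (hV : V ≤ S)
    (hR : ∀ s ∈ S, ∀ r ∈ R, s * r * s⁻¹ ∈ R) (hc : ∀ v ∈ V, ∀ s ∈ S, ⁅v, s⁆ ∈ R)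
    (hk : ∀ x ∈ S, ∀ y ∈ S, ⁅x, y⁆ ∈ Z) (hz : stabilizer G a ⊓ Z ≤ R) :
    ∀ x ∈ V ⊔ (stabilizer G a ⊓ S), ∀ y ∈ V ⊔ (stabilizer G a ⊓ S), ⁅x, y⁆ ∈ R := by
  let C : G → Subgroup G := fun y =>
    { carrier := {x | x ∈ S ∧ ⁅x, y⁆ ∈ R}
      one_mem' := ⟨one_mem _, by simp⟩
      mul_mem' := fun {x x'} h h' => ⟨mul_mem h.1 h'.1, by
        rw [show ⁅x * x', y⁆ = x * ⁅x', y⁆ * x⁻¹ * ⁅x, y⁆ by simp only [commutatorElement_def]; group]
        exact mul_mem (hR _ h.1 _ h'.2) h.2⟩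
      inv_mem' := fun {x} h => ⟨inv_mem h.1, by
        rw [show ⁅x⁻¹, y⁆ = x⁻¹ * ⁅x, y⁆⁻¹ * x⁻¹⁻¹ by simp only [commutatorElement_def]; group]
        exact hR _ (inv_mem h.1) _ (inv_mem h.2)⟩ }
  have hW : V ⊔ (stabilizer G a ⊓ S) ≤ S := sup_le hV inf_le_right
  have h1 : ∀ y ∈ stabilizer G a ⊓ S, V ⊔ (stabilizer G a ⊓ S) ≤ C y := fun y hy =>
    sup_le (fun v hv => ⟨hV hv, hc v hv y hy.2⟩) fun x hx => ⟨hx.2, hz (mem_inf.2
      ⟨commutatorElement_mem (K := stabilizer G a) hx.1 hy.1, hk x hx.2 y hy.2⟩)⟩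
  intro x hx y hy
  refine ((sup_le (fun v hv => ⟨hV hv, hc v hv y (hW hy)⟩) fun u hu => ⟨hu.2, ?_⟩ :
    V ⊔ (stabilizer G a ⊓ S) ≤ C y) hx).2
  rw [← commutatorElement_inv]
  exact inv_mem (h1 u hu hy).2

/-- Orbit lengths from the bound for `W = V ⊔ S_a`. -/
theorem ol_of_iso {S V : Subgroup G} {a : Ω} (hV : V ≤ S) {k : ℕ}
    (hc : Nat.card S = k ^ 2 * Nat.card V)
    (h : Nat.card ↥(V ⊔ (stabilizer G a ⊓ S)) ^ 2 ≤ Nat.card V * Nat.card S) :
    k * ol V a ≤ ol S a := by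
  set W := V ⊔ (stabilizer G a ⊓ S) with hW
  have h1 : Nat.card W ≤ k * Nat.card V :=
    (Nat.pow_le_pow_iff_left two_ne_zero).1 (h.trans (le_of_eq (by rw [hc]; ring)))
  have h2 : stabilizer G a ⊓ W = stabilizer G a ⊓ S :=
    le_antisymm (inf_le_inf_left _ (sup_le hV inf_le_right)) (le_inf inf_le_left le_sup_right)
  have h3 := card_ol W a
  have h4 := card_ol S a
  have h5 : ol V a ≤ ol W a := ol_mono le_sup_left a
  rw [h2] at h3
  have h6 : 0 < Nat.card ↥(stabilizer G a ⊓ S) := Nat.card_pos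
  refine Nat.le_of_mul_le_mul_left ?_ h6
  rw [h4, hc]
  calc _ ≤ k * (Nat.card ↥(stabilizer G a ⊓ S) * ol W a) := by
        rw [mul_left_comm]; exact Nat.mul_le_mul_left _ (Nat.mul_le_mul_left _ h5)
    _ ≤ k * (k * Nat.card V) := Nat.mul_le_mul_left _ (h3 ▸ h1)
    _ = _ := by ring

variable (Ω) in
/-- The elements that fix every `R`-orbit. -/
def TK (R : Subgroup G) : Subgroup G where
  carrier := {g | ∀ a : Ω, ∃ r ∈ R, g • a = r • a}
  one_mem' a := ⟨1, one_mem _, rfl⟩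
  mul_mem' {g g'} h h' a := by
    obtain ⟨r, hr, e⟩ := h' a
    obtain ⟨r', hr', e'⟩ := h (r • a)
    exact ⟨r' * r, mul_mem hr' hr, by rw [mul_smul, e, e', mul_smul]⟩
  inv_mem' {g} h a := by
    obtain ⟨r, hr, e⟩ := h (g⁻¹ • a)
    exact ⟨r⁻¹, inv_mem hr, by rw [eq_inv_smul_iff, ← e, smul_inv_smul]⟩

theorem le_TK (R : Subgroup G) : R ≤ TK Ω R := fun r hr _ => ⟨r, hr, rfl⟩

theorem TK_conj {R : Subgroup G} {n g : G} (hn : n ∈ normalizer (R : Set G)) (hg : g ∈ TK Ω R) :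
    n * g * n⁻¹ ∈ TK Ω R := fun a => by
  obtain ⟨r, hr, e⟩ := hg (n⁻¹ • a)
  exact ⟨n * r * n⁻¹, (mem_normalizer_iff.1 hn r).1 hr, by simp only [mul_smul, e]⟩

theorem TK_trans {R U : Subgroup G} (hU : ∀ a b : Ω, ∃ u ∈ U, u • a = b) (h : U ≤ TK Ω R)
    (a b : Ω) : ∃ r ∈ R, r • a = b := by
  obtain ⟨u, hu, rfl⟩ := hU a b
  obtain ⟨r, hr, e⟩ := h hu a
  exact ⟨r, hr, e.symm⟩

/-- An element that is central modulo `R` in a transitive group and fixes one orbit fixes all. -/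
theorem mem_TK {R U : Subgroup G} (hU : ∀ a b : Ω, ∃ u ∈ U, u • a = b)
    (hR : ∀ u ∈ U, ∀ r ∈ R, u * r * u⁻¹ ∈ R) {g : G} (hg : ∀ u ∈ U, ⁅g, u⁆ ∈ R) {a : Ω}
    (ha : g • a = a) : g ∈ TK Ω R := fun b => by
  obtain ⟨u, hu, rfl⟩ := hU a b
  refine ⟨⁅g, u⁆, hg u hu, ?_⟩
  rw [commutatorElement_def, mul_smul, mul_smul, inv_smul_smul, mul_smul, ← ha, inv_smul_smul, ha]

/-- If `S` is transitive, `V ⊔ S_a` is normalised by everything that normalises `S` and `V`. -/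
theorem sup_conj {S V : Subgroup G} {a : Ω} (hS : ∀ b : Ω, ∃ s ∈ S, s • b = a) (hV : V ≤ S)
    (hk : ∀ x ∈ S, ∀ y ∈ S, ⁅x, y⁆ ∈ V) {g : G} (h1 : g ∈ normalizer (S : Set G))
    (h2 : g ∈ normalizer (V : Set G)) {w : G} (hw : w ∈ V ⊔ (stabilizer G a ⊓ S)) :
    g * w * g⁻¹ ∈ V ⊔ (stabilizer G a ⊓ S) := by
  have : V ⊔ (stabilizer G a ⊓ S) ≤ (V ⊔ (stabilizer G a ⊓ S)).comap (MulAut.conj g).toMonoidHom := by
    refine sup_le (fun v hv => mem_sup_left ((mem_normalizer_iff.1 h2 v).1 hv)) fun y hy => ?_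
    obtain ⟨s, hs, e⟩ := hS (g • a)
    have h3 := (mem_normalizer_iff.1 h1 y).1 hy.2
    change g * y * g⁻¹ ∈ V ⊔ (stabilizer G a ⊓ S)
    rw [show g * y * g⁻¹ = ⁅g * y * g⁻¹, s⁆ * (s * (g * y * g⁻¹) * s⁻¹) by
      simp only [commutatorElement_def]; group]
    refine mul_mem (mem_sup_left (hk _ h3 _ hs)) (mem_sup_right (mem_inf.2 ⟨?_,
      mul_mem (mul_mem hs h3) (inv_mem hs)⟩))
    have e1 : s⁻¹ • a = g • a := by rw [inv_smul_eq_iff, e]
    change _ • a = a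
    simp only [mul_smul, e1, inv_smul_smul, mem_stabilizer_iff.1 hy.1, e]
  exact this hw

end H12.CX
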