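/- CKS (S2193), exceptional groups: the steps of the argument for subgroups given by lists of roots. -/
import Cfsg.Agent.H12.CX1
import Cfsg.Agent.H12.CX2

set_option autoImplicit false
set_option linter.unusedSectionVars false

namespace H12.CX

open Cfsg.Lie H63 H64 Subgroup MulAction H32.CK
open scoped commutatorElement

section Defs

variable (D : ChevalleyDatum) (m : ℤ) (L : List ℤ)

/-- `U_S / U_R` has class two with derived group `X_θ` and centre `U_V / U_R` of index `q ^ (2 d)`. -/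
def HS (S V R : List ℕ) (θ d : ℕ) : Prop :=
  Nm D m S ∧ Nm D m V ∧ Nm D m R ∧ Nm D m (θ :: R) ∧ (∀ r ∈ V, r ∈ S) ∧ Cm D m S S (θ :: R) ∧
    Cm D m V S R ∧ Cert D m L S S R V ∧ S.Nodup ∧ V.Nodup ∧ S.length = d * 2 + V.length

instance (S V R : List ℕ) (θ d : ℕ) : Decidable (HS D m L S V R θ d) := by
  unfold HS; infer_instance

/-- `k` is a term of `[x_a, x_b]`, the other terms vanish or lie in `T`. -/
def Tm (a b : ℕ) (T : List ℕ) (k : ℕ × ℤ × ℕ × ℕ) : Prop :=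
  a ∈ D.posRoots ∧ b ∈ D.posRoots ∧ a ≠ b ∧ (D.commTerms b a).Nodup ∧ k ∈ D.commTerms b a ∧
    k.2.1 ∈ L ∧ ∀ k' ∈ D.commTerms b a, k' ≠ k → k'.2.1 % m = 0 ∨ k'.1 ∈ T

instance (a b : ℕ) (T : List ℕ) (k : ℕ × ℤ × ℕ × ℕ) : Decidable (Tm D m L a b T k) := by
  unfold Tm; infer_instance

/-- A normal subgroup of `P_J` containing the root groups in `A` contains `U`. -/
def Grow (J : List (Fin D.rank)) : List ℕ → List (ℕ × ℕ × ℕ) → Prop
  | A, [] => ∀ r ∈ D.posRoots, r ∈ A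
  | A, k :: l => k.1 ∈ A ∧ k.1 < D.nroots ∧ ((∃ i ∈ J, k.2.2 = D.reflectRoot i k.1) ∨
      ∃ j ∈ D.commTerms k.2.1 k.1, Tm D m L k.1 k.2.1 A j ∧ j.1 = k.2.2 ∧ j.2.2.1 = 1) ∧
      Grow J (k.2.2 :: A) l

instance decGrow (J : List (Fin D.rank)) : ∀ (A : List ℕ) (l : List (ℕ × ℕ × ℕ)),
    Decidable (Grow D m L J A l)
  | A, [] => by unfold Grow; infer_instance
  | A, k :: l => by unfold Grow; have := decGrow J (k.2.2 :: A) l; infer_instance

/-- The data for the final contradiction when `U_S` is transitive. -/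
def QK (S V R : List ℕ) (θ β : ℕ) (l : List (Fin D.rank)) : Prop :=
  Nm D m S ∧ Nm D m V ∧ Nm D m R ∧ Nm D m (β :: V) ∧ (∀ r ∈ V, r ∈ S) ∧ (∀ r ∈ θ :: R, r ∈ V) ∧
    Cm D m S S (θ :: R) ∧ Cm D m V S R ∧ Cm D m (β :: V) D.posRoots V ∧
    Cert D m L S D.posRoots V (β :: V) ∧ (∀ i ∈ l, (∀ r ∈ S, D.reflectRoot i r ∈ S) ∧
      ∀ r ∈ V, D.reflectRoot i r ∈ V) ∧ β ∈ S ∧
    Det D m L [] (l.foldr (fun i r => D.reflectRoot i r) β) R β ∧ S.Nodup ∧ R.Nodup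

instance (S V R : List ℕ) (θ β : ℕ) (l : List (Fin D.rank)) :
    Decidable (QK D m L S V R θ β l) := by unfold QK; infer_instance

/-- Every element of `U_(r :: r' :: T)` is conjugate into `U_(r' :: T)`. -/
def SP (r r' : ℕ) (T : List ℕ) (i : Fin D.rank) : Prop :=
  Nm D m T ∧ Nm D m (r' :: T) ∧ Nm D m (r :: r' :: T) ∧ Cm D m [D.simple i, r] [r'] T ∧
    (∃ k ∈ D.commTerms r (D.simple i), Tm D m L (D.simple i) r T k ∧ k.1 = r' ∧ k.2.2.2 = 1) ∧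
    D.reflectRoot i r = r' ∧ ∀ s ∈ T, D.reflectRoot i s ∈ T

instance (r r' : ℕ) (T : List ℕ) (i : Fin D.rank) : Decidable (SP D m L r r' T i) := by
  unfold SP; infer_instance

end Defs

theorem prod_coset {X α : Type*} [Group X] {K : Subgroup X} {l : List α} (hn : l.Nodup) {f : α → X}
    {a : α} (ha : a ∈ l) (h : ∀ b ∈ l, b ≠ a → f b ∈ K)
    (hc : ∀ k ∈ K, (f a)⁻¹ * k * (f a)⁻¹⁻¹ ∈ K) : (f a)⁻¹ * (l.map f).prod ∈ K := by
  obtain ⟨s, t, rfl⟩ := List.append_of_mem ha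
  rw [List.nodup_middle, List.nodup_cons, List.mem_append, not_or] at hn
  rw [List.map_append, List.map_cons, List.prod_append, List.prod_cons]
  have k : ∀ m : List α, a ∉ m → (∀ b ∈ m, b ∈ s ++ a :: t) → (m.map f).prod ∈ K := fun m h1 h2 =>
    list_prod_mem fun g hg => by
      obtain ⟨b, hb, rfl⟩ := List.mem_map.1 hg
      exact h b (h2 b hb) fun e => h1 (e ▸ hb)
  have := mul_mem (hc _ (k s hn.1.1 fun b hb => by simp [hb])) (k t hn.1.2 fun b hb => by simp [hb])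
  simpa only [inv_inv, mul_assoc] using this

variable {D : ChevalleyDatum} [RS D] {m : ℤ} {L : List ℤ} {F : Type} [Field F] [Fintype F]
  {G Ω : Type} [Group G] [Finite G] [MulAction G Ω] [Finite Ω] {x : ℕ → F → G}
  {S V R T : List ℕ} (c : Ch F m L) (h : StB D x)
include c h

theorem Nm.card' (hT : Nm D m T) (hn : T.Nodup) :
    Nat.card (GS D x T) = Fintype.card F ^ T.length := by
  have e : ∀ r, r ∈ T.toFinset.sort (· ≤ ·) ↔ r ∈ T := by simp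
  rw [le_antisymm (GS_mono fun r => (e r).2) (GS_mono fun r => (e r).1),
    Nm.card c h (fun r hr => ⟨(hT r ((e r).1 hr)).1, fun s hs k hk =>
      (e k).2 ((hT r ((e r).1 hr)).2 s hs k hk)⟩) T.toFinset.sortedLT_sort.pairwise,
    Finset.length_sort, List.toFinset_card_of_nodup hn, Nat.card_eq_fintype_card]

theorem Tm.coset {a b : ℕ} {k : ℕ × ℤ × ℕ × ℕ} (hk : Tm D m L a b T k) {K : Subgroup G}
    (hT : ∀ r ∈ T, ∀ t, x r t ∈ K) (hK : ∀ u ∈ GS D x D.posRoots, ∀ y ∈ K, u * y * u⁻¹ ∈ K)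
    (t u : F) : (x k.1 (k.2.1 * u ^ k.2.2.1 * (-t) ^ k.2.2.2))⁻¹ * ⁅x a t, x b u⁆ ∈ K := by
  obtain ⟨ha, hb, e, nd, k1, -, k3⟩ := hk
  have h4 := h.toSt.commutator_eq (r := ⟨b, lt_nr hb⟩) (s := ⟨a, lt_nr ha⟩)
    (fun e' => e (congrArg Fin.val e')) (ne_neg ha hb) (-u) (-t)
  rw [neg_neg, neg_neg] at h4
  rw [h4, wd, ChevalleyDatum.commWord, List.map_map]
  have k4 := (terms_lt ha hb k1).2.2
  have := prod_coset (K := K) nd (f := (fun p : ℕ × F => x p.1 p.2) ∘ fun c : ℕ × ℤ × ℕ × ℕ =>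
    (c.1, (c.2.1 : F) * (- -u) ^ c.2.2.1 * (-t) ^ c.2.2.2)) k1 (fun j j1 j2 => by
      rcases k3 j j1 j2 with h7 | h7
      · simp only [Function.comp, c.cast h7, zero_mul,
          h.toSt.x_zero ⟨_, lt_nr (terms_lt ha hb j1).2.2⟩, one_mem]
      · exact hT _ h7 _) fun y hy => hK _ (inv_mem (x_mem k4 (lt_nr k4) _)) y hy
  simpa only [Function.comp, neg_neg] using this

/-- Orbit lengths of a group of class two modulo `U_R`. -/
theorem heis {θ d : ℕ} (k : HS D m L S V R θ d) {a : Ω}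
    (hz : stabilizer G a ⊓ GS D x (θ :: R) ≤ GS D x R) :
    Fintype.card F ^ d * ol (GS D x V) a ≤ ol (GS D x S) a := by
  obtain ⟨k1, k2, k3, k4, k5, k6, k7, k8, k9, k10, k11⟩ := k
  have hR : ∀ s ∈ GS D x S, ∀ r ∈ GS D x R, s * r * s⁻¹ ∈ GS D x R := fun s hs r hr =>
    k3.conj c h.toSt (k1.le hs) hr
  have hV : GS D x V ≤ GS D x S := GS_mono k5
  have hW : GS D x V ⊔ (stabilizer G a ⊓ GS D x S) ≤ GS D x S := sup_le hV inf_le_right
  refine ol_of_iso hV (by rw [k1.card' c h k9, k2.card' c h k10, k11, pow_add, pow_mul])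
    (iso_rel hR hW (sup_comm_mem hV hR (fun v hv s hs => k7.comm c h.toSt k3 hv hs)
      (fun y hy z hz => k6.comm c h.toSt k4 hy hz) hz) (x θ) (fun y hy z hz => ?_)
      (fun w hw hn => ?_) Fintype.one_lt_card)
  · obtain ⟨t, v, hv, e⟩ := split c h.toSt k4 k3 (k4 θ (by simp)).1 (fun s hs => List.mem_cons.1 hs)
      (k6.comm c h.toSt k4 hy hz)
    exact ⟨t, by rwa [e, inv_mul_cancel_left]⟩
  · obtain ⟨s, hs, s1, s2⟩ := k8.ex c h k1 k2 k3 k7 (hW hw) hn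
    refine ⟨x s, k1.x_mem hs, fun t u e => by_contra fun e' => s2 (-t + u) ?_ ?_⟩
    · exact fun e1 => e' (neg_add_eq_zero.1 e1)
    · rwa [← h.add s (lt_nr s1), ← h.toSt.x_inv ⟨s, lt_nr s1⟩]

theorem ol_cons {θ : ℕ} (k1 : Nm D m (θ :: R)) (k2 : Nm D m R) (k3 : θ ∉ R) {a : Ω}
    (hz : stabilizer G a ⊓ GS D x (θ :: R) ≤ GS D x R) :
    ol (GS D x (θ :: R)) a = Fintype.card F * ol (GS D x R) a :=
  ol_semi (GS_mono fun _ => List.mem_cons_of_mem _) hz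
    (by rw [card_cons c h k1 k2 k3, Nat.card_eq_fintype_card])

theorem ol_free (k1 : Nm D m T) (k2 : T.Nodup) {a : Ω}
    (hz : stabilizer G a ⊓ GS D x T ≤ GS D x []) : ol (GS D x T) a = Fintype.card F ^ T.length := by
  rw [ol_semi (GS_mono (by simp)) hz (k := Fintype.card F ^ T.length)
    (by rw [k1.card' c h k2, GS_nil, card_bot, mul_one]), GS_nil, ol_bot, mul_one]

/-- A root group that is central in `U / U_R` is semiregular or trivial on the orbits of `U_R`. -/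
theorem tor (hU : ∀ a b : Ω, ∃ u ∈ GS D x D.posRoots, u • a = b) {θ : ℕ} (k1 : Nm D m (θ :: R))
    (k2 : Nm D m R) (k3 : Cm D m (θ :: R) D.posRoots R)
    (k4 : ∃ p : Rt D, D.pairing p θ = 1) :
    (∀ a : Ω, stabilizer G a ⊓ GS D x (θ :: R) ≤ GS D x R) ∨
      ∀ r ∈ θ :: R, ∀ t, x r t ∈ TK Ω (GS D x R) := by
  refine or_iff_not_imp_left.2 fun hn r hr t' => ?_
  rcases List.mem_cons.1 hr with rfl | hr
  swap
  · exact le_TK _ (k2.x_mem hr t')
  simp only [not_forall, SetLike.le_def] at hn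
  obtain ⟨a, g, hg, hn⟩ := hn
  have h1 := (k1 r (by simp)).1
  have h2 := mem_TK hU (fun u hu y hy => k2.conj c h.toSt hu hy)
    (fun u hu => k3.comm c h.toSt k2 hg.2 hu) hg.1
  obtain ⟨t, v, hv, rfl⟩ := split c h.toSt k1 k2 h1 (fun s hs => List.mem_cons.1 hs) hg.2
  have ht : t ≠ 0 := fun e => hn (by rwa [e, h.toSt.x_zero ⟨r, lt_nr h1⟩, one_mul])
  rw [mul_mem_cancel_right (le_TK _ hv)] at h2
  by_cases e : t' = 0
  · rw [e, h.toSt.x_zero ⟨r, lt_nr h1⟩]; exact one_mem _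
  obtain ⟨p, hp⟩ := k4
  have h3 := TK_conj (H_le_N h R (hh_mem_HH D x p (div_ne_zero e ht))) h2
  rwa [h.toStN.hh_conj p ⟨r, lt_nr h1⟩ (div_ne_zero e ht), hp, zpow_one, div_mul_cancel₀ _ ht] at h3

theorem grow {J : List (Fin D.rank)} {K : Subgroup G}
    (hK : ∀ u ∈ GS D x D.posRoots, ∀ y ∈ K, u * y * u⁻¹ ∈ K)
    (hJ : ∀ i ∈ J, ∀ y ∈ K, nn D x (D.simple i) 1 * y * (nn D x (D.simple i) 1)⁻¹ ∈ K)
    {l : List (ℕ × ℕ × ℕ)} {A : List ℕ} (k : Grow D m L J A l) (hA : ∀ r ∈ A, ∀ t, x r t ∈ K) :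
    GS D x D.posRoots ≤ K := by
  induction l generalizing A with
  | nil => exact GS_le fun r hr => hA r (k r hr)
  | cons j l ih =>
    obtain ⟨k1, k2, k3, k4⟩ := k
    refine ih k4 fun r hr t => ?_
    rcases List.mem_cons.1 hr with rfl | hr
    swap
    · exact hA r hr t
    rcases k3 with ⟨i, hi, e⟩ | ⟨i, -, i1, e, i2⟩
    · obtain ⟨η, h1, h2⟩ := n_conj h i k2
      have := hJ i hi _ (hA _ k1 (t / η))
      rwa [h2, mul_div_cancel₀ _ h1, ← e] at this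
    · have h1 := i1.coset c h hA hK (-1) (t / i.2.1)
      rw [i2, pow_one, neg_neg, one_pow, mul_one, mul_div_cancel₀ _ (c.nz _ i1.2.2.2.2.2.1), e,
        mul_mem_cancel_right, inv_mem_iff] at h1
      · exact h1
      · rw [commutatorElement_def, mul_assoc, mul_assoc, ← mul_assoc (x j.2.1 _)]
        exact mul_mem (hA _ k1 _) (hK _ (x_mem i1.2.1 (lt_nr i1.2.1) _) _ (inv_mem (hA _ k1 _)))

theorem grow_trans (hU : ∀ a b : Ω, ∃ u ∈ GS D x D.posRoots, u • a = b) {J : List (Fin D.rank)}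
    (k1 : Nm D m R) (k2 : ∀ i ∈ J, ∀ r ∈ R, D.reflectRoot i r ∈ R) {l : List (ℕ × ℕ × ℕ)}
    {A : List ℕ} (k : Grow D m L J A l) (hA : ∀ r ∈ A, ∀ t, x r t ∈ TK Ω (GS D x R)) (a b : Ω) :
    ∃ r ∈ GS D x R, r • a = b :=
  TK_trans hU (grow c h (fun _ hu _ hy => TK_conj (k1.le_N c h.toSt hu) hy)
    (fun i hi _ hy => TK_conj (n_mem_N h i (k2 i hi)) hy) k hA) a b

/-- A subgroup between `U_V` and `U_S`, normalised by `U`, contains an element that is central in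
`U` modulo `U_V`. -/
theorem exists_fix (k1 : Nm D m S) {W : Subgroup G} (h1 : W ≤ GS D x S) (h2 : ¬ W ≤ GS D x V)
    (h3 : ∀ u ∈ GS D x D.posRoots, ∀ w ∈ W, u * w * u⁻¹ ∈ W) :
    ∃ w ∈ W, w ∉ GS D x V ∧ ∀ u ∈ GS D x D.posRoots, ⁅w, u⁆ ∈ GS D x V := by
  by_contra hc
  have key : ∀ k, ∀ w ∈ W, w ∈ GS D x (S.filter (D.nroots - k ≤ ·)) → w ∈ GS D x V := fun k => by
    induction k with
    | zero =>
      refine fun w _ hw => GS_mono (fun r hr => ?_) hw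
      simp only [List.mem_filter, decide_eq_true_eq] at hr
      exact absurd (lt_nr (k1 r hr.1).1) (by omega)
    | succ k ih =>
      refine fun w hw hw' => by_contra fun hn => hc ⟨w, hw, hn, fun u hu => ?_⟩
      rw [← commutatorElement_inv, inv_mem_iff]
      refine ih _ (mul_mem (h3 u hu w hw) (inv_mem hw)) (Cm.comm c h.toSt (fun s hs => ⟨hs,
        fun r hr => ?_⟩) (k1.filter _) hu hw')
      simp only [List.mem_filter, decide_eq_true_eq] at hr ⊢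
      refine ⟨(k1 r hr.1).1, fun j hj => ⟨(k1 r hr.1).2 s hs j hj, ?_⟩⟩
      have := (OT_lt hs (k1 r hr.1).1 hj).2.1
      omega
  exact h2 fun w hw => key D.nroots w hw (GS_mono (by simp) (h1 hw))

/-- `U_S` is not transitive. -/
theorem qk {θ β : ℕ} {l : List (Fin D.rank)} (k : QK D m L S V R θ β l)
    (hS : ∀ a b : Ω, ∃ s ∈ GS D x S, s • a = b) {a : Ω}
    (hv : stabilizer G a ⊓ GS D x V ≤ GS D x R) {e : ℕ} (he : S.length = e + R.length)
    (hn : Nat.card Ω < Fintype.card F ^ e * ol (GS D x R) a) : False := by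
  obtain ⟨k1, k2, k3, k4, k5, k6, k7, k8, k9, k10, k11, k12, k13, k14, k15⟩ := k
  have hV : GS D x V ≤ GS D x S := GS_mono k5
  have hZ : GS D x (θ :: R) ≤ GS D x V := GS_mono k6
  have k7' : Cm D m S S V := fun r hr => ⟨(k7 r hr).1, fun s hs => ⟨((k7 r hr).2 s hs).1,
    fun j hj => k6 j (((k7 r hr).2 s hs).2 j hj)⟩⟩
  set W := GS D x V ⊔ (stabilizer G a ⊓ GS D x S) with hW
  have cj : ∀ {g}, g ∈ normalizer (GS D x S : Set G) → g ∈ normalizer (GS D x V : Set G) →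
      ∀ w ∈ W, g * w * g⁻¹ ∈ W := fun h1 h2 w hw =>
    sup_conj (fun b => hS b a) hV (fun y hy z hz => k7'.comm c h.toSt k2 hy hz) h1 h2 hw
  obtain ⟨w, w1, w2, w3⟩ := exists_fix c h (V := V) k1 (sup_le hV inf_le_right : W ≤ _) (fun e1 => by
    have := ol_semi (a := a) (GS_mono fun r hr => k5 r (k6 r (List.mem_cons_of_mem _ hr)))
      (le_trans (le_inf inf_le_left (le_sup_right.trans e1)) hv) (k := Fintype.card F ^ e)
      (by rw [k1.card' c h k14, k3.card' c h k15, he, pow_add])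
    rw [← this] at hn
    exact hn.ne' (relIndex_of_trans (hS a)))
    fun u hu => cj (k1.le_N c h.toSt hu) (k2.le_N c h.toSt hu)
  have w4 : w ∈ GS D x (β :: V) := by_contra fun e1 => by
    obtain ⟨s, -, s1, s2⟩ := k10.ex c h k1 k4 k2 k9 (sup_le hV inf_le_right w1) e1
    exact s2 1 one_ne_zero (w3 _ (x_mem s1 (lt_nr s1) 1))
  have hβ := (k1 β k12).1
  obtain ⟨t, v, v1, rfl⟩ := split c h.toSt k4 k2 hβ (fun s hs => List.mem_cons.1 hs) w4
  have ht : t ≠ 0 := fun e => w2 (by rwa [e, h.toSt.x_zero ⟨β, lt_nr hβ⟩, one_mul])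
  rw [mul_mem_cancel_right (mem_sup_left v1)] at w1
  have key : l.foldr (fun i r => D.reflectRoot i r) β ∈ S ∧
      ∃ u, u ≠ 0 ∧ x (l.foldr (fun i r => D.reflectRoot i r) β) u ∈ W := by
    clear k13
    induction l with
    | nil => exact ⟨k12, t, ht, w1⟩
    | cons i l ih =>
      obtain ⟨i1, u, u1, u2⟩ := ih fun j hj => k11 j (List.mem_cons_of_mem _ hj)
      obtain ⟨i2, i3⟩ := k11 i (by simp)
      obtain ⟨η, h1, h2⟩ := n_conj h i (lt_nr (k1 _ i1).1)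
      exact ⟨i2 _ i1, η * u, mul_ne_zero h1 u1, h2 u ▸ cj (n_mem_N h i i2) (n_mem_N h i i3) _ u2⟩
  obtain ⟨-, u, u1, u2⟩ := key
  refine ht (k13.eq_zero c h nm_nil k3 hβ u1 (one_mem _) ?_)
  rw [mul_one]
  exact sup_comm_mem hV (fun s hs r hr => k3.conj c h.toSt (k1.le hs) hr)
    (fun v hv s hs => k8.comm c h.toSt k3 hv hs) (fun y hy z hz => k7'.comm c h.toSt k2 hy hz) hv
    _ w1 _ u2

/-- Semiregularity passes from `U_(r' :: T)` to `U_(r :: r' :: T)`. -/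
theorem step {r r' : ℕ} {i : Fin D.rank} (k : SP D m L r r' T i)
    (hz : ∀ a : Ω, stabilizer G a ⊓ GS D x (r' :: T) ≤ GS D x []) (a : Ω) :
    stabilizer G a ⊓ GS D x (r :: r' :: T) ≤ GS D x [] := by
  obtain ⟨k1, k2, k3, k4, ⟨k, -, k5, rfl, k6⟩, k7, k8⟩ := k
  intro g hg
  have hr := k5.2.1
  have hr' := (k2 k.1 (by simp)).1
  have hs := k5.1
  obtain ⟨t, w, hw, e⟩ := split c h.toSt k3 k2 hr (fun s hs => List.mem_cons.1 hs) hg.2
  by_cases ht : t = 0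
  · exact hz a ⟨hg.1, by rwa [e, ht, h.toSt.x_zero ⟨r, lt_nr hr⟩, one_mul]⟩
  obtain ⟨s, v, hv, rfl⟩ := split c h.toSt k2 k1 hr' (fun s hs => List.mem_cons.1 hs) hw
  have hC : (k.2.1 : F) * t ^ k.2.2.1 ≠ 0 := mul_ne_zero (c.nz _ k5.2.2.2.2.2.1) (pow_ne_zero _ ht)
  have cT : ∀ u ∈ GS D x D.posRoots, ∀ y ∈ GS D x T, u * y * u⁻¹ ∈ GS D x T := fun u hu y hy =>
    k1.conj c h.toSt hu hy
  set y := x (D.simple i) (s / (k.2.1 * t ^ k.2.2.1)) with hy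
  have h1 := k5.coset c h (fun r hr t => k1.x_mem hr t) cT (s / (k.2.1 * t ^ k.2.2.1)) t
  rw [k6, pow_one, mul_neg, mul_div_cancel₀ _ hC, ← h.toSt.x_inv ⟨_, lt_nr hr'⟩, inv_inv, ← hy] at h1
  have h2 : ⁅y, x k.1 s⁆ ∈ GS D x T :=
    k4.comm c h.toSt k1 (x_mem (by simp) (lt_nr hs) _) (x_mem (by simp) (lt_nr hr') _)
  have h3 : ⁅(x r t)⁻¹, (x k.1 s)⁻¹⁆ ∈ GS D x T :=
    k4.comm c h.toSt k1 (inv_mem (x_mem (by simp) (lt_nr hr) _))
      (inv_mem (x_mem (by simp) (lt_nr hr') _))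
  have h4 : (x r t)⁻¹ * (y * g * y⁻¹) ∈ GS D x T := by
    rw [e, show (x r t)⁻¹ * (y * (x r t * (x k.1 s * v)) * y⁻¹) = ⁅(x r t)⁻¹, (x k.1 s)⁻¹⁆ *
      ((x k.1 s)⁻¹ * ((x r t)⁻¹ * (x k.1 s * ⁅y, x r t⁆) * (x r t)⁻¹⁻¹ * ⁅y, x k.1 s⁆) *
        (x k.1 s)⁻¹⁻¹) * (y * v * y⁻¹) by simp only [commutatorElement_def]; group]
    exact mul_mem (mul_mem h3 (cT _ (inv_mem (x_mem hr' (lt_nr hr') _)) _ (mul_mem
      (cT _ (inv_mem (x_mem hr (lt_nr hr) _)) _ h1) h2))) (cT _ (x_mem hs (lt_nr hs) _) _ hv)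
  obtain ⟨η, -, h6⟩ := n_conj h i (lt_nr hr)
  set n := nn D x (D.simple i) 1
  have h5 : n * y * g * (n * y)⁻¹ ∈ GS D x (k.1 :: T) := by
    rw [show n * y * g * (n * y)⁻¹ = n * x r t * n⁻¹ * (n * ((x r t)⁻¹ * (y * g * y⁻¹)) * n⁻¹) by
      group, h6, k7]
    exact mul_mem (k2.x_mem (by simp) _) (GS_mono (fun _ => List.mem_cons_of_mem _)
      ((mem_normalizer_iff.1 (n_mem_N h i k8) _).1 h4))
  have h7 := hz ((n * y) • a) (mem_inf.2 ⟨by
    rw [mem_stabilizer_iff, mul_smul, inv_smul_smul, mul_smul, mem_stabilizer_iff.1 hg.1], h5⟩)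
  rw [GS_nil, mem_bot] at h7 ⊢
  simpa [mul_assoc] using congrArg (fun z => (n * y)⁻¹ * z * (n * y)) h7

/-- The centre of a transitive group is semiregular. -/
theorem free_of_central (A : Act G Ω) (hU : ∀ a b : Ω, ∃ u ∈ GS D x D.posRoots, u • a = b)
    (k : Cm D m T D.posRoots []) (a : Ω) : stabilizer G a ⊓ GS D x T ≤ GS D x [] := fun g hg => by
  have := mem_TK hU (fun u hu y hy => nm_nil.conj c h.toSt hu hy)
    (fun u hu => k.comm c h.toSt nm_nil hg.2 hu) hg.1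
  rw [GS_nil] at this ⊢
  exact A.eq_one fun b => by
    obtain ⟨r, hr, e⟩ := this b
    rwa [mem_bot.1 hr, one_smul] at e

theorem free_single {θ : ℕ} (k : Nm D m [θ]) (hz : ∀ (a : Ω) t, t ≠ 0 → x θ t • a ≠ a) (a : Ω) :
    stabilizer G a ⊓ GS D x [θ] ≤ GS D x [] := fun g hg => by
  have h1 := (k θ (by simp)).1
  obtain ⟨t, v, hv, rfl⟩ := split c h.toSt k nm_nil h1 (by simp) hg.2
  rw [GS_nil, mem_bot] at hv
  by_cases ht : t = 0
  · rw [hv, ht, h.toSt.x_zero ⟨θ, lt_nr h1⟩, one_mul]; exact one_mem _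
  · exact absurd (by simpa [hv] using hg.1) (hz a t ht)

end H12.CX
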