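/- CKS (S2193), exceptional groups: root elements fix no point; the degree. -/
import Cfsg.Agent.H12.CX3
import Cfsg.Agent.H2.MX9
import Cfsg.Agent.H67.StChar

set_option autoImplicit false
set_option linter.unusedSectionVars false

namespace H12.CX

open Cfsg.Lie H63 H64 Subgroup MulAction H32.CK
open scoped commutatorElement

theorem lines_count {F : Type} [Field F] [Fintype F] (T : AddSubgroup (F × F)) {a : ℕ}
    (h0 : Nat.card {t : F // ((0 : F), t) ∈ T} = a)
    (h1 : ∀ c : F, Nat.card {u : F // (u, c * u) ∈ T} = a) :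
    Nat.card T = a + Fintype.card F * (a - 1) := by
  classical
  simp only [Nat.card_eq_fintype_card, Fintype.card_subtype] at h0 h1 ⊢
  rw [← Finset.card_filter_add_card_filter_not (p := fun y : F × F => y.1 = 0)]
  congr 1
  · rw [← h0]
    refine Finset.card_bij (fun y _ => y.2) (fun y hy => ?_) (fun y hy z hz e => ?_) fun t ht => ?_
    · simp only [Finset.mem_filter, Finset.mem_univ, true_and] at hy ⊢
      rw [← hy.2]; exact hy.1
    · simp only [Finset.mem_filter, Finset.mem_univ, true_and] at hy hz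
      exact Prod.ext (hy.2.trans hz.2.symm) e
    · exact ⟨(0, t), by simpa using ht, rfl⟩
  · rw [Finset.card_eq_sum_card_fiberwise (f := fun y : F × F => y.2 / y.1) (t := Finset.univ)
      (fun _ _ => Finset.mem_univ _), ← Finset.card_univ, ← smul_eq_mul, ← Finset.sum_const]
    refine Finset.sum_congr rfl fun c _ => ?_
    rw [← h1 c, ← Finset.card_erase_of_mem (a := (0 : F))
      (Finset.mem_filter.2 ⟨Finset.mem_univ _, by rw [mul_zero]; exact T.zero_mem⟩)]
    refine Finset.card_bij (fun y _ => y.1) (fun y hy => ?_) (fun y hy z hz e => ?_) fun t ht => ?_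
    · simp only [Finset.mem_filter, Finset.mem_univ, true_and, Finset.mem_erase] at hy ⊢
      exact ⟨hy.1.2, by rw [← hy.2, div_mul_cancel₀ _ hy.1.2]; exact hy.1.1⟩
    · simp only [Finset.mem_filter, Finset.mem_univ, true_and] at hy hz
      refine Prod.ext e ?_
      rw [← div_mul_cancel₀ y.2 hy.1.2, ← div_mul_cancel₀ z.2 hz.1.2, hy.2, hz.2, e]
    · simp only [Finset.mem_filter, Finset.mem_univ, true_and, Finset.mem_erase] at ht ⊢
      exact ⟨(t, c * t), ⟨⟨ht.2, ht.1⟩, mul_div_cancel_right₀ _ ht.1⟩, rfl⟩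

variable {D : ChevalleyDatum} [RS D] {m : ℤ} {L : List ℤ} {F : Type} [Field F] [Fintype F]
  {G Ω : Type} [Group G] [Finite G] [MulAction G Ω] [Finite Ω] {x : ℕ → F → G}
  {p : ℕ} [hp : Fact p.Prime] [CharP F p] (h : StB D x) (hG : GG D x = ⊤)

theorem card_eq_pow : ∃ f, 0 < f ∧ Fintype.card F = p ^ f :=
  let ⟨n, _, e⟩ := FiniteField.card F p; ⟨n, n.pos, e⟩

include h hG in
theorem exists_sylow (A : Act G Ω) : ∃ P : Sylow p G, (P : Subgroup G) = GS D x D.posRoots := by
  obtain ⟨f, -, hf⟩ := card_eq_pow (F := F) (p := p)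
  have hU : IsPGroup p h.rgd.U := IsPGroup.of_card (n := f * (D.nroots / 2))
    (by rw [h.card_U, Nat.card_eq_fintype_card, hf, pow_mul])
  refine ⟨hU.toSylow (H67.not_dvd_index_U h.rgd (h.rgd_Gp.trans hG) hU fun hd => ?_), GS_PP.symm⟩
  obtain ⟨g, hg⟩ := exists_prime_orderOf_dvd_card' p hd
  have := A.simple
  have h1 : (g : G) ∈ center G := by
    refine mem_center_iff.2 fun y => ?_
    refine (GG_le (K := centralizer {(g : G)}) (fun r t => ?_) (hG ▸ mem_top y) _ rfl).symm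
    obtain ⟨c, -, hc⟩ := h.toStN.HH_conj g.2 r
    have e : ∀ k : ℕ, (g : G) ^ k * x r 1 * ((g : G) ^ k)⁻¹ = x r (c ^ k) := fun k => by
      induction k with
      | zero => simp
      | succ k ih => rw [pow_succ' c, ← (hc _).1, ← ih, pow_succ']; group
    have e1 := e p
    rw [← Subgroup.coe_pow, ← hg, pow_orderOf_eq_one, hg, Subgroup.coe_one, one_mul, inv_one,
      mul_one] at e1
    have e2 : c = 1 := frobenius_inj F p (by rw [map_one, frobenius_def, ← h.x_injective r e1])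
    rintro _ rfl
    rw [← mul_inv_eq_iff_eq_mul, (hc t).1, e2, one_mul]
  rcases this.eq_bot_or_eq_top_of_normal (center G) inferInstance with e | e
  · rw [e, mem_bot, OneMemClass.coe_eq_one] at h1
    rw [h1, orderOf_one] at hg
    exact hp.out.one_lt.ne hg
  · exact A.nc ⟨⟨fun a b => mem_center_iff.1 (e ▸ mem_top b) a⟩⟩

include h hG in
theorem U_trans (A : Act G Ω) {k : ℕ} (hn : Nat.card Ω = Fintype.card F ^ k) (a b : Ω) :
    ∃ u ∈ GS D x D.posRoots, u • a = b := by
  obtain ⟨q, _⟩ := CharP.exists F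
  have : Fact q.Prime := ⟨CharP.char_is_prime F q⟩
  obtain ⟨f, -, hf⟩ := card_eq_pow (F := F) (p := q)
  obtain ⟨P, hP⟩ := exists_sylow (p := q) h hG A
  exact hP ▸ A.ppow_trans (hn.trans (by rw [hf, ← pow_mul])) P a b

include h hG in
theorem B_trans (A : CB p G Ω) (a b : Ω) : ∃ g ∈ h.rgd.B, g • a = b := by
  obtain ⟨P, hP⟩ := exists_sylow (p := p) h hG A.toAct
  obtain ⟨g, hg, e⟩ := A.bt P a b
  refine ⟨g, h.rgd.normalizer_U_inf ▸ mem_inf.2 ⟨?_, ?_⟩, e⟩
  · rwa [hP, GS_PP] at hg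
  · rw [h.rgd_Gp, hG]; exact mem_top g

variable (x) in
/-- The elements that act on a root group as scalars. -/
def Sc (θ : ℕ) : Subgroup G where
  carrier := {g | ∃ c : Fˣ, ∀ t, g * x θ t * g⁻¹ = x θ (c * t)}
  one_mem' := ⟨1, by simp⟩
  mul_mem' := by
    rintro g g' ⟨c, hc⟩ ⟨c', hc'⟩
    exact ⟨c * c', fun t => by rw [Units.val_mul, mul_assoc (c : F), ← hc, ← hc']; group⟩
  inv_mem' := by
    rintro g ⟨c, hc⟩
    refine ⟨c⁻¹, fun t => ?_⟩
    conv_lhs => rw [← c.mul_inv_cancel_left t, ← hc]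
    group

variable (c : Ch F m L)
include c h

theorem B_le_Sc {θ : ℕ} (k : Cm D m [θ] D.posRoots []) : h.rgd.B ≤ Sc x θ := by
  have h1 := (k θ (by simp)).1
  refine sup_le (fun u hu => ⟨1, fun t => ?_⟩) fun g hg => ?_
  · have := k.comm c h.toSt nm_nil (x_mem (by simp) (lt_nr h1) t) (GS_PP.ge hu)
    rw [GS_nil, mem_bot, commutatorElement_eq_one_iff_mul_comm] at this
    rw [← this, mul_inv_cancel_right, Units.val_one, one_mul]
  · obtain ⟨a, ha, e⟩ := h.toStN.HH_conj hg ⟨θ, lt_nr h1⟩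
    exact ⟨Units.mk0 a ha, fun t => (e t).1⟩

include hG

/-- LINES. -/
theorem lines (A : CB p G Ω) {θ β : ℕ} {i : Fin D.rank} (k1 : Cm D m [θ] D.posRoots [])
    (k2 : ∃ k ∈ D.commTerms β (D.simple i), Tm D m L (D.simple i) β [] k ∧ k.1 = θ ∧ k.2.2 = (1, 1))
    (k3 : D.reflectRoot i θ = β) (a : Ω) (t : F) (ht : t ≠ 0) : x θ t • a ≠ a := by
  classical
  obtain ⟨k, -, k2, k4, k5⟩ := k2
  have h1 := lt_nr (k1 θ (by simp)).1
  have h2 := lt_nr k2.2.1
  have z1 := h.toSt.x_zero ⟨θ, h1⟩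
  have z2 := h.toSt.x_zero ⟨β, h2⟩
  obtain ⟨f, f0, hf⟩ := card_eq_pow (F := F) (p := p)
  have cm : ∀ t u, x β u * x θ t = x θ t * x β u := fun t u => by
    have := k1.comm c h.toSt nm_nil (x_mem (by simp) h1 t) (x_mem k2.2.1 h2 u)
    rw [GS_nil, mem_bot, commutatorElement_eq_one_iff_mul_comm] at this
    exact this.symm
  let T : AddSubgroup (F × F) :=
    { carrier := {y | (x θ y.2 * x β y.1) • a = a}
      zero_mem' := by simp [z1, z2]
      add_mem' := fun {y z} hy hz => by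
        simp only [Set.mem_ofPred_eq, Prod.fst_add, Prod.snd_add] at hy hz ⊢
        rw [← h.add θ h1, ← h.add β h2, mul_assoc, ← mul_assoc (x θ z.2), ← cm, mul_assoc,
          ← mul_assoc, mul_smul, hz, hy]
      neg_mem' := fun {y} hy => by
        simp only [Set.mem_ofPred_eq, Prod.fst_neg, Prod.snd_neg] at hy ⊢
        rw [← cm, ← h.toSt.x_inv ⟨θ, h1⟩, ← h.toSt.x_inv ⟨β, h2⟩, ← mul_inv_rev, inv_smul_eq_iff, hy] }
  let S : Ω → AddSubgroup F := fun b =>
    { carrier := {t | x θ t • b = b}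
      zero_mem' := by simp [z1]
      add_mem' := fun {y z} hy hz => by
        simp only [Set.mem_ofPred_eq] at hy hz ⊢
        rw [← h.add θ h1, mul_smul, hz, hy]
      neg_mem' := fun {y} hy => by
        simp only [Set.mem_ofPred_eq] at hy ⊢
        rw [← h.toSt.x_inv ⟨θ, h1⟩, inv_smul_eq_iff, hy] }
  have tr : ∀ (g : G) (b : Ω) (y : F → G) (η : F), η ≠ 0 → (∀ t, g * x θ t * g⁻¹ = y (η * t)) →
      Nat.card {u // y u • g • b = g • b} = Nat.card (S b) := fun g b y η hη e =>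
    (Nat.card_congr ((Equiv.mulLeft₀ η hη).subtypeEquiv fun t => by
      change x θ t • b = b ↔ y (η * t) • g • b = g • b
      rw [← e, mul_smul, inv_smul_smul, mul_smul, smul_left_cancel_iff])).symm
  have cst : ∀ b, Nat.card (S b) = Nat.card (S a) := fun b => by
    obtain ⟨g, hg, rfl⟩ := B_trans h hG A a b
    obtain ⟨η, e⟩ := B_le_Sc h c k1 hg
    exact tr g a (x θ) η η.ne_zero e
  have hC := c.nz _ k2.2.2.2.2.2.1
  have cT := lines_count T (a := Nat.card (S a)) (by simp [T, S, z2]) fun e => by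
    obtain ⟨η, hη, e1⟩ := n_conj h i h1
    have e2 := tr (x (D.simple i) (-e / k.2.1) * nn D x (D.simple i) 1)
      ((x (D.simple i) (-e / k.2.1) * nn D x (D.simple i) 1)⁻¹ • a) (fun u => x θ (e * u) * x β u)
      η hη fun t => by
        have e3 := k2.coset c h (K := ⊥) (by simp) (by simp) (-e / k.2.1) (η * t)
        rw [mem_bot, inv_mul_eq_one, k4, k5, pow_one, pow_one, commutatorElement_def,
          eq_mul_inv_iff_mul_eq, show (k.2.1 : F) * (η * t) * -(-e / k.2.1) = e * (η * t) by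
            field_simp] at e3
        rw [e3, ← k3, ← e1]; group
    rw [smul_inv_smul, cst] at e2
    exact e2
  obtain ⟨j, hj, ej⟩ := (Nat.dvd_prime_pow hp.out).1
    (hf ▸ Nat.card_eq_fintype_card (α := F) ▸ (S a).card_addSubgroup_dvd_card)
  obtain ⟨l, -, el⟩ := (Nat.dvd_prime_pow hp.out).1 (show Nat.card T ∣ p ^ (f + f) by
    have := T.card_addSubgroup_dvd_card
    rwa [Nat.card_prod, Nat.card_eq_fintype_card (α := F), hf, ← pow_add] at this)
  have jf : j < f := hj.lt_of_ne fun e => one_ne_zero (h.eq_zero_of_x_eq_one ⟨θ, h1⟩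
    (A.toAct.eq_one fun b => (AddSubgroup.eq_top_of_card_eq (S b) (by
      rw [cst, ej, e, ← hf, Nat.card_eq_fintype_card]) ▸ AddSubgroup.mem_top 1 : (1 : F) ∈ S b)))
  have j0 := lines_arith hp.out jf (m := l) (by
    rw [← el, cT, ej, hf]
    obtain ⟨b, hb⟩ := Nat.exists_eq_add_of_lt (pow_pos hp.out.pos j)
    rw [hb]; simp only [zero_add, Nat.add_sub_cancel]
    exact Nat.sub_eq_of_eq_add (by ring))
  rw [j0, pow_zero, AddSubgroup.card_eq_one] at ej
  exact fun e => ht (AddSubgroup.mem_bot.1 (ej ▸ e : t ∈ (⊥ : AddSubgroup F)))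

/-- `n - 1` divides the number of root elements. -/
theorem chi (A : Act G Ω) {θ b : ℕ} {J : List ℕ} {Ls : List (List (List ℤ))}
    (hs : stepOK D b J Ls = true) (hJ : ∀ i < D.rank, i ∈ b :: J)
    (k1 : Cm D m [θ] D.posRoots []) (k2 : ∀ i : Fin D.rank, (i : ℕ) ∈ J → D.reflectRoot i θ = θ)
    (hz : ∀ a : Ω, stabilizer G a ⊓ GS D x [θ] ≤ GS D x []) :
    Nat.card Ω - 1 ∣ (Fintype.card F - 1) * horner (Fintype.card F) (1 :: Ls.map List.length) := by
  classical
  have h1 := lt_nr (k1 θ (by simp)).1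
  have hP : h.rgd.PJ (JL D J) ≤ Sc x θ := sup_le (B_le_Sc h c k1) ((closure_le _).2 (by
    rintro _ ⟨i, hi, rfl⟩
    obtain ⟨η, hη, e⟩ := n_conj h i h1
    exact ⟨Units.mk0 η hη, fun t => (e t).trans (by rw [k2 i hi]; rfl)⟩))
  let f : Sc x θ →* Fˣ := MonoidHom.mk' (fun g => g.2.choose) fun g g' => Units.ext (by
    refine h.x_injective ⟨θ, h1⟩ ?_
    have e := (g * g').2.choose_spec 1
    rw [mul_one] at e
    rw [← e, Units.val_mul, ← g.2.choose_spec, ← mul_one (g'.2.choose : F), ← g'.2.choose_spec,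
      Subgroup.coe_mul]
    group)
  have hk : f.ker ≤ (centralizer {x θ 1}).subgroupOf (Sc x θ) := fun g hg => by
    rintro _ rfl
    have e := g.2.choose_spec 1
    rw [show g.2.choose = 1 from hg, Units.val_one, one_mul] at e
    exact eq_mul_inv_iff_mul_eq.1 e.symm
  refine (A.chi (z := x θ 1) fun a e => one_ne_zero (h.eq_zero_of_x_eq_one ⟨θ, h1⟩ (by
    have := hz a (mem_inf.2 ⟨e, x_mem (by simp) h1 1⟩)
    rwa [GS_nil, mem_bot] at this))).trans ((index_dvd_of_le (inf_le_left (b := Sc x θ))).trans ?_)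
  rw [← relIndex_mul_index inf_le_right, inf_relIndex_right, ← H2.MX.index_PJ h hG hs hJ]
  refine mul_dvd_mul ((index_dvd_of_le hk).trans ?_) (index_dvd_of_le hP)
  rw [index_ker, ← Fintype.card_units, ← Nat.card_eq_fintype_card]
  exact card_subgroup_dvd_card _

omit c h hG in
theorem pow_dvd_card {T : Subgroup G} {N k : ℕ} (hT : Nat.card T = Fintype.card F ^ N)
    (h : ∀ a : Ω, Fintype.card F ^ k ≤ ol T a) : Fintype.card F ^ k ∣ Nat.card Ω := by
  obtain ⟨q, _⟩ := CharP.exists F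
  have : Fact q.Prime := ⟨CharP.char_is_prime F q⟩
  obtain ⟨f, -, hf⟩ := card_eq_pow (F := F) (p := q)
  rw [hf, ← pow_mul] at hT h ⊢
  exact mod_dvd T fun a => dvd_ol this.out hT (h a)

end H12.CX
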