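/- CKS (S2193): groups of type `G₂`. -/
import Cfsg.Agent.H12.CX4
import Cfsg.Agent.H63.PoinG2
import Cfsg.Agent.H38.CKG2

set_option autoImplicit false

namespace H12.CX

open Cfsg.Lie H63 H64 Subgroup MulAction H32.CK

theorem arith_G2 {q n : ℕ} (hq : 2 ≤ q) (hn : 2 ≤ n) (h1 : q ^ 2 ∣ n)
    (h2 : n - 1 ∣ (q - 1) * horner q [1, 1, 1, 1, 1, 1]) : n = q ^ 2 ∨ n = q ^ 3 ∨ n = q ^ 6 := by
  obtain ⟨a, rfl⟩ := h1
  obtain ⟨r, hr⟩ := h2
  have ha : 1 ≤ a := Nat.pos_of_ne_zero (by rintro rfl; simp at hn)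
  have e : (q : ℤ) ^ 6 - 1 = (q ^ 2 * a - 1) * r := by
    zify [show 1 ≤ q by omega, show 1 ≤ q ^ 2 * a by omega] at hr
    rw [← hr]; simp only [horner]; push_cast; ring
  have q2 : (2 : ℤ) ≤ q := by exact_mod_cast hq
  have a1 : (1 : ℤ) ≤ a := by exact_mod_cast ha
  have r0 : (0 : ℤ) ≤ r := Int.natCast_nonneg r
  suffices s : (a : ℤ) = 1 ∨ (a : ℤ) = q ∨ (a : ℤ) = q ^ 4 by
    rcases s with s | s | s
    · exact Or.inl (by rw [show a = 1 by exact_mod_cast s, mul_one])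
    · exact Or.inr (Or.inl (by rw [show a = q by exact_mod_cast s]; ring))
    · exact Or.inr (Or.inr (by rw [show a = q ^ 4 by exact_mod_cast s]; ring))
  generalize (q : ℤ) = Q at *
  generalize (a : ℤ) = A at *
  generalize (r : ℤ) = R at *
  clear hr hn hq ha
  have p2 : 4 ≤ Q ^ 2 := by nlinarith
  obtain ⟨t, ht⟩ : ∃ t, R = 1 + t * Q ^ 2 := ⟨A * R - Q ^ 4, by linear_combination e⟩
  have t0 : 0 ≤ t := by
    by_contra c
    nlinarith
  have e2 : t * (A * Q ^ 2 - 1) = Q ^ 4 - A :=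
    mul_left_cancel₀ (show Q ^ 2 ≠ 0 by omega) (by rw [ht] at e; linear_combination -e)
  rcases t0.eq_or_lt with t1 | t1
  · rw [← t1, zero_mul] at e2
    exact Or.inr (Or.inr (by omega))
  obtain ⟨k, hk⟩ : ∃ k, t = A + k * Q ^ 2 := ⟨t * A - Q ^ 2, by linear_combination -e2⟩
  rcases lt_trichotomy k 0 with k0 | k0 | k0
  · exfalso
    have : Q ^ 2 + 1 ≤ A := by nlinarith
    have h1 : (Q ^ 2 + 1) * Q ^ 2 ≤ A * Q ^ 2 := mul_le_mul_of_nonneg_right this (by omega)
    have h2 : 0 ≤ A * Q ^ 2 - 1 := by nlinarith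
    have h3 : A * Q ^ 2 - 1 ≤ t * (A * Q ^ 2 - 1) := le_mul_of_one_le_left h2 t1
    nlinarith
  · rw [k0, zero_mul, add_zero] at hk
    rw [hk] at e2
    have e3 : (A - Q) * (A + Q) = 0 :=
      mul_left_cancel₀ (show Q ^ 2 ≠ 0 by omega) (by linear_combination e2)
    exact Or.inr (Or.inl (by rcases mul_eq_zero.1 e3 with e3 | e3 <;> omega))
  · refine Or.inl (by_contra fun c => ?_)
    have : 2 ≤ A := by omega
    have h1 : Q ^ 2 + 2 ≤ t := by nlinarith
    have h2 : 2 * Q ^ 2 - 1 ≤ A * Q ^ 2 - 1 := by nlinarith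
    have : (Q ^ 2 + 2) * (2 * Q ^ 2 - 1) ≤ t * (A * Q ^ 2 - 1) :=
      mul_le_mul h1 h2 (by omega) (by omega)
    nlinarith

theorem jobG2 : JobG2 := fun p _ F _ _ _ hq => H38.CK.chB_of fun Ω _ _ _ A => by
  have := H65.tabG2
  have := H65.commG2
  have h := stB_xG (D := chevG2) (F := F) H64.matOK
  have c : Ch F 0 [1, -1] := ⟨Int.cast_zero, by simp⟩
  have hz := free_single c h (by decide +kernel) (lines h GG_xG c A (θ := 11) (β := 10)
    (i := ⟨1, by decide⟩) (by decide +kernel) (by decide +kernel) (by decide +kernel))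
  have e := arith_G2 Fintype.one_lt_card A.toAct.two_le
    (pow_dvd_card (Nm.card' c h (T := [10, 11]) (by decide +kernel) (by decide)) fun a =>
      (ol_free c h (by decide +kernel) (by decide)
        (step c h (i := ⟨1, by decide⟩) (by decide +kernel) hz a)).ge)
    (lenG2_1 ▸ chi h GG_xG c A.toAct stepG2_1 (by decide) (by decide +kernel) (by decide +kernel) hz)
  refine (H38.CK.g2kill h (by omega) GG_xG A.toAct ?_ ?_).elim
  · rcases e with e | e | e <;> exact U_trans h GG_xG A.toAct e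
  · rcases e with e | e | e
    · exact Or.inl (e ▸ Nat.pow_le_pow_right Fintype.card_pos (by omega))
    · exact Or.inl e.le
    · exact Or.inr e

end H12.CX
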