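/- Tower DG (S4984): Harish-Chandra induction of the sign character of `GL₂(2)`. -/
import Cfsg.Agent.H53.DGPt

set_option autoImplicit false

namespace H12.DGE

open Cfsg H28 Matrix Module H53.DG

abbrev F2 : Type := ZMod 2
abbrev M2 : Type := Matrix (Fin 2) (Fin 2) F2

def sZ (a b c d : F2) : ℤ :=
  if a * d + b * c = 1 then (if a + d = 1 ∨ (a = 1 ∧ b = 0 ∧ c = 0) then 1 else -1) else 0

def sM (m : M2) : ℤ := sZ (m 0 0) (m 0 1) (m 1 0) (m 1 1)

theorem sM_mul (m n : M2) : sM (m * n) = sM m * sM n := by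
  have : ∀ a b c d e f g h : F2, sZ (a * e + b * g) (a * f + b * h) (c * e + d * g) (c * f + d * h) =
    sZ a b c d * sZ e f g h := by decide +kernel
  simp only [sM, mul_apply, Fin.sum_univ_two, this]

theorem sM_one : sM 1 = 1 := by decide

theorem sM_det {m : M2} (h : sM m ≠ 0) : m.det = 1 := by
  have : ∀ a b c d : F2, sZ a b c d ≠ 0 → a * d - b * c = 1 := by decide
  rw [det_fin_two]; exact this _ _ _ _ h

/-- the sign character -/
def sg : GL (Fin 2) F2 →* ℂ where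
  toFun a := sM a
  map_one' := by simp [sM_one]
  map_mul' a b := by simp [sM_mul]

theorem sg_apply (a : GL (Fin 2) F2) : sg a = sM a := rfl

theorem sg_irr : IsIrrCharacter _ (sg : GL (Fin 2) F2 → ℂ) := isIrrCharacter_of_hom sg.toHomUnits

theorem xm_sg (m : M2) : xm sg m = sM m := by
  by_cases h : ∃ a : GL (Fin 2) F2, a.1 = m
  · obtain ⟨a, rfl⟩ := h
    exact xm_apply _ a
  · rw [xm, Function.extend_apply' _ _ _ h]
    by_contra e
    have : sM m ≠ 0 := fun h0 => e (by simp [h0])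
    exact h ⟨GeneralLinearGroup.mkOfDetNeZero m (by rw [sM_det this]; exact one_ne_zero), rfl⟩

def J : GL (Fin 2) F2 := ⟨!![0, 1; 1, 0], !![0, 1; 1, 0], by decide, by decide⟩

def tv (a b : F2) : GL (Fin 2) F2 := ⟨!![1 + a * b, a * a; b * b, 1 + a * b],
  !![1 + a * b, a * a; b * b, 1 + a * b], by revert a b; decide, by revert a b; decide⟩

theorem sg_cusp : Cusp (sg : GL (Fin 2) F2 → ℂ) := by
  classical
  refine ⟨fun T h0 h1 => ?_, ?_⟩
  · obtain ⟨t, ht, t0⟩ := Submodule.exists_mem_ne_zero_of_ne_bot h0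
    have e1 : ∀ t x : Fin 2 → F2, (tv (t 0) (t 1)).1 *ᵥ x - x = (t 0 * x 1 + t 1 * x 0) • t := by decide +kernel
    have e2 : ∀ t x : Fin 2 → F2, t 0 * x 1 + t 1 * x 0 ≠ 0 → ∀ y : Fin 2 → F2, ∃ c d : F2,
      y = c • t + d • x := by decide +kernel
    have e3 : ∀ t : Fin 2 → F2, t ≠ 0 → sM (tv (t 0) (t 1)).1 = -1 := by decide +kernel
    have e4 := e3 t t0
    have hm : tv (t 0) (t 1) ∈ Rad T := ⟨fun x => e1 t x ▸ T.smul_mem _ ht, fun x hx => by
      by_cases h : t 0 * x 1 + t 1 * x 0 = 0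
      · rw [← sub_eq_zero, e1, h, zero_smul]
      · refine absurd (eq_top_iff.2 fun y _ => ?_) h1
        obtain ⟨c, d, rfl⟩ := e2 t x h y
        exact T.add_mem (T.smul_mem _ ht) (T.smul_mem _ hx)⟩
    have := Fintype.ofFinite (Rad T)
    rw [finsum_eq_sum_of_fintype]
    refine sum_hom_units_eq_zero (sg.comp (Rad T).subtype) fun e => ?_
    generalize tv (t 0) (t 1) = a at hm e4
    have h2 := DFunLike.congr_fun e ⟨a, hm⟩
    rw [MonoidHom.one_apply, MonoidHom.comp_apply, Subgroup.subtype_apply, sg_apply, e4] at h2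
    norm_num at h2
  · rw [finsum_eq_sum_of_fintype]
    refine sum_hom_units_eq_zero sg fun e => ?_
    have : ((sM J.1 : ℤ) : ℂ) = 1 := DFunLike.congr_fun e J
    rw [show sM J.1 = -1 by decide] at this
    norm_num at this

variable {V : Type} [AddCommGroup V] [Module F2 V] (S : FS F2 V)

theorem neg_eq : S.neg = 1 := Subtype.ext (LinearEquiv.ext fun v => by
  rw [FS.neg_apply, ← neg_one_smul F2 v, show (-1 : F2) = 1 by decide, one_smul]; rfl)

/-- the matrix of the data -/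
def ph (i : V × V × F2) : M2 := !![S.Q i.1, i.2.2; i.2.2 + S.B i.1 i.2.1, S.Q i.2.1]

/-- the coefficient -/
def cc (i : V × V × F2) : ℤ := sZ i.2.2 (S.Q i.1) (S.Q i.2.1) (i.2.2 + S.B i.1 i.2.1)

/-- the holonomy -/
def hl (i : V × V × F2) (v : V) : V := v + (S.Q i.2.1 * S.B v i.1 + i.2.2 * S.B v i.2.1) • i.1 +
  ((i.2.2 + S.B i.1 i.2.1) * S.B v i.1 + S.Q i.1 * S.B v i.2.1) • i.2.1

/-- the admissible data -/
def adm (ho : S.o = true) : V × V × F2 ≃ {d : (Fin 2 → V) × M2 // S.Adm 2 d.1 d.2} where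
  toFun i := ⟨(![i.1, i.2.1], ph S i), by
    have e : ∀ a b : F2, 0 + 2 * a = 0 ∧ a + (a + b) + b = 0 ∧ a + b + a + b = 0 ∧ a + a = 0 := by decide
    simp only [FS.Adm, Fin.forall_fin_two, FS.ε, FS.κ, ho, if_true, one_mul, ph, of_apply, cons_val', cons_val_zero,
      cons_val_one, cons_val_fin_one, S.B_self, S.symm i.1 i.2.1, e, and_self, (e _ 0).2.2.2, (e _ 0).1]⟩
  invFun d := (d.1.1 0, d.1.1 1, d.1.2 0 1)
  left_inv _ := rfl
  right_inv d := by
    obtain ⟨⟨u, φ⟩, h1, h2⟩ := d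
    have e : ∀ a b c : F2, (a + b = 0 → b = a) ∧ (a + b + c = 0 → b + c = a) := by decide
    simp only [FS.ε, FS.κ, ho, if_true, one_mul] at h1 h2
    refine Subtype.ext (Prod.ext (funext fun i => by fin_cases i <;> rfl) (Matrix.ext fun i j => ?_))
    fin_cases i <;> fin_cases j
    exacts [(e _ _ 0).1 (h2 0), rfl, (e _ _ _).2 (h1 1 0), (e _ _ 0).1 (h2 1)]

theorem hol_eq (i : V × V × F2) (h : cc S i ≠ 0) : (ph S i).det = 1 ∧
    ∀ v, S.hol 2 ![i.1, i.2.1] (ph S i) v = hl S i v := by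
  have e : ∀ a b c d : F2, sZ a b c d ≠ 0 → b * c - a * d = 1 := by decide
  have hd : (ph S i).det = 1 := by rw [ph, det_fin_two_of]; exact e _ _ _ _ h
  refine ⟨hd, fun v => ?_⟩
  have n : ∀ a : F2, -a = a := by decide
  rw [FS.hol, inv_def, hd, Ring.inverse_one, one_smul, ph, adjugate_fin_two_of, hl, add_assoc]
  simp [mulVec, dotProduct, Fin.sum_univ_two, n]

variable [Fintype V]

theorem hol2 (hol : AHol) (ho : S.o = true) {τ : S.I → ℂ} (hτ : IsIrrCharacter _ τ) (hl' : S.Le τ ∨ S.NoTs 2) :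
    ∃ (d₁ d₂ : ℕ) (a₁ a₂ : ℂ) (h : V × V × F2 → S.I), (S.ext 2).Deg d₁ ∧ (S.ext 2).Deg d₂ ∧
      (d₁ + d₂ : ℂ) = (S.P 2).index * τ 1 ∧ d₁ * a₁ + d₂ * a₂ = 0 ∧
      a₁ * a₂ = -(2 * Nat.card V ^ 2) ∧ (∀ i, cc S i ≠ 0 → ∀ v, (h i).1 v = hl S i v) ∧
      (a₁ + a₂) * τ 1 = ∑ i, cc S i * τ (h i) := by
  classical
  have hε : S.ε = 1 := by simp [FS.ε, ho]
  obtain ⟨χ₁, χ₂, a₁, a₂, h1, h2, h3, h4, h5, h6, h7, -⟩ := hol F2 V S 2 J sg τ sg_irr hτ sg_cusp hl'
    two_ne_zero (fun a => by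
      have e : ∀ m : M2, m.det ≠ 0 → sM (J.1 * mᵀ * (J⁻¹).1 * m) = 1 := by decide +kernel
      rw [xm_sg, e _ (GeneralLinearGroup.det_ne_zero _), map_one, Int.cast_one]) (by
      rw [xm_sg, hε, one_smul, show sM (J.1 * (J⁻¹).1ᵀ) = 1 by decide, map_one, Int.cast_one])
  obtain ⟨d₁, e₁⟩ := h1.isCharacter.exists_degree
  obtain ⟨d₂, e₂⟩ := h2.isCharacter.exists_degree
  have ex : ∀ i, ∃ g : S.I, cc S i ≠ 0 → ∀ v, g.1 v = hl S i v := fun i => by
    by_cases h : cc S i = 0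
    · exact ⟨1, fun h' => absurd h h'⟩
    · obtain ⟨g, hg⟩ := h7 _ _ (adm S ho i).2 ((isUnit_iff_isUnit_det _).2 (by
        rw [show ((adm S ho i).1.2).det = 1 from (hol_eq S i h).1]; exact isUnit_one))
      exact ⟨g, fun _ v => (hg v).trans ((hol_eq S i h).2 v)⟩
  choose h hh using ex
  refine ⟨d₁, d₂, a₁, a₂, h, ⟨χ₁, h1, e₁, by rw [neg_eq]⟩, ⟨χ₂, h2, e₂, by rw [neg_eq]⟩, ?_, ?_, ?_, hh, ?_⟩
  · rw [← e₁, ← e₂, h3, map_one, one_mul]
  · rw [← e₁, ← e₂, h4]
  · rw [h5, ← Nat.card_congr (adm S ho), Nat.card_prod, Nat.card_prod, Nat.card_zmod]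
    push_cast; ring
  · rw [map_one, one_mul] at h6
    rw [h6, Finset.sum_subtype (p := fun d : (Fin 2 → V) × M2 => S.Adm 2 d.1 d.2) _ (by simp),
      ← (adm S ho).sum_comp]
    refine Finset.sum_congr rfl fun i _ => ?_
    have e : sM (ph S i * (J⁻¹).1ᵀ) = cc S i := by
      simp [sM, cc, ph, J, mul_apply, Fin.sum_univ_two]
    rw [xm_sg, hε, one_smul]
    show (sM (ph S i * (J⁻¹).1ᵀ) : ℂ) * S.xt τ (S.hol 2 ![i.1, i.2.1] (ph S i)) = _
    rw [e]
    by_cases h0 : cc S i = 0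
    · simp [h0]
    · rw [← S.xt_apply τ (h i)]
      congr 2
      exact funext fun v => ((hol_eq S i h0).2 v).trans (hh i h0 v).symm

open Classical in
/-- the matrix entries of the element of the group algebra -/
noncomputable def Nn (v w : V) : ℤ := ∑ i : V × V × F2, if hl S i v = w then cc S i else 0

theorem Nn_smul (g : S.I) (v w : V) : Nn S (g.1 v) (g.1 w) = Nn S v w := by
  classical
  refine (Fintype.sum_equiv (g.1.toEquiv.prodCongr (g.1.toEquiv.prodCongr (Equiv.refl _))) _ _ fun i => ?_).symm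
  have e : hl S (g.1 i.1, g.1 i.2.1, i.2.2) (g.1 v) = g.1 (hl S i v) := by simp [hl, S.I_B, S.I_Q]
  have e' : cc S (g.1 i.1, g.1 i.2.1, i.2.2) = cc S i := by simp [cc, S.I_B, S.I_Q]
  show _ = if hl S (g.1 i.1, g.1 i.2.1, i.2.2) (g.1 v) = g.1 w then cc S (g.1 i.1, g.1 i.2.1, i.2.2) else 0
  simp only [e, e', g.1.injective.eq_iff]

omit [Fintype V] in
theorem indep {x y : V} (hx : x ≠ 0) (hy : y ≠ 0) (h : x ≠ y) : LinearIndependent F2 ![x, y] := by
  refine LinearIndependent.pair_iff.2 fun s t e => ?_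
  have c : ∀ a : F2, a = 0 ∨ a = 1 := by decide
  rcases c s with rfl | rfl <;> rcases c t with rfl | rfl
  · exact ⟨rfl, rfl⟩
  · exact absurd (by simpa using e) hy
  · exact absurd (by simpa using e) hx
  · refine absurd ?_ h
    rw [one_smul, one_smul, add_eq_zero_iff_eq_neg, ← neg_one_smul F2 y, show (-1 : F2) = 1 by decide,
      one_smul] at e
    exact e

theorem witt1 {x y : V} (hx : x ≠ 0) (hy : y ≠ 0) (h : S.Q x = S.Q y) : ∃ g : S.I, g.1 x = y := by
  obtain ⟨g, hg⟩ := S.witt (LinearMap.toSpanSingleton F2 V x) (LinearMap.toSpanSingleton F2 V y)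
    (smul_left_injective F2 hx) (smul_left_injective F2 hy)
    (fun c d => by simp [S.B_self, h]) (fun c => by simp [QuadraticMap.map_smul, h])
  exact ⟨g, by simpa using hg 1⟩

theorem witt2 {x y x' y' : V} (hx : x ≠ 0) (hy : y ≠ 0) (h : x ≠ y) (hx' : x' ≠ 0) (hy' : y' ≠ 0) (h' : x' ≠ y')
    (q1 : S.Q x = S.Q x') (q2 : S.Q y = S.Q y') (b : S.B x y = S.B x' y') : ∃ g : S.I, g.1 x = x' ∧ g.1 y = y' := by
  obtain ⟨g, hg⟩ := S.witt (Fintype.linearCombination F2 ![x, y]) (Fintype.linearCombination F2 ![x', y'])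
    (indep hx hy h).fintypeLinearCombination_injective (indep hx' hy' h').fintypeLinearCombination_injective
    (fun c d => by simp [Fintype.linearCombination_apply, S.B_self, S.symm x y, S.symm x' y', q1, q2, b])
    (fun c => by simp [Fintype.linearCombination_apply, S.Q_add, QuadraticMap.map_smul, q1, q2, b])
  exact ⟨g, by simpa using hg (Pi.single 0 1), by simpa using hg (Pi.single 1 1)⟩

/-- a sum over the field with two elements -/
def s2 (f : F2 → ℤ) : ℤ := f 0 + f 1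

theorem sum_s2 (f : F2 → ℤ) : ∑ x, f x = s2 f := Fin.sum_univ_two f

end H12.DGE
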