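/- Tower DG (S4984): a character of `O₁₀⁺(2)` of degree divisible by 28. -/
import Cfsg.Agent.H12.DGE2

set_option autoImplicit false

namespace H12.DGE

open Cfsg H28 Matrix Module H53.DG

abbrev S6 : FS F2 (EV F2 3 PUnit) := (zero F2 true).ext 3

def mk6 (a0 a1 a2 a3 a4 a5 : F2) : EV F2 3 PUnit := (![a0, a1, a2], (), ![a3, a4, a5])

theorem sum3 (f : (Fin 3 → F2) → ℤ) : ∑ x, f x = s2 fun a => s2 fun b => s2 fun c => f ![a, b, c] := by
  let e : F2 × F2 × F2 ≃ (Fin 3 → F2) := ⟨fun x => ![x.1, x.2.1, x.2.2], fun x => (x 0, x 1, x 2), fun _ => rfl,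
    fun x => funext fun i => by fin_cases i <;> rfl⟩
  rw [← e.sum_comp]
  simp only [Fintype.sum_prod_type, sum_s2]; rfl

theorem sum6 (f : EV F2 3 PUnit → ℤ) : ∑ x, f x = s2 fun a0 => s2 fun a1 => s2 fun a2 => s2 fun a3 =>
    s2 fun a4 => s2 fun a5 => f (mk6 a0 a1 a2 a3 a4 a5) := by
  simp only [Fintype.sum_prod_type, Fintype.sum_unique, sum3]; rfl

def term6 (w0 w1 w2 w3 w4 w5 a0 a1 a2 a3 a4 a5 b0 b1 b2 b3 b4 b5 t : F2) : ℤ :=
  let qa := a0 * a3 + a1 * a4 + a2 * a5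
  let qb := b0 * b3 + b1 * b4 + b2 * b5
  let B := a0 * b3 + a1 * b4 + a2 * b5 + (a3 * b0 + a4 * b1 + a5 * b2)
  let l0 := qb * a3 + t * b3
  let l1 := (t + B) * a3 + qa * b3
  if (1 + l0 * a0 + l1 * b0 = w0 ∧ l0 * a1 + l1 * b1 = w1 ∧ l0 * a2 + l1 * b2 = w2) ∧
    l0 * a3 + l1 * b3 = w3 ∧ l0 * a4 + l1 * b4 = w4 ∧ l0 * a5 + l1 * b5 = w5 then sZ t qa qb (t + B) else 0

def N6 (w0 w1 w2 w3 w4 w5 : F2) : ℤ := s2 fun a0 => s2 fun a1 => s2 fun a2 => s2 fun a3 => s2 fun a4 =>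
  s2 fun a5 => s2 fun b0 => s2 fun b1 => s2 fun b2 => s2 fun b3 => s2 fun b4 => s2 fun b5 => s2 fun t =>
    term6 w0 w1 w2 w3 w4 w5 a0 a1 a2 a3 a4 a5 b0 b1 b2 b3 b4 b5 t

theorem Q6 (a0 a1 a2 a3 a4 a5 : F2) : S6.Q (mk6 a0 a1 a2 a3 a4 a5) = a0 * a3 + a1 * a4 + a2 * a5 := by
  simp [mk6, H53.DG.zero, FS.κ, dotProduct, Fin.sum_univ_three]

theorem B6 (a0 a1 a2 a3 a4 a5 b0 b1 b2 b3 b4 b5 : F2) : S6.B (mk6 a0 a1 a2 a3 a4 a5) (mk6 b0 b1 b2 b3 b4 b5) =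
    a0 * b3 + a1 * b4 + a2 * b5 + (a3 * b0 + a4 * b1 + a5 * b2) := by
  simp [mk6, H53.DG.zero, FS.ε, dotProduct, Fin.sum_univ_three]

theorem Nn6 (w0 w1 w2 w3 w4 w5 : F2) : Nn S6 (mk6 1 0 0 0 0 0) (mk6 w0 w1 w2 w3 w4 w5) = N6 w0 w1 w2 w3 w4 w5 := by
  simp only [Nn, Fintype.sum_prod_type (α₁ := EV F2 3 PUnit), sum6, sum_s2, N6]
  congr! 14
  simp only [hl, cc, Q6, B6, term6, one_mul, zero_mul, add_zero]
  congr 1
  simp [mk6, Prod.ext_iff, funext_iff, Fin.forall_fin_succ]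

theorem N6a : N6 1 0 0 0 0 0 = 64 := by decide +kernel
theorem N6b : N6 0 1 0 0 0 0 = 0 := by decide +kernel
theorem N6c : N6 0 0 0 1 0 0 = 0 := by decide +kernel

theorem Nn6_all {v w : EV F2 3 PUnit} (hv : v ≠ 0) (qv : S6.Q v = 0) (hw : w ≠ 0) (qw : S6.Q w = 0) :
    Nn S6 v w = if v = w then 64 else 0 := by
  split_ifs with h
  · subst h
    obtain ⟨g, hg⟩ := witt1 S6 hv (y := mk6 1 0 0 0 0 0) (by decide) (by rw [qv, Q6]; decide)
    rw [← Nn_smul S6 g, hg, Nn6, N6a]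
  · have c : ∀ a : F2, a = 0 ∨ a = 1 := by decide
    rcases c (S6.B v w) with b | b
    · obtain ⟨g, g1, g2⟩ := witt2 S6 hv hw h (x' := mk6 1 0 0 0 0 0) (y' := mk6 0 1 0 0 0 0) (by decide)
        (by decide) (by decide) (by rw [qv, Q6]; decide) (by rw [qw, Q6]; decide) (by rw [b, B6]; decide)
      rw [← Nn_smul S6 g, g1, g2, Nn6, N6b]
    · obtain ⟨g, g1, g2⟩ := witt2 S6 hv hw h (x' := mk6 1 0 0 0 0 0) (y' := mk6 0 0 0 1 0 0) (by decide)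
        (by decide) (by decide) (by rw [qv, Q6]; decide) (by rw [qw, Q6]; decide) (by rw [b, B6]; decide)
      rw [← Nn_smul S6 g, g1, g2, Nn6, N6c]

theorem jobE6 (hol : AHol) (sc : JobSC) (ps : APS) (iso : AIso) : JobE6 := by
  classical
  obtain ⟨⟨d, ⟨τ, hτ, hτ1, τ', hτ', hle⟩, -, hd⟩, -⟩ := ps F2 PUnit (zero F2 true) (zero_an _ _) 3 (by norm_num)
  rw [zero_a_true, ZMod.card] at hd
  obtain rfl : d = 14 := by omega
  obtain ⟨d₁, d₂, a₁, a₂, h, D1, D2, e1, e2, e3, hh, e4⟩ := hol2 S6 hol rfl hτ (Or.inl ⟨τ', hτ', hle⟩)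
  rw [sc S6.I S6.Pt _ Finset.univ (fun i => (cc S6 i : ℂ)) h 64 τ τ' (fun x y => by
    obtain ⟨v, hv, qv, rfl⟩ := S6.exists_pt x
    obtain ⟨w, hw, qw, rfl⟩ := S6.exists_pt y
    have c : ∀ a : F2, a = 0 ∨ a = 1 := by decide
    have k : ∀ {v w : EV F2 3 PUnit} {hv qv hw qw}, S6.pt v hv qv = S6.pt w hw qw ↔ v = w :=
      fun {v w hv qv hw qw} => S6.pt_eq_iff.trans ⟨fun ⟨a, ha⟩ => by
        rcases c a with rfl | rfl
        · exact absurd (by simpa using ha.symm) hw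
        · simpa using ha, fun e => ⟨1, by simp [e]⟩⟩
    have e := congrArg (Int.cast : ℤ → ℂ) (Nn6_all hv qv hw qw)
    rw [Nn] at e
    push_cast at e
    rw [if_congr k rfl rfl, ← e]
    refine Finset.sum_congr rfl fun i _ => ?_
    by_cases h0 : cc S6 i = 0
    · simp [h0]
    · refine if_congr ?_ rfl rfl
      rw [S6.smul_pt_eq (h i) (h0' := (h i).1.map_ne_zero_iff.2 hv) (hQ' := (S6.I_Q _ _).trans qv)
        (one_smul _ _).symm, k, hh i h0]) hτ hτ' hle, hτ1] at e4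
  have cV : Nat.card (EV F2 3 PUnit) = 64 := by simp
  rw [cV] at e3
  rw [hτ1] at e1
  have t := ((iso F2 _ (S6.ext 2)).2.2 _ ((zero F2 true).ext (3 + 2)) ((iso F2 _ (zero F2 true)).1 3 2)).2.2
  have r : (a₁ - 128) * (a₁ + 64) = 0 := by
    push_cast at e3 e4
    linear_combination a₁ / 14 * e4 - e3
  have s : a₂ = 64 - a₁ := by
    push_cast at e4
    linear_combination e4 / 14
  have n1 : d₁ + d₂ = (S6.P 2).index * 14 := by exact_mod_cast e1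
  rcases mul_eq_zero.1 r with r | r
  · have : ((2 * d₁ : ℕ) : ℂ) = d₂ := by
      rw [s, sub_eq_zero.1 r] at e2
      push_cast
      linear_combination e2 / 64
    have := Nat.cast_injective this
    exact ⟨d₂, (t _).1 D2, by omega⟩
  · have : ((2 * d₂ : ℕ) : ℂ) = d₁ := by
      rw [s, eq_neg_of_add_eq_zero_left r] at e2
      push_cast
      linear_combination e2 / 64
    have := Nat.cast_injective this
    exact ⟨d₁, (t _).1 D1, by omega⟩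

end H12.DGE
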