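/- Tower DG (S4984): a character of `O₈⁻(2)` of degree 4760. -/
import Cfsg.Agent.H12.DGE2

set_option autoImplicit false

namespace H12.DGE

open Cfsg H28 H30 Matrix Module H53.DG MulAction

theorem card_orb {G X K : Type} [Group G] [MulAction G X] (f : X → K)
    (hf : ∀ x y, x ∈ orbit G y ↔ f x = f y) : Nat.card (orbitRel.Quotient G X) = (Set.range f).ncard := by
  rw [← Nat.card_coe_set_eq]
  refine Nat.card_congr (Equiv.ofBijective (Quotient.lift (fun x => (⟨f x, x, rfl⟩ : Set.range f))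
    fun a b h => Subtype.ext ((hf a b).1 h)) ⟨fun a b => ?_, fun ⟨_, x, rfl⟩ => ⟨Quotient.mk _ x, rfl⟩⟩)
  induction a using Quotient.inductionOn
  induction b using Quotient.inductionOn
  exact fun h => Quotient.sound ((hf _ _).2 (congrArg Subtype.val h))

section
variable {V : Type} [AddCommGroup V] [Module F2 V] (S : FS F2 V)

/-- the nonzero vectors of a given norm -/
def XX (c : F2) : SubMulAction S.I V where
  carrier := {v | v ≠ 0 ∧ S.Q v = c}
  smul_mem' g {v} h := ⟨g.1.map_ne_zero_iff.2 h.1, (S.I_Q g v).trans h.2⟩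

variable [Fintype V] [DecidableEq V]

theorem orb_pair (c d : F2) (x y : XX S c × XX S d) : x ∈ orbit S.I y ↔
    (if x.1.1 = x.2.1 then none else some (S.B x.1.1 x.2.1)) =
      (if y.1.1 = y.2.1 then none else some (S.B y.1.1 y.2.1)) := by
  refine ⟨fun ⟨g, hg⟩ => ?_, fun h => ?_⟩
  · subst hg
    show (if g.1 y.1.1 = g.1 y.2.1 then none else some (S.B (g.1 y.1.1) (g.1 y.2.1))) = _
    simp only [g.1.injective.eq_iff, S.I_B]
  · by_cases e : y.1.1 = y.2.1 <;> by_cases e' : x.1.1 = x.2.1 <;> simp only [e, e', if_true, if_false] at h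
    · obtain ⟨g, hg⟩ := witt1 S y.1.2.1 x.1.2.1 (y.1.2.2.trans x.1.2.2.symm)
      exact ⟨g, Prod.ext (Subtype.ext hg) (Subtype.ext (by rw [← e', ← hg, e]; rfl))⟩
    · exact absurd h (by simp)
    · exact absurd h (by simp)
    · obtain ⟨g, g1, g2⟩ := witt2 S y.1.2.1 y.2.2.1 e x.1.2.1 x.2.2.1 e' (y.1.2.2.trans x.1.2.2.symm)
        (y.2.2.2.trans x.2.2.2.symm) (Option.some.inj h).symm
      exact ⟨g, Prod.ext (Subtype.ext g1) (Subtype.ext g2)⟩

theorem inner_XX (c d : F2) : classInner (fixChar S.I (XX S c)) (fixChar S.I (XX S d)) =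
    (Finset.univ.filter fun k : Option F2 => ∃ x y : V, (x ≠ 0 ∧ S.Q x = c) ∧ (y ≠ 0 ∧ S.Q y = d) ∧
      (if x = y then none else some (S.B x y)) = k).card := by
  rw [classInner_fixChar_fixChar, card_orb _ (orb_pair S c d), ← Set.ncard_coe_finset]
  congr 2
  ext k
  simp only [Finset.coe_filter, Finset.mem_univ, true_and, Set.mem_ofPred_eq]
  exact ⟨fun ⟨x, h⟩ => ⟨x.1.1, x.2.1, x.1.2, x.2.2, h⟩, fun ⟨x, y, hx, hy, h⟩ => ⟨(⟨x, hx⟩, ⟨y, hy⟩), h⟩⟩

theorem card_XX (c : F2) : Nat.card (XX S c) = (Finset.univ.filter fun x : V => x ≠ 0 ∧ S.Q x = c).card := by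
  rw [← Fintype.card_subtype, ← Nat.card_eq_fintype_card]; rfl

theorem sum_XX (c : F2) {h : V × V × F2 → S.I} (hh : ∀ i, cc S i ≠ 0 → ∀ v, (h i).1 v = hl S i v) {v : V}
    (hv : v ≠ 0) (qv : S.Q v = c) :
    ∑ i, cc S i * fixChar S.I (XX S c) (h i) = Nat.card (XX S c) * Nn S v v := by
  classical
  have := Fintype.ofFinite (XX S c)
  simp only [fixChar_eq_sum, Finset.mul_sum]
  rw [Finset.sum_comm, Nat.card_eq_fintype_card, ← nsmul_eq_mul, ← Finset.card_univ, ← Finset.sum_const]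
  refine Finset.sum_congr rfl fun x _ => ?_
  obtain ⟨g, hg⟩ := witt1 S x.2.1 hv (x.2.2.trans qv.symm)
  rw [← hg, Nn_smul, Nn]
  push_cast
  refine Finset.sum_congr rfl fun i _ => ?_
  by_cases h0 : cc S i = 0
  · simp [h0]
  · rw [mul_ite, mul_one, mul_zero, ← hh i h0]
    exact if_congr Subtype.ext_iff rfl rfl

end

abbrev V4 : Type := EV F2 1 (Fin 2 → F2)

abbrev S4 (h : An2 (1 : F2) 1) : FS F2 V4 := (two h).ext 1

def q4 (v : V4) : F2 := v.1 0 * v.2.2 0 + (v.2.1 0 * v.2.1 0 + v.2.1 0 * v.2.1 1 + v.2.1 1 * v.2.1 1)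

def b4 (v w : V4) : F2 := v.1 0 * w.2.2 0 + v.2.2 0 * w.1 0 + (v.2.1 0 * w.2.1 1 + v.2.1 1 * w.2.1 0)

variable (h : An2 (1 : F2) 1)

theorem Q4 (v : V4) : (S4 h).Q v = q4 v := by
  simp [two, FS.κ, dotProduct, q2_apply, q4, sq]

theorem B4 (v w : V4) : (S4 h).B v w = b4 v w := by
  have e : ∀ a b c d : F2, (a + c) ^ 2 + 1 * (a + c) * (b + d) + 1 * (b + d) ^ 2 - (a ^ 2 + 1 * a * b + 1 * b ^ 2) -
    (c ^ 2 + 1 * c * d + 1 * d ^ 2) = a * d + b * c := by decide
  have e2 : (two h).B v.2.1 w.2.1 = v.2.1 0 * w.2.1 1 + v.2.1 1 * w.2.1 0 := by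
    rw [← e]; simp only [two, QuadraticMap.polarBilin_apply_apply, QuadraticMap.polar, q2_apply, Pi.add_apply]
  rw [FS.ext_B, e2]
  simp [two, FS.ε, dotProduct, b4]

def N4 (v : V4) : ℤ := ∑ a : V4, ∑ b : V4, s2 fun t =>
  if v + (q4 b * b4 v a + t * b4 v b) • a + ((t + b4 a b) * b4 v a + q4 a * b4 v b) • b = v then
    sZ t (q4 a) (q4 b) (t + b4 a b) else 0

theorem Nn4 (v : V4) : Nn (S4 h) v v = N4 v := by
  simp only [Nn, Fintype.sum_prod_type (α₁ := V4), sum_s2, N4, hl, cc, Q4, B4]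

theorem N4a : N4 (1, 0, 0) = 16 := by decide +kernel
theorem N4b : N4 (1, 0, 1) = -20 := by decide +kernel

set_option synthInstance.maxSize 4096 in
theorem jobE8 (hol : AHol) (idx : AIdx) (iso : AIso) : JobE8 := by
  intro h
  let τ : (S4 h).I → ℂ := fixChar _ (XX (S4 h) 1) - fixChar _ (XX (S4 h) 0)
  have c1 : Nat.card (XX (S4 h) 1) = 10 := by
    rw [card_XX]; simp only [Q4]; decide +kernel
  have c0 : Nat.card (XX (S4 h) 0) = 5 := by
    rw [card_XX]; simp only [Q4]; decide +kernel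
  have τ1 : τ 1 = 5 := by
    simp only [τ, Pi.sub_apply, fixChar_one, c1, c0]; norm_num
  have hτ : IsIrrCharacter _ τ := by
    refine ((isCharacter_fixChar _).isGeneralizedCharacter.sub
      (isCharacter_fixChar _).isGeneralizedCharacter).irr_of_norm_one ?_ (by
        show 0 ≤ (τ 1).re
        rw [τ1]; norm_num)
    have i : ∀ (c d : F2) (n : ℕ), (Finset.univ.filter fun k : Option F2 => ∃ x y : V4, (x ≠ 0 ∧ q4 x = c) ∧
        (y ≠ 0 ∧ q4 y = d) ∧ (if x = y then none else some (b4 x y)) = k).card = n →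
        classInner (fixChar _ (XX (S4 h) c)) (fixChar _ (XX (S4 h) d)) = n := fun c d n e => by
      rw [inner_XX, ← e]; simp only [Q4, B4]
    rw [classInner_sub_left, classInner_sub_right, classInner_sub_right, i 1 1 3 (by decide +kernel),
      i 1 0 2 (by decide +kernel), i 0 1 2 (by decide +kernel), i 0 0 2 (by decide +kernel)]
    norm_num
  have nt : (S4 h).NoTs 2 := fun u hu q b => by
    have e : ∀ x y : V4, x ≠ 0 → y ≠ 0 → q4 x = 0 → q4 y = 0 → b4 x y = 0 → x = y := by decide +kernel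
    exact absurd (hu.injective (e _ _ (hu.ne_zero 0) (hu.ne_zero 1) ((Q4 h _).symm.trans (q 0))
      ((Q4 h _).symm.trans (q 1)) ((B4 h _ _).symm.trans (b 0 1)))) (by decide)
  obtain ⟨d₁, d₂, a₁, a₂, g, D1, D2, e1, e2, e3, hh, e4⟩ := hol2 (S4 h) hol rfl hτ (Or.inr nt)
  simp only [τ, Pi.sub_apply, mul_sub, Finset.sum_sub_distrib] at e4
  rw [sum_XX _ 1 hh (v := (1, 0, 1)) (by decide) (by rw [Q4]; decide),
    sum_XX _ 0 hh (v := (1, 0, 0)) (by decide) (by rw [Q4]; decide), Nn4, Nn4, N4a, N4b, fixChar_one,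
    fixChar_one, c1, c0] at e4
  have cV : Nat.card V4 = 16 := by simp
  rw [cV] at e3
  have ix := idx F2 _ (two h) (two_an h) 1 2
  rw [two_a, ZMod.card] at ix
  have ix' : ((S4 h).P 2).index = 1071 := by
    have a : ∏ i ∈ Finset.Icc 1 2, (2 ^ i - 1) = 3 := by decide
    have b : ∏ j ∈ Finset.Ioc 1 (1 + 2), sv 2 (2 ^ 2) j = 3213 := by decide
    rw [a, b] at ix
    exact Nat.eq_of_mul_eq_mul_right (by norm_num : 0 < 3) ix
  rw [τ1, ix'] at e1
  have t := ((iso F2 _ ((S4 h).ext 2)).2.2 _ ((two h).ext (1 + 2)) ((iso F2 _ (two h)).1 1 2)).2.2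
  push_cast at e3 e4
  have r : (a₁ - 8) * (a₁ + 64) = 0 := by linear_combination a₁ / 5 * e4 - e3
  have s : a₂ = -56 - a₁ := by linear_combination e4 / 5
  have n1 : d₁ + d₂ = 1071 * 5 := by exact_mod_cast e1
  rcases mul_eq_zero.1 r with r | r
  · have : ((8 * d₂ : ℕ) : ℂ) = d₁ := by
      rw [s, sub_eq_zero.1 r] at e2
      push_cast
      linear_combination -e2 / 8
    have := Nat.cast_injective this
    exact ⟨d₁, (t _).1 D1, by omega⟩
  · have : ((8 * d₁ : ℕ) : ℂ) = d₂ := by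
      rw [s, eq_neg_of_add_eq_zero_left r] at e2
      push_cast
      linear_combination -e2 / 8
    have := Nat.cast_injective this
    exact ⟨d₂, (t _).1 D2, by omega⟩

end H12.DGE
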