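/- Tower DG (S4984): the number of totally singular subspaces. -/
import Cfsg.Agent.H53.DGSpec2

set_option autoImplicit false

namespace H12.DGIdx

open Cfsg Matrix Module H53.DG

variable {F V V' : Type} [Field F] [AddCommGroup V] [Module F V] [AddCommGroup V'] [Module F V']

/-- independent totally singular tuples -/
def TS (S : FS F V) (k : ℕ) : Set (Fin k → V) :=
  {u | LinearIndependent F u ∧ (∀ i, S.Q (u i) = 0) ∧ ∀ i j, S.B (u i) (u j) = 0}

theorem Q_sum (S : FS F V) {k : ℕ} {u : Fin k → V} (h : u ∈ TS S k) (x : Fin k → F) (s : Finset (Fin k)) :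
    S.Q (∑ i ∈ s, x i • u i) = 0 := by
  classical
  induction s using Finset.induction_on with
  | empty => simp
  | insert a s ha ih =>
    rw [Finset.sum_insert ha, S.Q_add, ih]
    simp [QuadraticMap.map_smul, h.2.1, h.2.2, map_sum]

theorem witt_ts [FiniteDimensional F V] (S : FS F V) {k : ℕ} {u w : Fin k → V} (hu : u ∈ TS S k)
    (hw : w ∈ TS S k) : ∃ g : S.I, ∀ i, g.1 (u i) = w i := by
  classical
  obtain ⟨g, hg⟩ := S.witt (Fintype.linearCombination F u) (Fintype.linearCombination F w)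
    (linearIndependent_iff_injective_fintypeLinearCombination.1 hu.1) (linearIndependent_iff_injective_fintypeLinearCombination.1 hw.1)
    (fun x y => by simp [Fintype.linearCombination_apply, map_sum, hu.2.2, hw.2.2])
    (fun x => by simp only [Fintype.linearCombination_apply, Q_sum S hu, Q_sum S hw])
  exact ⟨g, fun i => by simpa using hg (Pi.single i 1)⟩

theorem map_ts {S : FS F V} {S' : FS F V'} (e : V ≃ₗ[F] V') (hB : ∀ u v, S'.B (e u) (e v) = S.B u v)
    (hQ : ∀ v, S'.Q (e v) = S.Q v) {k : ℕ} (u : Fin k → V) : u ∈ TS S k ↔ (fun i => e (u i)) ∈ TS S' k := by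
  simp only [TS, Set.mem_ofPred_eq, hB, hQ]
  exact and_congr_left' (e.toLinearMap.linearIndependent_iff_of_injOn e.injective.injOn).symm

theorem card_iso {S : FS F V} {S' : FS F V'} (h : S.Iso S') (k : ℕ) : Nat.card (TS S k) = Nat.card (TS S' k) := by
  obtain ⟨-, e, hB, hQ⟩ := h
  exact Nat.card_congr ((Equiv.piCongrRight fun _ => e.toEquiv).subtypeEquiv (map_ts e hB hQ))

theorem sing_iso {S : FS F V} {S' : FS F V'} (h : S.Iso S') :
    Nat.card {v // v ≠ 0 ∧ S.Q v = 0} = Nat.card {v // v ≠ 0 ∧ S'.Q v = 0} := by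
  obtain ⟨-, e, -, hQ⟩ := h
  exact Nat.card_congr (e.toEquiv.subtypeEquiv fun v => by simp [hQ])

theorem card_zero (S : FS F V) : Nat.card (TS S 0) = 1 := by
  rw [Nat.card_eq_one_iff_unique]
  exact ⟨inferInstance, ⟨⟨Fin.elim0, linearIndependent_empty_type, fun i => i.elim0, fun i => i.elim0⟩⟩⟩

theorem fib_const [FiniteDimensional F V] (S : FS F V) (k : ℕ) {v w : V} (hv : v ≠ 0 ∧ S.Q v = 0)
    (hw : w ≠ 0 ∧ S.Q w = 0) : Nat.card {u : Fin (k + 1) → V // u ∈ TS S (k + 1) ∧ u 0 = v} =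
      Nat.card {u : Fin (k + 1) → V // u ∈ TS S (k + 1) ∧ u 0 = w} := by
  have t : ∀ {v : V}, v ≠ 0 ∧ S.Q v = 0 → (fun _ : Fin 1 => v) ∈ TS S 1 := fun {v} hv =>
    ⟨linearIndependent_unique_iff.2 hv.1, fun _ => hv.2, fun _ _ => by rw [S.B_self, hv.2, mul_zero]⟩
  obtain ⟨g, hg⟩ := witt_ts S (t hv) (t hw)
  refine Nat.card_congr ((Equiv.piCongrRight fun _ => g.1.toEquiv).subtypeEquiv fun u =>
    and_congr (map_ts g.1 g.2.1 g.2.2 u) ?_)
  show _ ↔ g.1 (u 0) = w
  rw [← hg 0, g.1.injective.eq_iff]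

theorem card_succ [Finite V] [FiniteDimensional F V] (S : FS F V) (k : ℕ) {v : V} (hv : v ≠ 0 ∧ S.Q v = 0) :
    Nat.card (TS S (k + 1)) = Nat.card {v // v ≠ 0 ∧ S.Q v = 0} *
      Nat.card {u : Fin (k + 1) → V // u ∈ TS S (k + 1) ∧ u 0 = v} := by
  let f : TS S (k + 1) → {v // v ≠ 0 ∧ S.Q v = 0} := fun u => ⟨u.1 0, u.2.1.ne_zero 0, u.2.2.1 0⟩
  have := Fintype.ofFinite {v // v ≠ 0 ∧ S.Q v = 0}
  rw [← Nat.card_congr (Equiv.sigmaFiberEquiv f), Nat.card_sigma, Nat.card_eq_fintype_card (α := {v // _}),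
    ← smul_eq_mul, ← Finset.card_univ, ← Finset.sum_const]
  refine Finset.sum_congr rfl fun w _ => ?_
  rw [fib_const S k hv w.2]
  exact Nat.card_congr ⟨fun u => ⟨u.1.1, u.1.2, congrArg Subtype.val u.2⟩, fun u => ⟨⟨u.1, u.2.1⟩,
    Subtype.ext u.2.2⟩, fun _ => rfl, fun _ => rfl⟩

theorem fib_card (S : FS F V) (k : ℕ) :
    Nat.card {u : Fin (k + 1) → EV F 1 V // u ∈ TS (S.ext 1) (k + 1) ∧ u 0 = (fun _ => 1, 0, 0)} =
      Nat.card F ^ k * Nat.card (TS S k) := by
  have e : Nat.card F ^ k = Nat.card (Fin k → F) := by simp [Nat.card_fun]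
  rw [e, ← Nat.card_prod]
  let f : (Fin k → F) × TS S k →
      {u : Fin (k + 1) → EV F 1 V // u ∈ TS (S.ext 1) (k + 1) ∧ u 0 = (fun _ => 1, 0, 0)} := fun d =>
    ⟨Fin.cons (fun _ => 1, 0, 0) fun i => (fun _ => d.1 i, d.2.1 i, 0), ⟨Fintype.linearIndependent_iff.2
      fun c hc => by
        rw [Fin.sum_univ_succ] at hc
        have h1 : ∀ i, c (Fin.succ i) = 0 := Fintype.linearIndependent_iff.1 d.2.2.1 _ (by
          simpa [Prod.fst_sum, Prod.snd_sum] using congrArg (fun z : EV F 1 V => z.2.1) hc)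
        have h0 : c 0 = 0 := by simpa [h1] using congrArg (fun z : EV F 1 V => z.1 0) hc
        exact fun i => Fin.cases h0 h1 i,
      fun i => Fin.cases (by simp) (fun i => by simp [d.2.2.2.1]) i,
      fun i j => Fin.cases (Fin.cases (by simp) (fun j => by simp) j)
        (fun i => Fin.cases (by simp) (fun j => by simp [d.2.2.2.2]) j) i⟩, rfl⟩
  refine (Nat.card_congr (Equiv.ofBijective f ⟨fun d d' h => ?_, fun ⟨u, hu, h0⟩ => ?_⟩)).symm
  · have h1 : ∀ i : Fin k, ((fun _ => d.1 i, d.2.1 i, 0) : EV F 1 V) = (fun _ => d'.1 i, d'.2.1 i, 0) :=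
      fun i => congrFun (congrArg Subtype.val h) i.succ
    exact Prod.ext (funext fun i => congrFun (congrArg Prod.fst (h1 i)) 0)
      (Subtype.ext (funext fun i => congrArg (fun z : EV F 1 V => z.2.1) (h1 i)))
  · have hy : ∀ i, (u i).2.2 = 0 := fun i => funext fun j => by
      have := hu.2.2 0 i
      rw [h0] at this
      simpa [dotProduct, Subsingleton.elim j 0] using this
    refine ⟨(fun i => (u i.succ).1 0, ⟨fun i => (u i.succ).2.1, Fintype.linearIndependent_iff.2 fun c hc i => ?_,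
      fun i => by simpa [hy] using hu.2.1 i.succ, fun i j => by simpa [hy] using hu.2.2 i.succ j.succ⟩),
      Subtype.ext (funext fun i => Fin.cases h0.symm (fun i => ?_) i)⟩
    · refine Fintype.linearIndependent_iff.1 hu.1 (Fin.cons (-∑ i, c i * (u i.succ).1 0) c) ?_ i.succ
      rw [Fin.sum_univ_succ, h0]
      refine Prod.ext (funext fun j => ?_) (Prod.ext ?_ ?_)
      · simp [Prod.fst_sum, Subsingleton.elim j 0]
      · simpa [Prod.fst_sum, Prod.snd_sum] using hc
      · simp [Prod.snd_sum, hy]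
    · exact Prod.ext (funext fun j => by rw [Subsingleton.elim j 0]; rfl) (Prod.ext rfl (hy _).symm)

theorem gl_card (q k : ℕ) : ∏ i ∈ Finset.range k, (q ^ k - q ^ i) =
    (∏ i ∈ Finset.range k, q ^ i) * ∏ i ∈ Finset.Icc 1 k, (q ^ i - 1) := by
  induction k with
  | zero => simp
  | succ k ih =>
    rw [Finset.prod_range_succ', Finset.prod_range_succ, Finset.prod_Icc_succ_top (by omega)]
    have : ∀ i, q ^ (k + 1) - q ^ (i + 1) = q * (q ^ k - q ^ i) := fun i => by
      rw [Nat.mul_sub, pow_succ', pow_succ']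
    simp only [this, Finset.prod_mul_distrib, ih, Finset.prod_const, Finset.card_range, pow_zero]
    ring

theorem index_mul (par : APar) (F : Type) [Field F] [Fintype F] [DecidableEq F] (V : Type) [AddCommGroup V]
    [Module F V] [Fintype V] (S : FS F V) (k : ℕ) :
    (S.P k).index * Nat.card (GL (Fin k) F) = Nat.card (TS (S.ext k) k) := by
  obtain ⟨⟨π, hπ⟩, -, -, -, -, h⟩ := par F V S k
  have hs := (h π hπ).1
  let u0 : Fin k → EV F k V := fun i => (Pi.single i 1, 0, 0)
  have hx : ∀ x : Fin k → F, ((x, 0, 0) : EV F k V) = ∑ i, x i • u0 i := fun x =>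
    Prod.ext (by simp [u0, Prod.fst_sum, ← Pi.single_smul, Finset.univ_sum_single])
      (by simp [u0, Prod.snd_sum])
  have h0 : u0 ∈ TS (S.ext k) k := ⟨Fintype.linearIndependent_iff.2 fun c hc i =>
    congrFun (congrArg Prod.fst ((hx c).trans hc)) i, fun i => by simp [u0], fun i j => by simp [u0]⟩
  have ho : MulAction.orbit (S.ext k).I u0 = TS (S.ext k) k := Set.ext fun u =>
    ⟨fun ⟨g, hg⟩ => hg ▸ (map_ts g.1 g.2.1 g.2.2 u0).1 h0, fun hu => by
      obtain ⟨g, hg⟩ := witt_ts _ h0 hu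
      exact ⟨g, funext hg⟩⟩
  have fx : ∀ g ∈ MulAction.stabilizer (S.ext k).I u0, ∀ x : Fin k → F, g.1 (x, 0, 0) = (x, 0, 0) :=
    fun g hg x => by
      have : ∀ i, g.1 (u0 i) = u0 i := fun i => congrFun hg i
      simp only [hx x, map_sum, map_smul, this]
  have le : MulAction.stabilizer (S.ext k).I u0 ≤ S.P k := fun g hg z =>
    ⟨fun e => by
      have : g.1 z = g.1 ((g.1 z).1, 0, 0) := by rw [fx g hg]; exact Prod.ext rfl e
      rw [g.1.injective this]; rfl,
    fun e => by rw [show z = (z.1, 0, 0) from Prod.ext rfl e, fx g hg]; rfl⟩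
  have ker : (MulAction.stabilizer (S.ext k).I u0).subgroupOf (S.P k) = ((MonoidHom.fst _ _).comp π).ker := by
    ext g
    rw [Subgroup.mem_subgroupOf, MonoidHom.mem_ker]
    refine ⟨fun hg => Units.ext (Matrix.toLin'.injective (LinearMap.ext fun x => ?_)), fun hg => funext fun i => ?_⟩
    · simpa using congrArg Prod.fst (((hπ g).1 x).symm.trans (fx g.1 hg x))
    · have e : (π g).1 = 1 := hg
      have := (hπ g).1 (Pi.single i 1)
      rw [e, Units.val_one, one_mulVec] at this
      exact this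
  rw [← ho, Nat.card_coe_set_eq, ← MulAction.index_stabilizer, ← Subgroup.relIndex_mul_index le,
    Subgroup.relIndex, ker, Subgroup.index_ker,
    MonoidHom.range_eq_top.2 (Prod.fst_surjective.comp hs), Subgroup.card_top, mul_comm]

theorem jobIdx (sv : ASv) (iso : AIso) (par : APar) : AIdx := by
  intro F _ _ _ V _ _ _ S hS m k
  have n : ∀ k, Nat.card (TS (S.ext (m + k)) k) = (∏ i ∈ Finset.range k, Fintype.card F ^ i) *
      ∏ j ∈ Finset.Ioc m (m + k), H53.DG.sv (Fintype.card F) S.a j := fun k => by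
    induction k with
    | zero => rw [card_zero]; simp
    | succ k ih =>
      have i := (iso F V S).1 (m + k) 1
      rw [← add_assoc, ← card_iso i, card_succ _ k (v := (fun _ => 1, 0, 0))
        ⟨fun e => one_ne_zero (congrFun (congrArg Prod.fst e) 0), by simp⟩, fib_card, sing_iso i,
        (sv F V S hS _).1, ih, Finset.prod_range_succ, Finset.prod_Ioc_succ_top (by omega),
        Nat.card_eq_fintype_card]
      ring
  have h := index_mul par F _ (S.ext m) k
  rw [card_iso ((iso F V S).1 m k), n, Matrix.card_GL_field,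
    Fin.prod_univ_eq_prod_range (fun i => Fintype.card F ^ k - Fintype.card F ^ i), gl_card, mul_left_comm] at h
  exact Nat.eq_of_mul_eq_mul_left (Finset.prod_pos fun i _ => pow_pos Fintype.card_pos i) h

end H12.DGIdx
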