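/- Tower O84: Lang transport for the groups `Gam`, and transport of two non-conjugate subgroups
into `E₈(2)`. -/
import Cfsg.Agent.H12.O84Lang
import Cfsg.Agent.H46.O84A
import Cfsg.Agent.H36.O84Spec

set_option autoImplicit false

namespace H12.O84

open Cfsg.Lie H63 H64 H65 H46 H14.E8 Matrix H40.E8G

theorem coe_nL {D : ChevalleyDatum} [RS D] [Tab D] {k : Type} [Field k] (L : List ℕ) :
    ((nL D (xG D k) L : ↥(D.group k)) : GL D.Idx k) = nL D (xU D k) L :=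
  map_nL (D.group k).subtype (fun i => by simp only [nn_eq, map_mul]; rfl) L

attribute [local instance] H65.tabE8 H65.commE8

theorem coe_sig (L : List ℕ) (g : ↥Gh) :
    ((H46.O84.sig chevE8 K2 L g : ↥Gh) : GLh) = sig L g := by
  rw [H46.O84.sig_apply, sig_apply, nv, ← coe_nL]
  rfl

theorem mem_Gam_iff {L : List ℕ} {g : ↥Gh} :
    g ∈ H46.O84.Gam chevE8 K2 L ↔ (g : GLh) ∈ Gv L := by
  rw [H46.O84.mem_Gam, mem_Gv, ← coe_sig]
  exact ⟨fun h => ⟨g.2, congrArg Subtype.val h⟩, fun h => Subtype.ext h.2⟩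

/-- The two versions of the fixed point group agree. -/
noncomputable def gamEquiv (L : List ℕ) : ↥(Gv L) ≃* ↥(H46.O84.Gam chevE8 K2 L) where
  toFun g := ⟨⟨g, g.2.1⟩, mem_Gam_iff.2 g.2⟩
  invFun g := ⟨g.1.1, mem_Gam_iff.1 g.2⟩
  left_inv _ := rfl
  right_inv _ := rfl
  map_mul' _ _ := rfl

theorem lang_gam (L : List ℕ) : ∃ x ∈ Gh, ∃ e : G2 ≃* H46.O84.Gam chevE8 K2 L,
    ∀ a, (((e a : H46.O84.Gam chevE8 K2 L) : ↥Gh) : GLh) = x⁻¹ * al a * x := by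
  obtain ⟨x, hx, e, he⟩ := lang L
  exact ⟨x, hx, e.trans (gamEquiv L), he⟩

theorem nonempty_gam (L : List ℕ) :
    Nonempty (↥(H46.O84.Gam chevE8 K2 L) ≃* ↥(chevE8.group (ZMod 2))) := by
  obtain ⟨_, _, e, _⟩ := lang_gam L
  exact ⟨e.symm⟩

/-- A subgroup of a fixed point group is conjugate to a subgroup of `E₈(2)`. -/
theorem exists_sub {L : List ℕ} {H : Subgroup GLh} (hH : H ≤ Gv L) :
    ∃ (x : GLh) (H' : Subgroup G2), Nonempty (H' ≃* H) ∧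
      (∀ a, a ∈ H' ↔ x⁻¹ * al a * x ∈ H) ∧ ∀ h ∈ H, ∃ a ∈ H', h = x⁻¹ * al a * x := by
  obtain ⟨x, -, e, he⟩ := lang L
  let f : G2 →* GLh := (Gv L).subtype.comp e.toMonoidHom
  have hf : ∀ a, f a = x⁻¹ * al a * x := he
  have hi : Function.Injective f := Subtype.val_injective.comp e.injective
  have hr : H ≤ f.range := fun h hh => ⟨e.symm ⟨h, hH hh⟩, by
    change ((e (e.symm ⟨h, hH hh⟩) : Gv L) : GLh) = h
    rw [e.apply_symm_apply]⟩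
  refine ⟨x, H.comap f, ⟨((H.comap f).equivMapOfInjective f hi).trans
    (MulEquiv.subgroupCongr (Subgroup.map_comap_eq_self hr))⟩, fun a => ?_, fun h hh => ?_⟩
  · rw [Subgroup.mem_comap, hf]
  · obtain ⟨a, rfl⟩ := hr hh
    exact ⟨a, hh, hf a⟩

/-- Two subgroups of fixed point groups that are not conjugate in `GL` give two non-conjugate
subgroups of `E₈(2)`. -/
theorem twoOm_of {Om : Type*} [Group Om] {L₁ L₂ : List ℕ} {H₁ H₂ : Subgroup GLh}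
    (h₁ : H₁ ≤ Gv L₁) (h₂ : H₂ ≤ Gv L₂) (e₁ : Nonempty (H₁ ≃* Om)) (e₂ : Nonempty (H₂ ≃* Om))
    (hn : ∀ y : GLh, ¬ ∀ x ∈ H₂, y * x * y⁻¹ ∈ H₁) : H36.O84.TwoOm G2 Om := by
  obtain ⟨x₁, A₁, ⟨f₁⟩, m₁, -⟩ := exists_sub h₁
  obtain ⟨x₂, A₂, ⟨f₂⟩, -, s₂⟩ := exists_sub h₂
  obtain ⟨e₁⟩ := e₁
  obtain ⟨e₂⟩ := e₂
  refine ⟨A₁, A₂, ⟨f₁.trans e₁⟩, ⟨f₂.trans e₂⟩, ?_⟩
  rintro ⟨g, hg⟩
  refine hn (x₁⁻¹ * (al g)⁻¹ * x₂) fun h hh => ?_
  obtain ⟨a, ha, rfl⟩ := s₂ h hh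
  rw [← hg] at ha
  obtain ⟨b, hb, rfl⟩ := ha
  have e : al ((MulAut.conj g).toMonoidHom b) = al g * al b * (al g)⁻¹ := by
    rw [← map_inv, ← map_mul, ← map_mul]; rfl
  convert (m₁ b).1 hb using 1
  rw [e]; group

end H12.O84
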