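/- ORE tower, chapter 1: job Nil. -/
import Cfsg.Agent.H56.OreSpec

set_option autoImplicit false

open H56 H56.Ore Module QuadraticMap

universe u

namespace H12.Ore

variable {F V : Type*} [Field F] [AddCommGroup V] [Module F V] {Q : QuadraticForm F V}
  {N : End F V}

theorem polar_pow (hN : Skew Q N) (i : ℕ) (x y : V) :
    polar Q ((N ^ i) x) y = (-1) ^ i * polar Q x ((N ^ i) y) := by
  induction i generalizing y with
  | zero => simp
  | succ i ih =>
    nth_rw 1 [pow_succ' N]
    rw [End.mul_apply, hN, ih, pow_succ N, End.mul_apply]; ring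

theorem polar_pow_pow (hN : Skew Q N) (i j : ℕ) (x y : V) :
    polar Q ((N ^ i) x) ((N ^ j) y) = (-1) ^ j * polar Q ((N ^ (i + j)) x) y := by
  rw [polar_comm, polar_pow hN, polar_comm, add_comm, pow_add, End.mul_apply]

theorem polar_odd (hN : Skew Q N) (h2 : (2 : F) ≠ 0) {i : ℕ} (hi : Odd i) (x : V) :
    polar Q ((N ^ i) x) x = 0 := by
  have := polar_pow hN i x x
  rw [hi.neg_one_pow, polar_comm Q x] at this
  exact (mul_eq_zero.1 (by linear_combination this : 2 * polar Q ((N ^ i) x) x = 0)).resolve_left h2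

theorem pow_add_apply (i j : ℕ) (x : V) : (N ^ (i + j)) x = (N ^ i) ((N ^ j) x) := by
  rw [pow_add, End.mul_apply]

variable [FiniteDimensional F V] (hQ : Q.polarBilin.Nondegenerate)
include hQ

theorem exists_sign {ι : Type*} (a : ι → V) (ε : ι → F) (ha : Submodule.span F (Set.range a) = ⊤)
    (hε : ∀ i, ε i * ε i = 1) (h : ∀ i j, ε i * ε j * polar Q (a i) (a j) = polar Q (a i) (a j)) :
    ∃ s : O Q, s * s = 1 ∧ ∀ i, s (a i) = ε i • a i := by
  let φ := Finsupp.linearCombination F a
  let φ' := Finsupp.linearCombination F fun i => ε i • a i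
  have ext : ∀ f g : V →ₗ[F] V, (∀ i, f (a i) = g (a i)) → ∀ x, f x = g x := fun f g h x =>
    LinearMap.congr_fun (LinearMap.ext_on_range ha h) x
  obtain ⟨ψ, hψ⟩ := φ.exists_rightInverse_of_surjective (by
    rw [Finsupp.range_linearCombination, ha])
  have hQ' : ∀ x, Q ((φ' ∘ₗ ψ) x) = Q x := fun x => by
    rw [LinearMap.comp_apply, Q_linearCombination_eq (Q := Q) a _
      (fun i => by rw [H56.Q_smul, hε, one_mul])
      (fun i j _ => by rw [polar_smul_left, polar_smul_right, smul_eq_mul, smul_eq_mul,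
        ← mul_assoc, h])]
    exact congrArg Q (LinearMap.congr_fun hψ x)
  have key : ∀ c j, polar Q (φ' c) (a j) = ε j * polar Q (φ c) (a j) := fun c j => by
    induction c using Finsupp.induction_linear with
    | zero => simp
    | add c c' h1 h2 => rw [map_add, map_add, polar_add_left, polar_add_left, h1, h2, mul_add]
    | single i r =>
      simp only [φ, φ', Finsupp.linearCombination_single, polar_smul_left, smul_eq_mul]
      linear_combination (r * ε j) * h i j - r * ε i * polar Q (a i) (a j) * hε j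
  have hs : ∀ i, (φ' ∘ₗ ψ) (a i) = ε i • a i := fun i => by
    rw [← sub_eq_zero]
    refine eq_zero_of_polar hQ fun y => ?_
    have hy : y ∈ Submodule.span F (Set.range a) := ha ▸ Submodule.mem_top
    refine mem_perp'.1 (mem_perp_span.2 ?_) y hy
    rintro _ ⟨j, rfl⟩
    have := key (ψ (a i) - Finsupp.single i 1) j
    rw [map_sub φ, show φ (ψ (a i)) = a i from LinearMap.congr_fun hψ _] at this
    rw [polar_comm]
    simpa [φ, φ'] using this
  let s := O.ofInj _ hQ' (injective_of_map_Q hQ _ hQ')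
  refine ⟨s, O.ext (ext (s * s).lin LinearMap.id fun i => ?_), hs⟩
  change s (s (a i)) = a i
  rw [show s (a i) = _ from hs i, map_smul, show s (a i) = _ from hs i, smul_smul, hε, one_smul]

omit hQ in
theorem rk_bound {s : O Q} (h2 : (2 : F) ≠ 0) (hs : Anti N s) {u u' : V}
    (h : ∀ x, N x = 0 → s x = x → x ∈ Submodule.span F {u})
    (h' : ∀ x, N x = 0 → s x = -x → x ∈ Submodule.span F {u'}) :
    2 * s.rk ≤ finrank F V + 1 ∧ finrank F V ≤ 2 * s.rk + 1 := by
  have ss : ∀ x, s (s x) = x := fun x => by rw [← O.mul_apply, hs.1, O.one_apply]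
  have mov : ∀ x, x ∈ s.mov ↔ s x = -x := fun x => ⟨fun ⟨y, hy⟩ => by
    rw [← hy]; change s (s y - y) = -(s y - y); rw [map_sub, ss, neg_sub],
    fun hx => O.mem_mov.2 ⟨-(2 : F)⁻¹ • x, by
      rw [map_smul, hx, ← smul_sub, ← neg_add', ← two_smul F, ← neg_smul, smul_smul]
      simp [h2]⟩⟩
  have key : ∀ (A B : Submodule F V) (u : V), (∀ x ∈ A, N x ∈ B) →
      (∀ x ∈ A, N x = 0 → x ∈ Submodule.span F {u}) → finrank F A ≤ finrank F B + 1 :=
    fun A B u h1 h2 => by
      rw [← (N.restrict h1).finrank_range_add_finrank_ker,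
        ← Submodule.finrank_map_subtype_eq A (LinearMap.ker _)]
      refine add_le_add (Submodule.finrank_le _) ((Submodule.finrank_mono ?_).trans
        (by simpa using finrank_span_le_card (R := F) ({u} : Set V)))
      rintro _ ⟨x, hx, rfl⟩
      exact h2 x x.2 (congrArg Subtype.val hx)
  have h1 := key s.fix s.mov u (fun x hx => (mov _).2 (by rw [hs.2, O.mem_fix.1 hx]))
    fun x hx e => h x e (O.mem_fix.1 hx)
  have h3 := key s.mov s.fix u' (fun x hx => O.mem_fix.2 (by rw [hs.2, (mov _).1 hx]; simp))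
    fun x hx e => h' x e ((mov _).1 hx)
  have := s.rk_add_finrank_fix
  change s.rk ≤ _ at h3
  change _ ≤ s.rk + 1 at h1
  omega

theorem core (h2 : (2 : F) ≠ 0) (hN : Skew Q N) (hI : Ind Q N) {n : ℕ} (hn : N ^ (n + 1) = 0)
    (v w : V) (e : F) (he : e * e = 1) (hv : v ≠ 0)
    (nd : ∀ a b : F, polar Q ((N ^ n) (a • v + b • w)) v = 0 →
      polar Q ((N ^ n) (a • v + b • w)) w = 0 → a • v + b • w = 0)
    (cr : ∀ i, Even i → polar Q ((N ^ i) v) w = 0)
    (od : Even n → w = 0 ∧ e = (-1) ^ (n / 2)) :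
    ∃ (s : O Q) (L : Submodule F V), Anti N s ∧ (∀ x ∈ L, Q x = 0) ∧ (∀ x ∈ L, s x ∈ L) ∧
      (∀ x ∈ perp Q L, s x - x ∈ L) ∧ 2 * s.rk ≤ finrank F V + 1 ∧ finrank F V ≤ 2 * s.rk + 1 := by
  let a : ℕ × Bool → V := fun p => (N ^ p.1) (cond p.2 v w)
  let W := Submodule.span F (Set.range a)
  have hz : ∀ i x, n < i → (N ^ i) x = 0 := fun i x h => by
    rw [pow_eq_zero_of_le h hn]; rfl
  have NW : ∀ x ∈ W, N x ∈ W := fun x hx => by
    refine (show W ≤ W.comap N from Submodule.span_le.2 ?_) hx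
    rintro _ ⟨p, rfl⟩
    exact Submodule.subset_span ⟨(p.1 + 1, p.2), by simp [a, pow_succ']⟩
  have dec : ∀ x ∈ W, ∃ a b : F, ∃ y ∈ W, x = a • v + b • w + N y := fun x hx => by
    induction hx using Submodule.span_induction with
    | mem x h =>
      obtain ⟨⟨i, c⟩, rfl⟩ := h
      rcases i with _ | i
      · cases c
        exacts [⟨0, 1, 0, zero_mem _, by simp [a]⟩, ⟨1, 0, 0, zero_mem _, by simp [a]⟩]
      · exact ⟨0, 0, a (i, c), Submodule.subset_span ⟨_, rfl⟩, by simp [a, pow_succ']⟩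
    | zero => exact ⟨0, 0, 0, zero_mem _, by simp⟩
    | add x y _ _ h1 h2 =>
      obtain ⟨a, b, x', h, rfl⟩ := h1
      obtain ⟨a', b', y', h', rfl⟩ := h2
      exact ⟨a + a', b + b', x' + y', add_mem h h', by rw [map_add]; module⟩
    | smul c x _ h1 =>
      obtain ⟨a, b, x', h, rfl⟩ := h1
      exact ⟨c * a, c * b, c • x', W.smul_mem _ h, by rw [map_smul]; module⟩
  have top : ∀ a b : F, ∀ y, (N ^ n) (a • v + b • w + N y) = (N ^ n) (a • v + b • w) :=
    fun a b y => by
      rw [map_add _ _ (N y), ← End.mul_apply, ← pow_succ, hz _ _ n.lt_succ_self, add_zero]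
  have div : ∀ i j, i + j ≤ n + 1 → ∀ x ∈ W, (N ^ i) x = 0 → ∃ y ∈ W, x = (N ^ j) y :=
    fun i j h x hx e => by
      induction j with
      | zero => exact ⟨x, hx, rfl⟩
      | succ j ih =>
        obtain ⟨y, hy, rfl⟩ := ih (by omega)
        obtain ⟨a, b, y', hy', rfl⟩ := dec y hy
        have h1 : (N ^ n) (a • v + b • w) = 0 := by
          rw [← top a b y', show n = n - (i + j) + i + j by omega, pow_add_apply, pow_add_apply, e,
            map_zero]
        exact ⟨y', hy', by rw [nd a b (by simp [h1]) (by simp [h1]), zero_add, pow_succ]; rfl⟩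
  have vW : v ∈ W := Submodule.subset_span ⟨(0, true), rfl⟩
  have wW : w ∈ W := Submodule.subset_span ⟨(0, false), rfl⟩
  have hW : W = ⊤ := by
    refine (hI W NW (Submodule.disjoint_def.2 fun x hx hx' => ?_)).resolve_left
      fun h => hv (by simpa [h] using vW)
    have : ∀ k x, x ∈ W → x ∈ perp Q W → (N ^ k) x = 0 → x = 0 := fun k => by
      induction k with
      | zero => exact fun x _ _ h => h
      | succ k ih =>
        intro x h1 h2 h3
        have h4 := ih (N x) (NW x h1) (mem_perp'.2 fun y hy => by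
          rw [hN, mem_perp'.1 h2 _ (NW y hy), neg_zero]) (by rwa [pow_succ] at h3)
        obtain ⟨y, hy, rfl⟩ := div 1 n (by omega) x h1 (by simpa using h4)
        obtain ⟨a, b, y', -, rfl⟩ := dec y hy
        rw [top] at h2 ⊢
        rw [nd a b (mem_perp'.1 h2 v vW) (mem_perp'.1 h2 w wW), map_zero]
    exact this _ x hx hx' (hz _ x n.lt_succ_self)
  have mem : ∀ x, x ∈ W := fun x => hW ▸ Submodule.mem_top
  have sq : ∀ i : ℕ, (-1 : F) ^ i * (-1) ^ i = 1 := fun i => by rw [← mul_pow]; simp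
  obtain ⟨s, s2, hs⟩ := exists_sign hQ a (fun p => (-1) ^ p.1 * cond p.2 e (-e)) hW
    (fun ⟨i, c⟩ => by cases c <;> simp only [cond] <;> linear_combination (e * e) * sq i + he) (by
      rintro ⟨i, c⟩ ⟨j, d⟩
      simp only [a, polar_pow_pow hN]
      have h1 := pow_add (-1 : F) i j
      rcases Nat.even_or_odd (i + j) with h | h
      · rw [h.neg_one_pow] at h1
        have h3 := cr _ h
        have h4 := polar_pow hN (i + j) w v
        rw [polar_comm Q w, h3, mul_zero] at h4
        cases c <;> cases d <;> simp only [cond, h3, h4, mul_zero]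
        all_goals rw [show ∀ x y : F, (-1) ^ i * x * ((-1) ^ j * y) = (-1) ^ i * (-1) ^ j * (x * y)
          from fun x y => by ring, ← h1]; simp [he]
      · rw [h.neg_one_pow] at h1
        cases c <;> cases d <;> simp only [cond, polar_odd hN h2 h, mul_zero]
        all_goals rw [show ∀ x y : F, (-1) ^ i * x * ((-1) ^ j * y) = (-1) ^ i * (-1) ^ j * (x * y)
          from fun x y => by ring, ← h1]; simp [he])
  have anti : Anti N s := ⟨s2, fun x => LinearMap.congr_fun (LinearMap.ext_on_range hW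
    (f := s.lin ∘ₗ N) (g := -(N ∘ₗ s.lin)) fun p => by
      have h1 := hs (p.1 + 1, p.2)
      simp only [a, pow_succ' N, End.mul_apply] at h1
      change s (N (a p)) = -N (s (a p))
      rw [hs, h1, map_smul, pow_succ, ← neg_smul]; congr 1; ring) x⟩
  have sp : ∀ i x, s ((N ^ i) x) = (-1 : F) ^ i • (N ^ i) (s x) := fun i x => by
    induction i with
    | zero => simp
    | succ i ih => rw [pow_succ', End.mul_apply, anti.2, ih, map_smul, pow_succ, ← neg_smul]; simp
  have sv : s v = e • v := by simpa [a] using hs (0, true)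
  have sw : s w = -e • w := by simpa [a] using hs (0, false)
  have eig : ∀ c : F, c * c = 1 → ∃ u, ∀ x, N x = 0 → s x = c • x → x ∈ Submodule.span F {u} :=
    fun c hc => by
      have h0 : ∀ x, N x = 0 → s x = c • x → ∃ a b : F, x = a • (N ^ n) v + b • (N ^ n) w ∧
          c • x = ((-1) ^ n * e) • (a • (N ^ n) v - b • (N ^ n) w) := fun x h1 h3 => by
        obtain ⟨y, hy, rfl⟩ := div 1 n (by omega) x (mem x) (by simpa using h1)
        obtain ⟨a, b, y', -, rfl⟩ := dec y hy
        rw [top] at h3 ⊢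
        refine ⟨a, b, by simp, ?_⟩
        rw [← h3, sp]; simp only [map_add, map_smul, sv, sw]; module
      have c0 : c ≠ 0 := fun h => by simp [h] at hc
      rcases mul_self_eq_mul_self_iff.1 (show (-1) ^ n * e * ((-1) ^ n * e) = c * c by
        linear_combination (e * e) * sq n + he - hc) with h | h
      · refine ⟨(N ^ n) v, fun x h1 h3 => ?_⟩
        obtain ⟨a, b, h4, h5⟩ := h0 x h1 h3
        refine Submodule.mem_span_singleton.2 ⟨a, smul_right_injective V h2 ?_⟩
        have h6 := smul_right_injective V c0 (h ▸ h5)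
        linear_combination (norm := module) -h4 - h6
      · refine ⟨(N ^ n) w, fun x h1 h3 => ?_⟩
        obtain ⟨a, b, h4, h5⟩ := h0 x h1 h3
        refine Submodule.mem_span_singleton.2 ⟨b, smul_right_injective V h2 ?_⟩
        rw [h, neg_smul, ← smul_neg] at h5
        have h6 := smul_right_injective V c0 h5
        linear_combination (norm := module) -h4 - h6
  obtain ⟨u, hu⟩ := eig 1 (by ring)
  obtain ⟨u', hu'⟩ := eig (-1) (by ring)
  refine ⟨s, LinearMap.range (N ^ (n / 2 + 1)), anti, ?_, ?_, fun x hx => ?_,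
    rk_bound h2 anti (fun x a b => hu x a (by simpa)) fun x a b => hu' x a (by simpa)⟩
  · rintro _ ⟨x, rfl⟩
    have := polar_pow_pow hN (n / 2 + 1) (n / 2 + 1) x x
    rw [hz (_ + _ + _) _ (by omega), H56.polar_self'] at this
    simpa [h2] using this
  · rintro _ ⟨x, rfl⟩
    exact ⟨(-1 : F) ^ (n / 2 + 1) • s x, by rw [sp, map_smul]⟩
  · have h1 : (N ^ (n / 2 + 1)) x = 0 := eq_zero_of_polar hQ fun y => by
      rw [polar_pow hN, mem_perp'.1 hx _ ⟨y, rfl⟩, mul_zero]
    rcases Nat.even_or_odd n with h | h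
    · obtain ⟨y, hy, rfl⟩ := div _ (n / 2) (by omega) x (mem x) h1
      obtain ⟨c, b, y', -, rfl⟩ := dec y hy
      obtain ⟨rfl, rfl⟩ := od h
      refine ⟨(-1 : F) ^ (n / 2 + 1) • s y' - y', ?_⟩
      rw [sp, map_add s, anti.2]
      simp only [pow_succ, End.mul_apply, map_add, map_sub, map_smul, sv, smul_zero, add_zero,
        map_neg, smul_add]
      rw [smul_comm _ c, smul_smul ((-1 : F) ^ _), sq]
      module
    · obtain ⟨y, -, rfl⟩ := div _ (n / 2 + 1) (by obtain ⟨k, rfl⟩ := h; omega) x (mem x) h1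
      exact ⟨(-1 : F) ^ (n / 2 + 1) • s y - y, by rw [sp, map_sub, map_smul]⟩

theorem jobNil (hH : JobHyp.{u}) : JobNil.{u} := by
  intro F V _ _ _ _ _ Q hQ h2 N _ hN hI hnil
  obtain ⟨n, hn, v, hv⟩ : ∃ n, N ^ (n + 1) = 0 ∧ ∃ v, (N ^ n) v ≠ 0 := by
    classical
    have h0 : Nat.find hnil ≠ 0 := fun h => by simpa [h] using Nat.find_spec hnil
    refine ⟨Nat.find hnil - 1, by rw [Nat.sub_add_cancel (by omega)]; exact Nat.find_spec hnil, ?_⟩
    by_contra! h
    exact Nat.find_min hnil (Nat.sub_one_lt h0) (LinearMap.ext h)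
  suffices ∃ (s : O Q) (L : Submodule F V), Anti N s ∧ (∀ x ∈ L, Q x = 0) ∧ (∀ x ∈ L, s x ∈ L) ∧
      (∀ x ∈ perp Q L, s x - x ∈ L) ∧ 2 * s.rk ≤ finrank F V + 1 ∧ finrank F V ≤ 2 * s.rk + 1 by
    obtain ⟨s, L, h1, h3, h4, h5, h6, h7⟩ := this
    obtain ⟨h8, h9⟩ := hH hQ h2 s L h1.1 h3 h4 h5
    exact ⟨s, h1, h8, h6, h7, h9⟩
  rcases Nat.even_or_odd n with h | h
  · obtain ⟨x, hx⟩ : ∃ x, polar Q ((N ^ n) x) x ≠ 0 := by
      by_contra! h0
      refine hv (eq_zero_of_polar hQ fun y => ?_)
      have h1 := h0 (v + y)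
      have h3 := polar_pow hN n y v
      rw [h.neg_one_pow, polar_comm Q y] at h3
      rw [map_add, polar_add_left, polar_add_right, polar_add_right, h0, h0, h3] at h1
      exact (mul_eq_zero.1 (by linear_combination h1 : 2 * polar Q ((N ^ n) v) y = 0)).resolve_left h2
    refine core hQ h2 hN hI hn x 0 ((-1) ^ (n / 2)) (by rw [← mul_pow]; simp)
      (fun e => hx (by simp [e])) (fun a b h1 _ => ?_) (by simp) fun _ => ⟨rfl, rfl⟩
    have : a = 0 := by simpa [polar_smul_left, hx] using h1
    simp [this]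
  · have : ∀ j, ∃ w, polar Q ((N ^ n) v) w = 1 ∧
        ∀ i, i < n → n ≤ i + j → polar Q ((N ^ i) v) w = 0 := fun j => by
      induction j with
      | zero => exact (exists_polar_eq_one hQ hv).imp fun w hw => ⟨hw, fun i _ _ => by omega⟩
      | succ j ih =>
        obtain ⟨w, h1, h3⟩ := ih
        have hz : ∀ i, n < i + (j + 1) → polar Q ((N ^ i) v) ((N ^ (j + 1)) w) = 0 := fun i h => by
          rw [polar_pow_pow hN, pow_eq_zero_of_le h hn]; simp
        refine ⟨w - ((-1) ^ (j + 1) * polar Q ((N ^ (n - (j + 1))) v) w) • (N ^ (j + 1)) w, ?_,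
          fun i a b => ?_⟩ <;> rw [polar_sub_right, polar_smul_right]
        · rw [hz _ (by omega), h1]; simp
        · rcases b.eq_or_lt with b | b
          · rw [polar_pow_pow hN, ← b, h1, show n - (j + 1) = i by omega, smul_eq_mul,
              mul_right_comm, mul_one, ← mul_pow]
            simp
          · rw [hz _ b, h3 i a (by omega)]; simp
    obtain ⟨w, h1, h3⟩ := this n
    refine core hQ h2 hN hI hn v w 1 (one_mul _) (fun e => hv (by simp [e]))
      (fun a b h4 h5 => ?_) (fun i hi => ?_) fun e => absurd h (Nat.not_odd_iff_even.2 e)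
    · have h6 := polar_pow hN n w v
      rw [polar_comm Q w, h1, h.neg_one_pow] at h6
      simp only [map_add, map_smul, polar_add_left, polar_smul_left, polar_odd hN h2 h, h1, h6,
        smul_eq_mul] at h4 h5
      rw [show a = 0 by simpa using h5, show b = 0 by simpa using h4]; simp
    · rcases lt_trichotomy i n with a | rfl | a
      · exact h3 i a (by omega)
      · exact absurd h (Nat.not_odd_iff_even.2 hi)
      · rw [pow_eq_zero_of_le a hn]; simp

end H12.Ore
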