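/- Tower RV (row S5207): the pairs in `GL₂(3)`. -/
import Cfsg.Agent.H9.RVKit

set_option autoImplicit false

open Matrix Subgroup H9.RV
open scoped Pointwise

namespace H12.RVN3

def mD : G2 3 := ⟨!![-1, 0; 0, 1], !![-1, 0; 0, 1], by decide, by decide⟩
def mS : G2 3 := ⟨!![0, -1; -1, 0], !![0, -1; -1, 0], by decide, by decide⟩

instance : Fact (Nat.Prime 3) := ⟨Nat.prime_three⟩

theorem key : ∀ a b c d u0 u1 : ZMod 3, a * u0 + b * u1 = 2 * u0 → c * u0 + d * u1 = 2 * u1 →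
    a * d - b * c = 2 → ∀ v0 v1 : ZMod 3, u0 * v1 - u1 * v0 ≠ 0 → ∀ w0 w1 : ZMod 3, u0 * w1 - u1 * w0 ≠ 0 →
    v0 * w1 - v1 * w0 ≠ 0 → ∃ x t0 t1 : ZMod 3, x ≠ 0 ∧ (x * u0) * t1 - (x * u1) * t0 ≠ 0 ∧
      a * t0 + b * t1 = t0 ∧ c * t0 + d * t1 = t1 ∧
      ((x * u0 + t0 = v0 ∧ x * u1 + t1 = v1) ∨ (x * u0 + t0 = w0 ∧ x * u1 + t1 = w1)) := by
  decide +kernel

set_option synthInstance.maxSize 1024 in
theorem key2 : ∀ a b c d : ZMod 3, a * 1 + b * 1 = 2 * 1 → c * 1 + d * 1 = 2 * 1 → a * d - b * c = 2 →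
    (a = 0 ∧ b = -1 ∧ c = -1 ∧ d = 0) ∨ (a = 1 ∧ b = 1 ∧ c = 0 ∧ d = -1) ∨
      (a = -1 ∧ b = 0 ∧ c = 1 ∧ d = 1) := by decide

theorem inv2 : (2 : ZMod 3)⁻¹ = 2 := inv_eq_of_mul_eq_one_right (by decide)

theorem no3 {W : Subgroup (G2 3)} (h : ¬ 3 ∣ Nat.card W) {x : G2 3} (hx : x ∈ W) (e : x ^ 3 = 1) : x = 1 := by
  have h1 : orderOf x ∣ 3 := orderOf_dvd_of_pow_eq_one e
  rcases (Nat.dvd_prime Nat.prime_three).1 h1 with h2 | h2
  · exact orderOf_eq_one_iff.1 h2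
  · have := W.orderOf_dvd_natCard hx
    rw [h2] at this
    exact absurd this h

theorem vext {v w : V2 3} (h0 : v 0 = w 0) (h1 : v 1 = w 1) : v = w :=
  funext fun i => by fin_cases i <;> assumption

theorem mext {A B : G2 3} (h00 : A 0 0 = B 0 0) (h01 : A 0 1 = B 0 1) (h10 : A 1 0 = B 1 0)
    (h11 : A 1 1 = B 1 1) : A = B :=
  Units.ext (Matrix.ext fun i j => by fin_cases i <;> fin_cases j <;> assumption)

theorem refl_at {W : Subgroup (G2 3)} {R : Set (V2 3)} (a : Adm 3 W R) {v : V2 3} (hv : v ∈ R) :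
    ∃ A ∈ W, A 0 0 * v 0 + A 0 1 * v 1 = 2 * v 0 ∧ A 1 0 * v 0 + A 1 1 * v 1 = 2 * v 1 ∧
      A 0 0 * A 1 1 - A 0 1 * A 1 0 = 2 := by
  obtain ⟨A, hA, e1, e2⟩ := a.tor v hv 2 (by decide)
  rw [inv2] at e1
  exact ⟨A, hA, (act_apply0 A v).symm.trans (congrFun e1 0), (act_apply1 A v).symm.trans (congrFun e1 1),
    (dt_eq A).symm.trans e2⟩

/-- the normal form -/
theorem norm {W : Subgroup (G2 3)} {R : Set (V2 3)} (a : Adm 3 W R) (t : Thr R) :
    ∃ W1, Cj W R W1 {v | v ≠ 0} ∧ mD ∈ W1 ∧ mS ∈ W1 := by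
  obtain ⟨u, hu, v, hv, w, hw, e1, e2, e3⟩ := t
  obtain ⟨A, hA, a0, a1, a2⟩ := refl_at a hu
  obtain ⟨x, t0, t1, hx, h1, h2, h3, h4⟩ := key _ _ _ _ _ _ a0 a1 a2 _ _ e1 _ _ e2 e3
  obtain ⟨P, p1, p2, -⟩ := exists_cols (v := x • u) (w := ![t0, t1]) h1
  obtain ⟨W1, R1, k1, k2⟩ := exists_cj P⁻¹ W R
  have cj : Cj W R W1 R1 := ⟨P⁻¹, k1, k2⟩
  have a1' := cj.adm a
  have r1 : ![1, 0] ∈ R1 := by
    have := (k2 _).1 (a.smul u hu x hx)
    rwa [← p1, act_inv_act] at this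
  have r2 : ![1, 1] ∈ R1 := by
    have e : act P ![1, 1] = x • u + ![t0, t1] := by
      rw [← p1, ← p2, ← act_add]; congr 1; exact vext (by simp) (by simp)
    have hs : act P ![1, 1] ∈ R := by
      rw [e]
      rcases h4 with ⟨q0, q1⟩ | ⟨q0, q1⟩
      · rwa [show x • u + ![t0, t1] = v from vext q0 q1]
      · rwa [show x • u + ![t0, t1] = w from vext q0 q1]
    have := (k2 _).1 hs
    rwa [act_inv_act] at this
  have hD : mD ∈ W1 := by
    have e : P⁻¹ * A * P⁻¹⁻¹ = mD := by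
      rw [inv_inv, mul_assoc, inv_mul_eq_iff_eq_mul]
      have f1 : act A (act P ![1, 0]) = (2 : ZMod 3) • act P ![1, 0] := by
        rw [p1, act_smul, smul_comm]; congr 1
        exact vext ((act_apply0 A u).trans a0) ((act_apply1 A u).trans a1)
      have f2 : act A (act P ![0, 1]) = act P ![0, 1] := by
        rw [p2]; exact vext ((act_apply0 A _).trans h2) ((act_apply1 A _).trans h3)
      refine G2.ext_act fun z => ?_
      have hz : z = z 0 • ![1, 0] + z 1 • ![0, 1] := vext (by simp) (by simp)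
      have d1 : act mD ![1, 0] = (2 : ZMod 3) • ![1, 0] := by decide
      have d2 : act mD ![0, 1] = ![0, 1] := by decide
      rw [hz]
      simp only [act_mul, act_add, act_smul, f1, f2, d1, d2]
    exact e ▸ (k1 A).1 hA
  obtain ⟨B, hB, b0, b1, b2⟩ := refl_at a1' r2
  have hS : mS ∈ W1 := by
    rcases key2 _ _ _ _ b0 b1 b2 with ⟨c0, c1, c2, c3⟩ | ⟨c0, c1, c2, c3⟩ | ⟨c0, c1, c2, c3⟩
    · rwa [show B = mS from mext c0 c1 c2 c3] at hB
    · let C : G2 3 := ⟨!![1, 1; 0, -1], !![1, 1; 0, -1], by decide, by decide⟩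
      rw [show B = C from mext c0 c1 c2 c3] at hB
      exact absurd (no3 a1'.cop (W1.mul_mem (W1.mul_mem hD hB) (W1.mul_mem hD hB)) (by decide)) (by decide)
    · let C : G2 3 := ⟨!![-1, 0; 1, 1], !![-1, 0; 1, 1], by decide, by decide⟩
      rw [show B = C from mext c0 c1 c2 c3] at hB
      exact absurd (no3 a1'.cop (W1.mul_mem hD hB) (by decide)) (by decide)
  have hR : R1 = {v | v ≠ 0} := by
    refine Set.ext fun z => ⟨a1'.ne z, fun hz => ?_⟩
    have c : ∀ z : V2 3, z ≠ 0 → ∃ t : ZMod 3, t ≠ 0 ∧ (z = t • ![1, 0] ∨ z = t • ![1, 1] ∨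
      z = t • act mS ![1, 0] ∨ z = t • act mD ![1, 1]) := by decide
    obtain ⟨t, ht, rfl | rfl | rfl | rfl⟩ := c z hz
    exacts [a1'.smul _ r1 t ht, a1'.smul _ r2 t ht, a1'.smul _ (a1'.inv _ hS _ r1) t ht,
      a1'.smul _ (a1'.inv _ hD _ r2) t ht]
  exact ⟨W1, hR ▸ cj, hD, hS⟩

theorem eight_le {W : Subgroup (G2 3)} (hD : mD ∈ W) (hS : mS ∈ W) : 8 ≤ Nat.card W := by
  let f : Fin 2 × Fin 4 → W := fun x => ⟨mD ^ x.1.1 * (mD * mS) ^ x.2.1,
    W.mul_mem (W.pow_mem hD _) (W.pow_mem (W.mul_mem hD hS) _)⟩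
  have i : ∀ x y : Fin 2 × Fin 4, mD ^ x.1.1 * (mD * mS) ^ x.2.1 = mD ^ y.1.1 * (mD * mS) ^ y.2.1 → x = y := by
    decide +kernel
  have := Nat.card_le_card_of_injective f fun x y e => i x y (congrArg Subtype.val e)
  simpa using this

theorem card_G : Nat.card (G2 3) = 48 := by
  rw [Matrix.card_GL_field]; simp [Fin.prod_univ_two]

theorem card_cases {W : Subgroup (G2 3)} (h : ¬ 3 ∣ Nat.card W) (h8 : 8 ≤ Nat.card W) :
    Nat.card W = 8 ∨ Nat.card W = 16 := by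
  have d : Nat.card W ∣ 48 := card_G ▸ W.card_subgroup_dvd_card
  have := Nat.le_of_dvd (by norm_num) d
  generalize Nat.card W = n at *
  interval_cases n <;> simp_all

theorem jobN3 : JobN3 := by
  intro W R a t
  obtain ⟨W1, cj, hD, hS⟩ := norm a t
  have c1 := card_cases (cj.adm a).cop (eight_le hD hS)
  refine ⟨cj.card ▸ c1, fun W' R' a' t' e => ?_⟩
  obtain ⟨W2, cj', hD', hS'⟩ := norm a' t'
  have e' : Nat.card W1 = Nat.card W2 := by rw [← cj.card, ← cj'.card, e]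
  refine cj.trans (Cj.trans ?_ cj'.symm)
  rcases c1 with c1 | c1
  · have m1 : mD ∈ Subgroup.closure ({mD, mS} : Set (G2 3)) := Subgroup.subset_closure (by simp)
    have m2 : mS ∈ Subgroup.closure ({mD, mS} : Set (G2 3)) := Subgroup.subset_closure (by simp)
    have q : ∀ {X : Subgroup (G2 3)}, mD ∈ X → mS ∈ X → Nat.card X = 8 → Subgroup.closure {mD, mS} = X :=
      fun h1 h2 h3 => eq_of_le_of_card_ge ((Subgroup.closure_le _).2 (by
        rintro x (rfl | rfl) <;> assumption)) (h3 ▸ eight_le m1 m2)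
    rw [← q hD hS c1, q hD' hS' (e' ▸ c1)]
    exact Cj.refl _ _
  · have : Fact (Nat.Prime 2) := ⟨Nat.prime_two⟩
    have f : (Nat.card (G2 3)).factorization 2 = 4 := by
      rw [card_G, show 48 = 2 ^ 4 * 3 by norm_num, Nat.factorization_mul (by norm_num) (by norm_num),
        Nat.prime_two.factorization_pow, Nat.prime_three.factorization]
      simp
    obtain ⟨g, hg⟩ := MulAction.exists_smul_eq (G2 3) (Sylow.ofCard (p := 2) W1 (by rw [f, c1]; norm_num))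
      (Sylow.ofCard (p := 2) W2 (by rw [f, ← e', c1]; norm_num))
    have hg' : MulAut.conj g • W1 = W2 := congrArg (fun S : Sylow 2 (G2 3) => (S : Subgroup (G2 3))) hg
    refine ⟨g, fun B => ?_, fun v => not_congr act_eq_zero.symm⟩
    rw [← hg']
    exact (smul_mem_pointwise_smul_iff (a := MulAut.conj g)).symm

end H12.RVN3
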