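import Cfsg.Agent.H58.SOSpec
import Cfsg.Agent.S0295
import Cfsg.Agent.S0301
import Cfsg.Agent.S0270
import Cfsg.Agent.S0298
import Cfsg.Agent.S0286

/-! Tower SIM, chapter OUT, job Oo. -/

set_option autoImplicit false

namespace H12.SOO

open Subgroup Cfsg H98 Matrix H0.Sim H58.SO

theorem jobOo : JobOo := by
  intro m F _ _ ho hm
  have h1 : 1 < Fintype.card F := Fintype.one_lt_card
  obtain ⟨k, hk⟩ := id ho
  rcases Nat.lt_or_ge m 3 with h | h
  · obtain rfl | rfl : m = 1 ∨ m = 2 := by omega
    · by_cases h3 : Fintype.card F = 3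
      · refine .inr ⟨h3, ?_⟩
        rw [Cfsg.Agent.S0286.result h3 (by decide) 1]
        decide
      · obtain ⟨e⟩ := Cfsg.Agent.S0298.result ho
        exact .inl (hc_equiv e.symm (hc_simple (Matrix.ProjectiveSpecialLinearGroup.rank_two_simple
          (by rw [Nat.card_eq_fintype_card]; omega))))
    · obtain ⟨e⟩ := Cfsg.Agent.S0301.result ho
      exact .inl (hc_equiv e.symm (hc_simple (Cfsg.Agent.S0270.result 2 le_rfl fun _ => by omega)))
  · exact .inl (hc_simple (Cfsg.Agent.S0295.result ho m h))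

end H12.SOO
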