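import Cfsg.Agent.H53.SimXASpec
import Cfsg.Agent.H69.SimSQ

/-! Tower SIM, chapter XA, job NS. -/

set_option autoImplicit false

namespace H12.XAN

open Subgroup Cfsg H98 Matrix H0.Sim H53.XA

theorem job : JNS := by
  intro zs n F _ _ u q X par ⟨y, hy, ny, cy⟩ ⟨m, hm, nm⟩
  by_contra h
  push Not at h
  obtain ⟨-, h2, h3⟩ := H69.SimSQ.jobSQ n F u q par
  have mem : ∀ x : GL (Fin n) F, x ∈ Gam n F u q ⊓ (⨅ m ∈ X, Cz u q m) ↔
      x ∈ Gam n F u q ∧ ∀ m ∈ X, (x : Mt n F) * m = m * x := fun x => by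
    simp only [mem_inf, mem_iInf]
    exact and_congr_right fun hx => ⟨fun k m hm => (k m hm).2, fun k m hm => ⟨hx, k m hm⟩⟩
  have key : ∀ s ∈ Sg n F u q, ∀ x ∈ Gam n F u q ⊓ (⨅ m ∈ X, Cz u q m),
      s * x * s⁻¹ ∈ Gam n F u q ⊓ (⨅ m ∈ X, Cz u q m) := fun s hs x hx => by
    rw [mem] at hx ⊢
    refine ⟨mul_mem (mul_mem hs.1 hx.1) (inv_mem hs.1), fun m hm => ?_⟩
    have e := hx.2 _ (h _ (inv_mem hs) m hm)
    rw [inv_inv] at e
    have e' := congrArg (fun z => (s : Mt n F) * z * ((s⁻¹ : GL (Fin n) F) : Mt n F)) e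
    simpa only [Units.val_mul, mul_assoc, Units.mul_inv, mul_one, Units.mul_inv_cancel_left] using e'
  rcases h2 _ inf_le_left (fun s hs => mem_normalizer_iff.2 fun x => ⟨key s hs x, fun e => by
    simpa [mul_assoc] using key _ (inv_mem hs) _ e⟩) with k | k
  · exact ny ((zs n F u q y).1 (k ((mem y).2 ⟨hy, cy⟩))).2
  · exact nm (h3 m fun s hs => ((mem s).1 (k hs)).2 m hm)

end H12.XAN
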